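import Mathlib
import Cfsg.Agent.Lib.Helper18.SLMDefs

/-!
Project SLM (S2332, helper18), piece ARITHW3 (helper89): the arithmetic non-divisibility
`¬ (q² + q - 1) ∣ (q³ - 1)(q + 1)(q - 1)` for `q ≥ 2`
(indeed `(q³ - 1)(q² - 1) = (q² + q - 1)(q³ - q² + q - 3) + (4q - 2)`).
-/

set_option autoImplicit false

namespace Cfsg.Agent.Lib.Helper18.SLM

theorem arithw3_wsum_two (q : ℕ) : wsum q 2 = q + 1 := by
  unfold wsum
  rw [Finset.sum_range_succ, Finset.sum_range_one, pow_zero, pow_one, add_comm]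

-- piece ARITHW3
theorem arith_w3 (q : ℕ) (hq : 2 ≤ q) :
    ¬ ((wsum q 2 - 1) + (q ^ 2 - 1)) ∣ (q ^ 3 - 1) * wsum q 2 * ((wsum q 2 - 1) - 1) := by
  rw [arithw3_wsum_two, Nat.add_sub_cancel]
  intro h
  have hq1 : 1 ≤ q := by omega
  have hq2 : 1 ≤ q ^ 2 := Nat.one_le_pow _ _ (by omega)
  have hq3 : 1 ≤ q ^ 3 := Nat.one_le_pow _ _ (by omega)
  have hz : ((q : ℤ) ^ 2 + q - 1) ∣ ((q : ℤ) ^ 3 - 1) * (q + 1) * (q - 1) := by
    have h' := Int.natCast_dvd_natCast.mpr h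
    have e1 : ((q + (q ^ 2 - 1) : ℕ) : ℤ) = (q : ℤ) ^ 2 + q - 1 := by
      rw [Nat.cast_add, Nat.cast_sub hq2]
      push_cast
      ring
    have e2 : (((q ^ 3 - 1) * (q + 1) * (q - 1) : ℕ) : ℤ)
        = ((q : ℤ) ^ 3 - 1) * (q + 1) * (q - 1) := by
      rw [Nat.cast_mul, Nat.cast_mul, Nat.cast_sub hq3, Nat.cast_sub hq1]
      push_cast
      ring
    rw [e1, e2] at h'
    exact h'
  have hz2 : ((q : ℤ) ^ 2 + q - 1) ∣ 4 * (q : ℤ) - 2 := by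
    have e : ((q : ℤ) ^ 3 - 1) * (q + 1) * (q - 1)
        = ((q : ℤ) ^ 2 + q - 1) * ((q : ℤ) ^ 3 - (q : ℤ) ^ 2 + q - 3) + (4 * (q : ℤ) - 2) := by
      ring
    rw [e] at hz
    exact (dvd_add_right (dvd_mul_right _ _)).mp hz
  have hqz : (2 : ℤ) ≤ q := by exact_mod_cast hq
  have hle : (q : ℤ) ^ 2 + q - 1 ≤ 4 * (q : ℤ) - 2 := Int.le_of_dvd (by linarith) hz2
  have hq2' : (q : ℤ) = 2 := by nlinarith
  rw [hq2'] at hz2
  norm_num at hz2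

end Cfsg.Agent.Lib.Helper18.SLM
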