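import Mathlib
import Cfsg.Agent.Lib.Helper18.LSDefs
import Cfsg.Agent.Lib.Helper18.WRDefs
import Cfsg.Agent.Lib.Helper18.Symp

/-!
Project WR (S2347, helper18), piece TRANSV (helper89): the symplectic group is transitive on
the nonzero vectors.
-/

set_option autoImplicit false

namespace Cfsg.Agent.Lib.Helper18.WR

open Matrix

universe u

variable {F : Type u} [Field F] {n : ℕ}

private theorem transv_partner (x : Fin n ⊕ Fin n → F) (hx : x ≠ 0) :
    ∃ w : Fin n ⊕ Fin n → F, Cfsg.sympForm n F x w = 1 := by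
  have h1 : ¬ ∀ y, Cfsg.Agent.Lib.Helper18.sympB n x y = 0 := fun h =>
    hx ((Cfsg.Agent.Lib.Helper18.sympB_nondegenerate n).1 x h)
  obtain ⟨y, hy⟩ := not_forall.mp h1
  refine ⟨(Cfsg.Agent.Lib.Helper18.sympB n x y)⁻¹ • y, ?_⟩
  rw [← Cfsg.Agent.Lib.Helper18.sympB_eq_sympForm, map_smul, smul_eq_mul, inv_mul_cancel₀ hy]

-- piece TRANSV
theorem sp_trans (u v : Fin n ⊕ Fin n → F) (hu : u ≠ 0) (hv : v ≠ 0) :
    ∃ g : symplecticGroup (Fin n) F, act g u = v := by
  obtain ⟨w, hw⟩ := transv_partner u hu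
  obtain ⟨w', hw'⟩ := transv_partner v hv
  obtain ⟨A, -, hA, -⟩ := Cfsg.Agent.Lib.Helper18.exists_closure_pair n u w v w' hw hw'
  exact ⟨A, by rw [act_apply]; exact hA⟩

end Cfsg.Agent.Lib.Helper18.WR
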