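import Mathlib
import Cfsg.Prelude.Def_Solvable

/-!
# Job piece P1 for S4125 (q-Baer groups): two membership criteria for `O_q(G)`
-/

set_option autoImplicit false

namespace Cfsg.Agent.Lib.Helper89

variable {G : Type*} [Group G] [Finite G]

/-- If `C` has `q`-power index and `Q` has index prime to `q`, then `G = Q C`. -/
theorem baer_exists_mul_of_index (q : ℕ) [Fact q.Prime] (C Q : Subgroup G) (a : ℕ)
    (hC : C.index = q ^ a) (hQ : Q.index.Coprime q) (g : G) : ∃ u ∈ Q, u⁻¹ * g ∈ C := by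
  have h1 : (C ⊓ Q).index = C.relIndex Q * Q.index := by
    rw [← Subgroup.inf_relIndex_right, Subgroup.relIndex_mul_index inf_le_right]
  have h2 : C.index ∣ (C ⊓ Q).index := Subgroup.index_dvd_of_le inf_le_left
  have h3 : q ^ a ∣ C.relIndex Q := by
    rw [hC, h1] at h2
    exact (Nat.Coprime.pow_left a hQ.symm).dvd_of_dvd_mul_right h2
  have h0 : C.relIndex Q ≠ 0 := Subgroup.index_ne_zero_of_finite
  have h4 : q ^ a ≤ C.relIndex Q := Nat.le_of_dvd (Nat.pos_of_ne_zero h0) h3
  let f : ↥Q ⧸ C.subgroupOf Q → G ⧸ C := Quotient.map' (fun u => (u : G)) (by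
    intro u v huv
    rw [QuotientGroup.leftRel_apply] at huv ⊢
    exact huv)
  have hf : Function.Injective f := by
    intro x y
    induction x using Quotient.inductionOn' with
    | h u =>
      induction y using Quotient.inductionOn' with
      | h v =>
        intro hxy
        have hxy' : (QuotientGroup.mk (u : G) : G ⧸ C) = QuotientGroup.mk (v : G) := hxy
        rw [QuotientGroup.eq] at hxy'
        exact QuotientGroup.eq.mpr hxy'
  have hcard : Nat.card (G ⧸ C) ≤ Nat.card (↥Q ⧸ C.subgroupOf Q) := by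
    show C.index ≤ C.relIndex Q
    rw [hC]
    exact h4
  have hbij := hf.bijective_of_nat_card_le hcard
  obtain ⟨x, hx⟩ := hbij.2 (QuotientGroup.mk g)
  induction x using Quotient.inductionOn' with
  | h u =>
    refine ⟨u, u.2, ?_⟩
    have hx' : (QuotientGroup.mk (u : G) : G ⧸ C) = QuotientGroup.mk g := hx
    exact QuotientGroup.eq.mp hx'

theorem qelt_mem_pCore_of_qindex (q : ℕ) [Fact q.Prime] (x : G) (hx : ∃ k : ℕ, orderOf x = q ^ k)
    (hi : ∃ a : ℕ, (Subgroup.centralizer ({x} : Set G)).index = q ^ a) : x ∈ Cfsg.pCore q G := by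
  obtain ⟨k, hk⟩ := hx
  obtain ⟨a, ha⟩ := hi
  have hq : q.Prime := Fact.out
  have hz : IsPGroup q (Subgroup.zpowers x) := by
    apply IsPGroup.of_card (n := k)
    rw [Nat.card_zpowers, hk]
  obtain ⟨Q, hQ⟩ := hz.exists_le_sylow
  have hxQ : x ∈ (Q : Subgroup G) := hQ (Subgroup.mem_zpowers x)
  have hQi : (Q : Subgroup G).index.Coprime q :=
    ((Nat.Prime.coprime_iff_not_dvd hq).mpr Q.not_dvd_index).symm
  have hle : Subgroup.normalClosure ({x} : Set G) ≤ (Q : Subgroup G) := by
    unfold Subgroup.normalClosure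
    rw [Subgroup.closure_le]
    intro y hy
    rw [Group.mem_conjugatesOfSet_iff] at hy
    obtain ⟨b, hb, hby⟩ := hy
    rw [Set.mem_singleton_iff] at hb
    subst hb
    rw [isConj_iff] at hby
    obtain ⟨g, rfl⟩ := hby
    obtain ⟨u, hu, hc⟩ := baer_exists_mul_of_index q _ (Q : Subgroup G) a ha hQi g
    have hcomm : b * (u⁻¹ * g) = (u⁻¹ * g) * b :=
      (Subgroup.mem_centralizer_iff.mp hc) b (Set.mem_singleton b)
    have : g * b * g⁻¹ = u * b * u⁻¹ := by
      have h1 : g = u * (u⁻¹ * g) := by group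
      have h2 : g * b * g⁻¹ = u * ((u⁻¹ * g) * b) * (u⁻¹ * g)⁻¹ * u⁻¹ := by group
      rw [h2, ← hcomm]
      group
    show g * b * g⁻¹ ∈ (Q : Subgroup G)
    rw [this]
    exact mul_mem (mul_mem hu hxQ) (inv_mem hu)
  have hN : Subgroup.normalClosure ({x} : Set G) ≤ Cfsg.pCore q G :=
    le_sSup ⟨Subgroup.normalClosure_normal, Q.isPGroup'.to_le hle⟩
  exact hN (Subgroup.subset_normalClosure (Set.mem_singleton x))

theorem mem_pCore_of_comm_mem (q : ℕ) [Fact q.Prime] (S : Subgroup G) [S.Normal]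
    (hS : IsPGroup q S) (x : G)
    (hx : ∃ k : ℕ, orderOf x = q ^ k) (h : ∀ g : G, x⁻¹ * (g * x * g⁻¹) ∈ S) :
    x ∈ Cfsg.pCore q G := by
  obtain ⟨k, hk⟩ := hx
  have hz : IsPGroup q (Subgroup.zpowers x) := by
    apply IsPGroup.of_card (n := k)
    rw [Nat.card_zpowers, hk]
  have hM : IsPGroup q (S ⊔ Subgroup.zpowers x : Subgroup G) := hS.to_sup_of_normal_left hz
  have hle : Subgroup.normalClosure ({x} : Set G) ≤ S ⊔ Subgroup.zpowers x := by
    unfold Subgroup.normalClosure
    rw [Subgroup.closure_le]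
    intro y hy
    rw [Group.mem_conjugatesOfSet_iff] at hy
    obtain ⟨b, hb, hby⟩ := hy
    rw [Set.mem_singleton_iff] at hb
    subst hb
    rw [isConj_iff] at hby
    obtain ⟨g, rfl⟩ := hby
    have : g * b * g⁻¹ = b * (b⁻¹ * (g * b * g⁻¹)) := by group
    show g * b * g⁻¹ ∈ S ⊔ Subgroup.zpowers b
    rw [this]
    exact mul_mem (Subgroup.mem_sup_right (Subgroup.mem_zpowers b)) (Subgroup.mem_sup_left (h g))
  have hN : Subgroup.normalClosure ({x} : Set G) ≤ Cfsg.pCore q G :=
    le_sSup ⟨Subgroup.normalClosure_normal, hM.to_le hle⟩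
  exact hN (Subgroup.subset_normalClosure (Set.mem_singleton x))

end Cfsg.Agent.Lib.Helper89
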