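import Mathlib
import Cfsg.Agent.Lib.Helper21.Loc2

/-!
# Job piece Z for S4540/S4575: cyclotomic trace integrality for `2^n`-th roots of unity
-/

set_option autoImplicit false

open Cfsg Cfsg.Agent.Lib.Helper21
open scoped ComplexConjugate

namespace Cfsg.Agent.Lib.Helper89.SamZ

open Polynomial

/-- Binomial expansion: `π ^ (m'+1) = -2 (1 + π w)` when `(π + 1) ^ (m'+1) = -1` and the middle
binomial coefficients are even. -/
theorem two_unit_aux (π : AlgInt) (m' : ℕ) (hch : ∀ i < m', 2 ∣ (m' + 1).choose (i + 1))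
    (h : (π + 1) ^ (m' + 1) = -1) : ∃ w : AlgInt, π ^ (m' + 1) = -2 * (1 + π * w) := by
  have h1 := h
  rw [add_pow, Finset.sum_range_succ, Finset.sum_range_succ'] at h1
  simp only [one_pow, mul_one, Nat.choose_zero_right, Nat.choose_self, Nat.cast_one, pow_zero]
    at h1
  refine ⟨∑ i ∈ Finset.range m', π ^ i * ((((m' + 1).choose (i + 1) / 2 : ℕ)) : AlgInt), ?_⟩
  have h2 : ∑ i ∈ Finset.range m', π ^ (i + 1) * (((m' + 1).choose (i + 1) : ℕ) : AlgInt) =
      2 * (π * ∑ i ∈ Finset.range m', π ^ i * ((((m' + 1).choose (i + 1) / 2 : ℕ)) : AlgInt)) := by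
    rw [Finset.mul_sum, Finset.mul_sum]
    apply Finset.sum_congr rfl
    intro i hi
    obtain ⟨e, he⟩ := hch i (Finset.mem_range.mp hi)
    rw [he, Nat.mul_div_cancel_left e (by norm_num)]
    push_cast
    ring
  rw [h2] at h1
  linear_combination h1

theorem two_unit {M : Ideal AlgInt} (hM : IsPModular 2 M) (t : ℕ) (z : AlgInt)
    (hz : z ^ (2 ^ t) = -1) : z - 1 ∈ M ∧ ∃ u : AlgInt, u ∉ M ∧ (z - 1) ^ (2 ^ t) = -2 * u := by
  have hπ : z - 1 ∈ M := by
    apply pmod_ppow_root hM z (t + 1)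
    rw [pow_succ, pow_mul, hz]
    norm_num
  refine ⟨hπ, ?_⟩
  obtain ⟨m', hm'⟩ : ∃ m', 2 ^ t = m' + 1 :=
    ⟨2 ^ t - 1, by have := Nat.one_le_two_pow (n := t); omega⟩
  have hch : ∀ i < m', 2 ∣ (m' + 1).choose (i + 1) := by
    intro i hi
    rw [← hm']
    exact Nat.Prime.dvd_choose_pow Nat.prime_two (by omega) (by omega)
  have h : ((z - 1) + 1) ^ (m' + 1) = -1 := by rw [sub_add_cancel, ← hm']; exact hz
  obtain ⟨w, hw⟩ := two_unit_aux (z - 1) m' hch h
  refine ⟨1 + (z - 1) * w, ?_, ?_⟩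
  · intro hu
    apply pmod_one_not_mem hM
    have : (1 : AlgInt) = (1 + (z - 1) * w) - (z - 1) * w := by ring
    rw [this]
    exact M.sub_mem hu (M.mul_mem_right _ hπ)
  · rw [hm']; exact hw

theorem aeval_sub_mem {M : Ideal AlgInt} {z : AlgInt} (hπ : z - 1 ∈ M) (g : ℤ[X]) :
    aeval z g - ((g.eval 1 : ℤ) : AlgInt) ∈ M := by
  have h := Polynomial.sub_dvd_eval_sub z 1 (g.map (algebraMap ℤ AlgInt))
  rw [Polynomial.eval_map_algebraMap, Polynomial.eval_one_map] at h
  have h2 : (algebraMap ℤ AlgInt) (eval 1 g) = ((g.eval 1 : ℤ) : AlgInt) := by simp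
  rw [h2] at h
  exact M.mem_of_dvd h hπ

theorem two_ne_zero_algInt : (2 : AlgInt) ≠ 0 := two_ne_zero

theorem zmod2_dvd (a : ℤ) : ((a : ZMod 2) = 0) ↔ (2 : ℤ) ∣ a := by
  have := ZMod.intCast_zmod_eq_zero_iff_dvd a 2
  simpa using this

theorem core_two {M : Ideal AlgInt} (hM : IsPModular 2 M) (z : AlgInt) (m : ℕ) (u : AlgInt)
    (hu : u ∉ M) (hzm : (z - 1) ^ m = -2 * u) (hπ : z - 1 ∈ M)
    (f : ℤ[X]) (hf : f.natDegree < m) (A B : AlgInt) (hB : B ∉ M)
    (h : aeval z f * B = 2 * A) : ∃ q : ℤ[X], f = C 2 * q := by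
  classical
  by_contra hne
  have hf0 : f.map (Int.castRingHom (ZMod 2)) ≠ 0 := by
    intro h0
    apply hne
    have : (C (2 : ℤ)) ∣ f := by
      rw [Polynomial.C_dvd_iff_dvd_coeff]
      intro i
      have hi : (f.map (Int.castRingHom (ZMod 2))).coeff i = 0 := by rw [h0]; simp
      rw [Polynomial.coeff_map] at hi
      exact (zmod2_dvd _).mp hi
    exact this
  set r := (f.map (Int.castRingHom (ZMod 2))).rootMultiplicity 1 with hr
  set gbar := (f.map (Int.castRingHom (ZMod 2))) /ₘ (X - C 1) ^ r with hgbar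
  have h1 : (X - C (1 : ZMod 2)) ^ r * gbar = f.map (Int.castRingHom (ZMod 2)) :=
    Polynomial.pow_mul_divByMonic_rootMultiplicity_eq (f.map (Int.castRingHom (ZMod 2))) 1
  have h2 : gbar.eval 1 ≠ 0 := Polynomial.eval_divByMonic_pow_rootMultiplicity_ne_zero 1 hf0
  have hrm : r < m := by
    have hle : r ≤ (f.map (Int.castRingHom (ZMod 2))).natDegree := by
      by_contra hlt
      rw [not_le] at hlt
      have hd : (X - C (1 : ZMod 2)) ^ r ∣ f.map (Int.castRingHom (ZMod 2)) := ⟨gbar, h1.symm⟩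
      apply hf0
      apply Polynomial.eq_zero_of_dvd_of_natDegree_lt hd
      rw [(Polynomial.monic_X_sub_C (1 : ZMod 2)).natDegree_pow, Polynomial.natDegree_X_sub_C,
        mul_one]
      exact hlt
    exact lt_of_le_of_lt (hle.trans Polynomial.natDegree_map_le) hf
  obtain ⟨g, hg⟩ := Polynomial.map_surjective (Int.castRingHom (ZMod 2))
    (ZMod.intCast_surjective) gbar
  obtain ⟨q, hq⟩ : ∃ q, f - (X - C 1) ^ r * g = C 2 * q := by
    have : C (2 : ℤ) ∣ f - (X - C 1) ^ r * g := by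
      rw [Polynomial.C_dvd_iff_dvd_coeff]
      intro i
      have hi : ((f - (X - C 1) ^ r * g).map (Int.castRingHom (ZMod 2))).coeff i = 0 := by
        rw [Polynomial.map_sub, Polynomial.map_mul, Polynomial.map_pow, Polynomial.map_sub,
          Polynomial.map_X, Polynomial.map_C, hg, map_one, h1, sub_self]
        simp
      rw [Polynomial.coeff_map] at hi
      exact (zmod2_dvd _).mp hi
    exact this
  have hg1 : ¬ (2 : ℤ) ∣ g.eval 1 := by
    intro hd
    apply h2
    rw [← hg, Polynomial.eval_one_map]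
    exact (zmod2_dvd _).mpr hd
  have hUM : aeval z g ∉ M := by
    intro hUm
    have h3 := aeval_sub_mem hπ g
    have h4 : ((g.eval 1 : ℤ) : AlgInt) ∈ M := by
      have := M.sub_mem hUm h3
      simpa using this
    have h5 := (pmod_intCast_mem_iff hM _).mp h4
    exact hg1 (by simpa using h5)
  have hfz : aeval z f = (z - 1) ^ r * aeval z g + 2 * aeval z q := by
    have : f = (X - C 1) ^ r * g + C 2 * q := by rw [← hq]; ring
    conv_lhs => rw [this]
    rw [map_add, map_mul, map_mul, map_pow, map_sub, aeval_X, aeval_C, aeval_C]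
    simp
  have key : u * aeval z g * B = -((z - 1) ^ (m - r) * (A - aeval z q * B)) := by
    have h5 : (z - 1) ^ r * aeval z g * B = 2 * (A - aeval z q * B) := by
      rw [hfz] at h; linear_combination h
    have h6 : (z - 1) ^ m = (z - 1) ^ (m - r) * (z - 1) ^ r := by
      rw [← pow_add]; congr 1; omega
    have h7 : (2 : AlgInt) * (u * aeval z g * B) =
        2 * -((z - 1) ^ (m - r) * (A - aeval z q * B)) := by
      have : (z - 1) ^ m * aeval z g * B = (z - 1) ^ (m - r) * (2 * (A - aeval z q * B)) := by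
        rw [h6, ← h5]; ring
      rw [hzm] at this
      linear_combination (-1 : AlgInt) * this
    exact mul_left_cancel₀ two_ne_zero_algInt h7
  have hmem : u * aeval z g * B ∈ M := by
    rw [key]
    apply M.neg_mem
    apply M.mul_mem_right
    exact Ideal.pow_mem_of_mem M hπ (m - r) (by omega)
  exact pmod_mul_not_mem hM (pmod_mul_not_mem hM hu hUM) hB hmem

theorem core_pow {M : Ideal AlgInt} (hM : IsPModular 2 M) (z : AlgInt) (m : ℕ) (u : AlgInt)
    (hu : u ∉ M) (hzm : (z - 1) ^ m = -2 * u) (hπ : z - 1 ∈ M) (h : ℕ) :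
    ∀ (f : ℤ[X]), f.natDegree < m → ∀ (A B : AlgInt), B ∉ M →
      aeval z f * B = 2 ^ h * A → ∃ q : ℤ[X], f = C (2 ^ h) * q := by
  induction h with
  | zero => intro f _ A B _ _; exact ⟨f, by simp⟩
  | succ h ih =>
    intro f hf A B hB hfA
    obtain ⟨q₁, hq₁⟩ := core_two hM z m u hu hzm hπ f hf (2 ^ h * A) B hB
      (by rw [hfA]; ring)
    have hdeg : q₁.natDegree < m := by
      rw [hq₁, Polynomial.natDegree_C_mul (by norm_num)] at hf; exact hf
    have h2 : aeval z q₁ * B = 2 ^ h * A := by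
      have : (2 : AlgInt) * (aeval z q₁ * B) = 2 * (2 ^ h * A) := by
        rw [hq₁] at hfA
        simp only [map_mul, aeval_C] at hfA
        have h3 : (algebraMap ℤ AlgInt) 2 = 2 := by simp
        rw [h3] at hfA
        linear_combination hfA
      exact mul_left_cancel₀ two_ne_zero_algInt this
    obtain ⟨q₂, hq₂⟩ := ih q₁ hdeg A B hB h2
    refine ⟨q₂, ?_⟩
    rw [hq₁, hq₂, pow_succ, C_mul, ← mul_assoc]
    congr 1
    rw [mul_comm]

theorem sign_pow_unique {ζ : ℂ} {m : ℕ} (hζ : IsPrimitiveRoot ζ (m + m)) (hζm : ζ ^ m = -1)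
    {s s' : ℤ} (hs : s = 1 ∨ s = -1) (hs' : s' = 1 ∨ s' = -1) {i i' : ℕ} (hi : i < m)
    (hi' : i' < m) (h : (s : ℂ) * ζ ^ i = (s' : ℂ) * ζ ^ i') : s = s' ∧ i = i' := by
  rcases hs with rfl | rfl <;> rcases hs' with rfl | rfl
  · have h1 : ζ ^ i = ζ ^ i' := by simpa using h
    exact ⟨rfl, hζ.pow_inj (by omega) (by omega) h1⟩
  · exfalso
    have h1 : ζ ^ i = ζ ^ (m + i') := by rw [pow_add, hζm]; simpa using h
    have := hζ.pow_inj (by omega) (by omega) h1
    omega
  · exfalso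
    have h1 : ζ ^ (m + i) = ζ ^ i' := by rw [pow_add, hζm]; simpa using h
    have := hζ.pow_inj (by omega) (by omega) h1
    omega
  · have h1 : ζ ^ i = ζ ^ i' := by simpa using h
    exact ⟨rfl, hζ.pow_inj (by omega) (by omega) h1⟩

theorem avg_dvd_succ {M : Ideal AlgInt} (hM : IsPModular 2 M) (N : ℕ) (ζ : ℂ)
    (hζ : IsPrimitiveRoot ζ (2 ^ (N + 1))) {J : Type*} [Fintype J] (c : J → ℤ) (k : J → ℕ)
    (σ : J → J) (hσ : ∀ j, σ (σ j) = j) (hc : ∀ j, c (σ j) = c j)
    (hk : ∀ j, ζ ^ k (σ j) = conj (ζ ^ k j))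
    (τ : J → ℤ) (hτ1 : ∀ j, ζ ^ k j = 1 → τ j = 1) (hτ2 : ∀ j, ζ ^ k j = -1 → τ j = -1)
    (hτ0 : ∀ j, ζ ^ k j ≠ 1 → ζ ^ k j ≠ -1 → τ j = 0)
    (h : ℕ) (hloc : MemLocalRing M ((∑ j, (c j : ℂ) * ζ ^ k j) / (2 : ℂ) ^ h)) :
    (2 : ℤ) ^ h ∣ ∑ j, c j * τ j ∧
    (MemLocalIdeal M ((∑ j, (c j : ℂ) * ζ ^ k j) / (2 : ℂ) ^ h) ↔
      (2 : ℤ) ^ (h + 1) ∣ ∑ j, c j * τ j) := by
  classical
  set m := 2 ^ N with hm
  have hm0 : 0 < m := by positivity
  have h2m : 2 ^ (N + 1) = m + m := by rw [pow_succ, hm]; ring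
  have hζ' : IsPrimitiveRoot ζ (m + m) := h2m ▸ hζ
  have hζ1 : ζ ^ (m + m) = 1 := hζ'.pow_eq_one
  have hζm : ζ ^ m = -1 := by
    have h1 : IsPrimitiveRoot (ζ ^ m) 2 := by
      have := hζ'.pow_of_dvd (p := m) hm0.ne' ⟨2, by ring⟩
      have h3 : (m + m) / m = 2 := by
        rw [← two_mul]; exact Nat.mul_div_cancel 2 hm0
      rwa [h3] at this
    exact h1.eq_neg_one_of_two_right
  have hint : IsIntegral ℤ ζ := isIntegral_of_pow_eq_one (by omega : m + m ≠ 0) hζ1
  set z : AlgInt := ⟨ζ, hint⟩ with hz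
  have hzc : (z : ℂ) = ζ := rfl
  have hzm : z ^ (2 ^ N) = -1 := Subtype.ext (by push_cast; rw [hzc]; exact hζm)
  obtain ⟨hπ, u, hu, hzu⟩ := two_unit hM N z hzm
  -- decomposition of the exponents
  set e : J → ℕ := fun j => k j % (m + m) with he
  have he_lt : ∀ j, e j < m + m := fun j => Nat.mod_lt _ (by omega)
  have hke : ∀ j, ζ ^ k j = ζ ^ e j := by
    intro j
    conv_lhs => rw [← Nat.div_add_mod (k j) (m + m)]
    rw [pow_add, pow_mul, hζ1, one_pow, one_mul]
  set i : J → ℕ := fun j => if e j < m then e j else e j - m with hi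
  set s : J → ℤ := fun j => if e j < m then 1 else -1 with hs
  have hi_lt : ∀ j, i j < m := by
    intro j
    have := he_lt j
    simp only [hi]
    split_ifs <;> omega
  have hs_cases : ∀ j, s j = 1 ∨ s j = -1 := by
    intro j
    simp only [hs]
    split_ifs <;> simp
  have hpow : ∀ j, ζ ^ k j = (s j : ℂ) * ζ ^ i j := by
    intro j
    rw [hke]
    simp only [hi, hs]
    split_ifs with hlt
    · simp
    · have : e j = m + (e j - m) := by omega
      conv_lhs => rw [this]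
      rw [pow_add, hζm]
      simp
  have hτ : ∀ j, τ j = if i j = 0 then s j else 0 := by
    intro j
    by_cases h0 : i j = 0
    · rw [if_pos h0]
      have := hpow j
      rw [h0, pow_zero, mul_one] at this
      rcases hs_cases j with h1 | h1
      · rw [h1] at this ⊢
        exact hτ1 j (by simpa using this)
      · rw [h1] at this ⊢
        exact hτ2 j (by simpa using this)
    · rw [if_neg h0]
      have hne : ∀ w : ℤ, (w = 1 ∨ w = -1) → ζ ^ k j ≠ (w : ℂ) := by
        intro w hw hEq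
        have := sign_pow_unique hζ' hζm (hs_cases j) hw (hi_lt j) hm0
          (by rw [← hpow j, hEq]; simp)
        exact h0 this.2
      exact hτ0 j (by simpa using hne 1 (Or.inl rfl)) (by simpa using hne (-1) (Or.inr rfl))
  have hconj : ∀ j, i j ≠ 0 → i (σ j) = m - i j ∧ s (σ j) = - s j := by
    intro j h0
    have h1 := hk j
    rw [hpow (σ j), hpow j] at h1
    have h2 : conj (ζ ^ i j) = -ζ ^ (m - i j) := by
      have hnorm : conj (ζ ^ i j) * ζ ^ i j = 1 := by
        have hn1 : ‖ζ ^ i j‖ = 1 :=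
          Complex.norm_eq_one_of_pow_eq_one (n := m + m)
            (by rw [← pow_mul, mul_comm, pow_mul, hζ1, one_pow]) (by omega)
        rw [Complex.conj_mul', hn1]
        simp
      have h3 : (-ζ ^ (m - i j)) * ζ ^ i j = 1 := by
        rw [neg_mul, ← pow_add, Nat.sub_add_cancel (hi_lt j).le, hζm, neg_neg]
      have hne : ζ ^ i j ≠ 0 := pow_ne_zero _ (hζ'.ne_zero (by omega))
      exact mul_right_cancel₀ hne (hnorm.trans h3.symm)
    have h4 : ((s (σ j) : ℤ) : ℂ) * ζ ^ i (σ j) = ((- s j : ℤ) : ℂ) * ζ ^ (m - i j) := by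
      rw [h1, map_mul, h2]
      simp
    have hneg : - s j = 1 ∨ - s j = -1 := by
      rcases hs_cases j with h5 | h5 <;> rw [h5] <;> simp
    have := sign_pow_unique hζ' hζm (hs_cases (σ j)) hneg (hi_lt (σ j)) (by omega) h4
    exact ⟨this.2, this.1⟩
  have hsum : ∑ j, c j * s j = ∑ j, c j * τ j := by
    have h0 : ∑ j ∈ Finset.univ.filter (fun j => i j ≠ 0), c j * s j = 0 := by
      apply Finset.sum_involution (fun j _ => σ j)
      · intro j hj
        have hj' := (Finset.mem_filter.mp hj).2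
        rw [hc, (hconj j hj').2]
        ring
      · intro j hj _ hfix
        have hj' := (Finset.mem_filter.mp hj).2
        have h5 := (hconj j hj').2
        rw [hfix] at h5
        rcases hs_cases j with h1 | h1 <;> rw [h1] at h5 <;> norm_num at h5
      · intro j hj
        have hj' := (Finset.mem_filter.mp hj).2
        refine Finset.mem_filter.mpr ⟨Finset.mem_univ _, ?_⟩
        rw [(hconj j hj').1]
        have := hi_lt j
        omega
      · intro j _
        exact hσ j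
    have h1 : ∑ j, c j * s j =
        ∑ j, c j * τ j + ∑ j ∈ Finset.univ.filter (fun j => i j ≠ 0), c j * s j := by
      rw [Finset.sum_filter, ← Finset.sum_add_distrib]
      apply Finset.sum_congr rfl
      intro j _
      rw [hτ j]
      by_cases h0 : i j = 0 <;> simp [h0]
    rw [h1, h0, add_zero]
  -- the polynomial
  set f : ℤ[X] := ∑ j, C (c j * s j) * X ^ i j with hf
  have hfdeg : f.natDegree < m := by
    have : f.natDegree ≤ m - 1 := by
      apply Polynomial.natDegree_sum_le_of_forall_le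
      intro j _
      exact (Polynomial.natDegree_C_mul_X_pow_le _ _).trans (by have := hi_lt j; omega)
    omega
  have hfcoeff : f.coeff 0 = ∑ j, c j * τ j := by
    rw [hf, Polynomial.finsetSum_coeff]
    apply Finset.sum_congr rfl
    intro j _
    rw [Polynomial.coeff_C_mul_X_pow, hτ j]
    by_cases h0 : i j = 0
    · simp [h0]
    · rw [if_neg (fun h => h0 h.symm), if_neg h0]
      simp
  have hfeval : f.eval 1 = ∑ j, c j * s j := by
    rw [hf, Polynomial.eval_finsetSum]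
    apply Finset.sum_congr rfl
    intro j _
    simp
  have hfz : aeval ζ f = ∑ j, (c j : ℂ) * ζ ^ k j := by
    rw [hf, map_sum]
    apply Finset.sum_congr rfl
    intro j _
    rw [hpow j]
    simp
    ring
  obtain ⟨A, B, hB, hAB⟩ := hloc
  have hB0 := pmod_ne_zero hB
  have hAB' : aeval z f * B = 2 ^ h * A := by
    apply Subtype.ext
    push_cast
    have h2c : ((2 : AlgInt) : ℂ) = 2 := rfl
    rw [hzc, hfz, h2c]
    rw [div_eq_div_iff hB0 (pow_ne_zero h two_ne_zero)] at hAB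
    linear_combination (-1 : ℂ) * hAB
  obtain ⟨q, hq⟩ := core_pow hM z m u hu hzu hπ h f hfdeg A B hB hAB'
  have hcoeff : ∑ j, c j * τ j = 2 ^ h * q.coeff 0 := by
    rw [← hfcoeff, hq, Polynomial.coeff_C_mul]
  have heval : ∑ j, c j * τ j = 2 ^ h * q.eval 1 := by
    rw [← hsum, ← hfeval, hq, Polynomial.eval_mul, Polynomial.eval_C]
  refine ⟨⟨q.coeff 0, hcoeff⟩, ?_⟩
  have hx : (∑ j, (c j : ℂ) * ζ ^ k j) / (2 : ℂ) ^ h = ((aeval z q : AlgInt) : ℂ) := by
    have h20 : (2 : ℂ) ^ h ≠ 0 := pow_ne_zero h two_ne_zero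
    rw [← Subalgebra.aeval_coe, hzc, ← hfz, hq, map_mul, aeval_C]
    have h3 : (algebraMap ℤ ℂ) (2 ^ h) = (2 : ℂ) ^ h := by simp
    rw [h3, mul_div_cancel_left₀ _ h20]
  rw [hx, locIdeal_algInt_iff hM, heval, pow_succ]
  have h3 := aeval_sub_mem hπ q
  constructor
  · intro hmem
    have h4 : ((q.eval 1 : ℤ) : AlgInt) ∈ M := by
      have := M.sub_mem hmem h3
      simpa using this
    have h5 := (pmod_intCast_mem_iff hM _).mp h4
    exact mul_dvd_mul_left _ (by simpa using h5)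
  · intro hdvd
    have h5 : (2 : ℤ) ∣ q.eval 1 :=
      (mul_dvd_mul_iff_left (pow_ne_zero h two_ne_zero)).mp hdvd
    have h4 : ((q.eval 1 : ℤ) : AlgInt) ∈ M :=
      (pmod_intCast_mem_iff hM _).mpr (by simpa using h5)
    have := M.add_mem h3 h4
    simpa using this

theorem avg_dvd {M : Ideal AlgInt} (hM : IsPModular 2 M) (n : ℕ) (ζ : ℂ)
    (hζ : IsPrimitiveRoot ζ (2 ^ n)) {J : Type*} [Fintype J] (c : J → ℤ) (k : J → ℕ)
    (σ : J → J) (hσ : ∀ j, σ (σ j) = j) (hc : ∀ j, c (σ j) = c j)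
    (hk : ∀ j, ζ ^ k (σ j) = conj (ζ ^ k j))
    (τ : J → ℤ) (hτ1 : ∀ j, ζ ^ k j = 1 → τ j = 1) (hτ2 : ∀ j, ζ ^ k j = -1 → τ j = -1)
    (hτ0 : ∀ j, ζ ^ k j ≠ 1 → ζ ^ k j ≠ -1 → τ j = 0)
    (h : ℕ) (hloc : MemLocalRing M ((∑ j, (c j : ℂ) * ζ ^ k j) / (2 : ℂ) ^ h)) :
    (2 : ℤ) ^ h ∣ ∑ j, c j * τ j ∧
    (MemLocalIdeal M ((∑ j, (c j : ℂ) * ζ ^ k j) / (2 : ℂ) ^ h) ↔
      (2 : ℤ) ^ (h + 1) ∣ ∑ j, c j * τ j) := by
  cases n with
  | zero =>
    have h1 : ζ = 1 := by
      rw [pow_zero] at hζ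
      exact IsPrimitiveRoot.one_right_iff.mp hζ
    subst h1
    have hprim : IsPrimitiveRoot (-1 : ℂ) (2 ^ (0 + 1)) := by
      rw [zero_add, pow_one]
      exact IsPrimitiveRoot.neg_one 0 (by norm_num)
    have hone : ∀ j, (-1 : ℂ) ^ (2 * k j) = 1 := fun j => by
      rw [pow_mul, neg_one_sq, one_pow]
    have hsumeq : ∑ j, (c j : ℂ) * (-1 : ℂ) ^ (2 * k j) = ∑ j, (c j : ℂ) * (1 : ℂ) ^ k j := by
      apply Finset.sum_congr rfl
      intro j _
      rw [hone, one_pow]
    have key := avg_dvd_succ hM 0 (-1) hprim c (fun j => 2 * k j) σ hσ hc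
      (fun j => by rw [hone, hone]; simp) τ
      (fun j _ => hτ1 j (one_pow _))
      (fun j hj => by rw [hone] at hj; norm_num at hj)
      (fun j hj _ => absurd (hone j) hj) h (by rw [hsumeq]; exact hloc)
    rw [hsumeq] at key
    exact key
  | succ N => exact avg_dvd_succ hM N ζ hζ c k σ hσ hc hk τ hτ1 hτ2 hτ0 h hloc

end Cfsg.Agent.Lib.Helper89.SamZ
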