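import Mathlib

/-!
Project QB (S2359, helper48), piece CFGLUE (helper89): pass from `G` to the centralizer
`C = centralizer {y}` in the statement `cf_main`.
-/

set_option autoImplicit false

namespace Cfsg.Agent.Lib.Helper48.QB

-- QB-CFGLUE
theorem cf_main {G : Type*} [Group G] [Finite G] (y : G) (N : ℕ)
    (hS : ∀ S : Sylow 2 G, ∀ x ∈ S, x * x = 1)
    (hinv : ∃ v : G, v ≠ 1 ∧ v * v = 1 ∧ v * y = y * v)
    (hD : ∀ v : G, v ≠ 1 → v * v = 1 → v * y = y * v →
      Nat.card (Subgroup.centralizer ({y, v} : Set G)) = N ∧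
      ∀ a ∈ Subgroup.centralizer ({y, v} : Set G), ∀ b ∈ Subgroup.centralizer ({y, v} : Set G),
        a * b = b * a)
    (h3 : ∀ u : G, orderOf u = 3 → u * y ≠ y * u)
    (hcore : (∀ S : Sylow 2 (Subgroup.centralizer {y}), ∀ x ∈ S, x * x = 1) →
      (∃ v : Subgroup.centralizer {y}, v ≠ 1 ∧ v * v = 1) →
      (∀ v : Subgroup.centralizer {y}, v ≠ 1 → v * v = 1 →
        Nat.card (Subgroup.centralizer {v}) = N ∧
        ∀ a ∈ Subgroup.centralizer {v}, ∀ b ∈ Subgroup.centralizer {v}, a * b = b * a) →
      (∀ u : Subgroup.centralizer {y}, orderOf u ≠ 3) →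
      Nat.card (Subgroup.centralizer {y}) = N ∧ ∀ a b : Subgroup.centralizer {y}, a * b = b * a) :
    Nat.card (Subgroup.centralizer {y}) = N ∧
      ∀ a ∈ Subgroup.centralizer {y}, ∀ b ∈ Subgroup.centralizer {y}, a * b = b * a := by
  classical
  have hmemC : ∀ g : G, g ∈ Subgroup.centralizer ({y} : Set G) ↔ y * g = g * y := by
    intro g
    rw [Subgroup.mem_centralizer_iff]
    constructor
    · intro h
      exact h y (Set.mem_singleton y)
    · intro h z hz
      rw [Set.mem_singleton_iff.mp hz]
      exact h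
  have key := hcore ?_ ?_ ?_ ?_
  · refine ⟨key.1, ?_⟩
    intro a ha b hb
    exact congrArg Subtype.val (key.2 ⟨a, ha⟩ ⟨b, hb⟩)
  · -- Sylow 2-subgroups of `C` have exponent 2
    intro S x hx
    have hp : IsPGroup 2 ↥((S : Subgroup ↥(Subgroup.centralizer ({y} : Set G))).map
        (Subgroup.centralizer ({y} : Set G)).subtype) :=
      S.isPGroup'.map (Subgroup.centralizer ({y} : Set G)).subtype
    obtain ⟨Q, hQ⟩ := hp.exists_le_sylow
    have hxQ : (x : G) ∈ Q := hQ (Subgroup.mem_map_of_mem _ hx)
    exact Subtype.ext (hS Q (x : G) hxQ)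
  · -- an involution of `C`
    obtain ⟨v, hv1, hv2, hvy⟩ := hinv
    refine ⟨⟨v, (hmemC v).mpr hvy.symm⟩, ?_, Subtype.ext hv2⟩
    intro h
    exact hv1 (congrArg Subtype.val h)
  · -- centralizers of involutions of `C`
    intro v hv1 hv2
    have hvy : (v : G) * y = y * (v : G) := ((hmemC (v : G)).mp v.2).symm
    have hv1' : (v : G) ≠ 1 := fun h => hv1 (Subtype.ext h)
    have hv2' : (v : G) * (v : G) = 1 := congrArg Subtype.val hv2
    obtain ⟨hcard, hcomm⟩ := hD (v : G) hv1' hv2' hvy
    have hmap : (Subgroup.centralizer ({v} : Set ↥(Subgroup.centralizer ({y} : Set G)))).map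
        (Subgroup.centralizer ({y} : Set G)).subtype
          = Subgroup.centralizer ({y, (v : G)} : Set G) := by
      ext g
      constructor
      · rintro ⟨x, hx, rfl⟩
        rw [Subgroup.mem_centralizer_iff]
        intro z hz
        rcases Set.mem_insert_iff.mp hz with hz | hz
        · rw [hz]
          exact (hmemC (x : G)).mp x.2
        · rw [Set.mem_singleton_iff.mp hz]
          have h := Subgroup.mem_centralizer_iff.mp hx v (Set.mem_singleton v)
          exact congrArg Subtype.val h
      · intro hg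
        have hgy : y * g = g * y :=
          Subgroup.mem_centralizer_iff.mp hg y (Set.mem_insert y _)
        have hgv : (v : G) * g = g * (v : G) :=
          Subgroup.mem_centralizer_iff.mp hg (v : G) (Set.mem_insert_of_mem y (Set.mem_singleton _))
        refine ⟨⟨g, (hmemC g).mpr hgy⟩, ?_, rfl⟩
        rw [SetLike.mem_coe, Subgroup.mem_centralizer_iff]
        intro z hz
        rw [Set.mem_singleton_iff.mp hz]
        exact Subtype.ext hgv
    constructor
    · rw [← hcard, ← hmap]
      exact (Subgroup.card_map_of_injective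
        (Subgroup.subtype_injective (Subgroup.centralizer ({y} : Set G)))).symm
    · intro a ha b hb
      have ha' : (a : G) ∈ Subgroup.centralizer ({y, (v : G)} : Set G) := by
        rw [← hmap]
        exact Subgroup.mem_map_of_mem _ ha
      have hb' : (b : G) ∈ Subgroup.centralizer ({y, (v : G)} : Set G) := by
        rw [← hmap]
        exact Subgroup.mem_map_of_mem _ hb
      exact Subtype.ext (hcomm (a : G) ha' (b : G) hb')
  · -- no element of order 3
    intro u hu
    have hu' : orderOf (u : G) = 3 := by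
      rw [Subgroup.orderOf_coe]
      exact hu
    exact h3 (u : G) hu' ((hmemC (u : G)).mp u.2).symm

end Cfsg.Agent.Lib.Helper48.QB
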