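import Mathlib
import Cfsg.Agent.Lib.Helper11.Sharp

/-!
# Job piece TP-S55 for S4150: no permutation group of degree 13 and order 8580
-/

set_option autoImplicit false

namespace Cfsg.Agent.Lib.Helper89.TwoPr

open Equiv Equiv.Perm MulAction

/-- TP-S55 -/
theorem t13_solv_55 {Ω : Type*} [Fintype Ω] [DecidableEq Ω] (hΩ : Fintype.card Ω = 13)
    (K : Subgroup (Perm Ω)) [IsPretransitive K Ω] (hcard : Nat.card K = 8580) : False := by
  have : Fact (Nat.Prime 13) := ⟨by norm_num⟩
  have hα : Nat.card Ω = 13 := by rw [Nat.card_eq_fintype_card, hΩ]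
  have hfaith : ∀ g : K, (∀ a : Ω, g • a = a) → g = 1 := by
    intro g hg
    apply Subtype.ext
    ext a
    exact hg a
  have h13 : 13 ∣ Nat.card K := by
    rw [hcard]
    norm_num
  have h169 : ¬ 13 ^ 2 ∣ Nat.card K := by
    rw [hcard]
    norm_num
  obtain ⟨P⟩ : Nonempty (Sylow 13 K) := inferInstance
  obtain ⟨d, hd, hN⟩ :=
    Cfsg.Agent.Lib.Helper11.card_normalizer_sylow_prime_degree hα hfaith h13 h169 P
  have h1 : Nat.card (Sylow 13 K) = (Subgroup.normalizer ((P : Subgroup K) : Set K)).index :=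
    P.card_eq_index_normalizer
  have h2 := card_sylow_modEq_one 13 K
  have h3 := Subgroup.card_mul_index (Subgroup.normalizer ((P : Subgroup K) : Set K))
  rw [hN, ← h1, hcard] at h3
  have hd12 : d ≤ 12 := Nat.le_of_dvd (by norm_num) hd
  obtain ⟨e, he⟩ := hd
  unfold Nat.ModEq at h2
  generalize Nat.card (Sylow 13 K) = n at h2 h3
  interval_cases d <;> omega

end Cfsg.Agent.Lib.Helper89.TwoPr
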