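import Mathlib
import Cfsg.Agent.S0713

/-!
# Job piece TP-WITT for S4150: an element of order 5 normalising a Sylow 2-subgroup of a
four-point stabiliser (Witt's lemma instance)
-/

set_option autoImplicit false

namespace Cfsg.Agent.Lib.Helper89.TwoPr

open Equiv Equiv.Perm MulAction

theorem witt_inv_apply {Ω : Type*} (f : Perm Ω) (x : Ω) : f⁻¹ (f x) = x :=
  Perm.inv_eq_iff_eq.2 rfl

theorem witt_apply_inv {Ω : Type*} (f : Perm Ω) (x : Ω) : f (f⁻¹ x) = x :=
  Perm.eq_inv_iff_eq.1 rfl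

/-- Sylow conjugacy inside a subgroup `U` (own copy of TP-WS) -/
theorem witt_ws {G : Type*} [Group G] [Finite G] {p : ℕ} [Fact p.Prime]
    (U T T' : Subgroup G) (hT : T ≤ U) (hT' : T' ≤ U) (hTp : IsPGroup p T)
    (hcard : Nat.card T' = Nat.card T) (hsyl : ¬ p ∣ Nat.card U / Nat.card T) :
    ∃ h ∈ U, ∀ x, x ∈ T' ↔ h * x * h⁻¹ ∈ T := by
  have hTU : IsPGroup p (T.subgroupOf U) := hTp.comap_subtype
  have hcTU : Nat.card (T.subgroupOf U) = Nat.card T :=
    Nat.card_congr (Subgroup.subgroupOfEquivOfLe hT).toEquiv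
  have hcTU' : Nat.card (T'.subgroupOf U) = Nat.card T' :=
    Nat.card_congr (Subgroup.subgroupOfEquivOfLe hT').toEquiv
  have hidx : (T.subgroupOf U).index = Nat.card U / Nat.card T := by
    have h1 := Subgroup.card_mul_index (T.subgroupOf U)
    rw [hcTU] at h1
    rw [← h1, Nat.mul_div_cancel_left _ Nat.card_pos]
  obtain ⟨P, hP⟩ : ∃ P : Sylow p U, (P : Subgroup U) = T.subgroupOf U :=
    ⟨hTU.toSylow (by rw [hidx]; exact hsyl), rfl⟩
  have hT'p : IsPGroup p (T'.subgroupOf U) := by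
    obtain ⟨k, hk⟩ := IsPGroup.iff_card.1 hTp
    exact IsPGroup.of_card (n := k) (by rw [hcTU', hcard, hk])
  obtain ⟨Q, hQ⟩ := hT'p.exists_le_sylow
  obtain ⟨u, hu⟩ := MulAction.exists_smul_eq U Q P
  have hQeq : T'.subgroupOf U = Q := by
    apply Subgroup.eq_of_le_of_card_ge hQ
    have h1 : Nat.card (Q : Subgroup U) = Nat.card (P : Subgroup U) := by
      rw [Q.card_eq_multiplicity, P.card_eq_multiplicity]
    rw [h1, hP, hcTU, hcTU', hcard]
  have hconj : ∀ y : U, y ∈ (Q : Subgroup U) ↔ u * y * u⁻¹ ∈ (P : Subgroup U) := by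
    intro y
    rw [← hu, Sylow.smul_def, Sylow.pointwise_smul_def,
      Subgroup.mem_pointwise_smul_iff_inv_smul_mem]
    have e : (MulAut.conj u)⁻¹ • (u * y * u⁻¹) = y := by
      rw [MulAut.smul_def, MulAut.conj_inv_apply]
      group
    rw [e]
  refine ⟨u, u.2, fun x => ⟨fun hx => ?_, fun hx => ?_⟩⟩
  · have h1 : (⟨x, hT' hx⟩ : U) ∈ (Q : Subgroup U) := by
      rw [← hQeq]
      exact Subgroup.mem_subgroupOf.2 hx
    have h2 := (hconj _).1 h1
    rw [hP, Subgroup.mem_subgroupOf] at h2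
    exact h2
  · have hxU : x ∈ U := by
      have h1 : (u : G) * x * (u : G)⁻¹ ∈ U := hT hx
      have h2 : x = (u : G)⁻¹ * ((u : G) * x * (u : G)⁻¹) * (u : G) := by group
      rw [h2]
      exact mul_mem (mul_mem (inv_mem u.2) h1) u.2
    have h2 : u * (⟨x, hxU⟩ : U) * u⁻¹ ∈ (P : Subgroup U) := by
      rw [hP, Subgroup.mem_subgroupOf]
      exact hx
    have h3 := (hconj _).2 h2
    rw [← hQeq, Subgroup.mem_subgroupOf] at h3
    exact h3

/-- the pointwise stabilisers of two sets that are conjugate under `K` have the same order -/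
theorem witt_fixG_conj {Ω : Type*} [Fintype Ω] [DecidableEq Ω] (K : Subgroup (Perm Ω))
    (A B : Finset Ω) (g : Perm Ω) (hg : g ∈ K) (h1 : ∀ a ∈ A, g a ∈ B)
    (h2 : ∀ d ∈ B, ∃ a ∈ A, g a = d) :
    Nat.card (Cfsg.Agent.S0713.fixG K B) = Nat.card (Cfsg.Agent.S0713.fixG K A) := by
  have e : Cfsg.Agent.S0713.fixG K B =
      (Cfsg.Agent.S0713.fixG K A).map (MulAut.conj g).toMonoidHom := by
    ext x
    rw [Subgroup.mem_map]
    constructor
    · intro hx
      rw [Cfsg.Agent.S0713.mem_fixG] at hx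
      refine ⟨g⁻¹ * x * g, ?_, ?_⟩
      · rw [Cfsg.Agent.S0713.mem_fixG]
        refine ⟨mul_mem (mul_mem (inv_mem hg) hx.1) hg, fun a ha => ?_⟩
        rw [Perm.mul_apply, Perm.mul_apply, hx.2 _ (h1 a ha), witt_inv_apply]
      · show g * (g⁻¹ * x * g) * g⁻¹ = x
        group
    · rintro ⟨t, ht, rfl⟩
      rw [Cfsg.Agent.S0713.mem_fixG] at ht ⊢
      refine ⟨mul_mem (mul_mem hg ht.1) (inv_mem hg), fun d hd => ?_⟩
      obtain ⟨a, ha, rfl⟩ := h2 d hd
      show (g * t * g⁻¹) (g a) = g a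
      rw [Perm.mul_apply, Perm.mul_apply, witt_inv_apply, ht.2 a ha]
  rw [e, Subgroup.card_map_of_injective (MulEquiv.injective _)]

/-- TP-WITT -/
theorem t13_witt {Ω : Type*} [Fintype Ω] [DecidableEq Ω] (hΩ : Fintype.card Ω = 13)
    (K : Subgroup (Perm Ω)) (h4 : IsMultiplyPretransitive K Ω 4)
    (A : Finset Ω) (hA : A.card = 4) (T : Subgroup (Perm Ω)) (F : Finset Ω)
    (hTW : T ≤ Cfsg.Agent.S0713.fixG K A) (hTp : IsPGroup 2 T)
    (hsyl : ¬ 2 ∣ Nat.card (Cfsg.Agent.S0713.fixG K A) / Nat.card T)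
    (hT1 : T ≠ ⊥)
    (hF : F.card = 5) (hAF : A ⊆ F) (hfix : ∀ t ∈ T, ∀ x ∈ F, t x = x)
    (hfree : ∀ t ∈ T, t ≠ 1 → ∀ x, t x = x → x ∈ F) :
    ∃ g ∈ K, orderOf g = 5 ∧ ∀ t, t ∈ T ↔ g * t * g⁻¹ ∈ T := by
  have hTK : T ≤ K := fun t ht => ((Cfsg.Agent.S0713.mem_fixG K A t).1 (hTW ht)).1
  have hFix : ∀ x, (∀ t ∈ T, t x = x) → x ∈ F := by
    intro x hx
    obtain ⟨t, hne⟩ := Subgroup.ne_bot_iff_exists_ne_one.1 hT1
    have hne' : (t : Perm Ω) ≠ 1 := fun h => hne (Subtype.ext h)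
    exact hfree t t.2 hne' x (hx t t.2)
  obtain ⟨N, hN⟩ : ∃ N : Subgroup (Perm Ω),
      N = Subgroup.normalizer (T : Set (Perm Ω)) ⊓ K := ⟨_, rfl⟩
  have hNF : ∀ n ∈ N, ∀ x ∈ F, n x ∈ F := by
    intro n hn x hx
    rw [hN] at hn
    apply hFix
    intro t ht
    have h1 : n⁻¹ * t * n⁻¹⁻¹ ∈ T := ((Subgroup.mem_normalizer_iff.1 (inv_mem hn.1)) t).1 ht
    have h2 := hfix _ h1 x hx
    rw [inv_inv, Perm.mul_apply, Perm.mul_apply, Perm.inv_eq_iff_eq] at h2
    exact h2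
  have hclaim : ∀ b ∈ F, ∀ b' ∈ F, b ≠ b' → ∃ n ∈ N, n b = b' := by
    intro b hb b' hb' hne
    have h3 : ((F.erase b).erase b').card = 3 := by
      rw [Finset.card_erase_of_mem (Finset.mem_erase.2 ⟨hne.symm, hb'⟩),
        Finset.card_erase_of_mem hb, hF]
    obtain ⟨z, hz⟩ : ((F.erase b).erase b').Nonempty :=
      Finset.card_pos.1 (by rw [h3]; norm_num)
    have hzF : z ∈ F := Finset.mem_of_mem_erase (Finset.mem_of_mem_erase hz)
    have hzb : z ≠ b := (Finset.mem_erase.1 (Finset.mem_of_mem_erase hz)).1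
    have hzb' : z ≠ b' := (Finset.mem_erase.1 hz).1
    obtain ⟨B, hB⟩ : ∃ B : Finset Ω, B = F.erase z := ⟨_, rfl⟩
    have hBF : B ⊆ F := hB ▸ Finset.erase_subset _ _
    have hBcard : B.card = 4 := by rw [hB, Finset.card_erase_of_mem hzF, hF]
    have hbB : b ∈ B := hB ▸ Finset.mem_erase.2 ⟨hzb.symm, hb⟩
    have hb'B : b' ∈ B := hB ▸ Finset.mem_erase.2 ⟨hzb'.symm, hb'⟩
    obtain ⟨k, hkK, hk⟩ :=
      Cfsg.Agent.S0713.exists_of_pretrans K B (hBcard.symm ▸ h4) (Equiv.swap b b')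
    have hkB : ∀ d ∈ B, k d ∈ B := by
      intro d hd
      rw [hk d hd]
      by_cases h1 : d = b
      · rw [h1, Equiv.swap_apply_left]
        exact hb'B
      · by_cases h2 : d = b'
        · rw [h2, Equiv.swap_apply_right]
          exact hbB
        · rw [Equiv.swap_apply_of_ne_of_ne h1 h2]
          exact hd
    have hkinvB : ∀ d ∈ B, k⁻¹ d ∈ B := by
      intro d hd
      have h1 : k (k d) = d := by
        rw [hk _ (hkB d hd), hk d hd, Equiv.swap_apply_self]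
      have h2 : k⁻¹ d = k d := by
        rw [Perm.inv_eq_iff_eq, h1]
      rw [h2]
      exact hkB d hd
    obtain ⟨T', hT'⟩ : ∃ T' : Subgroup (Perm Ω),
        T' = T.map (MulAut.conj k).toMonoidHom := ⟨_, rfl⟩
    have hT'U : T' ≤ Cfsg.Agent.S0713.fixG K B := by
      rw [hT']
      rintro x ⟨t, ht, rfl⟩
      rw [Cfsg.Agent.S0713.mem_fixG]
      refine ⟨mul_mem (mul_mem hkK (hTK ht)) (inv_mem hkK), fun d hd => ?_⟩
      show (k * t * k⁻¹) d = d
      rw [Perm.mul_apply, Perm.mul_apply, hfix t ht _ (hBF (hkinvB d hd)), witt_apply_inv]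
    have hTU : T ≤ Cfsg.Agent.S0713.fixG K B := fun t ht =>
      (Cfsg.Agent.S0713.mem_fixG K B t).2 ⟨hTK ht, fun d hd => hfix t ht d (hBF hd)⟩
    have hcardT' : Nat.card T' = Nat.card T := by
      rw [hT', Subgroup.card_map_of_injective (MulEquiv.injective _)]
    have hcardU : Nat.card (Cfsg.Agent.S0713.fixG K B) =
        Nat.card (Cfsg.Agent.S0713.fixG K A) := by
      obtain ⟨e⟩ : Nonempty ({x // x ∈ A} ≃ {x // x ∈ B}) :=
        ⟨Fintype.equivOfCardEq (by rw [Fintype.card_coe, Fintype.card_coe, hA, hBcard])⟩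
      obtain ⟨g, hgK, hg⟩ :=
        Cfsg.Agent.S0713.exists_of_pretrans K A (hA.symm ▸ h4) e.extendSubtype
      have h1 : ∀ a ∈ A, g a ∈ B := fun a ha => by
        rw [hg a ha]
        exact e.extendSubtype_mem a ha
      have himg : A.image g = B := by
        apply Finset.eq_of_subset_of_card_le
        · intro d hd
          obtain ⟨a, ha, rfl⟩ := Finset.mem_image.1 hd
          exact h1 a ha
        · rw [Finset.card_image_of_injective _ g.injective, hA, hBcard]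
      have h2 : ∀ d ∈ B, ∃ a ∈ A, g a = d := by
        intro d hd
        rw [← himg] at hd
        exact Finset.mem_image.1 hd
      exact witt_fixG_conj K A B g hgK h1 h2
    have hsyl' : ¬ 2 ∣ Nat.card (Cfsg.Agent.S0713.fixG K B) / Nat.card T := by
      rw [hcardU]
      exact hsyl
    have : Fact (Nat.Prime 2) := ⟨Nat.prime_two⟩
    obtain ⟨h, hhU, hh⟩ :=
      witt_ws (p := 2) (Cfsg.Agent.S0713.fixG K B) T T' hTU hT'U hTp hcardT' hsyl'
    have hhK : h ∈ K := ((Cfsg.Agent.S0713.mem_fixG K B h).1 hhU).1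
    refine ⟨h * k, ?_, ?_⟩
    · rw [hN]
      refine ⟨?_, mul_mem hhK hkK⟩
      apply Subgroup.mem_normalizer_fintype
      intro t ht
      have h1 : k * t * k⁻¹ ∈ T' := by
        rw [hT']
        exact ⟨t, ht, rfl⟩
      have h2 := (hh _).1 h1
      have e : h * k * t * (h * k)⁻¹ = h * (k * t * k⁻¹) * h⁻¹ := by group
      rw [e]
      exact h2
    · rw [Perm.mul_apply, hk b hbB, Equiv.swap_apply_left]
      exact ((Cfsg.Agent.S0713.mem_fixG K B h).1 hhU).2 b' hb'B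
  obtain ⟨b0, hb0⟩ : F.Nonempty := Finset.card_pos.1 (by rw [hF]; norm_num)
  have horb : MulAction.orbit N b0 = (F : Set Ω) := by
    ext x
    constructor
    · rintro ⟨n, rfl⟩
      exact hNF n n.2 b0 hb0
    · intro hx
      by_cases hxb : b0 = x
      · rw [← hxb]
        exact MulAction.mem_orbit_self b0
      · obtain ⟨n, hn, hnb⟩ := hclaim b0 hb0 x hx hxb
        exact ⟨⟨n, hn⟩, hnb⟩
  have h5 : 5 ∣ Nat.card N := by
    have h1 := Nat.card_congr (MulAction.orbitProdStabilizerEquivGroup N b0)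
    rw [Nat.card_prod, horb] at h1
    have h2 : Nat.card (F : Set Ω) = 5 := by
      rw [Nat.card_coe_set_eq, Set.ncard_coe_finset, hF]
    rw [h2] at h1
    exact ⟨_, h1.symm⟩
  have : Fact (Nat.Prime 5) := ⟨Nat.prime_five⟩
  obtain ⟨g, hg⟩ := exists_prime_orderOf_dvd_card' 5 h5
  have hgN : (g : Perm Ω) ∈ Subgroup.normalizer (T : Set (Perm Ω)) ⊓ K := hN ▸ g.2
  refine ⟨g, hgN.2, ?_, fun t => (Subgroup.mem_normalizer_iff.1 hgN.1) t⟩
  rw [Subgroup.orderOf_coe]
  exact hg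

end Cfsg.Agent.Lib.Helper89.TwoPr
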