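import Mathlib
import Cfsg.Agent.Lib.Helper81.AQDefs

/-!
Project AQ (S3911, helper81), piece STEPG (helper89): glue of the step for one prime.
-/

set_option autoImplicit false

namespace Cfsg.Agent.Lib.Helper81.AQ

variable {G : Type*} [Group G]

-- piece STEPG
theorem step_glue [Finite G] (M : Subgroup G) [M.Normal] (L L' : Subgroup G) (hML : M ≤ L)
    (hL' : L' ≤ L) (hsup : L' ⊔ M = L) (p : ℕ) [Fact p.Prime]
    (hsyl : ∃ Z : Subgroup G, Z ≤ L' ∧ Nat.card Z = p ^ (Nat.card L').factorization p)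
    (hval : (Nat.card L').factorization p = (Nat.card L).factorization p)
    (hnc : ∀ Z : Subgroup G, Z ≤ L' → Nat.card Z = p ^ (Nat.card L').factorization p →
      ∀ g ∈ L', Nrm Z g → ∀ z ∈ Z, g * z = z * g)
    (hfr : ∀ Z : Subgroup G, Z ≤ L' → Nat.card Z = p ^ (Nat.card L').factorization p →
      ∀ l ∈ L', ∃ n ∈ L', ∃ m ∈ M, Nrm Z n ∧ l = n * m) : StepC M L L' p := by
  obtain ⟨Z, hZ, hcard⟩ := hsyl
  refine ⟨Z, hZ, ?_, ?_, ?_⟩
  · rw [← hval]
    exact hcard
  · intro z hz z' hz'
    have hnrm : Nrm Z z := by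
      intro w
      constructor
      · intro hw
        exact Z.mul_mem (Z.mul_mem hz hw) (Z.inv_mem hz)
      · intro hw
        have h := Z.mul_mem (Z.mul_mem (Z.inv_mem hz) hw) hz
        have e : z⁻¹ * (z * w * z⁻¹) * z = w := by group
        rw [e] at h
        exact h
    exact hnc Z hZ hcard z (hZ hz) hnrm z' hz'
  · apply le_antisymm
    · exact sup_le (inf_le_left.trans hL') hML
    · rw [← hsup]
      refine sup_le ?_ le_sup_right
      intro l hl
      obtain ⟨n, hn, m, hm, hnrm, rfl⟩ := hfr Z hZ hcard l hl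
      have hnC : n ∈ Subgroup.centralizer (Z : Set G) := by
        rw [Subgroup.mem_centralizer_iff]
        intro h hh
        exact (hnc Z hZ hcard n hn hnrm h hh).symm
      have hmem : n ∈ L' ⊓ Subgroup.centralizer (Z : Set G) := ⟨hn, hnC⟩
      exact Subgroup.mul_mem_sup hmem hm

end Cfsg.Agent.Lib.Helper81.AQ
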