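import Cfsg.Agent.Lib.Helper3.BG12Pieces
import Cfsg.Agent.S1404

/-!
# B&G Section 12, piece Q20D (helper89, for helper3): for `p ∈ σ(M)` the normalizer of a
noncyclic `p`-subgroup of `M` lies in `M`
-/

set_option autoImplicit false

open Cfsg Cfsg.Agent.Lib.Helper32 Cfsg.Agent.Lib.Helper32.BG10 Cfsg.Agent.Lib.Helper3.BG12 Cfsg.Agent.Lib.Helper3.BG12S

namespace Cfsg.Agent.Lib.Helper89.BG12

universe u

variable {G : Type u} [Group G] [Finite G]

theorem normalizer_le_of_noncyclic (hG : IsMinSimpleOddOrder G) (h16 : H16 G) {M : Subgroup G}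
    (hM : IsCoatom M) {p : ℕ} [Fact p.Prime] (hp : p ∈ sigma M) {P : Subgroup G}
    (hP : IsPGroup p P) (hPM : P ≤ M) (hnc : ¬ IsCyclic ↥P) :
    Subgroup.normalizer (P : Set G) ≤ M := by
  have hpp : p.Prime := Fact.out
  have hP1 : P ≠ ⊥ := by
    rintro rfl
    exact hnc inferInstance
  have hp2 : p ≠ 2 := by
    rintro rfl
    have hodd : Odd (Nat.card P) := minSimple_odd_sub hG P
    obtain ⟨k, hk⟩ := IsPGroup.iff_card.mp hP
    have hk0 : k ≠ 0 := by
      rintro rfl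
      rw [pow_zero] at hk
      exact hP1 (Subgroup.card_eq_one.mp hk)
    rw [hk] at hodd
    exact (Nat.not_even_iff_odd.mpr hodd) (Nat.even_pow.mpr ⟨even_two, hk0⟩)
  have hN := (Cfsg.Agent.S1404.result hG M hM p hp P hP hP1 hPM).2
  have h2 := not_rankLE_one_of_not_cyclic hp2 hP hnc
  obtain ⟨r, A, hr, hAP, hAc, hAe, hAcard⟩ := exists_elemAb_of_not_rankLE P 1 h2
  have hAp : IsPGroup p A := hP.to_le hAP
  obtain ⟨k, hk⟩ := IsPGroup.iff_card.mp hAp
  have hrp : r = p := by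
    have h3 : r ∣ p ^ k := by
      rw [← hk, hAcard]
      exact dvd_pow_self r (by norm_num)
    exact (Nat.prime_dvd_prime_iff_eq hr hpp).mp (hr.dvd_of_dvd_pow h3)
  subst hrp
  have hAel : IsElementaryAbelian r A := by
    refine ⟨⟨⟨?_⟩⟩, hAe⟩
    rintro ⟨a, ha⟩ ⟨b, hb⟩
    exact Subtype.ext (hAc a ha b hb)
  have hCA : Subgroup.centralizer (A : Set G) ≤ M :=
    (h16 M hM r A ⟨hAP.trans hPM, hAel, by rw [hAcard]⟩).1
  have hCP : Subgroup.centralizer (P : Set G) ≤ M :=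
    (Subgroup.centralizer_le (by exact_mod_cast hAP)).trans hCA
  rw [hN]
  exact sup_le inf_le_left hCP

end Cfsg.Agent.Lib.Helper89.BG12
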