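import Mathlib
import Cfsg.Agent.Lib.Helper69.BGDefs
import Cfsg.Agent.Lib.Helper1.Hall
import Cfsg.Agent.Lib.Helper13.Basic

/-!
# Job piece SOCLE for S3913: basic facts on the socle of a finite solvable group
-/

set_option autoImplicit false

namespace Cfsg.Agent.Lib.Helper89.BG

open Cfsg.Agent.Lib.Helper69.BG

universe u

variable {G : Type u} [Group G]

theorem socle_normal : (socle G).Normal :=
  Subgroup.sSup_normal _ (fun _ hN => hN.1)

theorem le_socle {N : Subgroup G} (h : MinNormal N) : N ≤ socle G := le_sSup h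

theorem mem_centralizer_socle {g : G}
    (h : ∀ N : Subgroup G, MinNormal N → g ∈ Subgroup.centralizer (N : Set G)) :
    g ∈ Subgroup.centralizer (socle G : Set G) := by
  have hle : socle G ≤ Subgroup.centralizer ({g} : Set G) := by
    apply sSup_le
    intro N hN x hx
    rw [Subgroup.mem_centralizer_iff]
    intro y hy
    rw [Set.mem_singleton_iff] at hy
    rw [hy]
    exact ((Subgroup.mem_centralizer_iff.1 (h N hN)) x hx).symm
  rw [Subgroup.mem_centralizer_iff]
  intro x hx
  exact ((Subgroup.mem_centralizer_iff.1 (hle hx)) g (Set.mem_singleton g)).symm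

/-- two minimal normal subgroups of a solvable group commute elementwise -/
theorem minNormal_comm_aux (hsol : Group.IsSolvable G) {N M : Subgroup G}
    (hN : MinNormal N) (hM : MinNormal M) : ∀ a ∈ N, ∀ b ∈ M, a * b = b * a := by
  intro a ha b hb
  by_cases hNM : N = M
  · subst hNM
    have := hsol
    exact Cfsg.Agent.Lib.Helper13.minimal_normal_comm N hN.1 hN.2.2 a ha b hb
  · have hdisj : Disjoint N M := by
      rw [disjoint_iff]
      have := hN.1
      have := hM.1
      have hnorm : (N ⊓ M).Normal := inferInstance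
      rcases hN.2.2 (N ⊓ M) hnorm inf_le_left with h | h
      · exact h
      · exfalso
        have hle : N ≤ M := by
          rw [← h]
          exact inf_le_right
        rcases hM.2.2 N hN.1 hle with h' | h'
        · exact hN.2.1 h'
        · exact hNM h'
    exact (Subgroup.commute_of_normal_of_disjoint N M hN.1 hM.1 hdisj a b ha hb).eq

theorem socle_comm [Finite G] (hsol : Group.IsSolvable G) :
    ∀ a ∈ socle G, ∀ b ∈ socle G, a * b = b * a := by
  have h1 : ∀ M : Subgroup G, MinNormal M → ∀ b ∈ M,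
      socle G ≤ Subgroup.centralizer ({b} : Set G) := by
    intro M hM b hb
    apply sSup_le
    intro N hN a ha
    rw [Subgroup.mem_centralizer_iff]
    intro y hy
    rw [Set.mem_singleton_iff] at hy
    rw [hy]
    exact (minNormal_comm_aux hsol hN hM a ha b hb).symm
  intro a ha
  have h2 : socle G ≤ Subgroup.centralizer ({a} : Set G) := by
    apply sSup_le
    intro M hM b hb
    rw [Subgroup.mem_centralizer_iff]
    intro y hy
    rw [Set.mem_singleton_iff] at hy
    rw [hy]
    exact ((Subgroup.mem_centralizer_iff.1 (h1 M hM b hb ha)) b (Set.mem_singleton b)).symm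
  intro b hb
  exact (Subgroup.mem_centralizer_iff.1 (h2 hb)) a (Set.mem_singleton a)

/-- the elements of the socle all of whose prime orders are "good" -/
def goodSub (hcomm : ∀ a ∈ socle G, ∀ b ∈ socle G, a * b = b * a) : Subgroup G where
  carrier := {x | x ∈ socle G ∧ ∀ q : ℕ, q.Prime → q ∣ orderOf x →
    ∃ N : Subgroup G, MinNormal N ∧ ¬ q ∣ N.index}
  one_mem' := ⟨one_mem _, fun q hq hdvd => by
    rw [orderOf_one] at hdvd
    exact absurd (Nat.dvd_one.1 hdvd) hq.ne_one⟩
  mul_mem' := by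
    rintro x y ⟨hx, hx'⟩ ⟨hy, hy'⟩
    refine ⟨mul_mem hx hy, fun q hq hdvd => ?_⟩
    have hc : Commute x y := hcomm x hx y hy
    have h2 : q ∣ orderOf x * orderOf y :=
      dvd_trans (dvd_trans hdvd hc.orderOf_mul_dvd_lcm) (Nat.lcm_dvd_mul _ _)
    rcases (Nat.Prime.dvd_mul hq).1 h2 with h | h
    · exact hx' q hq h
    · exact hy' q hq h
  inv_mem' := by
    rintro x ⟨hx, hx'⟩
    exact ⟨inv_mem hx, fun q hq hdvd => hx' q hq (by rwa [orderOf_inv] at hdvd)⟩

theorem socle_coprime [Finite G] (hsol : Group.IsSolvable G)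
    (hS : ∀ N : Subgroup G, MinNormal N →
      ∃ p : ℕ, p.Prime ∧ (∀ a ∈ N, a ^ p = 1) ∧ ¬ p ∣ N.index) :
    (Nat.card ↥(socle G)).Coprime (socle G).index := by
  have hcomm := socle_comm (G := G) hsol
  have hT : socle G ≤ goodSub hcomm := by
    apply sSup_le
    intro N hN x hx
    refine ⟨le_socle hN hx, fun q hq hdvd => ?_⟩
    obtain ⟨p, hp, hpow, hidx⟩ := hS N hN
    have h1 : orderOf x ∣ p := orderOf_dvd_of_pow_eq_one (hpow x hx)
    have h2 : q = p := (Nat.prime_dvd_prime_iff_eq hq hp).1 (dvd_trans hdvd h1)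
    exact ⟨N, hN, h2 ▸ hidx⟩
  apply Nat.coprime_of_dvd
  intro q hq hq1 hq2
  have : Fact q.Prime := ⟨hq⟩
  obtain ⟨x, hx⟩ := exists_prime_orderOf_dvd_card' q hq1
  have hxT : (x : G) ∈ goodSub hcomm := hT x.2
  obtain ⟨N, hN, hNq⟩ := hxT.2 q hq (by rw [Subgroup.orderOf_coe, hx])
  exact hNq (dvd_trans hq2 (Subgroup.index_dvd_of_le (le_socle hN)))

theorem centralizer_socle_le [Finite G] (hsol : Group.IsSolvable G)
    (hS : ∀ N : Subgroup G, MinNormal N →
      ∃ p : ℕ, p.Prime ∧ (∀ a ∈ N, a ^ p = 1) ∧ ¬ p ∣ N.index) :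
    Subgroup.centralizer (socle G : Set G) ≤ socle G := by
  have := hsol
  have hFn : (socle G).Normal := socle_normal
  have hcomm := socle_comm (G := G) hsol
  have hcop := socle_coprime hsol hS
  obtain ⟨Q, hQ⟩ : ∃ Q : Subgroup G, Q = Subgroup.centralizer (socle G : Set G) := ⟨_, rfl⟩
  rw [← hQ]
  have hQn : Q.Normal := by
    rw [hQ]
    infer_instance
  have hFQ : socle G ≤ Q := by
    intro x hx
    rw [hQ, Subgroup.mem_centralizer_iff]
    intro y hy
    exact hcomm y hy x hx
  obtain ⟨Fq, hFq⟩ : ∃ Fq : Subgroup ↥Q, Fq = (socle G).subgroupOf Q := ⟨_, rfl⟩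
  have hcent : ∀ f ∈ Fq, ∀ x : ↥Q, f * x = x * f := by
    intro f hf x
    apply Subtype.ext
    have hx : (x : G) ∈ Subgroup.centralizer (socle G : Set G) := hQ ▸ x.2
    rw [hFq] at hf
    exact (Subgroup.mem_centralizer_iff.1 hx) (f : G) (Subgroup.mem_subgroupOf.1 hf)
  have hcardF : Nat.card Fq = Nat.card (socle G) := by
    rw [hFq]
    exact Nat.card_congr (Subgroup.subgroupOfEquivOfLe hFQ).toEquiv
  obtain ⟨m, hm⟩ : ∃ m : ℕ, m = Fq.index := ⟨_, rfl⟩
  have hcardQ : Nat.card ↥Q = m * Nat.card (socle G) := by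
    rw [← hcardF, mul_comm, hm]
    exact (Subgroup.card_mul_index Fq).symm
  have hmdvd : m ∣ (socle G).index := by
    rw [hm, hFq]
    exact Subgroup.relIndex_dvd_index_of_le hFQ
  have hmn : m.Coprime (Nat.card (socle G)) := (Nat.Coprime.coprime_dvd_right hmdvd hcop).symm
  obtain ⟨H, hH⟩ := Cfsg.Agent.Lib.Helper1.hall_exists m (Nat.card (socle G)) hcardQ hmn
  have hcompl : Subgroup.IsComplement' Fq H :=
    Subgroup.isComplement'_of_coprime (by rw [hcardF, hH, mul_comm]; exact hcardQ.symm)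
      (by rw [hcardF, hH]; exact hmn.symm)
  have hdisj : Disjoint Fq H := hcompl.disjoint
  have hstab : ∀ (g : G) (y : ↥Q), y ∈ H → MulAut.conjNormal g y ∈ H := by
    intro g y hy
    obtain ⟨Hg, hHg⟩ : ∃ Hg : Subgroup ↥Q,
        Hg = H.map (MulAut.conjNormal g : MulAut ↥Q).toMonoidHom := ⟨_, rfl⟩
    have hcardHg : Nat.card Hg = m := by
      rw [hHg, Subgroup.card_map_of_injective (MulEquiv.injective _)]
      exact hH
    obtain ⟨q, hq⟩ := Cfsg.Agent.Lib.Helper1.hall_conj m _ hcardQ hmn H Hg hH hcardHg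
    obtain ⟨⟨⟨f, hf⟩, ⟨h, hh⟩⟩, hfh, -⟩ := (Subgroup.isComplement'_def.1 hcompl).existsUnique q
    have hfh' : f * h = q := hfh
    have hmem : MulAut.conjNormal g y ∈ Hg := by
      rw [hHg]
      exact Subgroup.mem_map_of_mem _ hy
    rw [← hq, Subgroup.mem_pointwise_smul_iff_inv_smul_mem] at hmem
    have hw : q⁻¹ * MulAut.conjNormal g y * q ∈ H := by
      have e : (MulAut.conj q)⁻¹ • (MulAut.conjNormal g y) = q⁻¹ * MulAut.conjNormal g y * q := by
        rw [MulAut.smul_def, MulAut.conj_inv_apply]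
      rw [e] at hmem
      exact hmem
    have e2 : MulAut.conjNormal g y = h * (q⁻¹ * MulAut.conjNormal g y * q) * h⁻¹ := by
      have hc := hcent f hf (h * (q⁻¹ * MulAut.conjNormal g y * q) * h⁻¹)
      calc MulAut.conjNormal g y
          = f * (h * (q⁻¹ * MulAut.conjNormal g y * q) * h⁻¹) * f⁻¹ := by
            rw [← hfh']
            group
        _ = h * (q⁻¹ * MulAut.conjNormal g y * q) * h⁻¹ := by
            rw [hc, mul_inv_cancel_right]
    rw [e2]
    exact mul_mem (mul_mem hh hw) (inv_mem hh)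
  have hH'n : (H.map Q.subtype).Normal := by
    constructor
    rintro x ⟨y, hy, rfl⟩ g
    exact ⟨MulAut.conjNormal g y, hstab g y hy, MulAut.conjNormal_apply g y⟩
  have hH'bot : H.map Q.subtype = ⊥ := by
    by_contra hne
    obtain ⟨N, hNle, hNn, hNne, hNmin⟩ :=
      Cfsg.Agent.Lib.Helper13.exists_minimal_normal_le _ hH'n hne
    have hNmin' : MinNormal N := ⟨hNn, hNne, hNmin⟩
    apply hNne
    rw [eq_bot_iff]
    intro x hx
    obtain ⟨y, hy, rfl⟩ := hNle hx
    have hyF : y ∈ Fq := by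
      rw [hFq]
      exact Subgroup.mem_subgroupOf.2 (le_socle hNmin' hx)
    have hy1 : y ∈ Fq ⊓ H := ⟨hyF, hy⟩
    rw [hdisj.eq_bot, Subgroup.mem_bot] at hy1
    rw [hy1, map_one]
    exact one_mem _
  have hHbot : H = ⊥ := by
    rw [eq_bot_iff]
    intro y hy
    have h1 : Q.subtype y ∈ H.map Q.subtype := Subgroup.mem_map_of_mem _ hy
    rw [hH'bot, Subgroup.mem_bot] at h1
    rw [Subgroup.mem_bot]
    exact Subtype.ext h1
  have hm1 : m = 1 := by
    rw [← hH, hHbot]
    exact Subgroup.card_bot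
  have hFtop : Fq = ⊤ := Subgroup.index_eq_one.1 (hm ▸ hm1)
  intro x hx
  have h1 : (⟨x, hx⟩ : ↥Q) ∈ Fq := by
    rw [hFtop]
    trivial
  rw [hFq] at h1
  exact Subgroup.mem_subgroupOf.1 h1

end Cfsg.Agent.Lib.Helper89.BG
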