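import Mathlib
import Cfsg.Agent.Lib.Helper89.IdxModel

set_option autoImplicit false

/-!
# Index models of finite subgroups from codes (helper89)

The elements of a group `Ω` are coded by numbers (`cod`), with a computable product `cmul` on
codes.  Given words in some base elements for `n` elements, their codes and a multiplication
table, a certificate yields an index model (`IxModel`) of the subgroup they form.
-/

namespace Cfsg.Agent.Lib.Helper89

/-- a coding of the elements of a group by numbers, with a product on codes -/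
structure GCode {Ω : Type*} [Group Ω] (cod : Ω → ℕ) (cmul : ℕ → ℕ → ℕ) (cid : ℕ) : Prop where
  inj : Function.Injective cod
  mul : ∀ σ τ, cod (σ * τ) = cmul (cod σ) (cod τ)
  one : cod 1 = cid

/-- the product of a word in the base elements -/
def wprod {Ω : Type*} [Group Ω] (b : ℕ → Ω) (w : List ℕ) : Ω := (w.map b).prod

/-- the code of a word -/
def wcode (cmul : ℕ → ℕ → ℕ) (cid : ℕ) (bc : ℕ → ℕ) (w : List ℕ) : ℕ :=
  w.foldr (fun i acc => cmul (bc i) acc) cid

/-- the word consists of valid letters, and has the given code -/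
def wordOK (cmul : ℕ → ℕ → ℕ) (cid : ℕ) (bc : ℕ → ℕ) (r : ℕ) (w : List ℕ) (c : ℕ) : Bool :=
  ixAnd (ixAllL (fun i => Nat.blt i r) w) (Nat.beq (wcode cmul cid bc w) c)

section

variable {Ω : Type*} [Group Ω] {cod : Ω → ℕ} {cmul : ℕ → ℕ → ℕ} {cid : ℕ}

theorem wprod_mem {H : Subgroup Ω} {b : ℕ → Ω} {r : ℕ} (hb : ∀ i < r, b i ∈ H) {w : List ℕ}
    (hw : ∀ i ∈ w, i < r) : wprod b w ∈ H := by
  unfold wprod
  apply Subgroup.list_prod_mem
  intro x hx
  obtain ⟨i, hi, rfl⟩ := List.mem_map.mp hx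
  exact hb i (hw i hi)

theorem GCode.wcode_eq (K : GCode cod cmul cid) {b : ℕ → Ω} {bc : ℕ → ℕ} {r : ℕ}
    (hb : ∀ i < r, cod (b i) = bc i) {w : List ℕ} (hw : ∀ i ∈ w, i < r) :
    cod (wprod b w) = wcode cmul cid bc w := by
  induction w with
  | nil => exact K.one
  | cons i w ih =>
    have h1 : wprod b (i :: w) = b i * wprod b w := by
      unfold wprod
      rw [List.map_cons, List.prod_cons]
    have h2 : wcode cmul cid bc (i :: w) = cmul (bc i) (wcode cmul cid bc w) := rfl
    rw [h1, h2, K.mul, hb i (hw i List.mem_cons_self),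
      ih (fun j hj => hw j (List.mem_cons_of_mem _ hj))]

/-- a word with a checked code -/
theorem GCode.word_spec (K : GCode cod cmul cid) {H : Subgroup Ω} {b : ℕ → Ω} {bc : ℕ → ℕ}
    {r : ℕ} (hb : ∀ i < r, b i ∈ H ∧ cod (b i) = bc i) {w : List ℕ} {c : ℕ}
    (h : wordOK cmul cid bc r w c = true) : wprod b w ∈ H ∧ cod (wprod b w) = c := by
  unfold wordOK at h
  rw [ixAnd_iff, ixAllL_iff] at h
  have hw : ∀ i ∈ w, i < r := fun i hi => Nat.blt_eq.mp (h.1 i hi)
  refine ⟨wprod_mem (fun i hi => (hb i hi).1) hw, ?_⟩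
  rw [K.wcode_eq (fun i hi => (hb i hi).2) hw]
  exact Nat.eq_of_beq_eq_true h.2

/-- conjugation read off from codes -/
theorem GCode.conj_eq (K : GCode cod cmul cid) {x a b : Ω}
    (h : cmul (cod x) (cod a) = cmul (cod b) (cod x)) : x * a * x⁻¹ = b := by
  rw [mul_inv_eq_iff_eq_mul]
  apply K.inj
  rw [K.mul, K.mul, h]

end

/-- the certificate of a model: words, codes, and tables -/
structure CodeCert (cmul : ℕ → ℕ → ℕ) (cid : ℕ) (bc : ℕ → ℕ) (r n : ℕ) (words : ℕ → List ℕ)
    (code : ℕ → ℕ) (mul : ℕ → ℕ → ℕ) (inv : ℕ → ℕ) (root : ℕ) : Prop where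
  words_ok : ixAllN (fun k => wordOK cmul cid bc r (words k) (code k)) n = true
  sorted : ixAllN (fun k => Nat.blt (code k) (code (Nat.succ k))) (Nat.pred n) = true
  mul_ok : ixAllN (fun a => ixAllN (fun b => ixAnd (Nat.blt (mul a b) n)
    (Nat.beq (cmul (code a) (code b)) (code (mul a b)))) n) n = true
  inv_ok : ixAllN (fun a => ixAnd (Nat.blt (inv a) n) (Nat.beq (mul a (inv a)) root)) n = true
  root_ok : ixAnd (Nat.blt root n) (Nat.beq (code root) cid) = true

section

variable {Ω : Type*} [Group Ω] {cod : Ω → ℕ} {cmul : ℕ → ℕ → ℕ} {cid : ℕ} {bc : ℕ → ℕ}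
  {r n : ℕ} {words : ℕ → List ℕ} {code : ℕ → ℕ} {mul : ℕ → ℕ → ℕ} {inv : ℕ → ℕ} {root : ℕ}

theorem CodeCert.code_lt (C : CodeCert cmul cid bc r n words code mul inv root) :
    ∀ b, b < n → ∀ a, a < b → code a < code b := by
  have hs : ∀ k, k < Nat.pred n → code k < code (k + 1) := fun k hk =>
    Nat.blt_eq.mp ((ixAllN_iff _ _).mp C.sorted k hk)
  intro b
  induction b with
  | zero => intro _ a ha; omega
  | succ b ih =>
    intro hb a ha
    have h1 : code b < code (b + 1) := hs b (by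
      have : Nat.pred n = n - 1 := rfl
      omega)
    rcases Nat.lt_succ_iff_lt_or_eq.mp ha with h | h
    · exact lt_trans (ih (by omega) a h) h1
    · rw [h]; exact h1

theorem CodeCert.code_inj (C : CodeCert cmul cid bc r n words code mul inv root)
    {a b : ℕ} (ha : a < n) (hb : b < n) (h : code a = code b) : a = b := by
  rcases Nat.lt_trichotomy a b with h1 | h1 | h1
  · exact absurd h (Nat.ne_of_lt (C.code_lt b hb a h1))
  · exact h1
  · exact absurd h.symm (Nat.ne_of_lt (C.code_lt a ha b h1))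

theorem CodeCert.root_lt (C : CodeCert cmul cid bc r n words code mul inv root) : root < n :=
  Nat.blt_eq.mp ((ixAnd_iff _ _).mp C.root_ok).1

theorem CodeCert.mul_spec (C : CodeCert cmul cid bc r n words code mul inv root) {a b : ℕ}
    (ha : a < n) (hb : b < n) : mul a b < n ∧ cmul (code a) (code b) = code (mul a b) := by
  have h := (ixAllN_iff _ _).mp ((ixAllN_iff _ _).mp C.mul_ok a ha) b hb
  rw [ixAnd_iff] at h
  exact ⟨Nat.blt_eq.mp h.1, Nat.eq_of_beq_eq_true h.2⟩

theorem CodeCert.inv_spec (C : CodeCert cmul cid bc r n words code mul inv root) {a : ℕ}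
    (ha : a < n) : inv a < n ∧ mul a (inv a) = root := by
  have h := (ixAllN_iff _ _).mp C.inv_ok a ha
  rw [ixAnd_iff] at h
  exact ⟨Nat.blt_eq.mp h.1, Nat.eq_of_beq_eq_true h.2⟩

variable (K : GCode cod cmul cid) (C : CodeCert cmul cid bc r n words code mul inv root)
  {H : Subgroup Ω} {b : ℕ → Ω} (hb : ∀ i < r, b i ∈ H ∧ cod (b i) = bc i)

include K C hb

theorem CodeCert.e_spec {k : ℕ} (hk : k < n) :
    wprod b (words k) ∈ H ∧ cod (wprod b (words k)) = code k :=
  K.word_spec hb ((ixAllN_iff _ _).mp C.words_ok k hk)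

theorem CodeCert.e_mul {a c : ℕ} (ha : a < n) (hc : c < n) :
    wprod b (words (mul a c)) = wprod b (words a) * wprod b (words c) := by
  apply K.inj
  rw [K.mul, (C.e_spec K hb ha).2, (C.e_spec K hb hc).2, (C.e_spec K hb (C.mul_spec ha hc).1).2,
    (C.mul_spec ha hc).2]

theorem CodeCert.e_root : wprod b (words root) = 1 := by
  apply K.inj
  rw [(C.e_spec K hb C.root_lt).2, K.one]
  exact Nat.eq_of_beq_eq_true ((ixAnd_iff _ _).mp C.root_ok).2

theorem CodeCert.e_inv {a : ℕ} (ha : a < n) :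
    wprod b (words (inv a)) = (wprod b (words a))⁻¹ := by
  have h1 := C.e_mul K hb ha (C.inv_spec ha).1
  rw [(C.inv_spec ha).2, C.e_root K hb] at h1
  exact eq_inv_of_mul_eq_one_right h1.symm

/-- the subgroup formed by the elements of the certificate -/
def CodeCert.grp : Subgroup Ω where
  carrier := {x | ∃ k < n, wprod b (words k) = x}
  mul_mem' := by
    rintro _ _ ⟨a, ha, rfl⟩ ⟨c, hc, rfl⟩
    exact ⟨mul a c, (C.mul_spec ha hc).1, C.e_mul K hb ha hc⟩
  one_mem' := ⟨root, C.root_lt, C.e_root K hb⟩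
  inv_mem' := by
    rintro _ ⟨a, ha, rfl⟩
    exact ⟨inv a, (C.inv_spec ha).1, C.e_inv K hb ha⟩

theorem CodeCert.grp_le : C.grp K hb ≤ H := by
  rintro _ ⟨k, hk, rfl⟩
  exact (C.e_spec K hb hk).1

/-- the index model of the group of the certificate -/
theorem CodeCert.model :
    IxModel (C.grp K hb) n (fun k => wprod b (words k)) mul inv root where
  mem a ha := ⟨a, ha, rfl⟩
  surj x hx := hx
  inj a ha c hc h := by
    apply C.code_inj ha hc
    rw [← (C.e_spec K hb ha).2, ← (C.e_spec K hb hc).2, h]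
  mul_lt a ha c hc := (C.mul_spec ha hc).1
  e_mul a ha c hc := C.e_mul K hb ha hc
  inv_lt a ha := (C.inv_spec ha).1
  e_inv a ha := C.e_inv K hb ha
  one_lt := C.root_lt
  e_one := C.e_root K hb

/-- the conjugate of the element `a` by the element with the word `w` is the element `c` -/
theorem CodeCert.conj_word {a c : ℕ} (ha : a < n) (hc : c < n) {w : List ℕ} {cw : ℕ}
    (hw : wordOK cmul cid bc r w cw = true)
    (h : Nat.beq (cmul cw (code a)) (cmul (code c) cw) = true) :
    wprod b w * wprod b (words a) * (wprod b w)⁻¹ = wprod b (words c) := by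
  apply K.conj_eq
  rw [(K.word_spec hb hw).2, (C.e_spec K hb ha).2, (C.e_spec K hb hc).2]
  exact Nat.eq_of_beq_eq_true h

omit K C hb in
/-- the check for a fusion: the conjugate of the element `a` by the fusing word number `gi`
is the element `b` -/
def codeFus (cmul : ℕ → ℕ → ℕ) (code : ℕ → ℕ) (fc : ℕ → ℕ) (nf n : ℕ) (a b gi : ℕ) : Bool :=
  ixAnd (Nat.blt b n) (ixAnd (Nat.blt gi nf)
    (Nat.beq (cmul (fc gi) (code a)) (cmul (code b) (fc gi))))

theorem CodeCert.fus_sound {fw : ℕ → List ℕ} {fc : ℕ → ℕ} {nf : ℕ}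
    (hf : ixAllN (fun i => wordOK cmul cid bc r (fw i) (fc i)) nf = true) :
    ∀ a c gi, a < n → codeFus cmul code fc nf n a c gi = true →
      c < n ∧ ∃ γ ∈ H, γ * wprod b (words a) * γ⁻¹ = wprod b (words c) := by
  intro a c gi ha h
  unfold codeFus at h
  rw [ixAnd_iff, ixAnd_iff] at h
  obtain ⟨h1, h2, h3⟩ := h
  have hc := Nat.blt_eq.mp h1
  have hgi := Nat.blt_eq.mp h2
  have hw := (ixAllN_iff _ _).mp hf gi hgi
  exact ⟨hc, wprod b (fw gi), (K.word_spec hb hw).1, C.conj_word K hb ha hc hw h3⟩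

end

end Cfsg.Agent.Lib.Helper89
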