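import Mathlib
import Cfsg.Prelude.Def_Transfer

set_option autoImplicit false

namespace Cfsg.Agent.Lib.Helper89

open Cfsg
open scoped Pointwise

/-! ### The residual `O^p(G)` -/

theorem pResidual_conj_mem {G : Type*} [Group G] (p : ℕ) {n : G} (hn : n ∈ pResidual p G) (g : G) :
    g * n * g⁻¹ ∈ pResidual p G := by
  induction hn using Subgroup.closure_induction with
  | mem x hx =>
    apply Subgroup.subset_closure
    show Nat.Coprime (orderOf (g * x * g⁻¹)) p
    have h1 : orderOf (MulAut.conj g x) = orderOf x := MulEquiv.orderOf_eq (MulAut.conj g) x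
    rw [MulAut.conj_apply] at h1
    rw [h1]; exact hx
  | one => simp
  | mul x y _ _ hx hy =>
    have : g * (x * y) * g⁻¹ = (g * x * g⁻¹) * (g * y * g⁻¹) := by group
    rw [this]; exact Subgroup.mul_mem _ hx hy
  | inv x _ hx =>
    have : g * x⁻¹ * g⁻¹ = (g * x * g⁻¹)⁻¹ := by group
    rw [this]; exact Subgroup.inv_mem _ hx

theorem pResidual_normal {G : Type*} [Group G] (p : ℕ) : (pResidual p G).Normal :=
  ⟨fun _ hn g => pResidual_conj_mem p hn g⟩

theorem mem_pResidual_of_pow_eq_one {G : Type*} [Group G] (p : ℕ) {g : G} {m : ℕ}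
    (hm : m.Coprime p) (h : g ^ m = 1) : g ∈ pResidual p G := by
  apply Subgroup.subset_closure
  show Nat.Coprime (orderOf g) p
  exact Nat.Coprime.coprime_dvd_left (orderOf_dvd_of_pow_eq_one h) hm

theorem isPGroup_quotient_pResidual {G : Type*} [Group G] [Finite G] (p : ℕ) [Fact p.Prime]
    [hN : (pResidual p G).Normal] : IsPGroup p (G ⧸ pResidual p G) := by
  intro q
  obtain ⟨a, rfl⟩ := QuotientGroup.mk_surjective q
  have hp : p.Prime := Fact.out
  obtain ⟨k, m, hm, hkm⟩ := Nat.exists_eq_pow_mul_and_not_dvd (orderOf_pos a).ne' p hp.ne_one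
  refine ⟨k, ?_⟩
  have hmem : a ^ p ^ k ∈ pResidual p G := by
    apply mem_pResidual_of_pow_eq_one p (m := m)
    · exact (Nat.Coprime.symm ((Nat.Prime.coprime_iff_not_dvd hp).mpr hm))
    · rw [← pow_mul, ← hkm, pow_orderOf_eq_one]
  rw [← QuotientGroup.mk_pow]
  exact (QuotientGroup.eq_one_iff _).mpr hmem

/-- `G = O^p(G) · P` for a Sylow `p`-subgroup `P`. -/
theorem pResidual_sup_sylow {G : Type*} [Group G] [Finite G] (p : ℕ) [Fact p.Prime]
    (Sy : Sylow p G) : pResidual p G ⊔ (Sy : Subgroup G) = ⊤ := by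
  have hp : p.Prime := Fact.out
  have := pResidual_normal (G := G) p
  have hq := isPGroup_quotient_pResidual (G := G) p
  obtain ⟨j, hj⟩ := IsPGroup.iff_card.mp hq
  have hidx : (pResidual p G).index = p ^ j := by
    rw [Subgroup.index_eq_card]; exact hj
  set H := pResidual p G ⊔ (Sy : Subgroup G) with hH
  have h1 : H.index ∣ p ^ j := hidx ▸ Subgroup.index_dvd_of_le le_sup_left
  have h2 : H.index ∣ (Sy : Subgroup G).index := Subgroup.index_dvd_of_le le_sup_right
  obtain ⟨i, -, hi⟩ := (Nat.dvd_prime_pow hp).mp h1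
  rw [← Subgroup.index_eq_one]
  cases i with
  | zero => simpa using hi
  | succ i =>
    exfalso
    apply Sy.not_dvd_index
    refine dvd_trans ?_ h2
    rw [hi, pow_succ]
    exact dvd_mul_left p _

theorem exists_mul_of_pResidual_sylow {G : Type*} [Group G] [Finite G] (p : ℕ) [Fact p.Prime]
    (Sy : Sylow p G) (a : G) : ∃ b ∈ pResidual p G, ∃ s ∈ (Sy : Subgroup G), a = b * s := by
  have := pResidual_normal (G := G) p
  have h : a ∈ pResidual p G ⊔ (Sy : Subgroup G) := by
    rw [pResidual_sup_sylow]; exact Subgroup.mem_top a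
  have h' : a ∈ ((pResidual p G : Subgroup G) : Set G) * ((Sy : Subgroup G) : Set G) := by
    rw [← Subgroup.normal_mul]; exact h
  obtain ⟨b, hb, s, hs, hbs⟩ := h'
  exact ⟨b, hb, s, hs, hbs.symm⟩

theorem pResidual_map_mono {G : Type*} [Group G] (p : ℕ) {A B : Subgroup G} (h : A ≤ B) :
    (pResidual p A).map A.subtype ≤ (pResidual p B).map B.subtype := by
  show (Subgroup.closure {g : A | Nat.Coprime (orderOf g) p}).map A.subtype ≤ _
  rw [MonoidHom.map_closure, Subgroup.closure_le]
  rintro _ ⟨g, hg, rfl⟩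
  refine ⟨⟨g, h g.2⟩, ?_, rfl⟩
  apply Subgroup.subset_closure
  show Nat.Coprime (orderOf (⟨(g : G), h g.2⟩ : B)) p
  have h1 : orderOf (⟨(g : G), h g.2⟩ : B) = orderOf (g : G) := by
    rw [← Subgroup.orderOf_coe]
  rw [h1, Subgroup.orderOf_coe]
  exact hg

end Cfsg.Agent.Lib.Helper89
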