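import Mathlib
import Cfsg.Prelude.Def_FusionReduction
import Cfsg.Agent.Lib.Helper89.FusAut
import Cfsg.Agent.Lib.Helper89.GroupAux

set_option autoImplicit false

namespace Cfsg.Agent.Lib.Helper89

open Cfsg Cfsg.FusionSystem

variable {Ω : Type*} [Group Ω]

/-! ### Extensionality and transport -/

theorem fusionSystem_ext {S : Subgroup Ω} (F G : FusionSystem S)
    (h : ∀ P : Subgroup Ω, F.Hom P = G.Hom P) : F = G := by
  cases F with
  | mk Hom1 a b c d e =>
    cases G with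
    | mk Hom2 a' b' c' d' e' =>
      have h' : Hom1 = Hom2 := funext h
      subst h'
      rfl

theorem subgroup_le_of_hom_subset {S S' : Subgroup Ω} (F : FusionSystem S) (G : FusionSystem S')
    (h : ∀ P : Subgroup Ω, F.Hom P ⊆ G.Hom P) : S ≤ S' :=
  hom_le G (h S (incl_mem F le_rfl))

theorem subgroup_eq_of_hom_eq {S S' : Subgroup Ω} (F : FusionSystem S) (G : FusionSystem S')
    (h : ∀ P : Subgroup Ω, F.Hom P = G.Hom P) : S = S' :=
  le_antisymm (subgroup_le_of_hom_subset F G fun P => (h P).subset)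
    (subgroup_le_of_hom_subset G F fun P => (h P).superset)

theorem transport_of_hom_eq {S S' : Subgroup Ω} (F : FusionSystem S) (G : FusionSystem S')
    (h : ∀ P : Subgroup Ω, F.Hom P = G.Hom P)
    (motive : ∀ {S : Subgroup Ω}, FusionSystem S → Prop) (hF : motive F) : motive G := by
  obtain rfl := subgroup_eq_of_hom_eq F G h
  obtain rfl := fusionSystem_ext F G h
  exact hF

/-! ### Subsystems of `p`-power index -/

theorem autGroup_mono {S T : Subgroup Ω} (E : FusionSystem T) (F : FusionSystem S)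
    (hEF : ∀ P : Subgroup Ω, E.Hom P ⊆ F.Hom P) {R : Subgroup Ω} (hRT : R ≤ T) :
    E.autGroup R ≤ F.autGroup R := by
  intro β hβ
  have hTS : T ≤ S := subgroup_le_of_hom_subset E F hEF
  rw [mem_autGroup_iff F (hRT.trans hTS)]
  exact hEF R ((mem_autGroup_iff E hRT β).mp hβ)

/-- a saturated subsystem of `F` over `T` lies in every subsystem of `p`-power index over a
subgroup containing `T` -/
theorem le_of_pPowerIndex {S T U : Subgroup Ω} {p : ℕ} [Fact p.Prime] [Finite T]
    (hT : IsPGroup p T) (F : FusionSystem S) (E : FusionSystem T) (hE : E.IsSaturated p)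
    (hEF : ∀ P : Subgroup Ω, E.Hom P ⊆ F.Hom P) (F₀ : FusionSystem U)
    (hidx : F₀.HasPPowerIndexIn F p) (hTU : T ≤ U) : ∀ P : Subgroup Ω, E.Hom P ⊆ F₀.Hom P := by
  refine alperin_le hT E hE F₀ ?_
  intro R hfa hrec α hα
  have hRT : R ≤ T := hfa.1
  have hRU : R ≤ U := hRT.trans hTU
  have : Finite R := finite_of_le hRT
  rw [← mem_autGroup_iff F₀ hRU]
  have hEF' : E.autGroup R ≤ F.autGroup R := autGroup_mono E F hEF hRT
  obtain ⟨-, Sy, hSy⟩ := hfa
  obtain ⟨b, hb, s, hs, hbs⟩ := exists_mul_of_pResidual_sylow p Sy ⟨α, hα⟩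
  have hα' : α = (b : MulAut R) * (s : MulAut R) := by
    simpa using congrArg Subtype.val hbs
  rw [hα']
  apply Subgroup.mul_mem
  · apply hidx.2.2 R hRU
    apply pResidual_map_mono p hEF'
    exact ⟨b, hb, rfl⟩
  · rw [hSy, Subgroup.mem_subgroupOf] at hs
    obtain ⟨g, hg, hg'⟩ := (mem_autInducedBy_iff T R _).mp hs
    rw [mem_autGroup_iff F₀ hRU]
    exact conj_mem' F₀ hRU (hTU hg) _ fun x => hg' x

theorem hyperfocal_le {S : Subgroup Ω} (F : FusionSystem S) (p : ℕ) :
    F.hyperfocalSubgroup p ≤ S := by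
  apply (Subgroup.closure_le _).mpr
  rintro _ ⟨P, α, x, hP, -, rfl⟩
  exact S.mul_mem (S.inv_mem (hP x.2)) (hP ((α : MulAut P) x).2)

/-- uniqueness of the `p`-residual subsystem -/
theorem pResidual_unique {S : Subgroup Ω} {p : ℕ} [Fact p.Prime] [Finite S] (hS : IsPGroup p S)
    (F : FusionSystem S) (D₁ D₂ : FusionSystem (F.hyperfocalSubgroup p))
    (h₁ : F.IsPResidual p D₁) (h₂ : F.IsPResidual p D₂) : D₁ = D₂ := by
  have hle : F.hyperfocalSubgroup p ≤ S := hyperfocal_le F p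
  have : Finite (F.hyperfocalSubgroup p) := finite_of_le hle
  have hp : IsPGroup p (F.hyperfocalSubgroup p) := hS.to_le hle
  apply fusionSystem_ext
  intro P
  exact Set.Subset.antisymm
    (le_of_pPowerIndex hp F D₁ h₁.1 h₁.2.1 D₂ h₂.2 le_rfl P)
    (le_of_pPowerIndex hp F D₂ h₂.1 h₂.2.1 D₁ h₁.2 le_rfl P)

/-- uniqueness of the `p'`-residual subsystem -/
theorem pPrimeResidual_unique {S : Subgroup Ω} {p : ℕ} (F : FusionSystem S)
    (E₁ E₂ : FusionSystem S) (h₁ : F.IsPPrimeResidual p E₁) (h₂ : F.IsPPrimeResidual p E₂) :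
    E₁ = E₂ := by
  apply fusionSystem_ext
  intro P
  exact Set.Subset.antisymm (h₁.2.2 E₂ h₂.1 h₂.2.1 P) (h₂.2.2 E₁ h₁.1 h₁.2.1 P)

end Cfsg.Agent.Lib.Helper89
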