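import Mathlib
import Cfsg.Prelude.Def_FusionReduction
import Cfsg.Agent.Lib.Helper89.FusResidual

set_option autoImplicit false

namespace Cfsg.Agent.Lib.Helper89

open Cfsg Cfsg.FusionSystem

variable {Ω : Type*} [Group Ω]

/-! ### Elements of prime-power order -/

/-- elements of prime-power order for primes other than `p` -/
def ppSet (p : ℕ) (G : Type*) [Group G] : Set G :=
  {h : G | ∃ q k : ℕ, q.Prime ∧ q ≠ p ∧ orderOf h = q ^ k}

theorem mem_closure_ppSet {G : Type*} [Group G] (p : ℕ) :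
    ∀ (n : ℕ) (g : G), orderOf g = n → 0 < n → n.Coprime p →
      g ∈ Subgroup.closure (ppSet p G) := by
  intro n
  induction n using Nat.strong_induction_on with
  | _ n ih =>
    intro g hg hpos hcop
    by_cases h1 : n = 1
    · subst h1
      rw [orderOf_eq_one_iff] at hg
      rw [hg]; exact Subgroup.one_mem _
    · obtain ⟨q, hq, hqn⟩ := Nat.exists_prime_and_dvd h1
      have hqp : q ≠ p := by
        rintro rfl
        exact hq.ne_one (Nat.Coprime.eq_one_of_dvd hcop.symm hqn)
      obtain ⟨k, m, hm, hkm⟩ := Nat.exists_eq_pow_mul_and_not_dvd hpos.ne' q hq.ne_one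
      have hm_pos : 0 < m := by
        rcases Nat.eq_zero_or_pos m with h0 | h0
        · subst h0; simp at hkm; omega
        · exact h0
      have hkpos : 0 < k := by
        rcases Nat.eq_zero_or_pos k with h0 | h0
        · subst h0
          simp at hkm
          subst hkm
          exact absurd hqn hm
        · exact h0
      have hmlt : m < n := by
        have h2 : 2 ≤ q ^ k := by
          calc 2 ≤ q := hq.two_le
            _ = q ^ 1 := (pow_one q).symm
            _ ≤ q ^ k := Nat.pow_le_pow_right hq.pos hkpos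
        rw [hkm]
        nlinarith
      have hcop' : Nat.Coprime (q ^ k) m :=
        Nat.Coprime.pow_left k ((Nat.Prime.coprime_iff_not_dvd hq).mpr hm)
      have hmn : m ∣ orderOf g := by rw [hg, hkm]; exact dvd_mul_left m _
      have hqn' : q ^ k ∣ orderOf g := by rw [hg, hkm]; exact dvd_mul_right _ _
      have ho1 : orderOf (g ^ m) = q ^ k := by
        rw [orderOf_pow_of_dvd hm_pos.ne' hmn, hg, hkm]
        exact Nat.mul_div_cancel _ hm_pos
      have ho2 : orderOf (g ^ q ^ k) = m := by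
        rw [orderOf_pow_of_dvd (pow_pos hq.pos k).ne' hqn', hg, hkm]
        exact Nat.mul_div_cancel_left _ (pow_pos hq.pos k)
      have hmem1 : g ^ m ∈ Subgroup.closure (ppSet p G) :=
        Subgroup.subset_closure ⟨q, k, hq, hqp, ho1⟩
      have hmem2 : g ^ q ^ k ∈ Subgroup.closure (ppSet p G) :=
        ih m hmlt _ ho2 hm_pos
          (Nat.Coprime.coprime_dvd_left (by rw [hkm]; exact dvd_mul_left m _) hcop)
      have hb := Int.gcd_eq_gcd_ab ((q ^ k : ℕ) : ℤ) (m : ℤ)
      have hg1 : Int.gcd ((q ^ k : ℕ) : ℤ) (m : ℤ) = 1 := by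
        rw [Int.gcd_natCast_natCast]; exact hcop'
      rw [hg1] at hb
      have hg' : g = (g ^ q ^ k) ^ (Int.gcdA ((q ^ k : ℕ) : ℤ) (m : ℤ)) *
          (g ^ m) ^ (Int.gcdB ((q ^ k : ℕ) : ℤ) (m : ℤ)) := by
        rw [← zpow_natCast g (q ^ k), ← zpow_natCast g m, ← zpow_mul, ← zpow_mul, ← zpow_add,
          ← hb]
        simp
      rw [hg']
      exact Subgroup.mul_mem _ (Subgroup.zpow_mem _ hmem2 _) (Subgroup.zpow_mem _ hmem1 _)

theorem pResidual_le_closure_ppSet {G : Type*} [Group G] [Finite G] (p : ℕ) :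
    pResidual p G ≤ Subgroup.closure (ppSet p G) := by
  apply (Subgroup.closure_le _).mpr
  intro g hg
  exact mem_closure_ppSet p _ g rfl (orderOf_pos g) hg

theorem pResidual_map_le_pResidual {G : Type*} [Group G] (p : ℕ) {A B : Subgroup G}
    (h : (pResidual p B).map B.subtype ≤ A) :
    (pResidual p B).map B.subtype ≤ (pResidual p A).map A.subtype := by
  have h' : ∀ g : B, Nat.Coprime (orderOf g) p → (g : G) ∈ A :=
    fun g hg => h ⟨g, Subgroup.subset_closure hg, rfl⟩
  show (Subgroup.closure {g : B | Nat.Coprime (orderOf g) p}).map B.subtype ≤ _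
  rw [MonoidHom.map_closure, Subgroup.closure_le]
  rintro _ ⟨g, hg, rfl⟩
  refine ⟨⟨g, h' g hg⟩, ?_, rfl⟩
  apply Subgroup.subset_closure
  show Nat.Coprime (orderOf (⟨(g : G), h' g hg⟩ : A)) p
  have h1 : orderOf (⟨(g : G), h' g hg⟩ : A) = orderOf (g : G) := by
    rw [← Subgroup.orderOf_coe]
  rw [h1, Subgroup.orderOf_coe]
  exact hg

/-! ### A fixed point argument -/

theorem exists_fixed_coset {P : Type*} [Group P] [Finite P] {p q : ℕ} [Fact p.Prime]
    (hq : q.Prime) (hqp : q ≠ p) (hP : IsPGroup p P) (a : MulAut P) (k : ℕ)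
    (ha : orderOf a = q ^ k) (N : Subgroup P) (hN : ∀ n ∈ N, a n ∈ N) (y : P)
    (hy : y⁻¹ * a y ∈ N) : ∃ n ∈ N, y⁻¹ * a y = n⁻¹ * a n := by
  have : Fact q.Prime := ⟨hq⟩
  have hp : p.Prime := Fact.out
  have hZ : IsPGroup q (Subgroup.zpowers a) := by
    apply IsPGroup.of_card (n := k)
    rw [Nat.card_zpowers, ha]
  have hfin : IsOfFinOrder a := by
    rw [← orderOf_pos_iff, ha]; exact pow_pos hq.pos k
  have hpow : ∀ (i : ℕ) (z : P), y⁻¹ * z ∈ N → y⁻¹ * (a ^ i) z ∈ N := by
    intro i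
    induction i with
    | zero => intro z hz; simpa using hz
    | succ i ih =>
      intro z hz
      rw [pow_succ', MulAut.mul_apply]
      have hw := ih z hz
      have h3 : y⁻¹ * a ((a ^ i) z) = (y⁻¹ * a y) * a (y⁻¹ * (a ^ i) z) := by
        rw [map_mul, map_inv]; group
      rw [h3]; exact N.mul_mem hy (hN _ hw)
  let C : SubMulAction (Subgroup.zpowers a) P :=
    { carrier := {z | y⁻¹ * z ∈ N}
      smul_mem' := by
        rintro ⟨b, hb⟩ z hz
        have hb' : b ∈ Submonoid.powers a := hfin.mem_powers_iff_mem_zpowers.mpr hb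
        obtain ⟨i, rfl⟩ := hb'
        exact hpow i z hz }
  have hCmem : ∀ z : P, z ∈ C ↔ y⁻¹ * z ∈ N := fun z => Iff.rfl
  have hcard : Nat.card C = Nat.card N := by
    apply Nat.card_congr
    exact
      { toFun := fun z => ⟨y⁻¹ * (z : P), (hCmem _).mp z.2⟩
        invFun := fun n => ⟨y * (n : P), (hCmem _).mpr (by simp)⟩
        left_inv := fun z => by apply Subtype.ext; simp
        right_inv := fun n => by apply Subtype.ext; simp }
  have hndvd : ¬ q ∣ Nat.card C := by
    rw [hcard]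
    obtain ⟨j, hj⟩ := IsPGroup.iff_card.mp (hP.to_subgroup N)
    rw [hj]
    intro hdvd
    exact hqp ((Nat.prime_dvd_prime_iff_eq hq hp).mp (hq.dvd_of_dvd_pow hdvd))
  obtain ⟨⟨z, hz⟩, hfix⟩ := hZ.nonempty_fixed_point_of_prime_not_dvd_card C hndvd
  have hz' : a z = z := by
    have h4 := hfix ⟨a, Subgroup.mem_zpowers a⟩
    have h5 := congrArg Subtype.val h4
    exact h5
  have hzN : y⁻¹ * z ∈ N := (hCmem z).mp hz
  refine ⟨z⁻¹ * y, ?_, ?_⟩
  · have h6 := N.inv_mem hzN
    simpa using h6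
  · rw [map_mul, map_inv, hz']; group

/-! ### Hyperfocal subgroups and subsystems of `p`-power index -/

theorem hyperfocal_mono {S T : Subgroup Ω} (p : ℕ) (E : FusionSystem T) (F : FusionSystem S)
    (hEF : ∀ P : Subgroup Ω, E.Hom P ⊆ F.Hom P) :
    E.hyperfocalSubgroup p ≤ F.hyperfocalSubgroup p := by
  have hTS : T ≤ S := subgroup_le_of_hom_subset E F hEF
  apply (Subgroup.closure_le _).mpr
  rintro _ ⟨P, α, x, hP, hα, rfl⟩
  have h1 : (α : MulAut P) ∈ (pResidual p (E.autGroup P)).map (E.autGroup P).subtype :=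
    ⟨α, hα, rfl⟩
  obtain ⟨α', hα', hαα'⟩ := pResidual_map_mono p (autGroup_mono E F hEF hP) h1
  apply Subgroup.subset_closure
  refine ⟨P, α', x, hP.trans hTS, hα', ?_⟩
  have h2 : (α' : MulAut P) = (α : MulAut P) := hαα'
  rw [h2]

theorem autGroup_apply_mem_of_stronglyClosed {S T : Subgroup Ω} (F : FusionSystem S)
    (hT : F.StronglyClosed T) {P : Subgroup Ω} (hP : P ≤ S) {a : MulAut P}
    (ha : a ∈ F.autGroup P) (n : P) (hn : (n : Ω) ∈ T) : ((a n : P) : Ω) ∈ T := by
  have h1 := (mem_autGroup_iff F hP a).mp ha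
  have h2 := restrict_mem F h1 (inf_le_left : P ⊓ T ≤ P)
  exact hT.2 (P ⊓ T) inf_le_right _ h2 ⟨n, n.2, hn⟩

theorem pow_apply_of_restrict {P R : Subgroup Ω} (hRP : R ≤ P) (a : MulAut P) (α : MulAut R)
    (h : ∀ r : R, ((α r : R) : Ω) = ((a ⟨r, hRP r.2⟩ : P) : Ω)) (i : ℕ) :
    ∀ r : R, (((α ^ i) r : R) : Ω) = (((a ^ i) ⟨r, hRP r.2⟩ : P) : Ω) := by
  induction i with
  | zero => intro r; simp
  | succ i ih =>
    intro r
    rw [pow_succ, pow_succ, MulAut.mul_apply, MulAut.mul_apply, ih (α r)]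
    have h1 : (⟨((α r : R) : Ω), hRP (α r).2⟩ : P) = a ⟨r, hRP r.2⟩ := Subtype.ext (h r)
    rw [h1]

/-- if `E` has `p`-power index in `F` and is over a strongly closed subgroup then the hyperfocal
subgroup of `F` lies in that of `E` -/
theorem hyperfocal_le_of_pPowerIndex {S T : Subgroup Ω} {p : ℕ} [Fact p.Prime] [Finite S]
    (hS : IsPGroup p S) (F : FusionSystem S) (E : FusionSystem T) (hT : F.StronglyClosed T)
    (hidx : E.HasPPowerIndexIn F p) : F.hyperfocalSubgroup p ≤ E.hyperfocalSubgroup p := by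
  have hp : p.Prime := Fact.out
  apply (Subgroup.closure_le _).mpr
  rintro _ ⟨P, α, x, hP, hα, rfl⟩
  have : Finite P := finite_of_le hP
  have key : ∀ b ∈ ppSet p (F.autGroup P), ∀ x : P,
      (x : Ω)⁻¹ * (((b : MulAut P) x : P) : Ω) ∈ E.hyperfocalSubgroup p := by
    rintro b ⟨q, k, hq, hqp, hbo⟩ x
    have hcop : Nat.Coprime (q ^ k) p :=
      Nat.Coprime.pow_left k ((Nat.coprime_primes hq hp).mpr hqp)
    have hbres : b ∈ pResidual p (F.autGroup P) := by
      apply Subgroup.subset_closure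
      show Nat.Coprime (orderOf b) p
      rw [hbo]; exact hcop
    have hao : orderOf (b : MulAut P) = q ^ k := by rw [Subgroup.orderOf_coe]; exact hbo
    have hxT : (x : Ω)⁻¹ * (((b : MulAut P) x : P) : Ω) ∈ T := by
      apply hidx.2.1
      apply Subgroup.subset_closure
      exact ⟨P, b, x, hP, hbres, rfl⟩
    obtain ⟨n, hn, hxn⟩ := exists_fixed_coset hq hqp (hS.to_le hP) (b : MulAut P) k hao
      (T.subgroupOf P)
      (fun n hn => Subgroup.mem_subgroupOf.mpr
        (autGroup_apply_mem_of_stronglyClosed F hT hP b.2 n (Subgroup.mem_subgroupOf.mp hn)))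
      x (Subgroup.mem_subgroupOf.mpr (by simpa using hxT))
    have hnT : (n : Ω) ∈ T := Subgroup.mem_subgroupOf.mp hn
    have hxn' : (x : Ω)⁻¹ * (((b : MulAut P) x : P) : Ω) =
        (n : Ω)⁻¹ * (((b : MulAut P) n : P) : Ω) := by
      simpa using congrArg Subtype.val hxn
    rw [hxn']
    -- restrict to `R = P ⊓ T`
    have hRP : P ⊓ T ≤ P := inf_le_left
    have hRT : P ⊓ T ≤ T := inf_le_right
    have h1 := (mem_autGroup_iff F hP (b : MulAut P)).mp b.2
    have h2 := restrict_mem F h1 hRP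
    have hrange : ((P.subtype.comp (b : MulAut P).toMonoidHom).comp
        (Subgroup.inclusion hRP)).range = P ⊓ T := by
      apply le_antisymm
      · rintro _ ⟨r, rfl⟩
        exact ⟨((b : MulAut P) ⟨r, hRP r.2⟩).2,
          autGroup_apply_mem_of_stronglyClosed F hT hP b.2 ⟨r, hRP r.2⟩ (hRT r.2)⟩
      · intro r hr
        have hbinv : ((b : MulAut P))⁻¹ ∈ F.autGroup P := (F.autGroup P).inv_mem b.2
        refine ⟨⟨(((b : MulAut P))⁻¹ ⟨r, hr.1⟩ : P), ⟨(((b : MulAut P))⁻¹ ⟨r, hr.1⟩).2,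
          autGroup_apply_mem_of_stronglyClosed F hT hP hbinv ⟨r, hr.1⟩ hr.2⟩⟩, ?_⟩
        show (((b : MulAut P) (((b : MulAut P))⁻¹ ⟨r, hr.1⟩) : P) : Ω) = r
        rw [MulAut.apply_inv_self]
    obtain ⟨α', hα'F, hα'⟩ := exists_mulAut F h2 hrange
    have hα'' : ∀ r : ↥(P ⊓ T), ((α' r : ↥(P ⊓ T)) : Ω) =
        (((b : MulAut P) ⟨r, hRP r.2⟩ : P) : Ω) := fun r => hα' r
    have hpow : α' ^ q ^ k = 1 := by
      apply MulEquiv.ext
      intro r
      apply Subtype.ext
      rw [pow_apply_of_restrict hRP (b : MulAut P) α' hα'' (q ^ k) r, ← hao, pow_orderOf_eq_one]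
      rfl
    have hres : (⟨α', hα'F⟩ : F.autGroup (P ⊓ T)) ∈ pResidual p (F.autGroup (P ⊓ T)) := by
      apply mem_pResidual_of_pow_eq_one p hcop
      apply Subtype.ext
      simpa using hpow
    have hα'E : α' ∈ E.autGroup (P ⊓ T) := hidx.2.2 (P ⊓ T) hRT ⟨_, hres, rfl⟩
    have hresE : (⟨α', hα'E⟩ : E.autGroup (P ⊓ T)) ∈ pResidual p (E.autGroup (P ⊓ T)) := by
      apply mem_pResidual_of_pow_eq_one p hcop
      apply Subtype.ext
      simpa using hpow
    apply Subgroup.subset_closure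
    refine ⟨P ⊓ T, ⟨α', hα'E⟩, ⟨n, n.2, hnT⟩, hRT, hresE, ?_⟩
    rw [hα'' ⟨n, n.2, hnT⟩]
  have gen : ∀ b ∈ Subgroup.closure (ppSet p (F.autGroup P)), ∀ x : P,
      (x : Ω)⁻¹ * (((b : MulAut P) x : P) : Ω) ∈ E.hyperfocalSubgroup p := by
    intro b hb
    induction hb using Subgroup.closure_induction with
    | mem b hb => exact key b hb
    | one => intro x; simp
    | mul b c _ _ hb hc =>
      intro x
      have h3 : (x : Ω)⁻¹ * ((((b * c : F.autGroup P) : MulAut P) x : P) : Ω) =
          ((x : Ω)⁻¹ * (((c : MulAut P) x : P) : Ω)) *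
            ((((c : MulAut P) x : P) : Ω)⁻¹ *
              (((b : MulAut P) ((c : MulAut P) x) : P) : Ω)) := by
        rw [Subgroup.coe_mul, MulAut.mul_apply]; group
      rw [h3]; exact Subgroup.mul_mem _ (hc x) (hb _)
    | inv b _ hb =>
      intro x
      have h := hb ((b : MulAut P)⁻¹ x)
      rw [MulAut.apply_inv_self] at h
      have h3 : (x : Ω)⁻¹ * ((((b⁻¹ : F.autGroup P) : MulAut P) x : P) : Ω) =
          ((((b : MulAut P)⁻¹ x : P) : Ω)⁻¹ * (x : Ω))⁻¹ := by
        rw [Subgroup.coe_inv]; group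
      rw [h3]; exact Subgroup.inv_mem _ h
  exact gen α (pResidual_le_closure_ppSet p hα) x

/-- a subsystem of `p`-power index in a subsystem of `p`-power index, over a subgroup containing
the hyperfocal subgroup, has `p`-power index -/
theorem pPowerIndex_trans {S T U : Subgroup Ω} {p : ℕ} (F : FusionSystem S) (E : FusionSystem T)
    (hidx : E.HasPPowerIndexIn F p) (D : FusionSystem U) (hD : D.HasPPowerIndexIn E p)
    (hhyp : F.hyperfocalSubgroup p ≤ U) : D.HasPPowerIndexIn F p := by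
  have hUT : U ≤ T := subgroup_le_of_hom_subset D E hD.1
  refine ⟨fun P => (hD.1 P).trans (hidx.1 P), hhyp, fun P hP => ?_⟩
  exact (pResidual_map_le_pResidual p (hidx.2.2 P (hP.trans hUT))).trans (hD.2.2 P hP)

/-! ### Uniqueness of residual subsystems up to equality of maps -/

theorem pPrimeResidual_unique' {S S' : Subgroup Ω} {p : ℕ} (F : FusionSystem S)
    (G : FusionSystem S') (h : ∀ P : Subgroup Ω, F.Hom P = G.Hom P) (E₁ : FusionSystem S)
    (E₂ : FusionSystem S') (h₁ : F.IsPPrimeResidual p E₁) (h₂ : G.IsPPrimeResidual p E₂) :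
    ∀ P : Subgroup Ω, E₁.Hom P = E₂.Hom P := by
  obtain rfl := subgroup_eq_of_hom_eq F G h
  obtain rfl := fusionSystem_ext F G h
  rw [pPrimeResidual_unique F E₁ E₂ h₁ h₂]
  intro P; rfl

theorem pResidual_unique' {S S' : Subgroup Ω} {p : ℕ} [Fact p.Prime] [Finite S]
    (hS : IsPGroup p S) (F : FusionSystem S)
    (G : FusionSystem S') (h : ∀ P : Subgroup Ω, F.Hom P = G.Hom P)
    (D₁ : FusionSystem (F.hyperfocalSubgroup p)) (D₂ : FusionSystem (G.hyperfocalSubgroup p))
    (h₁ : F.IsPResidual p D₁) (h₂ : G.IsPResidual p D₂) :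
    ∀ P : Subgroup Ω, D₁.Hom P = D₂.Hom P := by
  obtain rfl := subgroup_eq_of_hom_eq F G h
  obtain rfl := fusionSystem_ext F G h
  rw [pResidual_unique hS F D₁ D₂ h₁ h₂]
  intro P; rfl

/-! ### Residual limits -/

/-- a stable saturated system has the same maps as each of its residual limits -/
theorem residualLimit_of_stable {T S : Subgroup Ω} {L : FusionSystem T} {F : FusionSystem S}
    {p : ℕ} (h : IsResidualLimitOf L F p) :
    ∀ [Fact p.Prime], Finite S → IsPGroup p S → F.IsSaturated p →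
      F.hyperfocalSubgroup p = S → F.IsPPrimeResidual p F →
        ∀ P : Subgroup Ω, L.Hom P = F.Hom P := by
  induction h with
  | stable F p h1 h2 => intros; rfl
  | step F p D D' hD hD' hL ih =>
    intro _ hfin hS hsat hhyp hpp
    have hle : F.hyperfocalSubgroup p ≤ _ := hyperfocal_le F p
    have hfin' : Finite (F.hyperfocalSubgroup p) := finite_of_le hle
    have hp' : IsPGroup p (F.hyperfocalSubgroup p) := hS.to_le hle
    have hDF : ∀ P : Subgroup Ω, D.Hom P = F.Hom P := fun P =>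
      Set.Subset.antisymm (hD.2.1 P)
        (le_of_pPowerIndex hS F F hsat (fun _ => subset_rfl) D hD.2 (le_of_eq hhyp.symm) P)
    have hD'F : ∀ P : Subgroup Ω, D'.Hom P = F.Hom P :=
      pPrimeResidual_unique' D F hDF D' F hD' hpp
    have htr : D'.hyperfocalSubgroup p = F.hyperfocalSubgroup p ∧ D'.IsPPrimeResidual p D' :=
      transport_of_hom_eq F D' (fun P => (hD'F P).symm)
        (fun {S} X => X.hyperfocalSubgroup p = S ∧ X.IsPPrimeResidual p X) ⟨hhyp, hpp⟩
    intro P
    rw [ih hfin' hp' hD'.1 htr.1 htr.2 P, hD'F P]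

/-- any two residual limits of a saturated system over a finite `p`-group have the same maps -/
theorem residualLimit_unique {T S : Subgroup Ω} {L : FusionSystem T} {F : FusionSystem S}
    {p : ℕ} (h : IsResidualLimitOf L F p) :
    ∀ [Fact p.Prime], Finite S → IsPGroup p S → F.IsSaturated p →
      ∀ {T' : Subgroup Ω} (L' : FusionSystem T'), IsResidualLimitOf L' F p →
        ∀ P : Subgroup Ω, L.Hom P = L'.Hom P := by
  induction h with
  | stable F p h1 h2 =>
    intro _ hfin hS hsat T' L' hL' P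
    exact (residualLimit_of_stable hL' hfin hS hsat h1 h2 P).symm
  | step F p D D' hD hD' hL ih =>
    intro _ hfin hS hsat T' L' hL'
    have hle : F.hyperfocalSubgroup p ≤ _ := hyperfocal_le F p
    have hfin' : Finite (F.hyperfocalSubgroup p) := finite_of_le hle
    have hp' : IsPGroup p (F.hyperfocalSubgroup p) := hS.to_le hle
    cases hL' with
    | stable _ _ h1 h2 =>
      exact residualLimit_of_stable (IsResidualLimitOf.step F p D D' hD hD' hL) hfin hS hsat
        h1 h2
    | step _ _ D₂ D₂' hD₂ hD₂' hL₂ =>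
      obtain rfl := pResidual_unique hS F D D₂ hD hD₂
      obtain rfl := pPrimeResidual_unique D D' D₂' hD' hD₂'
      exact ih hfin' hp' hD'.1 L' hL₂

theorem residualLimit_congr {S S' T T' : Subgroup Ω} {p : ℕ} [Fact p.Prime] [hfin : Finite S]
    (hS : IsPGroup p S) (F : FusionSystem S) (hF : F.IsSaturated p) (G : FusionSystem S')
    (h : ∀ P : Subgroup Ω, F.Hom P = G.Hom P) (L : FusionSystem T)
    (hL : IsResidualLimitOf L F p) (L' : FusionSystem T') (hL' : IsResidualLimitOf L' G p) :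
    ∀ P : Subgroup Ω, L.Hom P = L'.Hom P := by
  obtain rfl := subgroup_eq_of_hom_eq F G h
  obtain rfl := fusionSystem_ext F G h
  exact residualLimit_unique hL hfin hS hF L' hL'

end Cfsg.Agent.Lib.Helper89
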