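import Cfsg.Agent.Lib.Helper89.FusHyp
import Cfsg.Agent.Lib.Helper89.FusGroup
import Cfsg.Agent.Lib.Helper88.GrpSat
import Cfsg.Agent.Lib.Helper87.Fusion10
import Cfsg.Agent.S5124

/-!
# The hyperfocal subgroup theorem

For subgroups `T ≤ H` of a finite group with `T` a Sylow `p`-subgroup of `H`, the hyperfocal
subgroup of the fusion system of `H` on `T` is `T ∩ O^p(H)`.
-/

set_option autoImplicit false
open Cfsg

namespace Cfsg.Agent.Lib.Helper89

open Cfsg.FusionSystem
open scoped commutatorElement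

variable {G : Type*} [Group G]

/-! ### Sylow subgroups given by index conditions -/

theorem exists_sylow_of_relIndex {p : ℕ} [Fact p.Prime] {H T : Subgroup G}
    (hT : IsPGroup p T) (hidx : ¬ p ∣ T.relIndex H) :
    ∃ R : Sylow p H, (R : Subgroup H) = T.subgroupOf H := by
  have hidx' : ¬ p ∣ (T.subgroupOf H).index := hidx
  have hT' : IsPGroup p (T.subgroupOf H) := hT.comap_subtype
  exact ⟨hT'.toSylow hidx', IsPGroup.toSylow_coe hT' hidx'⟩

/-- `O^p(H)`, inside the ambient group, is normalized by `H` -/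
theorem pResidual_map_conj_mem (p : ℕ) {H : Subgroup G} {a k : G} (ha : a ∈ H)
    (hk : k ∈ (pResidual p H).map H.subtype) : a * k * a⁻¹ ∈ (pResidual p H).map H.subtype := by
  obtain ⟨k', hk', rfl⟩ := hk
  exact ⟨⟨a, ha⟩ * k' * ⟨a, ha⟩⁻¹, pResidual_conj_mem p hk' ⟨a, ha⟩, rfl⟩

theorem pResidual_map_le (p : ℕ) (H : Subgroup G) : (pResidual p H).map H.subtype ≤ H := by
  rintro _ ⟨k, -, rfl⟩
  exact k.2

/-- the intersection of a Sylow `p`-subgroup of `H` with a normal subgroup `K` of `H` is a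
Sylow `p`-subgroup of `K` -/
theorem relIndex_inf_of_normal [Finite G] {p : ℕ} [Fact p.Prime] {H T K : Subgroup G}
    (hT : IsPGroup p T) (hidx : ¬ p ∣ T.relIndex H) (hKH : K ≤ H)
    (hK : ∀ h ∈ H, ∀ k ∈ K, h * k * h⁻¹ ∈ K) : ¬ p ∣ (T ⊓ K).relIndex K := by
  have hTK : IsPGroup p ((T ⊓ K).subgroupOf K) := (hT.to_le inf_le_left).comap_subtype
  obtain ⟨R, hR⟩ := hTK.exists_le_sylow
  have hR' : IsPGroup p ((R : Subgroup K).map K.subtype) := R.2.map _
  have hRK : (R : Subgroup K).map K.subtype ≤ K := by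
    rintro _ ⟨r, -, rfl⟩; exact r.2
  obtain ⟨m, hm, hconj⟩ := sylow_conj_le H T ((R : Subgroup K).map K.subtype) hT hidx
    (hRK.trans hKH) hR'
  have hle : (T ⊓ K) ≤ (R : Subgroup K).map K.subtype := by
    intro x hx
    exact ⟨⟨x, hx.2⟩, hR (Subgroup.mem_subgroupOf.mpr hx), rfl⟩
  have hcard : Nat.card ((R : Subgroup K).map K.subtype) ≤ Nat.card (T ⊓ K : Subgroup G) := by
    apply Nat.card_le_card_of_injective
      (fun a : ((R : Subgroup K).map K.subtype) =>
        (⟨m * (a : G) * m⁻¹, ⟨hconj a a.2, hK m hm a (hRK a.2)⟩⟩ : (T ⊓ K : Subgroup G)))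
    intro a b hab
    have h1 : m * (a : G) * m⁻¹ = m * (b : G) * m⁻¹ := congrArg Subtype.val hab
    exact Subtype.ext (mul_left_cancel (mul_right_cancel h1))
  have heq : (T ⊓ K) = (R : Subgroup K).map K.subtype := Subgroup.eq_of_le_of_card_ge hle hcard
  have h2 : (T ⊓ K).subgroupOf K = (R : Subgroup K) := by
    rw [heq]
    exact Subgroup.comap_map_eq_self_of_injective (Subgroup.subtype_injective K) _
  show ¬ p ∣ ((T ⊓ K).subgroupOf K).index
  rw [h2]
  exact R.not_dvd_index

/-! ### The focal subgroup theorem inside an ambient group -/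

theorem inf_commutator_le_focal [Finite G] {p : ℕ} [Fact p.Prime] {H T : Subgroup G}
    (hTH : T ≤ H) (hT : IsPGroup p T) (hidx : ¬ p ∣ T.relIndex H) :
    T ⊓ ⁅H, H⁆ ≤ (fusionSystemOfSubgroup H T hTH).focalSubgroup := by
  intro t ht
  have hidx' : ¬ p ∣ (T.subgroupOf H).index := hidx
  have hT' : IsPGroup p (T.subgroupOf H) := hT.comap_subtype
  let P : Sylow p H := hT'.toSylow hidx'
  have hP : ∀ x : H, x ∈ (P : Subgroup H) ↔ (x : G) ∈ T := fun x => by
    show x ∈ hT'.toSylow hidx' ↔ _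
    rw [IsPGroup.mem_toSylow]; exact Subgroup.mem_subgroupOf
  have h1 : (⟨t, hTH ht.1⟩ : H) ∈ _root_.commutator H ⊓ (P : Subgroup H) := by
    refine ⟨?_, (hP _).mpr ht.1⟩
    have h2 := ht.2
    rw [← Subgroup.map_subtype_commutator] at h2
    obtain ⟨c, hc, hct⟩ := h2
    have h3 : c = ⟨t, hTH ht.1⟩ := Subtype.ext hct
    rw [← h3]; exact hc
  rw [Subgroup.commutator_inf_eq_focalSubgroup] at h1
  have key : ∀ c : H, c ∈ (P : Subgroup H).focalSubgroup →
      (c : G) ∈ (fusionSystemOfSubgroup H T hTH).focalSubgroup := by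
    intro c hc
    have hc' : c ∈ Subgroup.closure
        {g : H | g ∈ (P : Subgroup H) ∧ ∃ x ∈ (P : Subgroup H), ∃ u : H, g = ⁅x, u⁆} := hc
    clear hc
    induction hc' using Subgroup.closure_induction with
    | mem g hg =>
      obtain ⟨hgP, x, hxP, u, rfl⟩ := hg
      have hxT : (x : G) ∈ T := (hP x).mp hxP
      have hgT : (x : G) * u * (x : G)⁻¹ * (u : G)⁻¹ ∈ T := (hP _).mp hgP
      let P₀ : Subgroup G := T ⊓ T.comap (MulAut.conj (u : G)).toMonoidHom
      have hφ : conjHom P₀ (u : G) ∈ (fusionSystemOfSubgroup H T hTH).Hom P₀ :=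
        ⟨inf_le_left, fun z => z.2.2, u, u.2, fun z => rfl⟩
      have hx' : (x : G)⁻¹ ∈ P₀ := by
        refine ⟨T.inv_mem hxT, ?_⟩
        show (u : G) * (x : G)⁻¹ * (u : G)⁻¹ ∈ T
        have h4 : (u : G) * (x : G)⁻¹ * (u : G)⁻¹
            = (x : G)⁻¹ * ((x : G) * u * (x : G)⁻¹ * (u : G)⁻¹) := by group
        rw [h4]
        exact T.mul_mem (T.inv_mem hxT) hgT
      apply Subgroup.subset_closure
      refine ⟨P₀, conjHom P₀ (u : G), ⟨(x : G)⁻¹, hx'⟩, hφ, ?_⟩
      show (x : G) * u * (x : G)⁻¹ * (u : G)⁻¹ = ((x : G)⁻¹)⁻¹ * ((u : G) * (x : G)⁻¹ * (u : G)⁻¹)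
      group
    | one => exact Subgroup.one_mem _
    | mul a b _ _ ha hb => exact Subgroup.mul_mem _ ha hb
    | inv a _ ha => exact Subgroup.inv_mem _ ha
  exact key _ h1

/-! ### A normal subgroup of a `p`-group supplementing the derived subgroup -/

theorem eq_of_le_sup_commutator [Finite G] {p : ℕ} [Fact p.Prime] {T N : Subgroup G}
    (hT : IsPGroup p T) (hNT : N ≤ T) (hnorm : ∀ t ∈ T, ∀ n ∈ N, t * n * t⁻¹ ∈ N)
    (h : T ≤ N ⊔ ⁅T, T⁆) : N = T := by
  have hN' : (N.subgroupOf T).Normal :=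
    ⟨fun n hn t => Subgroup.mem_subgroupOf.mpr (hnorm t t.2 n (Subgroup.mem_subgroupOf.mp hn))⟩
  have hcomm : (⁅T, T⁆ : Subgroup G).subgroupOf T = _root_.commutator T := by
    rw [← Subgroup.map_subtype_commutator]
    exact Subgroup.comap_map_eq_self_of_injective (Subgroup.subtype_injective T) _
  have htop : N.subgroupOf T ⊔ _root_.commutator T = ⊤ := by
    rw [← hcomm, ← Subgroup.subgroupOf_sup hNT (Subgroup.commutator_le_self T)]
    rw [eq_top_iff]
    intro x _
    exact Subgroup.mem_subgroupOf.mpr (h x.2)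
  have hQ : IsPGroup p (T ⧸ N.subgroupOf T) := (hT.to_quotient _)
  have hnil : Group.IsNilpotent (T ⧸ N.subgroupOf T) := hQ.isNilpotent
  have hsol : Group.IsSolvable (T ⧸ N.subgroupOf T) := inferInstance
  have hcQ : _root_.commutator (T ⧸ N.subgroupOf T) = ⊤ := by
    rw [eq_top_iff]
    have h1 : (⊤ : Subgroup (T ⧸ N.subgroupOf T))
        = (N.subgroupOf T ⊔ _root_.commutator T).map (QuotientGroup.mk' (N.subgroupOf T)) := by
      rw [htop]
      exact (Subgroup.map_top_of_surjective _ (QuotientGroup.mk'_surjective _)).symm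
    rw [h1, Subgroup.map_sup, QuotientGroup.map_mk'_self, bot_sup_eq, commutator_def,
      Subgroup.map_commutator, commutator_def]
    exact Subgroup.commutator_mono le_top le_top
  have hsub : Subsingleton (T ⧸ N.subgroupOf T) := by
    by_contra hns
    rw [not_subsingleton_iff_nontrivial] at hns
    exact (Group.IsSolvable.commutator_lt_top_of_nontrivial (T ⧸ N.subgroupOf T)).ne hcQ
  apply le_antisymm hNT
  intro t ht
  have h2 : (QuotientGroup.mk' (N.subgroupOf T)) ⟨t, ht⟩ = 1 := Subsingleton.elim _ _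
  have h3 : (⟨t, ht⟩ : T) ∈ N.subgroupOf T := by
    rw [← QuotientGroup.ker_mk' (N.subgroupOf T)]
    exact h2
  exact Subgroup.mem_subgroupOf.mp h3

/-! ### Groups generated by `p'`-elements -/

theorem coprime_orderOf_abelianization {p : ℕ} {H : Type*} [Group H] [Finite H] (g : H)
    (hg : g ∈ pResidual p H) : Nat.Coprime (orderOf (Abelianization.of g)) p := by
  have hg' : g ∈ Subgroup.closure {g : H | Nat.Coprime (orderOf g) p} := hg
  clear hg
  induction hg' using Subgroup.closure_induction with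
  | mem x hx => exact Nat.Coprime.coprime_dvd_left (orderOf_map_dvd _ x) hx
  | one => rw [map_one, orderOf_one]; exact Nat.coprime_one_left p
  | mul a b _ _ ha hb =>
    rw [map_mul]
    exact Nat.Coprime.coprime_dvd_left
      ((Commute.all _ _).orderOf_mul_dvd_lcm.trans (Nat.lcm_dvd_mul _ _)) (Nat.Coprime.mul_left ha hb)
  | inv a _ ha => rw [map_inv, orderOf_inv]; exact ha

theorem le_commutator_of_le_pResidual [Finite G] {p : ℕ} [Fact p.Prime] {H T : Subgroup G}
    (hTH : T ≤ H) (hT : IsPGroup p T) (hH : H ≤ (pResidual p H).map H.subtype) :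
    T ≤ ⁅H, H⁆ := by
  intro t ht
  obtain ⟨g, hg, hgt⟩ := hH (hTH ht)
  have h1 := coprime_orderOf_abelianization g hg
  obtain ⟨k, hk⟩ := (IsPGroup.iff_orderOf.mp hT) ⟨t, ht⟩
  have h2 : orderOf g = p ^ k := by
    rw [← hk, ← Subgroup.orderOf_coe, ← Subgroup.orderOf_coe (⟨t, ht⟩ : T)]
    exact congrArg orderOf hgt
  have h3 : orderOf (Abelianization.of g) ∣ p ^ k := h2 ▸ orderOf_map_dvd _ g
  have h4 : orderOf (Abelianization.of g) = 1 :=
    Nat.Coprime.eq_one_of_dvd (Nat.Coprime.pow_right k h1) h3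
  rw [orderOf_eq_one_iff] at h4
  have h5 : g ∈ _root_.commutator H := by
    rw [← Abelianization.ker_of]
    exact h4
  rw [← Subgroup.map_subtype_commutator]
  exact ⟨g, h5, hgt⟩

/-! ### Automorphisms of order prime to `p` are induced by `p'`-elements -/

theorem exists_pResidual_conj [Finite G] {p : ℕ} [Fact p.Prime] {H P : Subgroup G}
    (α : MulAut P) (hα : ∃ g ∈ H, ∀ x : P, ((α x : P) : G) = g * x * g⁻¹)
    (hord : Nat.Coprime (orderOf α) p) :
    ∃ h ∈ (pResidual p H).map H.subtype, ∀ x : P, ((α x : P) : G) = h * x * h⁻¹ := by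
  have hp : p.Prime := Fact.out
  obtain ⟨g, hgH, hg⟩ := hα
  obtain ⟨a, n', hn', hN⟩ :=
    Nat.exists_eq_pow_mul_and_not_dvd (Nat.card_pos (α := H)).ne' p hp.ne_one
  have hmem : (⟨g, hgH⟩ : H) ^ p ^ a ∈ pResidual p H := by
    apply mem_pResidual_of_pow_eq_one p (m := n')
    · exact (Nat.Coprime.symm ((Nat.Prime.coprime_iff_not_dvd hp).mpr hn'))
    · rw [← pow_mul, ← hN, pow_card_eq_one']
  obtain ⟨k, hk⟩ := exists_pow_eq_self_of_coprime (x := α) (n := p ^ a)
    (Nat.Coprime.pow_left a hord.symm)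
  refine ⟨(g ^ p ^ a) ^ k, ⟨(⟨g, hgH⟩ ^ p ^ a) ^ k, Subgroup.pow_mem _ hmem k, rfl⟩, fun x => ?_⟩
  have h1 := pow_apply_of_conj (α ^ p ^ a) (g ^ p ^ a) (fun y => pow_apply_of_conj α g hg _ y) k x
  rw [hk] at h1
  exact h1

/-! ### The hyperfocal subgroup theorem -/

theorem hyperfocal_fsos_le [Finite G] {p : ℕ} [Fact p.Prime] {H T : Subgroup G} (hTH : T ≤ H) :
    (fusionSystemOfSubgroup H T hTH).hyperfocalSubgroup p
      ≤ T ⊓ (pResidual p H).map H.subtype := by
  refine le_inf (hyperfocal_le _ p) ?_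
  apply (Subgroup.closure_le _).mpr
  rintro _ ⟨P, α, x, hP, hα, rfl⟩
  have key : ∀ β : (fusionSystemOfSubgroup H T hTH).autGroup P,
      β ∈ pResidual p ((fusionSystemOfSubgroup H T hTH).autGroup P) →
      ∀ x : P, (x : G)⁻¹ * ((β : MulAut P) x : P) ∈ (pResidual p H).map H.subtype := by
    intro β hβ
    have hβ' : β ∈ Subgroup.closure
        {g : (fusionSystemOfSubgroup H T hTH).autGroup P | Nat.Coprime (orderOf g) p} := hβ
    clear hβ
    induction hβ' using Subgroup.closure_induction with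
    | mem γ hγ =>
      intro x
      have h1 : Nat.Coprime (orderOf (γ : MulAut P)) p := by
        rw [Subgroup.orderOf_coe]; exact hγ
      have h2 := (Cfsg.Agent.Lib.Helper89.mem_autGroup_iff _ hP (γ : MulAut P)).mp γ.2
      obtain ⟨-, -, g, hgH, hg⟩ := h2
      obtain ⟨h, hh, hconj⟩ := exists_pResidual_conj (γ : MulAut P) ⟨g, hgH, hg⟩ h1
      rw [hconj x]
      have h3 : (x : G)⁻¹ * (h * x * h⁻¹) = ((x : G)⁻¹ * h * ((x : G)⁻¹)⁻¹) * h⁻¹ := by group
      rw [h3]
      exact Subgroup.mul_mem _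
        (pResidual_map_conj_mem p (H.inv_mem (hTH (hP x.2))) hh) (Subgroup.inv_mem _ hh)
    | one => intro x; simp
    | mul a b _ _ ha hb =>
      intro x
      have h3 : (x : G)⁻¹ * (((a * b : (fusionSystemOfSubgroup H T hTH).autGroup P) : MulAut P) x : P)
          = ((x : G)⁻¹ * ((b : MulAut P) x : P))
            * ((((b : MulAut P) x : P) : G)⁻¹ * ((a : MulAut P) ((b : MulAut P) x) : P)) := by
        show (x : G)⁻¹ * ((a : MulAut P) ((b : MulAut P) x) : P) = _
        group
      rw [h3]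
      exact Subgroup.mul_mem _ (hb x) (ha _)
    | inv a _ ha =>
      intro x
      have h3 : (x : G)⁻¹ * (((a⁻¹ : (fusionSystemOfSubgroup H T hTH).autGroup P) : MulAut P) x : P)
          = ((((a : MulAut P)⁻¹ x : P) : G)⁻¹
              * ((a : MulAut P) ((a : MulAut P)⁻¹ x) : P))⁻¹ := by
        rw [MulAut.apply_inv_self]
        show (x : G)⁻¹ * (((a : MulAut P)⁻¹ x : P) : G) = _
        group
      rw [h3]
      exact Subgroup.inv_mem _ (ha _)
  exact key α hα x

theorem fsos_hom_mono {H T H' T' : Subgroup G} (hTH : T ≤ H) (hTH' : T' ≤ H') (hT : T ≤ T')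
    (hH : H ≤ H') (P : Subgroup G) :
    (fusionSystemOfSubgroup H T hTH).Hom P ⊆ (fusionSystemOfSubgroup H' T' hTH').Hom P := by
  rintro φ ⟨h1, h2, g, hg, h3⟩
  exact ⟨h1.trans hT, fun x => hT (h2 x), g, hH hg, h3⟩

theorem inf_pResidual_le_hyperfocal_aux [Finite G] {p : ℕ} [Fact p.Prime] :
    ∀ (n : ℕ) (H T : Subgroup G) (hTH : T ≤ H), Nat.card H = n → IsPGroup p T →
      ¬ p ∣ T.relIndex H →
      T ⊓ (pResidual p H).map H.subtype ≤ (fusionSystemOfSubgroup H T hTH).hyperfocalSubgroup p := by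
  intro n
  induction n using Nat.strong_induction_on with
  | _ n ih =>
    intro H T hTH hn hT hidx
    have hKH : (pResidual p H).map H.subtype ≤ H := pResidual_map_le p H
    by_cases hHK : H ≤ (pResidual p H).map H.subtype
    · -- `H = O^p(H)`
      have h1 : T ≤ ⁅H, H⁆ := le_commutator_of_le_pResidual hTH hT hHK
      have hsat : (fusionSystemOfSubgroup H T hTH).IsSaturated p :=
        Cfsg.Agent.Lib.Helper88.fusionSystemOfSubgroup_isSaturated hTH
          (exists_sylow_of_relIndex hT hidx)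
      have h2 : T ≤ (fusionSystemOfSubgroup H T hTH).focalSubgroup :=
        (le_inf le_rfl h1).trans (inf_commutator_le_focal hTH hT hidx)
      rw [Cfsg.Agent.Lib.Helper87.focal_eq p hT _ hsat] at h2
      have hsc := Cfsg.Agent.S5124.result p hT _ hsat
      have h3 : (fusionSystemOfSubgroup H T hTH).hyperfocalSubgroup p = T := by
        refine eq_of_le_sup_commutator hT hsc.1 ?_ h2
        intro t ht m hm
        exact hsc.2 _ le_rfl _ ((fusionSystemOfSubgroup H T hTH).conj_mem hsc.1 ht) ⟨m, hm⟩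
      rw [h3]
      exact inf_le_left
    · -- `O^p(H) < H`
      have hlt : Nat.card ((pResidual p H).map H.subtype : Subgroup G) < Nat.card H := by
        by_contra hge
        exact hHK (Subgroup.eq_of_le_of_card_ge hKH (not_lt.mp hge)).ge
      have hidx' : ¬ p ∣ (T ⊓ (pResidual p H).map H.subtype).relIndex
          ((pResidual p H).map H.subtype) :=
        relIndex_inf_of_normal hT hidx hKH (fun h hh k hk => pResidual_map_conj_mem p hh hk)
      have h1 := ih _ (hn ▸ hlt) ((pResidual p H).map H.subtype)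
        (T ⊓ (pResidual p H).map H.subtype) inf_le_right rfl (hT.to_le inf_le_left) hidx'
      have h2 : (pResidual p H).map H.subtype
          ≤ (pResidual p ((pResidual p H).map H.subtype : Subgroup G)).map
              ((pResidual p H).map H.subtype : Subgroup G).subtype :=
        pResidual_map_le_pResidual p le_rfl
      refine (le_inf le_rfl (inf_le_right.trans h2)).trans (h1.trans ?_)
      exact hyperfocal_mono p _ _ (fsos_hom_mono inf_le_right hTH inf_le_left hKH)

/-- **Hyperfocal subgroup theorem** (inside an ambient finite group): if `T` is a Sylow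
`p`-subgroup of `H` then the hyperfocal subgroup of `F_T(H)` is `T ∩ O^p(H)` -/
theorem hyperfocal_fsos_eq [Finite G] {p : ℕ} [Fact p.Prime] {H T : Subgroup G} (hTH : T ≤ H)
    (hT : IsPGroup p T) (hidx : ¬ p ∣ T.relIndex H) :
    (fusionSystemOfSubgroup H T hTH).hyperfocalSubgroup p = T ⊓ (pResidual p H).map H.subtype :=
  le_antisymm (hyperfocal_fsos_le hTH) (inf_pResidual_le_hyperfocal_aux _ H T hTH rfl hT hidx)

theorem pResidual_map_top (p : ℕ) :
    (pResidual p (⊤ : Subgroup G)).map (⊤ : Subgroup G).subtype = pResidual p G := by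
  apply le_antisymm
  · show (Subgroup.closure {g : (⊤ : Subgroup G) | Nat.Coprime (orderOf g) p}).map _ ≤ _
    rw [MonoidHom.map_closure, Subgroup.closure_le]
    rintro _ ⟨g, hg, rfl⟩
    apply Subgroup.subset_closure
    show Nat.Coprime (orderOf ((g : G))) p
    rw [Subgroup.orderOf_coe]; exact hg
  · apply (Subgroup.closure_le _).mpr
    intro g hg
    refine ⟨⟨g, Subgroup.mem_top g⟩, Subgroup.subset_closure ?_, rfl⟩
    show Nat.Coprime (orderOf (⟨g, Subgroup.mem_top g⟩ : (⊤ : Subgroup G))) p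
    rw [← Subgroup.orderOf_coe]; exact hg

theorem gfs_hom_eq_fsos (S : Subgroup G) (P : Subgroup G) :
    (groupFusionSystem S).Hom P = (fusionSystemOfSubgroup ⊤ S le_top).Hom P := by
  ext φ
  constructor
  · rintro ⟨h1, h2, g, hg⟩
    exact ⟨h1, h2, g, Subgroup.mem_top g, hg⟩
  · rintro ⟨h1, h2, g, -, hg⟩
    exact ⟨h1, h2, g, hg⟩

/-- **Hyperfocal subgroup theorem**: for a Sylow `p`-subgroup `S` of a finite group `G` the
hyperfocal subgroup of `F_S(G)` is `S ∩ O^p(G)` -/
theorem hyperfocal_gfs_eq [Finite G] (p : ℕ) [Fact p.Prime] (S : Sylow p G) :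
    (groupFusionSystem (S : Subgroup G)).hyperfocalSubgroup p
      = (S : Subgroup G) ⊓ pResidual p G := by
  have hidx : ¬ p ∣ (S : Subgroup G).relIndex ⊤ := by
    rw [Subgroup.relIndex_top_right]; exact S.not_dvd_index
  have h1 := hyperfocal_fsos_eq (H := ⊤) (T := (S : Subgroup G)) le_top S.2 hidx
  rw [pResidual_map_top] at h1
  rw [← h1]
  exact le_antisymm (hyperfocal_mono p _ _ fun P => (gfs_hom_eq_fsos _ P).le)
    (hyperfocal_mono p _ _ fun P => (gfs_hom_eq_fsos _ P).ge)

/-! ### The fusion system of `O^p(G)` is the `p`-residual subsystem -/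

theorem pResidual_inf_relIndex [Finite G] (p : ℕ) [Fact p.Prime] (S : Sylow p G) :
    ¬ p ∣ ((S : Subgroup G) ⊓ pResidual p G).relIndex (pResidual p G) := by
  have hidx : ¬ p ∣ (S : Subgroup G).relIndex ⊤ := by
    rw [Subgroup.relIndex_top_right]; exact S.not_dvd_index
  exact relIndex_inf_of_normal S.2 hidx le_top (fun h _ k hk => pResidual_conj_mem p hk h)

theorem fsos_pResidual_isSaturated [Finite G] (p : ℕ) [Fact p.Prime] (S : Sylow p G) :
    (fusionSystemOfSubgroup (pResidual p G) ((S : Subgroup G) ⊓ pResidual p G)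
      inf_le_right).IsSaturated p :=
  Cfsg.Agent.Lib.Helper88.fusionSystemOfSubgroup_isSaturated inf_le_right
    (exists_sylow_of_relIndex (S.2.to_le inf_le_left) (pResidual_inf_relIndex p S))

theorem fsos_pResidual_hasPPowerIndexIn [Finite G] (p : ℕ) [Fact p.Prime] (S : Sylow p G) :
    (fusionSystemOfSubgroup (pResidual p G) ((S : Subgroup G) ⊓ pResidual p G)
      inf_le_right).HasPPowerIndexIn (groupFusionSystem (S : Subgroup G)) p := by
  refine ⟨?_, (hyperfocal_gfs_eq p S).le, ?_⟩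
  · rintro P φ ⟨h1, h2, g, -, h3⟩
    exact ⟨h1.trans inf_le_left, fun x => (h2 x).1, g, h3⟩
  · intro P hP
    show (Subgroup.closure {g : (groupFusionSystem (S : Subgroup G)).autGroup P |
      Nat.Coprime (orderOf g) p}).map _ ≤ _
    rw [MonoidHom.map_closure, Subgroup.closure_le]
    rintro _ ⟨γ, hγ, rfl⟩
    have h1 : Nat.Coprime (orderOf (γ : MulAut P)) p := by
      rw [Subgroup.orderOf_coe]; exact hγ
    obtain ⟨g, hg⟩ := (gfs_mem_autGroup_iff _ (hP.trans inf_le_left) (γ : MulAut P)).mp γ.2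
    obtain ⟨h, hh, hconj⟩ := exists_pResidual_conj (H := ⊤) (γ : MulAut P)
      ⟨g, Subgroup.mem_top g, hg⟩ h1
    rw [pResidual_map_top] at hh
    have h2 : (γ : MulAut P) ∈ (fusionSystemOfSubgroup (pResidual p G)
        ((S : Subgroup G) ⊓ pResidual p G) inf_le_right).autGroup P := by
      rw [Cfsg.Agent.Lib.Helper89.mem_autGroup_iff _ hP]
      exact ⟨hP, fun x => hP ((γ : MulAut P) x).2, h, hh, hconj⟩
    exact h2

/-- the `p`-residual subsystem of `F_S(G)` is `F_{S ∩ O^p(G)}(O^p(G))` -/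
theorem gfs_pResidual_hom_eq [Finite G] (p : ℕ) [Fact p.Prime] (S : Sylow p G)
    (E : FusionSystem ((groupFusionSystem (S : Subgroup G)).hyperfocalSubgroup p))
    (hE : (groupFusionSystem (S : Subgroup G)).IsPResidual p E) (P : Subgroup G) :
    E.Hom P = (fusionSystemOfSubgroup (pResidual p G) ((S : Subgroup G) ⊓ pResidual p G)
      inf_le_right).Hom P := by
  have hhyp := hyperfocal_gfs_eq p S
  have hfin : Finite ((groupFusionSystem (S : Subgroup G)).hyperfocalSubgroup p) := inferInstance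
  have hfin' : Finite ((S : Subgroup G) ⊓ pResidual p G : Subgroup G) := inferInstance
  have hp1 : IsPGroup p ((groupFusionSystem (S : Subgroup G)).hyperfocalSubgroup p) :=
    S.2.to_le (hhyp.le.trans inf_le_left)
  have hp2 : IsPGroup p ((S : Subgroup G) ⊓ pResidual p G : Subgroup G) := S.2.to_le inf_le_left
  have hD := fsos_pResidual_hasPPowerIndexIn p S
  apply Set.Subset.antisymm
  · exact le_of_pPowerIndex hp1 _ E hE.1 hE.2.1 _ hD hhyp.le P
  · exact le_of_pPowerIndex hp2 _ _ (fsos_pResidual_isSaturated p S) hD.1 E hE.2 hhyp.ge P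

end Cfsg.Agent.Lib.Helper89
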