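import Mathlib
import Cfsg.Agent.Lib.Helper89.FusAut

set_option autoImplicit false

namespace Cfsg.Agent.Lib.Helper89

open Cfsg Cfsg.FusionSystem

/-! ### The stabilizer of a chain of invariant subgroups is a normal `p`-subgroup -/

/-- the automorphisms in `A` acting trivially on the factors of the chain `W` -/
def chainStab {G : Type*} [Group G] (A : Subgroup (MulAut G)) (W : ℕ → Subgroup G)
    (hW : ∀ k, ∀ α ∈ A, ∀ x ∈ W k, α x ∈ W k) : Subgroup A where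
  carrier := {β | ∀ k, ∀ x ∈ W k, x⁻¹ * (β : MulAut G) x ∈ W (k + 1)}
  mul_mem' := by
    intro β γ hβ hγ k x hx
    have h1 : x⁻¹ * ((β * γ : A) : MulAut G) x
        = (x⁻¹ * (β : MulAut G) x) * (β : MulAut G) (x⁻¹ * (γ : MulAut G) x) := by
      simp [mul_assoc]
    rw [h1]
    exact (W (k + 1)).mul_mem (hβ k x hx) (hW (k + 1) β β.2 _ (hγ k x hx))
  one_mem' := by
    intro k x _
    simp
  inv_mem' := by
    intro β hβ k x hx
    have h1 : x⁻¹ * ((β⁻¹ : A) : MulAut G) x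
        = ((β⁻¹ : A) : MulAut G) ((x⁻¹ * (β : MulAut G) x)⁻¹) := by
      simp
    rw [h1]
    exact hW (k + 1) _ (β⁻¹).2 _ ((W (k + 1)).inv_mem (hβ k x hx))

theorem mem_chainStab {G : Type*} [Group G] (A : Subgroup (MulAut G)) (W : ℕ → Subgroup G)
    (hW : ∀ k, ∀ α ∈ A, ∀ x ∈ W k, α x ∈ W k) (β : A) :
    β ∈ chainStab A W hW ↔ ∀ k, ∀ x ∈ W k, x⁻¹ * (β : MulAut G) x ∈ W (k + 1) := Iff.rfl

theorem chainStab_normal {G : Type*} [Group G] (A : Subgroup (MulAut G)) (W : ℕ → Subgroup G)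
    (hW : ∀ k, ∀ α ∈ A, ∀ x ∈ W k, α x ∈ W k) : (chainStab A W hW).Normal := by
  constructor
  intro β hβ α k x hx
  have h1 : x⁻¹ * ((α * β * α⁻¹ : A) : MulAut G) x
      = (α : MulAut G) ((((α⁻¹ : A) : MulAut G) x)⁻¹ *
          (β : MulAut G) (((α⁻¹ : A) : MulAut G) x)) := by
    simp
  rw [h1]
  exact hW (k + 1) α α.2 _ (hβ k _ (hW k _ (α⁻¹).2 x hx))

theorem chainStab_isPGroup {G : Type*} [Group G] [Finite G] {p : ℕ} [Fact p.Prime]
    (hG : IsPGroup p G) (A : Subgroup (MulAut G)) (W : ℕ → Subgroup G)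
    (hW : ∀ k, ∀ α ∈ A, ∀ x ∈ W k, α x ∈ W k) (hW0 : W 0 = ⊤) (m : ℕ) (hWm : W m = ⊥) :
    IsPGroup p (chainStab A W hW) := by
  apply isPGroup_of_coprime_trivial
  rintro ⟨β, hβ⟩ m' hm' hβm
  apply Subtype.ext
  apply Subtype.ext
  show (β : MulAut G) = 1
  have hβm' : (β : MulAut G) ^ m' = 1 := by
    have := congrArg (fun z : chainStab A W hW => ((z : A) : MulAut G)) hβm
    simpa using this
  have htors : ∀ u : G, u ^ m' = 1 → u = 1 := by
    intro u hu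
    obtain ⟨k, hk⟩ := hG u
    have h1 : orderOf u ∣ p ^ k := orderOf_dvd_of_pow_eq_one hk
    have h2 : orderOf u ∣ m' := orderOf_dvd_of_pow_eq_one hu
    have h3 : orderOf u ∣ Nat.gcd (p ^ k) m' := Nat.dvd_gcd h1 h2
    have h4 : Nat.gcd (p ^ k) m' = 1 := Nat.Coprime.pow_left k hm'.symm
    rw [h4] at h3
    exact orderOf_eq_one_iff.mp (Nat.dvd_one.mp h3)
  have hmem : ∀ (i : ℕ) (x : G), x ∈ W 0 →
      (fun y : G => y⁻¹ * (β : MulAut G) y)^[i] x ∈ W i := by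
    intro i
    induction i with
    | zero => intro x hx; exact hx
    | succ i ih =>
      intro x hx
      rw [Function.iterate_succ_apply']
      exact hβ i _ (ih x hx)
  refine engel_trivial (β : MulAut G) m' hβm' htors m fun x => ?_
  have h1 := hmem m x (by rw [hW0]; exact Subgroup.mem_top x)
  rw [hWm, Subgroup.mem_bot] at h1
  exact h1

/-- elements of `K ⊔ R` are products when `R` normalizes `K` -/
theorem exists_mul_of_mem_sup {G : Type*} [Group G] {K R : Subgroup G}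
    (h : ∀ r ∈ R, ∀ k ∈ K, r * k * r⁻¹ ∈ K) {y : G} (hy : y ∈ K ⊔ R) :
    ∃ k ∈ K, ∃ r ∈ R, y = k * r := by
  rw [Subgroup.sup_eq_closure] at hy
  induction hy using Subgroup.closure_induction with
  | mem x hx =>
    rcases hx with hx | hx
    · exact ⟨x, hx, 1, R.one_mem, by simp⟩
    · exact ⟨1, K.one_mem, x, hx, by simp⟩
  | one => exact ⟨1, K.one_mem, 1, R.one_mem, by simp⟩
  | mul x y _ _ hx hy =>
    obtain ⟨k, hk, r, hr, rfl⟩ := hx
    obtain ⟨k', hk', r', hr', rfl⟩ := hy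
    refine ⟨k * (r * k' * r⁻¹), K.mul_mem hk (h r hr k' hk'), r * r', R.mul_mem hr hr', ?_⟩
    group
  | inv x _ hx =>
    obtain ⟨k, hk, r, hr, rfl⟩ := hx
    refine ⟨r⁻¹ * k⁻¹ * r⁻¹⁻¹, h r⁻¹ (R.inv_mem hr) k⁻¹ (K.inv_mem hk), r⁻¹, R.inv_mem hr, ?_⟩
    group

end Cfsg.Agent.Lib.Helper89
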