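import Mathlib
import Cfsg.Agent.Lib.Helper70.G4Base

/-!
# Job piece G4-D8c for S2553: the order bound `|T| ≤ 168`
-/

set_option autoImplicit false

namespace Cfsg.Agent.Lib.Helper89.G4

open Equiv

/-- orbit-stabilizer, as an upper bound -/
theorem card_le_orbit_bound {N : Type*} [Group N] {X : Type*} [MulAction N X] (b : X)
    (k : ℕ) (hk : Nat.card (MulAction.orbit N b) ≤ k) :
    Nat.card N ≤ k * Nat.card (MulAction.stabilizer N b) := by
  rw [← Nat.card_congr (MulAction.orbitProdStabilizerEquivGroup N b), Nat.card_prod]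
  exact Nat.mul_le_mul_right _ hk

/-- the bound for one elementary abelian group `V` normalised by `T` -/
theorem core8_aux (V : Subgroup (Perm (Fin 8)))
    (hc : ∀ a ∈ V, ∀ b ∈ V, a * b = b * a) (hV : Nat.card V = 8)
    (hs : Nat.card {g : Perm (Fin 8) // g 7 = 7 ∧ g 0 = 0 ∧ ∀ v ∈ V, g * v * g⁻¹ ∈ V} ≤ 24)
    (T : Subgroup (Perm (Fin 8))) (hTN : T ≤ Subgroup.normalizer (V : Set (Perm (Fin 8))))
    (hrad : Cfsg.Agent.Lib.Helper70.G4.RadFree T) : Nat.card T ≤ 168 := by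
  have hW : V.subgroupOf T = ⊥ := by
    apply hrad
    · constructor
      intro w hw t
      rw [Subgroup.mem_subgroupOf] at hw ⊢
      exact ((Subgroup.mem_normalizer_iff.1 (hTN t.2)) (w : Perm (Fin 8))).1 hw
    · apply Group.isSolvable_of_comm
      rintro ⟨a, ha⟩ ⟨b, hb⟩
      apply Subtype.ext
      apply Subtype.ext
      exact hc _ (Subgroup.mem_subgroupOf.1 ha) _ (Subgroup.mem_subgroupOf.1 hb)
  obtain ⟨N, hN⟩ : ∃ N : Subgroup (Perm (Fin 8)),
      N = Subgroup.normalizer (V : Set (Perm (Fin 8))) := ⟨_, rfl⟩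
  have hVN : V ≤ N := hN ▸ Subgroup.le_normalizer
  have hTN' : T ≤ N := hN ▸ hTN
  have hinj : Function.Injective (fun p : T × V =>
      (⟨(p.1 : Perm (Fin 8)) * (p.2 : Perm (Fin 8)), mul_mem (hTN' p.1.2) (hVN p.2.2)⟩ : N)) := by
    rintro ⟨t, v⟩ ⟨t', v'⟩ h
    have h' : (t : Perm (Fin 8)) * v = t' * v' := congrArg Subtype.val h
    have h1 : (t' : Perm (Fin 8))⁻¹ * t = v' * (v : Perm (Fin 8))⁻¹ := by
      rw [inv_mul_eq_iff_eq_mul, ← mul_assoc, ← h', mul_assoc, mul_inv_cancel, mul_one]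
    have h2 : (t'⁻¹ * t : T) ∈ V.subgroupOf T := by
      rw [Subgroup.mem_subgroupOf]
      have e : ((t'⁻¹ * t : T) : Perm (Fin 8)) = (t' : Perm (Fin 8))⁻¹ * t := rfl
      rw [e, h1]
      exact mul_mem v'.2 (inv_mem v.2)
    rw [hW, Subgroup.mem_bot] at h2
    have ht : t = t' := (inv_mul_eq_one.1 h2).symm
    subst ht
    have hv : (v : Perm (Fin 8)) = v' := mul_left_cancel h'
    exact Prod.ext rfl (Subtype.ext hv)
  have h4 : Nat.card T * 8 ≤ Nat.card N := by
    have h := Nat.card_le_card_of_injective _ hinj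
    rw [Nat.card_prod, hV] at h
    exact h
  have h5 : Nat.card N ≤ 8 * (7 * 24) := by
    have hb1 : Nat.card (MulAction.orbit N (7 : Fin 8)) ≤ 8 := by
      have h := Nat.card_le_card_of_injective
        (fun x : MulAction.orbit N (7 : Fin 8) => (x : Fin 8)) Subtype.val_injective
      simpa using h
    have h51 := card_le_orbit_bound (N := N) (7 : Fin 8) 8 hb1
    obtain ⟨N7, hN7⟩ : ∃ N7 : Subgroup N, N7 = MulAction.stabilizer N (7 : Fin 8) := ⟨_, rfl⟩
    rw [← hN7] at h51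
    have hfix7 : ∀ g : N7, (g : N) • (7 : Fin 8) = 7 := by
      intro g
      have hg : (g : N) ∈ MulAction.stabilizer N (7 : Fin 8) := hN7 ▸ g.2
      exact MulAction.mem_stabilizer_iff.1 hg
    have hb2 : Nat.card (MulAction.orbit N7 (0 : Fin 8)) ≤ 7 := by
      have hne : ∀ x : MulAction.orbit N7 (0 : Fin 8), (x : Fin 8) ≠ 7 := by
        rintro ⟨x, g, rfl⟩ h7
        have e1 : (g : N) • (0 : Fin 8) = (g : N) • (7 : Fin 8) := by
          rw [hfix7 g]
          exact h7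
        have e2 : (0 : Fin 8) = 7 := MulAction.injective (g : N) e1
        exact absurd e2 (by decide)
      have h := Nat.card_le_card_of_injective
        (fun x : MulAction.orbit N7 (0 : Fin 8) => (⟨(x : Fin 8), hne x⟩ : {y : Fin 8 // y ≠ 7}))
        (fun x y hxy => Subtype.ext (Subtype.mk.inj hxy))
      have hcard : Nat.card {y : Fin 8 // y ≠ 7} = 7 := by
        rw [Nat.card_eq_fintype_card]
        decide
      rw [hcard] at h
      exact h
    have h52 := card_le_orbit_bound (N := N7) (0 : Fin 8) 7 hb2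
    have hb3 : Nat.card (MulAction.stabilizer N7 (0 : Fin 8)) ≤ 24 := by
      have hmem : ∀ g : MulAction.stabilizer N7 (0 : Fin 8),
          (((g : N7) : N) : Perm (Fin 8)) 7 = 7 ∧ (((g : N7) : N) : Perm (Fin 8)) 0 = 0 ∧
            ∀ v ∈ V, (((g : N7) : N) : Perm (Fin 8)) * v * (((g : N7) : N) : Perm (Fin 8))⁻¹ ∈ V := by
        intro g
        refine ⟨hfix7 (g : N7), MulAction.mem_stabilizer_iff.1 g.2, fun v hv => ?_⟩
        have hgN : (((g : N7) : N) : Perm (Fin 8)) ∈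
            Subgroup.normalizer (V : Set (Perm (Fin 8))) := hN ▸ ((g : N7) : N).2
        exact ((Subgroup.mem_normalizer_iff.1 hgN) v).1 hv
      refine le_trans (Nat.card_le_card_of_injective
        (fun g : MulAction.stabilizer N7 (0 : Fin 8) =>
          (⟨(((g : N7) : N) : Perm (Fin 8)), hmem g⟩ :
            {g : Perm (Fin 8) // g 7 = 7 ∧ g 0 = 0 ∧ ∀ v ∈ V, g * v * g⁻¹ ∈ V})) ?_) hs
      intro g g' h
      exact Subtype.ext (Subtype.ext (Subtype.ext (Subtype.mk.inj h)))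
    calc Nat.card N ≤ 8 * Nat.card N7 := h51
      _ ≤ 8 * (7 * Nat.card (MulAction.stabilizer N7 (0 : Fin 8))) :=
          Nat.mul_le_mul_left _ h52
      _ ≤ 8 * (7 * 24) := Nat.mul_le_mul_left _ (Nat.mul_le_mul_left _ hb3)
  omega

/-- **Piece D8c** -/
theorem core8 (x0 : Equiv.Perm (Fin 8)) (V1 V2 : Subgroup (Equiv.Perm (Fin 8)))
    (hstar : ∀ g : Equiv.Perm (Fin 8), g ∈ alternatingGroup (Fin 8) →
      (∀ v ∈ V1, g * v * g⁻¹ ∈ V1) ∨ (∀ v ∈ V2, g * v * g⁻¹ ∈ V2) ∨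
        ∃ h ∈ Subgroup.closure {x0, g}, 5 ∣ orderOf h)
    (hc1 : ∀ a ∈ V1, ∀ b ∈ V1, a * b = b * a) (hc2 : ∀ a ∈ V2, ∀ b ∈ V2, a * b = b * a)
    (hV1 : Nat.card V1 = 8) (hV2 : Nat.card V2 = 8)
    (hs1 : Nat.card {g : Equiv.Perm (Fin 8) // g 7 = 7 ∧ g 0 = 0 ∧ ∀ v ∈ V1, g * v * g⁻¹ ∈ V1} ≤ 24)
    (hs2 : Nat.card {g : Equiv.Perm (Fin 8) // g 7 = 7 ∧ g 0 = 0 ∧ ∀ v ∈ V2, g * v * g⁻¹ ∈ V2} ≤ 24)
    (T : Subgroup (Equiv.Perm (Fin 8))) (hx : x0 ∈ T) (hA : T ≤ alternatingGroup (Fin 8))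
    (h5 : ¬ 5 ∣ Nat.card T) (hrad : Cfsg.Agent.Lib.Helper70.G4.RadFree T) : Nat.card T ≤ 168 := by
  have hT12 : ∀ g ∈ T, g ∈ Subgroup.normalizer (V1 : Set (Perm (Fin 8))) ∨
      g ∈ Subgroup.normalizer (V2 : Set (Perm (Fin 8))) := by
    intro g hg
    rcases hstar g (hA hg) with h | h | ⟨h, hh, h5'⟩
    · left
      exact Subgroup.mem_normalizer_fintype (fun n hn => h n hn)
    · right
      exact Subgroup.mem_normalizer_fintype (fun n hn => h n hn)
    · exfalso
      have hhT : h ∈ T := by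
        refine (Subgroup.closure_le T).2 ?_ hh
        intro y hy
        rcases hy with rfl | rfl
        · exact hx
        · exact hg
      apply h5
      have h1 : orderOf (⟨h, hhT⟩ : T) ∣ Nat.card T := orderOf_dvd_natCard _
      rw [Subgroup.orderOf_mk] at h1
      exact dvd_trans h5' h1
  have hcases : T ≤ Subgroup.normalizer (V1 : Set (Perm (Fin 8))) ∨
      T ≤ Subgroup.normalizer (V2 : Set (Perm (Fin 8))) := by
    by_contra hcon
    obtain ⟨h1, h2⟩ := not_or.1 hcon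
    obtain ⟨a, haT, ha⟩ := SetLike.not_le_iff_exists.1 h1
    obtain ⟨b, hbT, hb⟩ := SetLike.not_le_iff_exists.1 h2
    have ha2 := (hT12 a haT).resolve_left ha
    have hb1 := (hT12 b hbT).resolve_right hb
    rcases hT12 (a * b) (mul_mem haT hbT) with h | h
    · apply ha
      have h3 := mul_mem h (inv_mem hb1)
      rwa [mul_inv_cancel_right] at h3
    · apply hb
      have h3 := mul_mem (inv_mem ha2) h
      rwa [inv_mul_cancel_left] at h3
  rcases hcases with h | h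
  · exact core8_aux V1 hc1 hV1 hs1 T h hrad
  · exact core8_aux V2 hc2 hV2 hs2 T h hrad

end Cfsg.Agent.Lib.Helper89.G4
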