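import Mathlib
import Cfsg.Agent.Lib.Helper84.GADefs

/-!
# GA-NPC (helper89): a normal subgroup of order prime to `p` and `p`-power index is a normal
`p`-complement.
-/

set_option autoImplicit false

namespace Cfsg.Agent.Lib.Helper89.GA

universe u

open Cfsg.Agent.Lib.Helper84.GA

theorem npcOrd : NpcOrdStmt.{u} := by
  intro Γ _ _ p _ N hN hpN ⟨a, ha⟩
  obtain ⟨P⟩ : Nonempty (Sylow p Γ) := inferInstance
  have hp : p.Prime := Fact.out
  have hcard : Nat.card N * p ^ a = Nat.card Γ := by
    rw [← ha]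
    exact N.card_mul_index
  have hN0 : Nat.card N ≠ 0 := Nat.card_pos.ne'
  have hP : Nat.card P = p ^ a := by
    rw [Sylow.card_eq_multiplicity, ← hcard,
      Nat.factorization_mul hN0 (pow_ne_zero _ hp.ne_zero), Nat.Prime.factorization_pow hp]
    simp [Nat.factorization_eq_zero_of_not_dvd hpN]
  refine ⟨P, N, hN, Subgroup.isComplement'_of_coprime (by rw [hP]; exact hcard) ?_⟩
  rw [hP]
  exact Nat.Coprime.pow_right a (Nat.Coprime.symm ((Nat.Prime.coprime_iff_not_dvd hp).2 hpN))

end Cfsg.Agent.Lib.Helper89.GA
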