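import Cfsg.Agent.Lib.Helper15.GFac

set_option autoImplicit false
open scoped commutatorElement Pointwise

/-!
# Glauberman's factorization, fusion form (helper89)

`gfac_mor`: let `T` be a Sylow `p`-subgroup of `H` with `C_H(O_p(H)) ≤ O_p(H)`.  Any property `Q A h`
of "conjugation by `h` on the subgroup `A` of `T`" which is closed under composition and holds for
the elements of `H` centralizing the `p`-th powers of `Z(T)` and for the elements of `H`
normalizing `J(T)` holds for every `h ∈ H` and `A ≤ T` with `h A h⁻¹ ≤ T`.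

The proof follows the recursion of `Cfsg.Agent.Lib.Helper15.gfac_aux`, with the Frattini argument
refined so that the intermediate conjugates of `A` stay inside `T`.
-/

namespace Cfsg.Agent.Lib.Helper89.GenJ

open Cfsg Cfsg.Agent.Lib.Helper42 Cfsg.Agent.Lib.Helper2 Cfsg.Agent.Lib.Helper59
  Cfsg.Agent.Lib.Helper15

variable {G : Type*} [Group G]

/-- Frattini argument keeping a conjugate of `A` inside the Sylow subgroup `T`. -/
theorem frattini_conj [Finite G] {p : ℕ} [Fact p.Prime] {H T D : Subgroup G}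
    (hT : IsSylIn p T H) (hDH : D ≤ H) (hHD : H ≤ Subgroup.normalizer (D : Set G))
    {h : G} (hh : h ∈ H) {A : Subgroup G} (hA : A ≤ T) (hhA : cj h A ≤ T) :
    ∃ d ∈ D, d * h ∈ Subgroup.normalizer ((T ⊓ D : Subgroup G) : Set G) ∧ cj (d * h) A ≤ T := by
  have hSylD : IsSylIn p (T ⊓ D) D := hT.inf_normal hDH hHD
  obtain ⟨d₀, hd₀, hk₀⟩ := frattini_isSylIn hSylD (hHD hh)
  set K := H ⊓ Subgroup.normalizer ((T ⊓ D : Subgroup G) : Set G) with hK
  have hTK : T ≤ K := by
    refine le_inf hT.1 ?_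
    intro x hx
    rw [← cj_eq_self_iff, cj_inf, cj_eq_of_mem_normalizer (hHD (hT.1 hx)),
      cj_eq_of_mem_normalizer (Subgroup.le_normalizer hx)]
  have hk₀K : d₀ * h ∈ K := ⟨H.mul_mem (hDH hd₀) hh, hk₀⟩
  set M := K ⊓ (T ⊔ D) with hM
  have hTM : T ≤ M := le_inf hTK le_sup_left
  have hMH : M ≤ H := inf_le_left.trans inf_le_left
  have hSylM : IsSylIn p T M := hT.of_le hTM hMH
  have hA₁M : cj (d₀ * h) A ≤ M := by
    rintro _ ⟨a, ha, rfl⟩
    have haT : a ∈ T := hA ha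
    refine ⟨?_, ?_⟩
    · show d₀ * h * a * (d₀ * h)⁻¹ ∈ K
      exact K.mul_mem (K.mul_mem hk₀K (hTK haT)) (K.inv_mem hk₀K)
    · have h1 : h * a * h⁻¹ ∈ T := hhA (conj_mem_cj ha)
      have h2 : d₀ * h * a * (d₀ * h)⁻¹ = d₀ * (h * a * h⁻¹) * d₀⁻¹ := by group
      show d₀ * h * a * (d₀ * h)⁻¹ ∈ T ⊔ D
      rw [h2]
      exact (T ⊔ D).mul_mem ((T ⊔ D).mul_mem (Subgroup.mem_sup_right hd₀)
        (Subgroup.mem_sup_left h1)) ((T ⊔ D).inv_mem (Subgroup.mem_sup_right hd₀))
  have hA₁p : IsPGroup p (cj (d₀ * h) A) := isPGroup_cj (hT.2.1.to_le hA)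
  obtain ⟨x, hxM, hx⟩ := hSylM.exists_conj_le hA₁M hA₁p
  have hTD : T ≤ Subgroup.normalizer (D : Set G) := hT.1.trans hHD
  have hxmul : x ∈ (T : Set G) * (D : Set G) := by
    rw [← Subgroup.coe_mul_of_left_le_normalizer_right T D hTD]
    exact hxM.2
  obtain ⟨t, ht, y, hy, rfl⟩ := Set.mem_mul.1 hxmul
  have ht' : t ∈ T := ht
  have hy' : y ∈ D := hy
  have hyK : y ∈ K := by
    have h1 : y = t⁻¹ * (t * y) := by group
    rw [h1]
    exact K.mul_mem (K.inv_mem (hTK ht')) hxM.1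
  refine ⟨y * d₀, D.mul_mem hy' hd₀, ?_, ?_⟩
  · rw [mul_assoc]
    exact Subgroup.mul_mem _ hyK.2 hk₀
  · rw [mul_assoc, ← cj_cj]
    have h1 : cj t (cj y (cj (d₀ * h) A)) ≤ T := by
      rw [cj_cj]
      exact hx
    rw [cj_le_iff] at h1
    refine h1.trans ?_
    rw [cj_eq_of_mem_normalizer (Subgroup.le_normalizer (T.inv_mem ht'))]

/-- **Glauberman's factorization, fusion form.** -/
theorem gfac_mor [Finite G] {p : ℕ} [Fact p.Prime] (Q : Subgroup G → G → Prop) :
    ∀ (n : ℕ) (H T : Subgroup G), Nat.card H = n → IsSylIn p T H →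
      H ⊓ Subgroup.centralizer ((pCoreOf p H : Subgroup G) : Set G) ≤ pCoreOf p H →
      (∀ (A : Subgroup G) (h₁ h₂ : G), A ≤ T → cj h₁ A ≤ T → cj (h₂ * h₁) A ≤ T →
        Q A h₁ → Q (cj h₁ A) h₂ → Q A (h₂ * h₁)) →
      (∀ c ∈ H, (∀ z ∈ T ⊓ Subgroup.centralizer (T : Set G), c * z ^ p * c⁻¹ = z ^ p) →
        ∀ A : Subgroup G, A ≤ T → cj c A ≤ T → Q A c) →
      (∀ m ∈ H, m ∈ Subgroup.normalizer ((JJ T : Subgroup G) : Set G) →
        ∀ A : Subgroup G, A ≤ T → cj m A ≤ T → Q A m) →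
      ∀ h ∈ H, ∀ A : Subgroup G, A ≤ T → cj h A ≤ T → Q A h := by
  intro n
  induction n using Nat.strong_induction_on with
  | _ n ih =>
  intro H T hn hT hcon hcomp hcent hnorm h hh A hA hhA
  classical
  set P := pCoreOf p H with hP
  have hPH : P ≤ H := pCoreOf_le p H
  have hPp : IsPGroup p P := isPGroup_pCoreOf p H
  have hPn : H ≤ Subgroup.normalizer (P : Set G) := le_normalizer_pCoreOf p H
  have hPT : P ≤ T := hT.normal_le hPH hPp hPn
  by_cases hJ : JJ T ≤ P
  · refine hnorm h hh ?_ A hA hhA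
    rw [← gf_JJ_eq_of_le hPT hJ]
    exact mem_normalizer_JJ (hPn hh)
  · obtain ⟨g, hgT, hgP, hgp, hquad⟩ := gf_quad_elt hT hJ
    set V := P ⊓ Subgroup.centralizer (P : Set G) with hV
    have hVab : ∀ u ∈ V, ∀ v ∈ V, u * v = v * u := by
      intro u hu v hv
      exact (Subgroup.mem_centralizer_iff.mp hv.2) u hu.1
    have hVn : ∀ x ∈ H, cj x V = V := by
      intro x hx
      rw [hV, cj_inf, ← centralizer_cj, cj_eq_of_mem_normalizer (hPn hx)]
    have hgV : g ∈ Subgroup.normalizer (V : Set G) :=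
      cj_eq_self_iff.mp (hVn _ (hT.1 hgT))
    have hgn : g ^ p ∈ Subgroup.centralizer (V : Set G) := by
      rw [Subgroup.mem_centralizer_iff]
      intro v hv
      exact ((Subgroup.mem_centralizer_iff.mp hv.2) _ hgp).symm
    have hcent' := quad_pow_central hVab hgV hquad hgn
    set D := H ⊓ Subgroup.centralizer ((fun v => v ^ p) '' (V : Set G)) with hD
    have hDH : D ≤ H := inf_le_left
    have hHD : H ≤ Subgroup.normalizer (D : Set G) := by
      apply le_normalizer_of_conj_mem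
      rintro x hx n ⟨hnH, hnC⟩
      have hnH' : n ∈ H := hnH
      have hnC' : n ∈ Subgroup.centralizer ((fun v => v ^ p) '' (V : Set G)) := hnC
      refine ⟨H.mul_mem (H.mul_mem hx hnH') (H.inv_mem hx), ?_⟩
      show x * n * x⁻¹ ∈ Subgroup.centralizer ((fun v => v ^ p) '' (V : Set G))
      rw [Subgroup.mem_centralizer_iff]
      rintro _ ⟨v, hv, rfl⟩
      have hv' : x⁻¹ * v * x ∈ V := by
        have := conj_mem_cj (g := x⁻¹) hv
        rw [hVn _ (H.inv_mem hx)] at this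
        simpa using this
      have h1 := (Subgroup.mem_centralizer_iff.mp hnC') ((x⁻¹ * v * x) ^ p) ⟨_, hv', rfl⟩
      have e1 : (x⁻¹ * v * x) ^ p = x⁻¹ * v ^ p * x := by
        have := conj_pow (a := x⁻¹) (b := v) (i := p)
        simpa using this
      rw [e1] at h1
      show v ^ p * (x * n * x⁻¹) = x * n * x⁻¹ * v ^ p
      calc v ^ p * (x * n * x⁻¹) = x * ((x⁻¹ * v ^ p * x) * n) * x⁻¹ := by group
        _ = x * (n * (x⁻¹ * v ^ p * x)) * x⁻¹ := by rw [h1]
        _ = x * n * x⁻¹ * v ^ p := by group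
    have hgD : g ∈ D := by
      refine ⟨hT.1 hgT, ?_⟩
      show g ∈ Subgroup.centralizer ((fun v => v ^ p) '' (V : Set G))
      rw [Subgroup.mem_centralizer_iff]
      rintro _ ⟨v, hv, rfl⟩
      have := hcent' v hv
      show v ^ p * g = g * v ^ p
      calc v ^ p * g = (g * v ^ p * g⁻¹) * g := by rw [this]
        _ = g * v ^ p := by group
    have hZV : ∀ z ∈ T ⊓ Subgroup.centralizer (T : Set G), z ∈ V := by
      intro z hz
      have hzc : z ∈ Subgroup.centralizer (P : Set G) :=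
        Subgroup.centralizer_le hPT hz.2
      exact ⟨hcon ⟨hT.1 hz.1, hzc⟩, hzc⟩
    have hDz : ∀ d ∈ D, ∀ z ∈ T ⊓ Subgroup.centralizer (T : Set G),
        d * z ^ p * d⁻¹ = z ^ p := by
      rintro d ⟨_, hdC⟩ z hz
      have hdC' : d ∈ Subgroup.centralizer ((fun v => v ^ p) '' (V : Set G)) := hdC
      have := (Subgroup.mem_centralizer_iff.mp hdC') (z ^ p) ⟨z, hZV z hz, rfl⟩
      rw [← this]; group
    set K := H ⊓ Subgroup.normalizer ((T ⊓ D : Subgroup G) : Set G) with hK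
    have hKH : K ≤ H := inf_le_left
    obtain ⟨d, hd, hdk, hdA⟩ := frattini_conj hT hDH hHD hh hA hhA
    have hkK : d * h ∈ K := ⟨H.mul_mem (hDH hd) hh, hdk⟩
    have hKne : K ≠ H := by
      intro hKeq
      have h1 : T ⊓ D ≤ P := le_pCoreOf (inf_le_right.trans hDH) (hT.2.1.to_inf_left)
        (by rw [← hKeq]; exact inf_le_right)
      exact hgP (h1 ⟨hgT, hgD⟩)
    have hTK : T ≤ K := by
      refine le_inf hT.1 ?_
      intro x hx
      rw [← cj_eq_self_iff, cj_inf, cj_eq_of_mem_normalizer (hHD (hT.1 hx)),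
        cj_eq_of_mem_normalizer (Subgroup.le_normalizer hx)]
    have hTK' : IsSylIn p T K := hT.of_le hTK hKH
    have hPK : P ≤ pCoreOf p K := le_pCoreOf (hPT.trans hTK) hPp (hKH.trans hPn)
    have hconK : K ⊓ Subgroup.centralizer ((pCoreOf p K : Subgroup G) : Set G) ≤ pCoreOf p K := by
      intro x hx
      exact hPK (hcon ⟨hKH hx.1, Subgroup.centralizer_le hPK hx.2⟩)
    have hQk : Q A (d * h) :=
      ih (Nat.card K) (hn ▸ card_lt_of_lt (lt_of_le_of_ne hKH hKne)) K T rfl hTK' hconK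
        hcomp (fun c hc => hcent c (hKH hc)) (fun m hm => hnorm m (hKH hm))
        (d * h) hkK A hA hdA
    have e : d⁻¹ * (d * h) = h := by group
    have hA2 : cj (d⁻¹ * (d * h)) A ≤ T := by rw [e]; exact hhA
    have hQd : Q (cj (d * h) A) d⁻¹ := by
      refine hcent d⁻¹ (H.inv_mem (hDH hd)) (hDz d⁻¹ (D.inv_mem hd)) _ hdA ?_
      rw [cj_cj]
      exact hA2
    have := hcomp A (d * h) d⁻¹ hA hdA hA2 hQk hQd
    rwa [e] at this

end Cfsg.Agent.Lib.Helper89.GenJ
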