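import Mathlib
import Cfsg.Agent.Lib.Helper56.Transfer
import Cfsg.Agent.Lib.Helper89.IdxModel

set_option autoImplicit false

/-!
# Index models: whole groups, quotients by the centre, abelian subgroups (helper89)

From an index model of a subgroup `P` we get index models of the group `↥P`, of every Sylow
subgroup of a finite group in which `P` has the order of a Sylow subgroup, and of the quotient
by a centre of order `2`.  For a group with an index model there are checkers for: the centres
of the maximal subgroups are small; a list of indices is an elementary abelian subgroup; all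
abelian subgroups of a given order lie in a given list.
-/

namespace Cfsg.Agent.Lib.Helper89

section

variable {Ω : Type*} [Group Ω] {P : Subgroup Ω} {n : ℕ} {e : ℕ → Ω} {mul : ℕ → ℕ → ℕ}
  {inv : ℕ → ℕ} {one : ℕ}

/-- the indexing of the elements of `P`, as elements of the group `↥P` -/
noncomputable def ixSub (P : Subgroup Ω) (e : ℕ → Ω) (a : ℕ) : ↥P :=
  open Classical in if h : e a ∈ P then ⟨e a, h⟩ else 1

theorem ixSub_val (D : IxModel P n e mul inv one) {a : ℕ} (ha : a < n) :
    (ixSub P e a : Ω) = e a := by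
  unfold ixSub
  rw [dif_pos (D.mem a ha)]

/-- the model of the group `↥P` -/
theorem IxModel.top (D : IxModel P n e mul inv one) :
    IxModel (⊤ : Subgroup ↥P) n (ixSub P e) mul inv one where
  mem := fun _ _ => Subgroup.mem_top _
  surj := fun x _ => by
    obtain ⟨a, ha, h⟩ := D.surj x x.2
    exact ⟨a, ha, Subtype.ext ((ixSub_val D ha).trans h)⟩
  inj := fun a ha b hb h => D.inj a ha b hb (by rw [← ixSub_val D ha, ← ixSub_val D hb, h])
  mul_lt := D.mul_lt
  e_mul := fun a ha b hb => Subtype.ext (by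
    rw [Subgroup.coe_mul, ixSub_val D (D.mul_lt a ha b hb), ixSub_val D ha, ixSub_val D hb,
      D.e_mul a ha b hb])
  inv_lt := D.inv_lt
  e_inv := fun a ha => Subtype.ext (by
    rw [Subgroup.coe_inv, ixSub_val D (D.inv_lt a ha), ixSub_val D ha, D.e_inv a ha])
  one_lt := D.one_lt
  e_one := Subtype.ext (by rw [Subgroup.coe_one, ixSub_val D D.one_lt, D.e_one])

end

section

variable {G : Type*} [Group G] {n : ℕ} {e : ℕ → G} {mul : ℕ → ℕ → ℕ} {inv : ℕ → ℕ} {one : ℕ}

/-- transport of a model of a whole group along an isomorphism -/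
theorem IxModel.mapEquiv {H : Type*} [Group H] (D : IxModel (⊤ : Subgroup G) n e mul inv one)
    (φ : G ≃* H) : IxModel (⊤ : Subgroup H) n (fun a => φ (e a)) mul inv one where
  mem := fun _ _ => Subgroup.mem_top _
  surj := fun x _ => by
    obtain ⟨a, ha, h⟩ := D.surj (φ.symm x) (Subgroup.mem_top _)
    refine ⟨a, ha, ?_⟩
    show φ (e a) = x
    rw [h, MulEquiv.apply_symm_apply]
  inj := fun a ha b hb h => D.inj a ha b hb (φ.injective h)
  mul_lt := D.mul_lt
  e_mul := fun a ha b hb => by
    show φ (e (mul a b)) = φ (e a) * φ (e b)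
    rw [D.e_mul a ha b hb, map_mul]
  inv_lt := D.inv_lt
  e_inv := fun a ha => by
    show φ (e (inv a)) = (φ (e a))⁻¹
    rw [D.e_inv a ha, map_inv]
  one_lt := D.one_lt
  e_one := by
    show φ (e one) = 1
    rw [D.e_one, map_one]

theorem IxModel.finite_top (D : IxModel (⊤ : Subgroup G) n e mul inv one) : Finite G := by
  have h1 : Nat.card (⊤ : Subgroup G) = n := D.card
  rw [Subgroup.card_top] at h1
  exact Nat.finite_of_card_ne_zero (by
    rw [h1]; exact Nat.ne_of_gt (Nat.lt_of_le_of_lt (Nat.zero_le _) D.one_lt))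

theorem IxModel.card_top (D : IxModel (⊤ : Subgroup G) n e mul inv one) : Nat.card G = n := by
  have h1 : Nat.card (⊤ : Subgroup G) = n := D.card
  rwa [Subgroup.card_top] at h1

theorem IxModel.exists_ix (D : IxModel (⊤ : Subgroup G) n e mul inv one) (x : G) :
    ∃ a < n, e a = x := D.surj x (Subgroup.mem_top x)

/-- the commutation test -/
theorem IxModel.comm_iff (D : IxModel (⊤ : Subgroup G) n e mul inv one) {a b : ℕ} (ha : a < n)
    (hb : b < n) : Nat.beq (mul a b) (mul b a) = true ↔ e a * e b = e b * e a := by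
  constructor
  · intro h
    rw [← D.e_mul a ha b hb, ← D.e_mul b hb a ha, Nat.eq_of_beq_eq_true h]
  · intro h
    rw [← D.e_mul a ha b hb, ← D.e_mul b hb a ha] at h
    rw [D.inj _ (D.mul_lt a ha b hb) _ (D.mul_lt b hb a ha) h]
    exact Nat.beq_refl _

end

/-- a model of every Sylow subgroup of a finite group, from a model of one subgroup of the
order of a Sylow subgroup -/
theorem IxModel.sylow {Ω : Type*} [Group Ω] {P : Subgroup Ω} {n : ℕ} {e : ℕ → Ω}
    {mul : ℕ → ℕ → ℕ} {inv : ℕ → ℕ} {one : ℕ} (D : IxModel P n e mul inv one)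
    (H : Subgroup Ω) [Finite H] (p : ℕ) [Fact p.Prime] (hP : P ≤ H)
    (hcard : Nat.card P = p ^ (Nat.card H).factorization p) (S : Sylow p H) :
    ∃ e' : ℕ → ↥(S : Subgroup H),
      IxModel (⊤ : Subgroup ↥(S : Subgroup H)) n e' mul inv one := by
  have hc0 : Nat.card (P.subgroupOf H) = p ^ (Nat.card H).factorization p := by
    rw [← hcard]; exact Nat.card_congr (Subgroup.subgroupOfEquivOfLe hP).toEquiv
  obtain ⟨h, rfl⟩ := MulAction.exists_smul_eq H (Sylow.ofCard (P.subgroupOf H) hc0) S
  exact ⟨_, D.top.mapEquiv ((Subgroup.subgroupOfEquivOfLe hP).symm.trans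
    (Sylow.equivSMul (Sylow.ofCard (P.subgroupOf H) hc0) h))⟩

section

variable {G : Type*} [Group G] {n : ℕ} {e : ℕ → G} {mul : ℕ → ℕ → ℕ} {inv : ℕ → ℕ} {one : ℕ}

/-- the model of the quotient by a centre of order `2`: `z` is the index of the central
involution, commuting with the entries of `Qc` is enough to be central, `rep` chooses a
representative in each coset and `cidx` gives the number of the coset -/
theorem IxModel.quotCenter (D : IxModel (⊤ : Subgroup G) n e mul inv one)
    {z m : ℕ} {rep cidx : ℕ → ℕ} {Qc : List ℕ}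
    (hz : Nat.blt z n = true) (hQc : ixAllL (fun q => Nat.blt q n) Qc = true)
    (hZ1 : ixAllN (fun b => Nat.beq (mul z b) (mul b z)) n = true)
    (hZ2 : ixAllN (fun a => ixOr (ixNot (ixAllL (fun b => Nat.beq (mul a b) (mul b a)) Qc))
      (ixOr (Nat.beq a one) (Nat.beq a z))) n = true)
    (hR1 : ixAllN (fun k => ixAnd (Nat.blt (rep k) n) (Nat.beq (cidx (rep k)) k)) m = true)
    (hR2 : ixAllN (fun a => ixAnd (Nat.blt (cidx a) m)
      (ixAnd (ixOr (Nat.beq (rep (cidx a)) a) (Nat.beq (rep (cidx a)) (mul a z)))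
        (Nat.beq (cidx (mul a z)) (cidx a)))) n = true) :
    IxModel (⊤ : Subgroup (G ⧸ Subgroup.center G)) m
      (fun k => (QuotientGroup.mk (e (rep k)) : G ⧸ Subgroup.center G))
      (fun k l => cidx (mul (rep k) (rep l))) (fun k => cidx (inv (rep k))) (cidx one) := by
  have hz' : z < n := Nat.le_of_ble_eq_true hz
  have hQc' : ∀ q ∈ Qc, q < n := fun q hq => Nat.le_of_ble_eq_true ((ixAllL_iff _ _).mp hQc q hq)
  have hZ1' := (ixAllN_iff _ _).mp hZ1
  have hZ2' := (ixAllN_iff _ _).mp hZ2
  have hR1' : ∀ k < m, rep k < n ∧ cidx (rep k) = k := by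
    intro k hk
    have h := (ixAllN_iff _ _).mp hR1 k hk
    rw [ixAnd_iff] at h
    exact ⟨Nat.le_of_ble_eq_true h.1, Nat.eq_of_beq_eq_true h.2⟩
  have hR2' : ∀ a < n, cidx a < m ∧ (rep (cidx a) = a ∨ rep (cidx a) = mul a z) ∧
      cidx (mul a z) = cidx a := by
    intro a ha
    have h := (ixAllN_iff _ _).mp hR2 a ha
    rw [ixAnd_iff, ixAnd_iff, ixOr_iff] at h
    exact ⟨Nat.le_of_ble_eq_true h.1,
      h.2.1.imp Nat.eq_of_beq_eq_true Nat.eq_of_beq_eq_true, Nat.eq_of_beq_eq_true h.2.2⟩
  -- the centre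
  have hzc : e z ∈ Subgroup.center G := by
    rw [Subgroup.mem_center_iff]
    intro g
    obtain ⟨b, hb, rfl⟩ := D.exists_ix g
    exact ((D.comm_iff hz' hb).mp (hZ1' b hb)).symm
  have hcen : ∀ x ∈ Subgroup.center G, x = 1 ∨ x = e z := by
    intro x hx
    obtain ⟨a, ha, rfl⟩ := D.exists_ix x
    have h := hZ2' a ha
    rw [ixOr_iff, ixOr_iff, ixNot_iff] at h
    rcases h with h | h | h
    · exfalso
      have h2 : ixAllL (fun b => Nat.beq (mul a b) (mul b a)) Qc = true := by
        rw [ixAllL_iff]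
        intro q hq
        refine (D.comm_iff ha (hQc' q hq)).mpr ?_
        exact ((Subgroup.mem_center_iff.mp hx) (e q)).symm
      rw [h] at h2
      exact Bool.false_ne_true h2
    · left
      rw [Nat.eq_of_beq_eq_true h, D.e_one]
    · right
      rw [Nat.eq_of_beq_eq_true h]
  have key1 : ∀ a < n, (QuotientGroup.mk (e (rep (cidx a))) : G ⧸ Subgroup.center G)
      = QuotientGroup.mk (e a) := by
    intro a ha
    rcases (hR2' a ha).2.1 with h | h
    · rw [h]
    · rw [h, D.e_mul a ha z hz']
      exact QuotientGroup.mk_mul_of_mem (e a) hzc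
  have key2 : ∀ a < n, ∀ b < n, (QuotientGroup.mk (e a) : G ⧸ Subgroup.center G)
      = QuotientGroup.mk (e b) → cidx a = cidx b := by
    intro a ha b hb h
    rcases hcen _ (QuotientGroup.eq.mp h) with h1 | h1
    · have h2 : e a = e b := by
        rw [inv_mul_eq_one] at h1
        exact h1
      rw [D.inj a ha b hb h2]
    · have h2 : e b = e (mul a z) := by
        rw [D.e_mul a ha z hz', ← h1]
        group
      rw [D.inj b hb _ (D.mul_lt a ha z hz') h2, (hR2' a ha).2.2]
  exact
    { mem := fun _ _ => Subgroup.mem_top _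
      surj := fun x _ => by
        obtain ⟨g, rfl⟩ := QuotientGroup.mk_surjective x
        obtain ⟨a, ha, rfl⟩ := D.exists_ix g
        exact ⟨cidx a, (hR2' a ha).1, key1 a ha⟩
      inj := fun k hk l hl h => by
        have h2 := key2 _ (hR1' k hk).1 _ (hR1' l hl).1 h
        rw [(hR1' k hk).2, (hR1' l hl).2] at h2
        exact h2
      mul_lt := fun k hk l hl =>
        (hR2' _ (D.mul_lt _ (hR1' k hk).1 _ (hR1' l hl).1)).1
      e_mul := fun k hk l hl => by
        show (QuotientGroup.mk (e (rep (cidx (mul (rep k) (rep l))))) : G ⧸ Subgroup.center G)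
          = QuotientGroup.mk (e (rep k)) * QuotientGroup.mk (e (rep l))
        rw [key1 _ (D.mul_lt _ (hR1' k hk).1 _ (hR1' l hl).1),
          D.e_mul _ (hR1' k hk).1 _ (hR1' l hl).1]
        rfl
      inv_lt := fun k hk => (hR2' _ (D.inv_lt _ (hR1' k hk).1)).1
      e_inv := fun k hk => by
        show (QuotientGroup.mk (e (rep (cidx (inv (rep k))))) : G ⧸ Subgroup.center G)
          = (QuotientGroup.mk (e (rep k)))⁻¹
        rw [key1 _ (D.inv_lt _ (hR1' k hk).1), D.e_inv _ (hR1' k hk).1]
        rfl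
      one_lt := (hR2' one D.one_lt).1
      e_one := by
        show (QuotientGroup.mk (e (rep (cidx one))) : G ⧸ Subgroup.center G) = 1
        rw [key1 one D.one_lt, D.e_one]
        rfl }

end

end Cfsg.Agent.Lib.Helper89
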