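import Mathlib
import Cfsg.Agent.Lib.Helper56.Transfer
import Cfsg.Agent.Lib.Helper89.IdxModel
import Cfsg.Agent.Lib.Helper89.IdxQuot

set_option autoImplicit false

/-!
# Index models: centres of maximal subgroups and abelian subgroups (helper89)

For a group with an index model, kernel-checkable certificates for: the centres of the maximal
subgroups of a `2`-group are small; a list of indices is an elementary abelian `2`-subgroup;
every abelian subgroup of a given order lies in a given list.
-/

namespace Cfsg.Agent.Lib.Helper89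

/-- `p a b` for all pairs of entries `a` before `b` of the list -/
def ixPairs (p : ℕ → ℕ → Bool) (l : List ℕ) : Bool :=
  List.rec (motive := fun _ => Bool) true
    (fun a t ih => Bool.rec (motive := fun _ => Bool) false ih (ixAllL (p a) t)) l

theorem ixPairs_cons (p : ℕ → ℕ → Bool) (a : ℕ) (l : List ℕ) :
    ixPairs p (a :: l) = ixAnd (ixAllL (p a) l) (ixPairs p l) := rfl

theorem ixPairs_iff (p : ℕ → ℕ → Bool) (l : List ℕ) :
    ixPairs p l = true ↔ l.Pairwise (fun a b => p a b = true) := by
  induction l with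
  | nil => exact ⟨fun _ => List.Pairwise.nil, fun _ => rfl⟩
  | cons a l ih =>
    rw [ixPairs_cons, ixAnd_iff, ih, List.pairwise_cons, ixAllL_iff]

section

variable {G : Type*} [Group G] {n : ℕ} {e : ℕ → G} {mul : ℕ → ℕ → ℕ} {inv : ℕ → ℕ} {one : ℕ}

omit [Group G] in
theorem ixSet_eq_toFinset [DecidableEq G] (e : ℕ → G) (l : List ℕ) :
    ixSet e l = ↑(l.map e).toFinset := by
  ext x
  rw [Finset.mem_coe, List.mem_toFinset, List.mem_map]
  rfl

omit [Group G] in
theorem ixSet_finite (e : ℕ → G) (l : List ℕ) : (ixSet e l).Finite := by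
  classical
  rw [ixSet_eq_toFinset]
  exact Finset.finite_toSet _

omit [Group G] in
theorem ixSet_ncard_le (e : ℕ → G) (l : List ℕ) : (ixSet e l).ncard ≤ l.length := by
  classical
  rw [ixSet_eq_toFinset, Set.ncard_coe_finset]
  exact (List.toFinset_card_le _).trans (by rw [List.length_map])

theorem IxModel.ixSet_ncard {P : Subgroup G} (D : IxModel P n e mul inv one) {l : List ℕ}
    (hl : ∀ a ∈ l, a < n) (hnd : l.Nodup) : (ixSet e l).ncard = l.length := by
  classical
  rw [ixSet_eq_toFinset, Set.ncard_coe_finset, List.toFinset_card_of_nodup, List.length_map]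
  exact hnd.map_on (fun a ha b hb h => D.inj a (hl a ha) b (hl b hb) h)

/-! ### Centres of maximal subgroups -/

/-- the indices `u`, `v` are `< n`, and none of `u`, `v`, `u * v` commutes with `k` -/
def ixTri (mul : ℕ → ℕ → ℕ) (n k u v : ℕ) : Bool :=
  ixAnd (Nat.blt u n) (ixAnd (Nat.blt v n) (ixAnd (ixNot (Nat.beq (mul k u) (mul u k)))
    (ixAnd (ixNot (Nat.beq (mul k v) (mul v k)))
      (ixNot (Nat.beq (mul k (mul u v)) (mul (mul u v) k))))))

/-- in a `2`-group with a model, the centre of every maximal subgroup has its elements in the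
list `E`, if every other index fails to commute with `u`, `v` and `u * v` for one of the
listed pairs -/
theorem IxModel.coatom_center_le (D : IxModel (⊤ : Subgroup G) n e mul inv one) {j : ℕ}
    (hn : n = 2 ^ j) (E prs : List ℕ) (fu fv : ℕ → ℕ) {b : ℕ} (hE : E.length < 2 ^ (b + 1))
    (hchk : ixAllN (fun k => ixOr (ixBit (ixMask E) k)
      (ixNot (ixAllL (fun p => ixNot (ixTri mul n k (fu p) (fv p))) prs))) n = true)
    (M : Subgroup G) (hM : IsCoatom M) : Nat.card (Subgroup.center M) ≤ 2 ^ b := by
  have hfin : Finite G := D.finite_top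
  have hcard : Nat.card G = 2 ^ j := by rw [D.card_top, hn]
  have hP : IsPGroup 2 G := IsPGroup.of_card hcard
  have hidx : M.index = 2 := Cfsg.Agent.Lib.Helper56.coatom_index_of_pgroup hP M hM
  have key : ∀ z : ↥(Subgroup.center ↥M), ((z : ↥M) : G) ∈ ixSet e E := by
    intro z
    obtain ⟨k, hk, hke⟩ := D.exists_ix ((z : ↥M) : G)
    have hzc : ∀ g ∈ M, e k * g = g * e k := by
      intro g hg
      have h1 := (Subgroup.mem_center_iff.mp z.2) ⟨g, hg⟩
      have h2 := congrArg Subtype.val h1
      rw [Subgroup.coe_mul, Subgroup.coe_mul] at h2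
      rw [hke]
      exact h2.symm
    have h := (ixAllN_iff _ _).mp hchk k hk
    rw [ixOr_iff] at h
    rcases h with h | h
    · exact ⟨k, (ixBit_mask E k).mp h, hke⟩
    · exfalso
      rw [ixNot_iff] at h
      have h2 : ixAllL (fun p => ixNot (ixTri mul n k (fu p) (fv p))) prs = true := by
        rw [ixAllL_iff]
        intro p _
        rw [ixNot_iff]
        by_contra hne
        have ht : ixTri mul n k (fu p) (fv p) = true := by
          cases hh : ixTri mul n k (fu p) (fv p) with
          | false => exact absurd hh hne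
          | true => rfl
        unfold ixTri at ht
        rw [ixAnd_iff, ixAnd_iff, ixAnd_iff, ixAnd_iff, ixNot_iff, ixNot_iff, ixNot_iff] at ht
        obtain ⟨hu, hv, h3, h4, h5⟩ := ht
        have hu' : fu p < n := Nat.le_of_ble_eq_true hu
        have hv' : fv p < n := Nat.le_of_ble_eq_true hv
        have hnu : e (fu p) ∉ M := fun hin => by
          rw [(D.comm_iff hk hu').mpr (hzc _ hin)] at h3
          exact Bool.noConfusion h3
        have hnv : e (fv p) ∉ M := fun hin => by
          rw [(D.comm_iff hk hv').mpr (hzc _ hin)] at h4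
          exact Bool.noConfusion h4
        have hin : e (mul (fu p) (fv p)) ∈ M := by
          rw [D.e_mul _ hu' _ hv', Subgroup.mul_mem_iff_of_index_two hidx]
          exact ⟨fun h => absurd h hnu, fun h => absurd h hnv⟩
        rw [(D.comm_iff hk (D.mul_lt _ hu' _ hv')).mpr (hzc _ hin)] at h5
        exact Bool.noConfusion h5
      rw [h] at h2
      exact Bool.false_ne_true h2
  have hfinE : Finite ↥(ixSet e E) := (ixSet_finite e E).to_subtype
  have h1 := Nat.card_le_card_of_injective
    (fun z : ↥(Subgroup.center ↥M) => (⟨((z : ↥M) : G), key z⟩ : ↥(ixSet e E)))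
    (fun a b hab => by
      have hab' : (⟨((a : ↥M) : G), key a⟩ : ↥(ixSet e E)) = ⟨((b : ↥M) : G), key b⟩ := hab
      exact Subtype.ext (Subtype.ext (Subtype.mk.inj hab')))
  rw [Nat.card_coe_set_eq] at h1
  have h2 : Nat.card (Subgroup.center ↥M) < 2 ^ (b + 1) :=
    lt_of_le_of_lt (h1.trans (ixSet_ncard_le e E)) hE
  have h3 : Nat.card (Subgroup.center ↥M) ∣ 2 ^ j := by
    rw [← hcard]
    exact (Subgroup.card_subgroup_dvd_card _).trans (Subgroup.card_subgroup_dvd_card M)
  obtain ⟨i, _, hi⟩ := (Nat.dvd_prime_pow Nat.prime_two).mp h3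
  rw [hi] at h2 ⊢
  have h4 : i < b + 1 := (Nat.pow_lt_pow_iff_right (by norm_num)).mp h2
  exact Nat.pow_le_pow_right (by norm_num) (by omega)

/-! ### Elementary abelian subgroups from lists -/

/-- a list of indices containing the identity, closed under products, with commuting entries
of square `1`, is an elementary abelian subgroup -/
theorem IxModel.exists_elemAb (D : IxModel (⊤ : Subgroup G) n e mul inv one) (Q : List ℕ)
    (h1 : ixAllL (fun a => Nat.blt a n) Q = true) (h2 : ixBit (ixMask Q) one = true)
    (h3 : ixAllL (fun a => ixAnd (Nat.beq (mul a a) one)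
      (ixAllL (fun b => ixAnd (ixBit (ixMask Q) (mul a b)) (Nat.beq (mul a b) (mul b a))) Q)) Q
        = true) :
    ∃ A : Subgroup G, (A : Set G) = ixSet e Q ∧ IsMulCommutative ↥A ∧ ∀ a ∈ A, a ^ 2 = 1 := by
  have hQ : ∀ a ∈ Q, a < n := fun a ha => Nat.le_of_ble_eq_true ((ixAllL_iff _ _).mp h1 a ha)
  have h3' : ∀ a ∈ Q, mul a a = one ∧ ∀ b ∈ Q, mul a b ∈ Q ∧ mul a b = mul b a := by
    intro a ha
    have h := (ixAllL_iff _ _).mp h3 a ha
    rw [ixAnd_iff, ixAllL_iff] at h
    refine ⟨Nat.eq_of_beq_eq_true h.1, fun b hb => ?_⟩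
    have h' := h.2 b hb
    rw [ixAnd_iff, ixBit_mask] at h'
    exact ⟨h'.1, Nat.eq_of_beq_eq_true h'.2⟩
  have hsq : ∀ a ∈ Q, e a * e a = 1 := by
    intro a ha
    rw [← D.e_mul a (hQ a ha) a (hQ a ha), (h3' a ha).1, D.e_one]
  let A : Subgroup G :=
    { carrier := ixSet e Q
      mul_mem' := by
        rintro x y ⟨a, ha, rfl⟩ ⟨b, hb, rfl⟩
        exact ⟨mul a b, ((h3' a ha).2 b hb).1, D.e_mul a (hQ a ha) b (hQ b hb)⟩
      one_mem' := ⟨one, (ixBit_mask Q one).mp h2, D.e_one⟩
      inv_mem' := by
        rintro x ⟨a, ha, rfl⟩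
        refine ⟨a, ha, ?_⟩
        exact (inv_eq_of_mul_eq_one_left (hsq a ha)).symm }
  refine ⟨A, rfl, ⟨⟨fun x y => ?_⟩⟩, ?_⟩
  · obtain ⟨a, ha, hx⟩ := x.2
    obtain ⟨b, hb, hy⟩ := y.2
    apply Subtype.ext
    rw [Subgroup.coe_mul, Subgroup.coe_mul, ← hx, ← hy, ← D.e_mul a (hQ a ha) b (hQ b hb),
      ← D.e_mul b (hQ b hb) a (hQ a ha), ((h3' a ha).2 b hb).2]
  · rintro x ⟨a, ha, rfl⟩
    rw [pow_two]
    exact hsq a ha

/-! ### Abelian subgroups of a given order -/

/-- the entries of `T` are `< n` and lie in different left cosets of the centralizer of the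
elements with index in `K` -/
def ixCosets (mul : ℕ → ℕ → ℕ) (inv : ℕ → ℕ) (n : ℕ) (K T : List ℕ) : Bool :=
  ixAnd (ixAllL (fun t => Nat.blt t n) T)
    (ixPairs (fun t t' => ixNot (ixAllL (fun k =>
      Nat.beq (mul (mul (inv t) t') k) (mul k (mul (inv t) t'))) K)) T)

theorem IxModel.index_ge (D : IxModel (⊤ : Subgroup G) n e mul inv one) {K T : List ℕ}
    (hK : ∀ k ∈ K, k < n) (h : ixCosets mul inv n K T = true) :
    T.length ≤ (Subgroup.centralizer (ixSet e K)).index := by
  classical
  have hfin : Finite G := D.finite_top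
  unfold ixCosets at h
  rw [ixAnd_iff, ixAllL_iff, ixPairs_iff] at h
  obtain ⟨hT, hpw⟩ := h
  have hT' : ∀ t ∈ T, t < n := fun t ht => Nat.le_of_ble_eq_true (hT t ht)
  have hnd : (T.map (fun t => (QuotientGroup.mk (e t) :
      G ⧸ Subgroup.centralizer (ixSet e K)))).Nodup := by
    unfold List.Nodup
    rw [List.pairwise_map]
    refine List.Pairwise.imp_of_mem ?_ hpw
    intro t t' ht ht' hc heq
    rw [ixNot_iff] at hc
    have hd := QuotientGroup.eq.mp heq
    have htn := hT' t ht
    have htn' := hT' t' ht'
    have hdn : mul (inv t) t' < n := D.mul_lt _ (D.inv_lt t htn) _ htn'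
    have hde : e (mul (inv t) t') = (e t)⁻¹ * e t' := by
      rw [D.e_mul _ (D.inv_lt t htn) _ htn', D.e_inv t htn]
    rw [← hde] at hd
    have h2 : ixAllL (fun k => Nat.beq (mul (mul (inv t) t') k) (mul k (mul (inv t) t'))) K
        = true := by
      rw [ixAllL_iff]
      intro k hk
      refine (D.comm_iff hdn (hK k hk)).mpr ?_
      exact ((Subgroup.mem_centralizer_iff.mp hd) (e k) ⟨k, hk, rfl⟩).symm
    rw [hc] at h2
    exact Bool.false_ne_true h2
  have : Fintype (G ⧸ Subgroup.centralizer (ixSet e K)) := Fintype.ofFinite _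
  have h3 := hnd.length_le_card
  rw [List.length_map] at h3
  unfold Subgroup.index
  rw [Nat.card_eq_fintype_card]
  exact h3

/-- an abelian subgroup containing the elements with index in `K` has few elements, if the
centralizer of these elements has many cosets -/
theorem IxModel.card_mul_le (D : IxModel (⊤ : Subgroup G) n e mul inv one) {K T : List ℕ}
    (hK : ∀ k ∈ K, k < n) (h : ixCosets mul inv n K T = true) (A : Subgroup G)
    (hA : A ≤ Subgroup.centralizer (ixSet e K)) : Nat.card A * T.length ≤ n := by
  have hfin : Finite G := D.finite_top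
  have h1 := D.index_ge hK h
  have h2 := (Subgroup.centralizer (ixSet e K)).card_mul_index
  rw [D.card_top] at h2
  rw [← h2]
  exact Nat.mul_le_mul (Subgroup.card_le_of_le hA) h1

theorem le_centralizer_ixSet (e : ℕ → G) (A : Subgroup G) (hA : IsMulCommutative ↥A)
    {K : List ℕ} (hK : ∀ k ∈ K, e k ∈ A) : A ≤ Subgroup.centralizer (ixSet e K) := by
  intro x hx
  rw [Subgroup.mem_centralizer_iff]
  rintro y ⟨k, hk, rfl⟩
  have h := hA.is_comm.comm (⟨e k, hK k hk⟩ : ↥A) ⟨x, hx⟩
  exact congrArg Subtype.val h

/-- certificates showing that the element with a given index lies in no abelian subgroup of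
order `c` -/
inductive AbCert where
  /-- the centralizer of `k` has more than `n / c` cosets, with representatives `T` -/
  | small (k : ℕ) (T : List ℕ)
  /-- the centralizer of `k` has at least `n / c` cosets, and contains the elements `u`, `v`,
  which do not commute -/
  | nonab (k : ℕ) (T : List ℕ) (u v : ℕ)
  /-- the centralizer of `k` has at least `n / (2 c)` cosets, and contains the elements `u`,
  `v`, and the centralizers of `k` together with each of `u`, `v`, `u * v` have more than
  `n / c` cosets -/
  | split (k : ℕ) (T : List ℕ) (u v : ℕ) (Tu Tv Tw : List ℕ)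

/-- the index of a certificate -/
def abKey : AbCert → ℕ
  | .small k _ => k
  | .nonab k _ _ _ => k
  | .split k _ _ _ _ _ _ => k

/-- the check of a certificate -/
def abOK (mul : ℕ → ℕ → ℕ) (inv : ℕ → ℕ) (n c : ℕ) : AbCert → Bool
  | .small k T => ixAnd (Nat.blt n (Nat.mul (List.length T) c)) (ixCosets mul inv n [k] T)
  | .nonab k T u v => ixAnd (Nat.ble n (Nat.mul (List.length T) c))
      (ixAnd (ixCosets mul inv n [k] T)
        (ixAnd (Nat.blt u n) (ixAnd (Nat.blt v n) (ixAnd (Nat.beq (mul k u) (mul u k))
          (ixAnd (Nat.beq (mul k v) (mul v k)) (ixNot (Nat.beq (mul u v) (mul v u))))))))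
  | .split k T u v Tu Tv Tw => ixAnd (Nat.ble n (Nat.mul (List.length T) (Nat.mul 2 c)))
      (ixAnd (ixCosets mul inv n [k] T)
        (ixAnd (Nat.blt u n) (ixAnd (Nat.blt v n) (ixAnd (Nat.beq (mul k u) (mul u k))
          (ixAnd (Nat.beq (mul k v) (mul v k))
            (ixAnd (Nat.blt n (Nat.mul (List.length Tu) c))
              (ixAnd (ixCosets mul inv n [k, u] Tu)
                (ixAnd (Nat.blt n (Nat.mul (List.length Tv) c))
                  (ixAnd (ixCosets mul inv n [k, v] Tv)
                    (ixAnd (Nat.blt n (Nat.mul (List.length Tw) c))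
                      (ixCosets mul inv n [k, mul u v] Tw)))))))))))

theorem IxModel.abCert_sound (D : IxModel (⊤ : Subgroup G) n e mul inv one) {c : ℕ}
    (x : AbCert) (hk : abKey x < n) (h : abOK mul inv n c x = true) (A : Subgroup G)
    (hA : IsMulCommutative ↥A) (hcard : Nat.card A = c) : e (abKey x) ∉ A := by
  have hfin : Finite G := D.finite_top
  intro hin
  -- a list of elements of `A` with many cosets gives a contradiction
  have small : ∀ K T : List ℕ, (∀ k ∈ K, k < n) → (∀ k ∈ K, e k ∈ A) →
      Nat.blt n (Nat.mul (List.length T) c) = true → ixCosets mul inv n K T = true → False := by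
    intro K T hK hKA hlt hcos
    have h1 := D.card_mul_le hK hcos A (le_centralizer_ixSet e A hA hKA)
    have h2 : n < T.length * c := Nat.le_of_ble_eq_true hlt
    rw [hcard, Nat.mul_comm] at h1
    omega
  cases x with
  | small k T =>
    have hk' : k < n := hk
    have hin' : e k ∈ A := hin
    have h' : ixAnd (Nat.blt n (Nat.mul (List.length T) c)) (ixCosets mul inv n [k] T)
        = true := h
    rw [ixAnd_iff] at h'
    exact small [k] T (fun a ha => by rw [List.mem_singleton.mp ha]; exact hk')
      (fun a ha => by rw [List.mem_singleton.mp ha]; exact hin') h'.1 h'.2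
  | nonab k T u v =>
    have hk' : k < n := hk
    have hin' : e k ∈ A := hin
    have h' : ixAnd (Nat.ble n (Nat.mul (List.length T) c))
      (ixAnd (ixCosets mul inv n [k] T)
        (ixAnd (Nat.blt u n) (ixAnd (Nat.blt v n) (ixAnd (Nat.beq (mul k u) (mul u k))
          (ixAnd (Nat.beq (mul k v) (mul v k)) (ixNot (Nat.beq (mul u v) (mul v u)))))))) = true
      := h
    rw [ixAnd_iff, ixAnd_iff, ixAnd_iff, ixAnd_iff, ixAnd_iff, ixAnd_iff, ixNot_iff] at h'
    obtain ⟨hle, hcos, hu, hv, hku, hkv, huv⟩ := h'
    have hu' : u < n := Nat.le_of_ble_eq_true hu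
    have hv' : v < n := Nat.le_of_ble_eq_true hv
    have hK : ∀ a ∈ [k], a < n := fun a ha => by rw [List.mem_singleton.mp ha]; exact hk'
    have hAC : A ≤ Subgroup.centralizer (ixSet e [k]) :=
      le_centralizer_ixSet e A hA (fun a ha => by rw [List.mem_singleton.mp ha]; exact hin')
    have h1 := D.index_ge hK hcos
    have h2 := (Subgroup.centralizer (ixSet e [k])).card_mul_index
    rw [D.card_top] at h2
    have h3 : n ≤ T.length * c := Nat.le_of_ble_eq_true hle
    have hT0 : 0 < T.length := by
      rcases Nat.eq_zero_or_pos T.length with h0 | h0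
      · rw [h0, Nat.zero_mul] at h3
        exact absurd D.one_lt (by omega)
      · exact h0
    have h4 : Nat.card (Subgroup.centralizer (ixSet e [k])) ≤ Nat.card A := by
      rw [hcard]
      have h5 : Nat.card (Subgroup.centralizer (ixSet e [k])) * T.length ≤ T.length * c := by
        calc Nat.card (Subgroup.centralizer (ixSet e [k])) * T.length
            ≤ Nat.card (Subgroup.centralizer (ixSet e [k])) *
              (Subgroup.centralizer (ixSet e [k])).index := Nat.mul_le_mul_left _ h1
          _ = n := h2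
          _ ≤ T.length * c := h3
      rw [Nat.mul_comm] at h5
      exact Nat.le_of_mul_le_mul_left h5 hT0
    have hEq : A = Subgroup.centralizer (ixSet e [k]) := Subgroup.eq_of_le_of_card_ge hAC h4
    have hmem : ∀ w < n, Nat.beq (mul k w) (mul w k) = true → e w ∈ A := by
      intro w hw hc
      rw [hEq, Subgroup.mem_centralizer_iff]
      rintro y ⟨a, ha, rfl⟩
      rw [List.mem_singleton.mp ha]
      exact (D.comm_iff hk' hw).mp hc
    have h6 := hA.is_comm.comm (⟨e u, hmem u hu' hku⟩ : ↥A) ⟨e v, hmem v hv' hkv⟩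
    have h7 : e u * e v = e v * e u := congrArg Subtype.val h6
    rw [(D.comm_iff hu' hv').mpr h7] at huv
    exact Bool.noConfusion huv
  | split k T u v Tu Tv Tw =>
    have hk' : k < n := hk
    have hin' : e k ∈ A := hin
    have h' : ixAnd (Nat.ble n (Nat.mul (List.length T) (Nat.mul 2 c)))
      (ixAnd (ixCosets mul inv n [k] T)
        (ixAnd (Nat.blt u n) (ixAnd (Nat.blt v n) (ixAnd (Nat.beq (mul k u) (mul u k))
          (ixAnd (Nat.beq (mul k v) (mul v k))
            (ixAnd (Nat.blt n (Nat.mul (List.length Tu) c))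
              (ixAnd (ixCosets mul inv n [k, u] Tu)
                (ixAnd (Nat.blt n (Nat.mul (List.length Tv) c))
                  (ixAnd (ixCosets mul inv n [k, v] Tv)
                    (ixAnd (Nat.blt n (Nat.mul (List.length Tw) c))
                      (ixCosets mul inv n [k, mul u v] Tw))))))))))) = true := h
    rw [ixAnd_iff, ixAnd_iff, ixAnd_iff, ixAnd_iff, ixAnd_iff, ixAnd_iff, ixAnd_iff, ixAnd_iff,
      ixAnd_iff, ixAnd_iff, ixAnd_iff] at h'
    obtain ⟨hle, hcos, hu, hv, hku, hkv, hlu, hcu, hlv, hcv, hlw, hcw⟩ := h'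
    have hu' : u < n := Nat.le_of_ble_eq_true hu
    have hv' : v < n := Nat.le_of_ble_eq_true hv
    have hw' : mul u v < n := D.mul_lt u hu' v hv'
    have hK : ∀ a ∈ [k], a < n := fun a ha => by rw [List.mem_singleton.mp ha]; exact hk'
    have hAC : A ≤ Subgroup.centralizer (ixSet e [k]) :=
      le_centralizer_ixSet e A hA (fun a ha => by rw [List.mem_singleton.mp ha]; exact hin')
    -- with a second element of `A` we are done
    have two : ∀ w < n, ∀ Tw' : List ℕ, Nat.blt n (Nat.mul (List.length Tw') c) = true →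
        ixCosets mul inv n [k, w] Tw' = true → e w ∉ A := by
      intro w hw Tw' hl hc hwA
      refine small [k, w] Tw' ?_ ?_ hl hc
      · intro a ha
        rcases List.mem_pair.mp ha with rfl | rfl
        · exact hk'
        · exact hw
      · intro a ha
        rcases List.mem_pair.mp ha with rfl | rfl
        · exact hin'
        · exact hwA
    have hnu := two u hu' Tu hlu hcu
    have hnv := two v hv' Tv hlv hcv
    have hnw := two _ hw' Tw hlw hcw
    rw [D.e_mul u hu' v hv'] at hnw
    -- the index of `A` in the centralizer of `k` is at most `2`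
    have h1 := D.index_ge hK hcos
    have h2 := (Subgroup.centralizer (ixSet e [k])).card_mul_index
    rw [D.card_top] at h2
    have h3 : n ≤ T.length * (2 * c) := Nat.le_of_ble_eq_true hle
    have hT0 : 0 < T.length := by
      rcases Nat.eq_zero_or_pos T.length with h0 | h0
      · rw [h0, Nat.zero_mul] at h3
        exact absurd D.one_lt (by omega)
      · exact h0
    have h4 : Nat.card (Subgroup.centralizer (ixSet e [k])) ≤ 2 * c := by
      have h5 : Nat.card (Subgroup.centralizer (ixSet e [k])) * T.length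
          ≤ T.length * (2 * c) := by
        calc Nat.card (Subgroup.centralizer (ixSet e [k])) * T.length
            ≤ Nat.card (Subgroup.centralizer (ixSet e [k])) *
              (Subgroup.centralizer (ixSet e [k])).index := Nat.mul_le_mul_left _ h1
          _ = n := h2
          _ ≤ T.length * (2 * c) := h3
      rw [Nat.mul_comm] at h5
      exact Nat.le_of_mul_le_mul_left h5 hT0
    have hmemC : ∀ w < n, Nat.beq (mul k w) (mul w k) = true →
        e w ∈ Subgroup.centralizer (ixSet e [k]) := by
      intro w hw hc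
      rw [Subgroup.mem_centralizer_iff]
      rintro y ⟨a, ha, rfl⟩
      rw [List.mem_singleton.mp ha]
      exact (D.comm_iff hk' hw).mp hc
    have huC := hmemC u hu' hku
    have hvC := hmemC v hv' hkv
    have h6 : Nat.card (A.subgroupOf (Subgroup.centralizer (ixSet e [k]))) = c := by
      rw [← hcard]
      exact Nat.card_congr (Subgroup.subgroupOfEquivOfLe hAC).toEquiv
    have h7 := (A.subgroupOf (Subgroup.centralizer (ixSet e [k]))).card_mul_index
    rw [h6] at h7
    have hc0 : 0 < c := by
      rw [← hcard]; exact Nat.card_pos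
    have h8 : (A.subgroupOf (Subgroup.centralizer (ixSet e [k]))).index ≤ 2 := by
      have h9 : c * (A.subgroupOf (Subgroup.centralizer (ixSet e [k]))).index ≤ c * 2 := by
        rw [h7, Nat.mul_comm c 2]; exact h4
      exact Nat.le_of_mul_le_mul_left h9 hc0
    have h10 : (A.subgroupOf (Subgroup.centralizer (ixSet e [k]))).index ≠ 0 :=
      Subgroup.index_ne_zero_of_finite
    have h11 : (A.subgroupOf (Subgroup.centralizer (ixSet e [k]))).index = 1 ∨
        (A.subgroupOf (Subgroup.centralizer (ixSet e [k]))).index = 2 := by omega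
    rcases h11 with h11 | h11
    · have h12 := Subgroup.index_eq_one.mp h11
      have h13 : (⟨e u, huC⟩ : ↥(Subgroup.centralizer (ixSet e [k]))) ∈
          A.subgroupOf (Subgroup.centralizer (ixSet e [k])) := by
        rw [h12]; exact Subgroup.mem_top _
      exact hnu (Subgroup.mem_subgroupOf.mp h13)
    · have h12 := Subgroup.mul_mem_iff_of_index_two h11
        (a := (⟨e u, huC⟩ : ↥(Subgroup.centralizer (ixSet e [k]))))
        (b := (⟨e v, hvC⟩ : ↥(Subgroup.centralizer (ixSet e [k]))))
      rw [Subgroup.mem_subgroupOf, Subgroup.mem_subgroupOf, Subgroup.mem_subgroupOf] at h12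
      exact hnw (h12.mpr ⟨fun h => absurd h hnu, fun h => absurd h hnv⟩)

/-- all certificates of the list pass the check -/
def abAll (mul : ℕ → ℕ → ℕ) (inv : ℕ → ℕ) (n c : ℕ) (cs : List AbCert) : Bool :=
  List.rec (motive := fun _ => Bool) true
    (fun x _ ih => Bool.rec (motive := fun _ => Bool) false ih (abOK mul inv n c x)) cs

theorem abAll_cons (mul : ℕ → ℕ → ℕ) (inv : ℕ → ℕ) (n c : ℕ) (x : AbCert) (cs : List AbCert) :
    abAll mul inv n c (x :: cs) = ixAnd (abOK mul inv n c x) (abAll mul inv n c cs) := rfl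

theorem abAll_iff (mul : ℕ → ℕ → ℕ) (inv : ℕ → ℕ) (n c : ℕ) (cs : List AbCert) :
    abAll mul inv n c cs = true ↔ ∀ x ∈ cs, abOK mul inv n c x = true := by
  induction cs with
  | nil => exact ⟨fun _ a ha => absurd ha List.not_mem_nil, fun _ => rfl⟩
  | cons a l ih =>
    rw [abAll_cons, ixAnd_iff, ih]
    simp only [List.mem_cons, forall_eq_or_imp]

/-- the mask of the indices of the certificates -/
def abMask (cs : List AbCert) : ℕ :=
  List.rec (motive := fun _ => ℕ) 0 (fun x _ ih => Nat.lor (ixOne (abKey x)) ih) cs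

theorem abMask_cons (x : AbCert) (cs : List AbCert) :
    abMask (x :: cs) = ixOne (abKey x) ||| abMask cs := rfl

theorem abMask_testBit (cs : List AbCert) (k : ℕ) :
    (abMask cs).testBit k = true ↔ ∃ x ∈ cs, abKey x = k := by
  induction cs with
  | nil =>
    have h0 : abMask [] = 0 := rfl
    rw [h0, Nat.zero_testBit]
    simp
  | cons a l ih =>
    rw [abMask_cons, Nat.testBit_lor, Bool.or_eq_true, ih, ixOne_testBit]
    simp only [List.mem_cons, exists_eq_or_imp]

/-- every abelian subgroup of order `c` has its elements in the list `Q`, if every other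
index has a certificate -/
theorem IxModel.abelian_sub (D : IxModel (⊤ : Subgroup G) n e mul inv one) {c : ℕ}
    (Q : List ℕ) (cs : List AbCert)
    (hcov : ixAllN (fun k => ixBit (Nat.lor (ixMask Q) (abMask cs)) k) n = true)
    (hall : abAll mul inv n c cs = true) (A : Subgroup G) (hA : IsMulCommutative ↥A)
    (hcard : Nat.card A = c) : (A : Set G) ⊆ ixSet e Q := by
  intro x hx
  obtain ⟨k, hk, rfl⟩ := D.exists_ix x
  have h := (ixAllN_iff _ _).mp hcov k hk
  rw [ixBit_eq] at h
  have h' : (ixMask Q ||| abMask cs).testBit k = true := h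
  rw [Nat.testBit_lor, Bool.or_eq_true, ixMask_testBit, abMask_testBit] at h'
  rcases h' with h' | ⟨y, hy, rfl⟩
  · exact ⟨k, h', rfl⟩
  · exact absurd hx (D.abCert_sound y hk ((abAll_iff _ _ _ _ _).mp hall y hy) A hA hcard)

/-- there is at most one abelian subgroup of order `c`, if the list `Q` has at most `c`
entries and every other index has a certificate -/
theorem IxModel.abelian_unique (D : IxModel (⊤ : Subgroup G) n e mul inv one) {c : ℕ}
    (Q : List ℕ) (cs : List AbCert) (hQ : Q.length ≤ c)
    (hcov : ixAllN (fun k => ixBit (Nat.lor (ixMask Q) (abMask cs)) k) n = true)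
    (hall : abAll mul inv n c cs = true) (A B : Subgroup G) (hA : IsMulCommutative ↥A)
    (hcA : Nat.card A = c) (hB : IsMulCommutative ↥B) (hcB : Nat.card B = c) : A = B := by
  have key : ∀ A : Subgroup G, IsMulCommutative ↥A → Nat.card A = c →
      (A : Set G) = ixSet e Q := by
    intro A hA hcA
    refine Set.eq_of_subset_of_ncard_le (D.abelian_sub Q cs hcov hall A hA hcA) ?_
      (ixSet_finite e Q)
    have h1 : (A : Set G).ncard = c := by
      rw [← hcA]; exact Nat.card_coe_set_eq _
    rw [h1]
    exact (ixSet_ncard_le e Q).trans hQ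
  exact SetLike.coe_injective ((key A hA hcA).trans (key B hB hcB).symm)

end

end Cfsg.Agent.Lib.Helper89
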