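import Mathlib
import Cfsg.Prelude.Def_FusionSystem
import Cfsg.Agent.Lib.Helper89.FusSimple
import Cfsg.Agent.Lib.Helper89.IdxModel

set_option autoImplicit false

/-!
# Transport of index models and of the simplicity criterion along embeddings (helper89)

* `IxModel.mapHom`: the image of an index model under an injective homomorphism defined on a
  subgroup containing the group.
* `gfs_isSimple_of_card`: the simplicity criterion for `F_S(G)` from data on one explicit
  `p`-subgroup of `G` of Sylow order.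
* `gfs_isSimple_of_emb`: the same when the explicit subgroup is the image of a `p`-subgroup
  `P0` of a subgroup `K` of another group under an embedding `K → G`: it suffices that `P0` has
  no proper nontrivial subgroup strongly closed with respect to `K`, and that the elements of
  `G` of order prime to `p` normalizing the image centralize it.
-/

namespace Cfsg.Agent.Lib.Helper89

open Cfsg Cfsg.FusionSystem

section MapHom

variable {Ω Ω' : Type*} [Group Ω] [Group Ω'] {P : Subgroup Ω} {n : ℕ} {e : ℕ → Ω}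
  {mul : ℕ → ℕ → ℕ} {inv : ℕ → ℕ} {one : ℕ}

/-- the index function of the image model -/
noncomputable def ixMapE (e : ℕ → Ω) (K : Subgroup Ω) (ψ : ↥K →* Ω') (a : ℕ) : Ω' := by
  classical
  exact if h : e a ∈ K then ψ ⟨e a, h⟩ else 1

theorem ixMapE_eq (e : ℕ → Ω) (K : Subgroup Ω) (ψ : ↥K →* Ω') {a : ℕ} (h : e a ∈ K) :
    ixMapE e K ψ a = ψ ⟨e a, h⟩ := by
  unfold ixMapE
  rw [dif_pos h]

/-- the image of an index model under an injective homomorphism -/
theorem IxModel.mapHom (D : IxModel P n e mul inv one) (K : Subgroup Ω) (hPK : P ≤ K)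
    (ψ : ↥K →* Ω') (hψ : Function.Injective ψ) :
    IxModel ((P.subgroupOf K).map ψ) n (ixMapE e K ψ) mul inv one where
  mem a ha := by
    rw [ixMapE_eq e K ψ (hPK (D.mem a ha))]
    exact Subgroup.mem_map_of_mem ψ (Subgroup.mem_subgroupOf.mpr (D.mem a ha))
  surj x hx := by
    obtain ⟨y, hy, rfl⟩ := Subgroup.mem_map.mp hx
    obtain ⟨a, ha, hae⟩ := D.surj (y : Ω) (Subgroup.mem_subgroupOf.mp hy)
    refine ⟨a, ha, ?_⟩
    rw [ixMapE_eq e K ψ (hPK (D.mem a ha))]
    congr 1
    exact Subtype.ext hae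
  inj a ha b hb h := by
    rw [ixMapE_eq e K ψ (hPK (D.mem a ha)), ixMapE_eq e K ψ (hPK (D.mem b hb))] at h
    exact D.inj a ha b hb (congrArg Subtype.val (hψ h))
  mul_lt := D.mul_lt
  e_mul a ha b hb := by
    rw [ixMapE_eq e K ψ (hPK (D.mem a ha)), ixMapE_eq e K ψ (hPK (D.mem b hb)),
      ixMapE_eq e K ψ (hPK (D.mem _ (D.mul_lt a ha b hb))), ← map_mul]
    congr 1
    exact Subtype.ext (D.e_mul a ha b hb)
  inv_lt := D.inv_lt
  e_inv a ha := by
    rw [ixMapE_eq e K ψ (hPK (D.mem a ha)),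
      ixMapE_eq e K ψ (hPK (D.mem _ (D.inv_lt a ha))), ← map_inv]
    congr 1
    exact Subtype.ext (D.e_inv a ha)
  one_lt := D.one_lt
  e_one := by
    rw [ixMapE_eq e K ψ (hPK (D.mem one D.one_lt)), ← map_one ψ]
    congr 1
    exact Subtype.ext D.e_one

end MapHom

section Criterion

variable {G : Type*} [Group G]

/-- the simplicity criterion from data on one explicit `p`-subgroup `P0` of `G` of Sylow order:
for every Sylow `p`-subgroup `S` of `G`, the fusion system `F_S(G)` is simple -/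
theorem gfs_isSimple_of_card [Finite G] (p : ℕ) [Fact p.Prime] (P0 : Subgroup G)
    (hcard : Nat.card P0 = p ^ (Nat.card G).factorization p) (hne : P0 ≠ ⊥)
    (hA : ∀ g : G, (∀ x ∈ P0, g * x * g⁻¹ ∈ P0) → (orderOf g).Coprime p →
      ∀ x ∈ P0, g * x * g⁻¹ = x)
    (hB : ∀ T : Subgroup G, T ≤ P0 → T ≠ ⊥ →
      (∀ t ∈ T, ∀ g : G, g * t * g⁻¹ ∈ P0 → g * t * g⁻¹ ∈ T) → P0 ≤ T)
    (S : Sylow p G) : (groupFusionSystem (S : Subgroup G)).IsSimple p := by
  let S0 : Sylow p G := Sylow.ofCard P0 hcard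
  have hS0 : (S0 : Subgroup G) = P0 := rfl
  have haut0 : AutInner (S0 : Subgroup G) := by
    apply autInner_of_centralize
    intro g hg hco x hx
    rw [hS0] at hg hx
    exact hA g hg hco x hx
  have hsc0 : NoStronglyClosed (S0 : Subgroup G) := by
    intro T hT hTne hcl
    rw [hS0] at hT hcl ⊢
    exact hB T hT hTne hcl
  obtain ⟨h, hh⟩ := sylow_exists_conj S S0
  refine gfs_isSimple_of S ?_ (autInner_conj h hh haut0) (noStronglyClosed_conj h hh hsc0)
  intro hbot
  apply hne
  have h1 : Nat.card (S : Subgroup G) = 1 := by rw [hbot]; exact Subgroup.card_bot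
  have h2 : Nat.card P0 = 1 := by
    rw [hcard, ← Sylow.card_eq_multiplicity S]; exact h1
  exact Subgroup.card_eq_one.mp h2

/-- the simplicity criterion when the explicit `p`-subgroup is the image of a subgroup `P0` of
a subgroup `K` of another group `Ω` under an embedding `ι : K → G` -/
theorem gfs_isSimple_of_emb [Finite G] (p : ℕ) [Fact p.Prime] {Ω : Type*} [Group Ω]
    (K : Subgroup Ω) (ι : ↥K →* G) (hι : Function.Injective ι) (P0 : Subgroup Ω)
    (hP0K : P0 ≤ K)
    (hcard : Nat.card P0 = p ^ (Nat.card G).factorization p) (hne : P0 ≠ ⊥)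
    (hA : ∀ g : G, (∀ x ∈ (P0.subgroupOf K).map ι, g * x * g⁻¹ ∈ (P0.subgroupOf K).map ι) →
      (orderOf g).Coprime p → ∀ x ∈ (P0.subgroupOf K).map ι, g * x * g⁻¹ = x)
    (hB : ∀ T : Subgroup Ω, T ≤ P0 → T ≠ ⊥ →
      (∀ t ∈ T, ∀ g ∈ K, g * t * g⁻¹ ∈ P0 → g * t * g⁻¹ ∈ T) → P0 ≤ T)
    (S : Sylow p G) : (groupFusionSystem (S : Subgroup G)).IsSimple p := by
  have hmemP : ∀ y : ↥K, ι y ∈ (P0.subgroupOf K).map ι ↔ (y : Ω) ∈ P0 := by
    intro y
    constructor
    · intro hy
      obtain ⟨z, hz, hzy⟩ := Subgroup.mem_map.mp hy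
      rw [← hι hzy]
      exact Subgroup.mem_subgroupOf.mp hz
    · intro hy
      exact Subgroup.mem_map_of_mem ι (Subgroup.mem_subgroupOf.mpr hy)
  have hc1 : Nat.card ((P0.subgroupOf K).map ι) = Nat.card P0 := by
    rw [← Nat.card_congr (Subgroup.subgroupOfEquivOfLe hP0K).toEquiv]
    exact (Nat.card_congr ((P0.subgroupOf K).equivMapOfInjective ι hι).toEquiv).symm
  refine gfs_isSimple_of_card p ((P0.subgroupOf K).map ι) (by rw [hc1, hcard]) ?_ hA ?_ S
  · intro hbot
    apply hne
    have h1 : Nat.card P0 = 1 := by rw [← hc1, hbot]; exact Subgroup.card_bot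
    exact Subgroup.card_eq_one.mp h1
  · intro T hT hTne hcl
    -- the preimage of `T`
    have key := hB ((T.comap ι).map K.subtype) ?_ ?_ ?_
    · intro x hx
      obtain ⟨y, hy, rfl⟩ := Subgroup.mem_map.mp hx
      obtain ⟨z, hz, hzy⟩ := Subgroup.mem_map.mp (key (Subgroup.mem_subgroupOf.mp hy))
      have e : z = y := Subtype.ext hzy
      rw [← e]
      exact hz
    · rintro _ ⟨y, hy, rfl⟩
      exact (hmemP y).mp (hT hy)
    · intro hbot
      apply hTne
      rw [eq_bot_iff]
      intro t ht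
      obtain ⟨y, hy, rfl⟩ := Subgroup.mem_map.mp (hT ht)
      have h1 : K.subtype y ∈ (T.comap ι).map K.subtype :=
        Subgroup.mem_map_of_mem _ (Subgroup.mem_comap.mpr ht)
      rw [hbot, Subgroup.mem_bot] at h1
      have h2 : y = 1 := Subtype.ext h1
      rw [h2, map_one]
      exact Subgroup.mem_bot.mpr rfl
    · rintro _ ⟨y, hy, rfl⟩ g hg hgy
      have h1 : ι (⟨g, hg⟩ * y * ⟨g, hg⟩⁻¹) ∈ T := by
        rw [map_mul, map_mul, map_inv]
        apply hcl (ι y) hy (ι ⟨g, hg⟩)
        rw [← map_inv, ← map_mul, ← map_mul]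
        exact (hmemP _).mpr hgy
      exact Subgroup.mem_map.mpr ⟨_, Subgroup.mem_comap.mpr h1, rfl⟩

end Criterion

end Cfsg.Agent.Lib.Helper89
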