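import Mathlib
import Cfsg.Agent.Lib.Helper89.CodeModel
import Cfsg.Agent.Lib.Helper90.Basic
import Cfsg.Agent.Lib.Helper91.SimpleGen

set_option autoImplicit false

/-!
# Normalizers of Sylow `2`-subgroups from index models (helper89)

Tools to show, for a Sylow `2`-subgroup `P` of a finite group `H` given by an index model, that
`N_H(P)` is generated by `P`, `C_H(P)` and one element `h` that is a product of `2`-elements
normalizing a self-centralizing normal subgroup of `P`; together with the absence of strongly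
closed subgroups this gives the hypothesis `GoodSyl` of the simplicity criterion for the
`2`-fusion system.
-/

namespace Cfsg.Agent.Lib.Helper89

section

variable {Ω : Type*} [Group Ω] {P : Subgroup Ω} {n : ℕ} {e : ℕ → Ω} {mul : ℕ → ℕ → ℕ}
  {inv : ℕ → ℕ} {one : ℕ}

/-- as `cen_step`, for a list `W` known to contain the conjugate of `r` -/
theorem IxModel.cen_core (D : IxModel P n e mul inv one) {g : Ω} {m : ℕ} (hm : g ^ m = 1)
    (hcop : Nat.Coprime m 2) (h2 : ∀ x ∈ P, ∃ k : ℕ, x ^ 2 ^ k = 1)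
    {C C' W : List ℕ} {r : ℕ} (hC : ∀ a ∈ C, a < n) (hCc : IxCen e g C)
    (hWn : ∀ a ∈ W, a < n) (hrn : r < n) (hgr : ∃ u ∈ W, e u = g * e r * g⁻¹)
    (hC' : ∀ a ∈ C', a < n)
    (hW' : ixCosetOK mul inv C r W = true) (hCC : ixCosetOK mul inv C r C' = true) :
    IxCen e g C' := by
  have hirn := D.inv_lt r hrn
  have hcos : ∀ {X : List ℕ}, (∀ a ∈ X, a < n) → ixCosetOK mul inv C r X = true →
      ∀ w ∈ X, w ∈ C ∨ (∃ c ∈ C, e c = e w * (e r)⁻¹) := by
    intro X hX hok w hw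
    have h1 := (ixAllL_iff _ _).mp hok w hw
    rw [ixOr_iff, ixBit_mask, ixBit_mask] at h1
    rcases h1 with h1 | h1
    · exact Or.inl h1
    · refine Or.inr ⟨_, h1, ?_⟩
      rw [D.e_mul w (hX w hw) _ hirn, D.e_inv r hrn]
  -- first `r`
  have hrc : g * e r * g⁻¹ = e r := by
    obtain ⟨u, hu, hgu⟩ := hgr
    rcases hcos hWn hW' u hu with huC | ⟨c', hc', hce⟩
    · have h1 := hCc u huC
      have h3 : e r = e u := by
        have h4 : g * e r * g⁻¹ = g * e u * g⁻¹ := by rw [← hgu, h1]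
        exact mul_left_cancel (mul_right_cancel h4)
      rw [h3]; exact h1
    · have hgc := hCc c' hc'
      rw [hce] at hgc
      have hcP : e u * (e r)⁻¹ ∈ P := by rw [← hce]; exact D.mem c' (hC c' hc')
      set c := e u * (e r)⁻¹ with hcdef
      have hgb : g * e r * g⁻¹ = c * e r := by rw [← hgu, hcdef]; group
      have hpow : ∀ k : ℕ, g ^ k * e r * (g ^ k)⁻¹ = c ^ k * e r := by
        intro k
        induction k with
        | zero => simp
        | succ k ih =>
          have hck : g * c ^ k * g⁻¹ = c ^ k := by rw [← conj_pow, hgc]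
          calc g ^ (k + 1) * e r * (g ^ (k + 1))⁻¹
              = g * (g ^ k * e r * (g ^ k)⁻¹) * g⁻¹ := by rw [pow_succ']; group
            _ = g * (c ^ k * e r) * g⁻¹ := by rw [ih]
            _ = (g * c ^ k * g⁻¹) * (g * e r * g⁻¹) := by group
            _ = c ^ k * (c * e r) := by rw [hck, hgb]
            _ = c ^ (k + 1) * e r := by rw [pow_succ]; group
      have hcm : c ^ m = 1 := by
        have h5 := hpow m
        rw [hm, one_mul, _root_.inv_one, mul_one] at h5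
        exact (mul_eq_right).mp h5.symm
      obtain ⟨k, hk⟩ := h2 _ hcP
      have hc1 : c = 1 := by
        have h6 : orderOf c ∣ m := orderOf_dvd_of_pow_eq_one hcm
        have h7 : orderOf c ∣ 2 ^ k := orderOf_dvd_of_pow_eq_one hk
        have h8 : orderOf c = 1 :=
          Nat.eq_one_of_dvd_coprimes (Nat.Coprime.pow_right k hcop) h6 h7
        exact orderOf_eq_one_iff.mp h8
      rw [hgb, hc1, one_mul]
  intro b hb
  rcases hcos hC' hCC b hb with hbC | ⟨c', hc', hce⟩
  · exact hCc b hbC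
  · have hgc := hCc c' hc'
    rw [hce] at hgc
    calc g * e b * g⁻¹
        = (g * (e b * (e r)⁻¹) * g⁻¹) * (g * e r * g⁻¹) := by group
      _ = e b * (e r)⁻¹ * e r := by rw [hgc, hrc]
      _ = e b := by group

/-- an invariant list contains the conjugate of each of its entries -/
theorem IxInv.conj_mem {g : Ω} {W : List ℕ} {r : ℕ} (hW : IxInv n e g W)
    (hr : ixBit (ixMask W) r = true) : ∃ u ∈ W, e u = g * e r * g⁻¹ :=
  (hW.2 (e r) ⟨r, (ixBit_mask _ _).mp hr, rfl⟩).1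

/-- refine the list known to contain the conjugate of `r` by a property of this conjugate -/
theorem IxModel.ref_step (_D : IxModel P n e mul inv one) {g : Ω} {W W' : List ℕ} {r : ℕ}
    (p : ℕ → Bool) (hp : ∀ u ∈ W, e u = g * e r * g⁻¹ → p u = true)
    (hgr : ∃ u ∈ W, e u = g * e r * g⁻¹) (hW' : ixFilt p W = ixMask W') :
    ∃ u ∈ W', e u = g * e r * g⁻¹ := by
  obtain ⟨u, hu, hgu⟩ := hgr
  refine ⟨u, ?_, hgu⟩
  rw [← ixMask_testBit, ← hW', ixFilt_testBit]
  exact ⟨hu, hp u hu hgu⟩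

/-- the conjugate of `r` by an element centralizing `C` has the same commutators as `r` with
the entries `c` of `C` such that `[r, c]` lies in `C` -/
theorem IxModel.comm_pred (D : IxModel P n e mul inv one) {g : Ω} {C K W : List ℕ} {r : ℕ}
    (hC : ∀ a ∈ C, a < n) (hCc : IxCen e g C) (hWn : ∀ a ∈ W, a < n) (hrn : r < n)
    (hK : ixAllL (fun c => ixAnd (ixBit (ixMask C) c)
      (ixBit (ixMask C) (ixComm mul inv r c))) K = true) :
    ∀ u ∈ W, e u = g * e r * g⁻¹ →
      ixAllL (fun c => Nat.beq (ixComm mul inv u c) (ixComm mul inv r c)) K = true := by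
  intro u hu hgu
  rw [ixAllL_iff]
  intro c hc
  have h1 := (ixAllL_iff _ _).mp hK c hc
  rw [ixAnd_iff, ixBit_mask, ixBit_mask] at h1
  have hcn := hC c h1.1
  have hun := hWn u hu
  obtain ⟨h3, h4⟩ := D.ixComm_spec hun hcn
  obtain ⟨h5, h6⟩ := D.ixComm_spec hrn hcn
  have h7 := hCc c h1.1
  have h8 := hCc _ h1.2
  have h9 : ixComm mul inv u c = ixComm mul inv r c := by
    apply D.inj _ h3 _ h5
    rw [h4]
    calc e u * e c * (e c * e u)⁻¹
        = (g * e r * g⁻¹) * (g * e c * g⁻¹) * ((g * e c * g⁻¹) * (g * e r * g⁻¹))⁻¹ := by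
          rw [hgu, h7]
      _ = g * (e r * e c * (e c * e r)⁻¹) * g⁻¹ := by group
      _ = g * e (ixComm mul inv r c) * g⁻¹ := by rw [h6]
      _ = e (ixComm mul inv r c) := h8
  rw [h9]
  exact Nat.beq_refl _

/-- the conjugate of `r` by an element centralizing `C` has the same square as `r`, if this
square lies in `C` -/
theorem IxModel.sq_pred (D : IxModel P n e mul inv one) {g : Ω} {C W : List ℕ} {r : ℕ}
    (hCc : IxCen e g C) (hWn : ∀ a ∈ W, a < n) (hrn : r < n)
    (hr2 : ixBit (ixMask C) (mul r r) = true) :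
    ∀ u ∈ W, e u = g * e r * g⁻¹ → Nat.beq (mul u u) (mul r r) = true := by
  intro u hu hgu
  rw [ixBit_mask] at hr2
  have hun := hWn u hu
  have h8 := hCc _ hr2
  have h9 : mul u u = mul r r := by
    apply D.inj _ (D.mul_lt u hun u hun) _ (D.mul_lt r hrn r hrn)
    rw [D.e_mul u hun u hun]
    calc e u * e u = g * (e r * e r) * g⁻¹ := by rw [hgu]; group
      _ = g * e (mul r r) * g⁻¹ := by rw [D.e_mul r hrn r hrn]
      _ = e (mul r r) := h8
  rw [h9]
  exact Nat.beq_refl _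

/-- the subgroup with the elements of a list closed under the operations -/
def IxModel.sub (D : IxModel P n e mul inv one) (L : List ℕ) (hL : ∀ a ∈ L, a < n)
    (hone : ixBit (ixMask L) one = true)
    (hmul : ixAllL (fun a => ixAllL (fun b => ixBit (ixMask L) (mul a b)) L) L = true)
    (hinv : ixAllL (fun a => ixBit (ixMask L) (inv a)) L = true) : Subgroup Ω where
  carrier := ixSet e L
  mul_mem' := by
    rintro _ _ ⟨a, ha, rfl⟩ ⟨b, hb, rfl⟩
    have h := (ixAllL_iff _ _).mp ((ixAllL_iff _ _).mp hmul a ha) b hb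
    rw [ixBit_mask] at h
    exact ⟨mul a b, h, D.e_mul a (hL a ha) b (hL b hb)⟩
  one_mem' := ⟨one, (ixBit_mask _ _).mp hone, D.e_one⟩
  inv_mem' := by
    rintro _ ⟨a, ha, rfl⟩
    have h := (ixAllL_iff _ _).mp hinv a ha
    rw [ixBit_mask] at h
    exact ⟨inv a, h, D.e_inv a (hL a ha)⟩

theorem IxModel.mem_sub (D : IxModel P n e mul inv one) {L : List ℕ} {hL : ∀ a ∈ L, a < n}
    {hone : ixBit (ixMask L) one = true}
    {hmul : ixAllL (fun a => ixAllL (fun b => ixBit (ixMask L) (mul a b)) L) L = true}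
    {hinv : ixAllL (fun a => ixBit (ixMask L) (inv a)) L = true} {x : Ω} :
    x ∈ D.sub L hL hone hmul hinv ↔ ∃ a ∈ L, e a = x := Iff.rfl

theorem IxModel.sub_le (D : IxModel P n e mul inv one) {L : List ℕ} {hL : ∀ a ∈ L, a < n}
    {hone : ixBit (ixMask L) one = true}
    {hmul : ixAllL (fun a => ixAllL (fun b => ixBit (ixMask L) (mul a b)) L) L = true}
    {hinv : ixAllL (fun a => ixBit (ixMask L) (inv a)) L = true} :
    D.sub L hL hone hmul hinv ≤ P := by
  rintro _ ⟨a, ha, rfl⟩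
  exact D.mem a (hL a ha)

/-- the subgroup of a list is normal in `P` -/
theorem IxModel.sub_normal (D : IxModel P n e mul inv one) {L : List ℕ} {hL : ∀ a ∈ L, a < n}
    {hone : ixBit (ixMask L) one = true}
    {hmul : ixAllL (fun a => ixAllL (fun b => ixBit (ixMask L) (mul a b)) L) L = true}
    {hinv : ixAllL (fun a => ixBit (ixMask L) (inv a)) L = true}
    (hn : ixAllN (fun a => ixAllL (fun b => ixBit (ixMask L) (mul (mul a b) (inv a))) L) n
      = true) :
    ∀ s ∈ P, ∀ x ∈ D.sub L hL hone hmul hinv, s * x * s⁻¹ ∈ D.sub L hL hone hmul hinv := by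
  rintro s hs _ ⟨b, hb, rfl⟩
  obtain ⟨a, ha, rfl⟩ := D.surj s hs
  have h := (ixAllL_iff _ _).mp ((ixAllN_iff _ _).mp hn a ha) b hb
  rw [ixBit_mask] at h
  refine ⟨_, h, ?_⟩
  rw [D.e_mul _ (D.mul_lt a ha b (hL b hb)) _ (D.inv_lt a ha), D.e_mul a ha b (hL b hb),
    D.e_inv a ha]

/-- the subgroup of a list contains its centralizer in `P` -/
theorem IxModel.sub_selfCen (D : IxModel P n e mul inv one) {L : List ℕ} {hL : ∀ a ∈ L, a < n}
    {hone : ixBit (ixMask L) one = true}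
    {hmul : ixAllL (fun a => ixAllL (fun b => ixBit (ixMask L) (mul a b)) L) L = true}
    {hinv : ixAllL (fun a => ixBit (ixMask L) (inv a)) L = true}
    (hc : ixAllN (fun a => ixOr (ixBit (ixMask L) a)
      (ixNot (ixAllL (fun b => Nat.beq (mul a b) (mul b a)) L))) n = true) :
    ∀ c ∈ P, (∀ x ∈ D.sub L hL hone hmul hinv, c * x = x * c) →
      c ∈ D.sub L hL hone hmul hinv := by
  intro c hcP hcx
  obtain ⟨a, ha, rfl⟩ := D.surj c hcP
  have h := (ixAllN_iff _ _).mp hc a ha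
  rw [ixOr_iff, ixBit_mask, ixNot_iff] at h
  rcases h with h | h
  · exact ⟨a, h, rfl⟩
  · exfalso
    have h1 : ixAllL (fun b => Nat.beq (mul a b) (mul b a)) L = true := by
      rw [ixAllL_iff]
      intro b hb
      have h2 := hcx (e b) ⟨b, hb, rfl⟩
      rw [← D.e_mul a ha b (hL b hb), ← D.e_mul b (hL b hb) a ha] at h2
      have h3 := D.inj _ (D.mul_lt a ha b (hL b hb)) _ (D.mul_lt b (hL b hb) a ha) h2
      rw [h3]
      exact Nat.beq_refl _
    rw [h1] at h
    exact Bool.noConfusion h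

/-- a `2`-element of `H` normalizing a subgroup of the order of the Sylow `2`-subgroups lies
in it -/
theorem mem_of_two_pow_of_card (H P : Subgroup Ω) [Finite H] (hPH : P ≤ H)
    (hcard : Nat.card P = 2 ^ (Nat.card H).factorization 2) :
    ∀ t ∈ H, t ∈ Subgroup.normalizer (P : Set Ω) → ∀ k : ℕ, t ^ 2 ^ k = 1 → t ∈ P := by
  intro t htH htN k htk
  haveI : Fact (Nat.Prime 2) := ⟨Nat.prime_two⟩
  have hc : Nat.card (P.subgroupOf H) = 2 ^ (Nat.card H).factorization 2 := by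
    rw [← hcard]
    exact Nat.card_congr (Subgroup.subgroupOfEquivOfLe hPH).toEquiv
  have h1 : (⟨t, htH⟩ : H) ∈ Subgroup.normalizer
      (((Sylow.ofCard (P.subgroupOf H) hc : Sylow 2 H) : Subgroup H) : Set H) := by
    rw [Sylow.coe_ofCard, Subgroup.mem_normalizer_iff]
    intro x
    rw [Subgroup.mem_subgroupOf, Subgroup.mem_subgroupOf]
    exact (Subgroup.mem_normalizer_iff.mp htN) (x : Ω)
  have h2 := Cfsg.Agent.Lib.Helper91.SimpleGen.mem_sylow_of_normalizer_pow
    (Sylow.ofCard (P.subgroupOf H) hc : Sylow 2 H) ⟨t, htH⟩ h1 k (Subtype.ext (by simpa using htk))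
  rw [Sylow.coe_ofCard, Subgroup.mem_subgroupOf] at h2
  exact h2

/-- the normalizer of `P` in `H` lies in `⟨h⟩ P C_H(P)`, if `h` permutes transitively three
cosets of an invariant subgroup which cover an invariant set, and the elements of odd order
fixing one of these cosets centralize `P` -/
theorem IxModel.normalizer_decomp (D : IxModel P n e mul inv one) (H : Subgroup Ω) [Finite H]
    [Finite P]
    (hSyl : ∀ t ∈ H, t ∈ Subgroup.normalizer (P : Set Ω) → ∀ k : ℕ, t ^ 2 ^ k = 1 → t ∈ P)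
    (h : Ω) (hhH : h ∈ H) (hmap : ℕ → ℕ)
    (hh : ∀ a < n, hmap a < n ∧ h * e a * h⁻¹ = e (hmap a))
    (C WV R1 : List ℕ) (r : ℕ)
    (hCinv : ∀ g ∈ Subgroup.normalizer (P : Set Ω), IxInv n e g C)
    (hWinv : ∀ g ∈ Subgroup.normalizer (P : Set Ω), IxInv n e g WV)
    (hrW : ixBit (ixMask WV) r = true) (hrR : ixBit (ixMask R1) r = true)
    (hR1 : ∀ a ∈ R1, a < n)
    (hcyc : ixAllL (fun w => ixOr (ixBit (ixMask R1) w) (ixOr (ixBit (ixMask R1) (hmap w))
        (ixBit (ixMask R1) (hmap (hmap w))))) WV = true)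
    (hRC : ixAllL (fun w => ixBit (ixMask C) (mul w (inv r))) R1 = true)
    (hCR : ixAllL (fun c => ixAllL (fun w => ixBit (ixMask R1) (mul c w)) R1) C = true)
    (hodd : ∀ u ∈ Subgroup.normalizer (P : Set Ω), ∀ m : ℕ, u ^ m = 1 → Nat.Coprime m 2 →
      (∃ w ∈ R1, e w = u * e r * u⁻¹) → ∀ x ∈ P, u * x * u⁻¹ = x) :
    ∀ g ∈ H, g ∈ Subgroup.normalizer (P : Set Ω) →
      ∃ i : ℕ, ∃ t ∈ P, ∃ c ∈ H, c ∈ Subgroup.centralizer (P : Set Ω) ∧ h ^ i * g = t * c := by
  intro g hgH hgN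
  have hhN : h ∈ Subgroup.normalizer (P : Set Ω) := by
    apply Cfsg.Agent.Lib.Helper90.mem_normalizer_of_finite
    intro x hx
    obtain ⟨a, ha, rfl⟩ := D.surj x hx
    rw [(hh a ha).2]
    exact D.mem _ (hh a ha).1
  have hrW' := (ixBit_mask _ _).mp hrW
  have hrn : r < n := (hWinv g hgN).1 r hrW'
  -- a power of `h` brings the conjugate of `r` back to the coset `R1`
  obtain ⟨w, hw, hgw⟩ := ((hWinv g hgN).2 (e r) ⟨r, hrW', rfl⟩).1
  have hwn := (hWinv g hgN).1 w hw
  have h1 := (ixAllL_iff _ _).mp hcyc w hw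
  rw [ixOr_iff, ixOr_iff, ixBit_mask, ixBit_mask, ixBit_mask] at h1
  have key : ∃ i : ℕ, ∃ w' ∈ R1, e w' = (h ^ i * g) * e r * (h ^ i * g)⁻¹ := by
    rcases h1 with h1 | h1 | h1
    · exact ⟨0, w, h1, by rw [pow_zero, one_mul]; exact hgw⟩
    · refine ⟨1, hmap w, h1, ?_⟩
      rw [← (hh w hwn).2, hgw, pow_one]
      group
    · refine ⟨2, hmap (hmap w), h1, ?_⟩
      rw [← (hh _ (hh w hwn).1).2, ← (hh w hwn).2, hgw, pow_two]
      group
  obtain ⟨i, w', hw', hgw'⟩ := key
  have hg'H : h ^ i * g ∈ H := H.mul_mem (H.pow_mem hhH i) hgH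
  have hg'N : h ^ i * g ∈ Subgroup.normalizer (P : Set Ω) :=
    Subgroup.mul_mem _ (Subgroup.pow_mem _ hhN i) hgN
  refine ⟨i, ?_⟩
  generalize h ^ i * g = g' at hgw' hg'H hg'N ⊢
  -- the powers of `g'` fix the coset
  have hCi := hCinv g' hg'N
  have hirn := D.inv_lt r hrn
  have hpow : ∀ k : ℕ, ∃ w ∈ R1, e w = g' ^ k * e r * (g' ^ k)⁻¹ := by
    intro k
    induction k with
    | zero => exact ⟨r, (ixBit_mask _ _).mp hrR, by simp⟩
    | succ k ih =>
      obtain ⟨wk, hwk, hek⟩ := ih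
      have hwkn := hR1 wk hwk
      have hc := (ixAllL_iff _ _).mp hRC wk hwk
      rw [ixBit_mask] at hc
      have hce : e (mul wk (inv r)) = e wk * (e r)⁻¹ := by
        rw [D.e_mul wk hwkn _ hirn, D.e_inv r hrn]
      obtain ⟨c', hc', hce'⟩ := (hCi.2 _ ⟨_, hc, rfl⟩).1
      have hcw := (ixAllL_iff _ _).mp ((ixAllL_iff _ _).mp hCR c' hc') w' hw'
      rw [ixBit_mask] at hcw
      refine ⟨mul c' w', hcw, ?_⟩
      rw [D.e_mul c' (hCi.1 c' hc') w' (hR1 w' hw'), hce', hce, hgw', hek, pow_succ']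
      group
  -- the decomposition of `g'`
  have hN0 : Nat.card H ≠ 0 := Nat.card_pos.ne'
  obtain ⟨a, m, hmodd, hNeq⟩ := Nat.exists_eq_two_pow_mul_odd hN0
  have hgN1 : g' ^ (2 ^ a * m) = 1 := by
    have h3 : (⟨g', hg'H⟩ : H) ^ Nat.card H = 1 := pow_card_eq_one'
    have h4 := congrArg Subtype.val h3
    rw [hNeq] at h4
    simpa using h4
  have hcop : Nat.Coprime m 2 := hmodd.coprime_two_right
  have hum : (g' ^ 2 ^ a) ^ m = 1 := by rw [← pow_mul]; exact hgN1
  have huN : g' ^ 2 ^ a ∈ Subgroup.normalizer (P : Set Ω) := Subgroup.pow_mem _ hg'N _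
  have hu := hodd _ huN m hum hcop (hpow (2 ^ a))
  have huC : g' ^ 2 ^ a ∈ Subgroup.centralizer (P : Set Ω) := by
    rw [Subgroup.mem_centralizer_iff]
    intro x hx
    exact (mul_inv_eq_iff_eq_mul.mp (hu x hx)).symm
  have htp : (g' ^ m) ^ 2 ^ a = 1 := by rw [← pow_mul, mul_comm]; exact hgN1
  have htP : g' ^ m ∈ P := hSyl _ (H.pow_mem hg'H m) (Subgroup.pow_mem _ hg'N _) a htp
  have hco2 : Nat.gcd m (2 ^ a) = 1 := Nat.Coprime.pow_right a hcop
  have hb := Nat.gcd_eq_gcd_ab m (2 ^ a)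
  rw [hco2] at hb
  refine ⟨(g' ^ m) ^ (Nat.gcdA m (2 ^ a)), Subgroup.zpow_mem _ htP _,
    (g' ^ 2 ^ a) ^ (Nat.gcdB m (2 ^ a)), Subgroup.zpow_mem _ (H.pow_mem hg'H _) _,
    Subgroup.zpow_mem _ huC _, ?_⟩
  have h5 : g' = g' ^ ((m : ℤ) * Nat.gcdA m (2 ^ a) + ((2 ^ a : ℕ) : ℤ) * Nat.gcdB m (2 ^ a)) := by
    rw [← hb]
    simp
  rw [zpow_add, zpow_mul, zpow_mul, zpow_natCast, zpow_natCast] at h5
  exact h5

end

/-- the hypothesis of the simplicity criterion for the `2`-fusion system, from the absence of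
strongly closed subgroups and the structure of the normalizer -/
theorem goodSyl_of_norm {Ω : Type*} [Group Ω] (H P Q : Subgroup Ω) [Finite H] (hPH : P ≤ H)
    (hne : P ≠ ⊥)
    (hB : ∀ T : Subgroup Ω, T ≤ P → T ≠ ⊥ →
      (∀ t ∈ T, ∀ γ ∈ H, γ * t * γ⁻¹ ∈ P → γ * t * γ⁻¹ ∈ T) → P ≤ T)
    (hQP : Q ≤ P) (hQn : ∀ s ∈ P, ∀ x ∈ Q, s * x * s⁻¹ ∈ Q)
    (hQc : ∀ c ∈ P, (∀ x ∈ Q, c * x = x * c) → c ∈ Q)
    (x1 x2 : Ω) (hx1 : x1 ∈ H) (hx2 : x2 ∈ H) (k1 k2 : ℕ) (hx1p : x1 ^ 2 ^ k1 = 1)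
    (hx2p : x2 ^ 2 ^ k2 = 1)
    (hx1Q : ∀ x ∈ Q, x1 * x * x1⁻¹ ∈ Q) (hx2Q : ∀ x ∈ Q, x2 * x * x2⁻¹ ∈ Q)
    (hhP : ∀ x ∈ P, (x1 * x2) * x * (x1 * x2)⁻¹ ∈ P)
    (hN : ∀ g ∈ H, g ∈ Subgroup.normalizer (P : Set Ω) → ∃ i : ℕ, ∃ t ∈ P, ∃ c ∈ H,
      c ∈ Subgroup.centralizer (P : Set Ω) ∧ (x1 * x2) ^ i * g = t * c) :
    Cfsg.Agent.Lib.Helper91.SimpleGen.GoodSyl 2 (P.subgroupOf H) := by
  refine ⟨?_, ?_, ?_⟩
  · intro hbot
    apply hne
    rw [Subgroup.eq_bot_iff_forall]
    intro x hx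
    have h1 : (⟨x, hPH hx⟩ : H) ∈ P.subgroupOf H := Subgroup.mem_subgroupOf.mpr hx
    rw [hbot, Subgroup.mem_bot] at h1
    exact congrArg Subtype.val h1
  · intro T hTS hT
    by_cases hTb : T = ⊥
    · exact Or.inl hTb
    · right
      have h1 := hB (T.map H.subtype) (by
          rintro _ ⟨y, hy, rfl⟩
          exact Subgroup.mem_subgroupOf.mp (hTS hy)) (by
          intro hb
          apply hTb
          rw [Subgroup.eq_bot_iff_forall]
          intro y hy
          have h2 : H.subtype y ∈ T.map H.subtype := Subgroup.mem_map_of_mem _ hy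
          rw [hb, Subgroup.mem_bot] at h2
          exact Subtype.ext h2) (by
          rintro _ ⟨y, hy, rfl⟩ γ hγ hP
          have h3 := hT y hy ⟨γ, hγ⟩ (Subgroup.mem_subgroupOf.mpr hP)
          exact ⟨_, h3, rfl⟩)
      apply le_antisymm hTS
      intro x hx
      obtain ⟨y, hy, hyx⟩ := h1 (Subgroup.mem_subgroupOf.mp hx)
      have : y = x := Subtype.ext hyx
      rw [← this]
      exact hy
  · intro g hg
    have hgN : (g : Ω) ∈ Subgroup.normalizer (P : Set Ω) := by
      rw [Subgroup.mem_normalizer_iff] at hg ⊢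
      intro x
      constructor
      · intro hx
        exact Subgroup.mem_subgroupOf.mp ((hg ⟨x, hPH hx⟩).mp (Subgroup.mem_subgroupOf.mpr hx))
      · intro hx
        have hxH : x ∈ H := by
          have h1 : (g : Ω)⁻¹ * ((g : Ω) * x * (g : Ω)⁻¹) * (g : Ω) ∈ H :=
            H.mul_mem (H.mul_mem (H.inv_mem g.2) (hPH hx)) g.2
          have h2 : (g : Ω)⁻¹ * ((g : Ω) * x * (g : Ω)⁻¹) * (g : Ω) = x := by group
          rwa [h2] at h1
        exact Subgroup.mem_subgroupOf.mp ((hg ⟨x, hxH⟩).mpr (Subgroup.mem_subgroupOf.mpr hx))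
    obtain ⟨i, t, ht, c, hcH, hc, heq⟩ := hN g g.2 hgN
    have hgeq : g = ((⟨x1, hx1⟩ * ⟨x2, hx2⟩ : H) ^ i)⁻¹ * ((⟨t, hPH ht⟩ : H) * ⟨c, hcH⟩) := by
      rw [eq_inv_mul_iff_mul_eq]
      apply Subtype.ext
      simpa using heq
    rw [hgeq]
    apply Subgroup.mul_mem
    · apply Subgroup.inv_mem
      apply Subgroup.pow_mem
      apply Subgroup.subset_closure
      refine Or.inr ⟨?_, Q.subgroupOf H, ?_, ?_, ?_, ?_⟩
      · apply Cfsg.Agent.Lib.Helper90.mem_normalizer_of_finite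
        intro x hx
        exact Subgroup.mem_subgroupOf.mpr (hhP _ (Subgroup.mem_subgroupOf.mp hx))
      · intro x hx
        exact Subgroup.mem_subgroupOf.mpr (hQP (Subgroup.mem_subgroupOf.mp hx))
      · intro s hs x hx
        exact Subgroup.mem_subgroupOf.mpr
          (hQn _ (Subgroup.mem_subgroupOf.mp hs) _ (Subgroup.mem_subgroupOf.mp hx))
      · intro c' hc' hcx
        apply Subgroup.mem_subgroupOf.mpr
        apply hQc _ (Subgroup.mem_subgroupOf.mp hc')
        intro x hx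
        have h1 := hcx ⟨x, hPH (hQP hx)⟩ (Subgroup.mem_subgroupOf.mpr hx)
        exact congrArg Subtype.val h1
      · apply Subgroup.mul_mem
        · apply Subgroup.subset_closure
          refine ⟨?_, k1, Subtype.ext (by simpa using hx1p)⟩
          apply Cfsg.Agent.Lib.Helper90.mem_normalizer_of_finite
          intro x hx
          exact Subgroup.mem_subgroupOf.mpr (hx1Q _ (Subgroup.mem_subgroupOf.mp hx))
        · apply Subgroup.subset_closure
          refine ⟨?_, k2, Subtype.ext (by simpa using hx2p)⟩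
          apply Cfsg.Agent.Lib.Helper90.mem_normalizer_of_finite
          intro x hx
          exact Subgroup.mem_subgroupOf.mpr (hx2Q _ (Subgroup.mem_subgroupOf.mp hx))
    · apply Subgroup.mul_mem
      · apply Subgroup.subset_closure
        exact Or.inl (Or.inl (Subgroup.mem_subgroupOf.mpr ht))
      · apply Subgroup.subset_closure
        refine Or.inl (Or.inr ?_)
        rw [SetLike.mem_coe, Subgroup.mem_centralizer_iff]
        intro x hx
        apply Subtype.ext
        exact (Subgroup.mem_centralizer_iff.mp hc) (x : Ω) (Subgroup.mem_subgroupOf.mp hx)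

section

variable {Ω : Type*} [Group Ω] {cod : Ω → ℕ} {cmul : ℕ → ℕ → ℕ} {cid : ℕ} {bc : ℕ → ℕ}
  {r n : ℕ} {words : ℕ → List ℕ} {code : ℕ → ℕ} {mul : ℕ → ℕ → ℕ} {inv : ℕ → ℕ} {root : ℕ}

theorem wprod_append (b : ℕ → Ω) (w1 w2 : List ℕ) :
    wprod b (w1 ++ w2) = wprod b w1 * wprod b w2 := by
  unfold wprod
  rw [List.map_append, List.prod_append]

theorem wprod_replicate (b : ℕ → Ω) (w : List ℕ) (k : ℕ) :
    wprod b (List.replicate k w).flatten = wprod b w ^ k := by
  induction k with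
  | zero => simp [wprod]
  | succ k ih => rw [List.replicate_succ, List.flatten_cons, wprod_append, ih, pow_succ']

/-- a word with the code of the identity -/
theorem GCode.word_one (K : GCode cod cmul cid) {H : Subgroup Ω} {b : ℕ → Ω}
    (hb : ∀ i < r, b i ∈ H ∧ cod (b i) = bc i) {w : List ℕ}
    (h : wordOK cmul cid bc r w cid = true) : wprod b w = 1 := by
  apply K.inj
  rw [(K.word_spec hb h).2, K.one]

/-- conjugation by the element with the word `w` maps the elements of the list `L` into those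
of `L'`, as described by the map `f` on indices -/
theorem CodeCert.conj_list (K : GCode cod cmul cid)
    (C : CodeCert cmul cid bc r n words code mul inv root)
    {H : Subgroup Ω} {b : ℕ → Ω} (hb : ∀ i < r, b i ∈ H ∧ cod (b i) = bc i)
    {w : List ℕ} {cw : ℕ} (hw : wordOK cmul cid bc r w cw = true) (L L' : List ℕ)
    (hL : ∀ a ∈ L, a < n) (hL' : ∀ a ∈ L', a < n) (f : ℕ → ℕ)
    (h : ixAllL (fun a => ixAnd (ixBit (ixMask L') (f a))
      (Nat.beq (cmul cw (code a)) (cmul (code (f a)) cw))) L = true) :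
    ∀ a ∈ L, f a ∈ L' ∧
      wprod b w * wprod b (words a) * (wprod b w)⁻¹ = wprod b (words (f a)) := by
  intro a ha
  have h1 := (ixAllL_iff _ _).mp h a ha
  rw [ixAnd_iff, ixBit_mask] at h1
  exact ⟨h1.1, C.conj_word K hb (hL a ha) (hL' _ h1.1) hw h1.2⟩

end

end Cfsg.Agent.Lib.Helper89
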