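import Mathlib

/-!
# Job piece C for S3627: the spectrum of `J × J × J × X` and of `J × J × J × J`
-/

set_option autoImplicit false

namespace Cfsg.Agent.Lib.Helper89.J1SpecC

/-- The element orders of `J`. -/
def omegaL : List ℕ := [1, 2, 3, 5, 6, 7, 10, 11, 15, 19]

/-- The element orders of `X`. -/
def xL : List ℕ := [1, 2, 7]

/-- lcm's of three members of `omegaL`. -/
def l3L : List ℕ := [1, 2, 3, 5, 6, 7, 10, 11, 14, 15, 19, 21, 22, 30, 33, 35, 38, 42, 55, 57, 66,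
  70, 77, 95, 105, 110, 114, 133, 154, 165, 190, 209, 210, 231, 266, 285, 330, 385, 399, 418, 462,
  570, 627, 665, 770, 798, 1045, 1155, 1254, 1330, 1463, 1995, 2090, 3135]

/-- The proper divisors of `43890`. -/
def wL : List ℕ := [1, 2, 3, 5, 6, 7, 10, 11, 14, 15, 19, 21, 22, 30, 33, 35, 38, 42, 55, 57, 66,
  70, 77, 95, 105, 110, 114, 133, 154, 165, 190, 209, 210, 231, 266, 285, 330, 385, 399, 418, 462,
  570, 627, 665, 770, 798, 1045, 1155, 1254, 1330, 1463, 1995, 2090, 2310, 2926, 3135, 3990, 4389,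
  6270, 7315, 8778, 14630, 21945]

theorem f3 : ∀ b ∈ omegaL, ∀ c ∈ omegaL, ∀ d ∈ omegaL, Nat.lcm b (Nat.lcm c d) ∈ l3L := by
  decide +kernel

theorem f1' : ∀ a ∈ omegaL, ∀ m ∈ l3L, Nat.lcm a m ∈ wL := by
  decide +kernel

theorem f1 : ∀ a ∈ omegaL, ∀ b ∈ omegaL, ∀ c ∈ omegaL, ∀ d ∈ omegaL,
    Nat.lcm a (Nat.lcm b (Nat.lcm c d)) ∈ wL :=
  fun a ha b hb c hc d hd => f1' a ha _ (f3 b hb c hc d hd)

theorem f4 : ∀ w ∈ wL, ∃ a ∈ omegaL, ∃ b ∈ omegaL, ∃ c ∈ omegaL, ∃ x ∈ xL,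
    Nat.lcm a (Nat.lcm b (Nat.lcm c x)) = w := by
  decide +kernel

theorem fx : ∀ x ∈ xL, x ∈ omegaL := by
  decide

theorem range_orderOf_prod4 {J X : Type*} [Group J] [Group X]
    (hJ : Set.range (orderOf : J → ℕ) = {1, 2, 3, 5, 6, 7, 10, 11, 15, 19})
    (hX : Set.range (orderOf : X → ℕ) = {1, 2, 7}) :
    Set.range (orderOf : J × J × J × X → ℕ) = Set.range (orderOf : J × J × J × J → ℕ) := by
  have hJmem : ∀ a : J, orderOf a ∈ omegaL := by
    intro a
    have h := Set.mem_range_self (f := (orderOf : J → ℕ)) a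
    rw [hJ] at h
    simp only [Set.mem_insert_iff, Set.mem_singleton_iff] at h
    simp only [omegaL, List.mem_cons, List.not_mem_nil, or_false]
    exact h
  have hJex : ∀ n ∈ omegaL, ∃ a : J, orderOf a = n := by
    intro n hn
    have h : n ∈ Set.range (orderOf : J → ℕ) := by
      rw [hJ]
      simp only [omegaL, List.mem_cons, List.not_mem_nil, or_false] at hn
      simp only [Set.mem_insert_iff, Set.mem_singleton_iff]
      exact hn
    exact h
  have hXmem : ∀ a : X, orderOf a ∈ xL := by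
    intro a
    have h := Set.mem_range_self (f := (orderOf : X → ℕ)) a
    rw [hX] at h
    simp only [Set.mem_insert_iff, Set.mem_singleton_iff] at h
    simp only [xL, List.mem_cons, List.not_mem_nil, or_false]
    exact h
  have hXex : ∀ n ∈ xL, ∃ a : X, orderOf a = n := by
    intro n hn
    have h : n ∈ Set.range (orderOf : X → ℕ) := by
      rw [hX]
      simp only [xL, List.mem_cons, List.not_mem_nil, or_false] at hn
      simp only [Set.mem_insert_iff, Set.mem_singleton_iff]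
      exact hn
    exact h
  apply Set.eq_of_subset_of_subset
  · rintro _ ⟨⟨a, b, c, x⟩, rfl⟩
    obtain ⟨d, hd⟩ := hJex _ (fx _ (hXmem x))
    refine ⟨(a, b, c, d), ?_⟩
    simp only [Prod.orderOf, hd]
  · rintro _ ⟨⟨a, b, c, d⟩, rfl⟩
    have hw : Nat.lcm (orderOf a) (Nat.lcm (orderOf b) (Nat.lcm (orderOf c) (orderOf d))) ∈ wL :=
      f1 _ (hJmem a) _ (hJmem b) _ (hJmem c) _ (hJmem d)
    obtain ⟨a', ha', b', hb', c', hc', x', hx', h⟩ := f4 _ hw
    obtain ⟨a₁, rfl⟩ := hJex a' ha'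
    obtain ⟨b₁, rfl⟩ := hJex b' hb'
    obtain ⟨c₁, rfl⟩ := hJex c' hc'
    obtain ⟨x₁, rfl⟩ := hXex x' hx'
    refine ⟨(a₁, b₁, c₁, x₁), ?_⟩
    simp only [Prod.orderOf]
    exact h

end Cfsg.Agent.Lib.Helper89.J1SpecC
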