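import Mathlib
import Cfsg.Agent.Lib.Helper89.J2SylData
import Cfsg.Agent.Lib.Helper7.J2Perm

set_option autoImplicit false

/-!
# A Sylow `2`-subgroup of `J2` in the permutation representation of degree `315`: the
certificate (helper89)
-/

namespace Cfsg.Agent.Lib.Helper89.J2Syl

open Cfsg.Agent.Lib.Helper7.J2P

/-- the codes of the four generators -/
def bc (i : ℕ) : ℕ :=
  Bool.rec (motive := fun _ => ℕ) (Bool.rec (motive := fun _ => ℕ)
    (Bool.rec (motive := fun _ => ℕ) t3 t2 (Nat.beq i 2)) t1 (Nat.beq i 1)) t0 (Nat.beq i 0)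

/-- the four generators -/
def bp : ℕ → Equiv.Perm (Fin 315)
  | 0 => s0
  | 1 => s1
  | 2 => s2
  | _ => s3

theorem enc0 : Nat.beq (pc9Enc (pc9Dig t0) 315 0) t0 = true := by decide +kernel
theorem enc1 : Nat.beq (pc9Enc (pc9Dig t1) 315 0) t1 = true := by decide +kernel
theorem enc2 : Nat.beq (pc9Enc (pc9Dig t2) 315 0) t2 = true := by decide +kernel
theorem enc3 : Nat.beq (pc9Enc (pc9Dig t3) 315 0) t3 = true := by decide +kernel

theorem cod0 : pc9Of s0 = t0 := by
  rw [pc9Of_eq_of_apply s0 t0 (fun i => s0_apply i)]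
  exact Nat.eq_of_beq_eq_true enc0

theorem cod1 : pc9Of s1 = t1 := by
  rw [pc9Of_eq_of_apply s1 t1 (fun i => s1_apply i)]
  exact Nat.eq_of_beq_eq_true enc1

theorem cod2 : pc9Of s2 = t2 := by
  rw [pc9Of_eq_of_apply s2 t2 (fun i => s2_apply i)]
  exact Nat.eq_of_beq_eq_true enc2

theorem cod3 : pc9Of s3 = t3 := by
  rw [pc9Of_eq_of_apply s3 t3 (fun i => s3_apply i)]
  exact Nat.eq_of_beq_eq_true enc3

theorem hb : ∀ i < 4, bp i ∈ P ∧ pc9Of (bp i) = bc i := by
  intro i hi
  interval_cases i
  · exact ⟨Subgroup.subset_closure (by show s0 ∈ ({s0, s1, s2, s3} : Set _); simp), cod0⟩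
  · exact ⟨Subgroup.subset_closure (by show s1 ∈ ({s0, s1, s2, s3} : Set _); simp), cod1⟩
  · exact ⟨Subgroup.subset_closure (by show s2 ∈ ({s0, s1, s2, s3} : Set _); simp), cod2⟩
  · exact ⟨Subgroup.subset_closure (by show s3 ∈ ({s0, s1, s2, s3} : Set _); simp), cod3⟩

theorem gcode : GCode (pc9Of (N := 315)) (pc9Mul 315) (pc9Id 315) := pc9_gcode (by norm_num)

theorem words_ok : ixAllN (fun k => wordOK (pc9Mul 315) (pc9Id 315) bc 4 (words k) (code k)) 128 = true := by
  decide +kernel

theorem sorted_ok : ixAllN (fun k => Nat.blt (code k) (code (Nat.succ k))) (Nat.pred 128) = true := by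
  decide +kernel

/-- the check of the rows `off ≤ a < off + 16` of the multiplication table -/
def rowsOK (off : ℕ) : Bool :=
  ixAllN (fun a => ixAllN (fun b => ixAnd (Nat.blt (mul (Nat.add off a) b) 128)
    (Nat.beq (pc9Mul 315 (code (Nat.add off a)) (code b)) (code (mul (Nat.add off a) b)))) 128) 16

theorem rows0 : rowsOK 0 = true := by decide +kernel
theorem rows1 : rowsOK 16 = true := by decide +kernel
theorem rows2 : rowsOK 32 = true := by decide +kernel
theorem rows3 : rowsOK 48 = true := by decide +kernel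
theorem rows4 : rowsOK 64 = true := by decide +kernel
theorem rows5 : rowsOK 80 = true := by decide +kernel
theorem rows6 : rowsOK 96 = true := by decide +kernel
theorem rows7 : rowsOK 112 = true := by decide +kernel

theorem rows_spec {off : ℕ} (h : rowsOK off = true) {a : ℕ} (h1 : off ≤ a) (h2 : a < off + 16) :
    ixAllN (fun b => ixAnd (Nat.blt (mul a b) 128)
      (Nat.beq (pc9Mul 315 (code a) (code b)) (code (mul a b)))) 128 = true := by
  have h3 : ixAllN (fun b => ixAnd (Nat.blt (mul (Nat.add off (a - off)) b) 128)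
      (Nat.beq (pc9Mul 315 (code (Nat.add off (a - off))) (code b))
        (code (mul (Nat.add off (a - off)) b)))) 128 = true :=
    (ixAllN_iff _ _).mp h (a - off) (by omega)
  have h4 : Nat.add off (a - off) = a := by
    show off + (a - off) = a
    omega
  rw [h4] at h3
  exact h3

theorem mul_ok : ixAllN (fun a => ixAllN (fun b => ixAnd (Nat.blt (mul a b) 128)
    (Nat.beq (pc9Mul 315 (code a) (code b)) (code (mul a b)))) 128) 128 = true := by
  rw [ixAllN_iff]
  intro a ha
  by_cases h0 : a < 16
  · exact rows_spec rows0 (by omega) (by omega)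
  by_cases h1 : a < 32
  · exact rows_spec rows1 (by omega) (by omega)
  by_cases h2 : a < 48
  · exact rows_spec rows2 (by omega) (by omega)
  by_cases h3 : a < 64
  · exact rows_spec rows3 (by omega) (by omega)
  by_cases h4 : a < 80
  · exact rows_spec rows4 (by omega) (by omega)
  by_cases h5 : a < 96
  · exact rows_spec rows5 (by omega) (by omega)
  by_cases h6 : a < 112
  · exact rows_spec rows6 (by omega) (by omega)
  exact rows_spec rows7 (by omega) (by omega)

theorem inv_ok : ixAllN (fun a => ixAnd (Nat.blt (inv a) 128) (Nat.beq (mul a (inv a)) root)) 128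
    = true := by
  decide +kernel

theorem root_ok : ixAnd (Nat.blt root 128) (Nat.beq (code root) (pc9Id 315)) = true := by
  decide +kernel

/-- the certificate -/
theorem cert : CodeCert (pc9Mul 315) (pc9Id 315) bc 4 128 words code mul inv root :=
  ⟨words_ok, sorted_ok, mul_ok, inv_ok, root_ok⟩

/-- the Sylow `2`-subgroup -/
def Syl : Subgroup (Equiv.Perm (Fin 315)) := cert.grp gcode hb

/-- the index model of the group -/
theorem model : IxModel Syl 128 (fun k => wprod bp (words k)) mul inv root := cert.model gcode hb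

theorem leP : Syl ≤ P := cert.grp_le gcode hb

theorem cardS : Nat.card Syl = 2 ^ 7 := by
  rw [model.card]; norm_num

theorem isP : IsPGroup 2 Syl := IsPGroup.of_card cardS

end Cfsg.Agent.Lib.Helper89.J2Syl
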