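import Mathlib
import Cfsg.Agent.Lib.Helper89.J2SylData

set_option autoImplicit false

/-!
# A Sylow `2`-subgroup of `J2`: automorphisms of odd order (helper89)

The statements are for an arbitrary group with an index model having the multiplication table
of the Sylow `2`-subgroup of `J2`: an element of odd order normalizing it, and mapping the
element number `75` into its coset `R1` modulo a characteristic subgroup of order `4`,
centralizes it.
-/

namespace Cfsg.Agent.Lib.Helper89.J2Syl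

/-! ### Conjugation-invariant subsets -/

def Y1 : List ℕ := [64, 68, 75, 79, 82, 86, 88, 92, 99, 103, 105, 109, 112, 116, 123, 127]

def Y2 : List ℕ := [75, 79, 82, 86, 88, 92, 99, 103, 105, 109, 112, 116]

def Y3 : List ℕ := [68]

def Y4 : List ℕ := [64, 68, 123, 127]

def Y5 : List ℕ := [4, 11, 18, 24, 35, 41, 48, 63, 64, 65, 66, 67, 68, 69, 70, 71, 72, 76, 80, 84, 91, 95, 96, 100, 107, 111, 115, 119, 120, 121, 122, 123, 124, 125, 126, 127]

def Y6 : List ℕ := [68, 127]

def Y7 : List ℕ := [64, 123]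

def Y8 : List ℕ := [0, 1, 2, 3, 4, 5, 6, 7, 8, 9, 10, 11, 12, 13, 14, 15, 16, 17, 18, 19, 20, 21, 22, 23, 24, 25, 26, 27, 28, 29, 30, 31, 32, 33, 34, 35, 36, 37, 38, 39, 40, 41, 42, 43, 44, 45, 46, 47, 48, 49, 50, 51, 52, 53, 54, 55, 56, 57, 58, 59, 60, 61, 62, 63, 65, 66, 67, 69, 70, 71, 72, 73, 74, 76, 77, 78, 80, 81, 83, 84, 85, 87, 89, 90, 91, 93, 94, 95, 96, 97, 98, 100, 101, 102, 104, 106, 107, 108, 110, 111, 113, 114, 115, 117, 118, 119, 120, 121, 122, 124, 125, 126]

def Y9 : List ℕ := [0, 15, 22, 28, 39, 45, 52, 59]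

def Y10 : List ℕ := [4, 11, 18, 24, 35, 41, 48, 63, 65, 66, 67, 69, 70, 71, 72, 76, 80, 84, 91, 95, 96, 100, 107, 111, 115, 119, 120, 121, 122, 124, 125, 126]

def Y11 : List ℕ := [65, 66, 67, 69, 70, 71, 72, 76, 80, 84, 91, 95, 96, 100, 107, 111, 115, 119, 120, 121, 122, 124, 125, 126]

theorem eq_Y1 : ixImg (fun a => mul a a) (List.range 128) = ixMask Y1 :=
  Nat.eq_of_beq_eq_true (by decide +kernel)

theorem eq_Y2 : ixFilt (fun a => ixNot (ixBit (ixMask [root]) (mul a a))) Y1 = ixMask Y2 :=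
  Nat.eq_of_beq_eq_true (by decide +kernel)

theorem eq_Y3 : ixImg (fun a => mul a a) Y2 = ixMask Y3 :=
  Nat.eq_of_beq_eq_true (by decide +kernel)

theorem eq_Y4 : ixFilt (fun a => ixAllL (fun b => Nat.beq (mul a b) (mul b a)) Y1) (List.range 128) = ixMask Y4 :=
  Nat.eq_of_beq_eq_true (by decide +kernel)

theorem eq_Y5 : ixFilt (fun a => Nat.beq (mul a a) root) (List.range 128) = ixMask Y5 :=
  Nat.eq_of_beq_eq_true (by decide +kernel)

theorem eq_Y6 : ixFilt (fun a => ixAllL (fun b => Nat.beq (mul a b) (mul b a)) Y5) (List.range 128) = ixMask Y6 :=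
  Nat.eq_of_beq_eq_true (by decide +kernel)

theorem eq_Y7 : ixFilt (fun a => ixNot (ixBit (ixMask Y6) a)) Y4 = ixMask Y7 :=
  Nat.eq_of_beq_eq_true (by decide +kernel)

theorem eq_Y8 : ixFilt (fun a => ixNot (ixBit (ixMask Y1) a)) (List.range 128) = ixMask Y8 :=
  Nat.eq_of_beq_eq_true (by decide +kernel)

theorem eq_Y9 : ixFilt (fun a => ixBit (ixMask Y3) (mul a a)) Y8 = ixMask Y9 :=
  Nat.eq_of_beq_eq_true (by decide +kernel)

theorem eq_Y10 : ixFilt (fun a => ixNot (ixBit (ixMask Y1) a)) Y5 = ixMask Y10 :=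
  Nat.eq_of_beq_eq_true (by decide +kernel)

theorem eq_Y11 : ixFilt (fun a => ixAllL (fun b => Nat.beq (mul a b) (mul b a)) Y4) Y10 = ixMask Y11 :=
  Nat.eq_of_beq_eq_true (by decide +kernel)

/-! ### A chain of subgroups, each of index `2` in the next -/

def G1 : List ℕ := [68, 127]

def G2 : List ℕ := [64, 68, 123, 127]

def G3 : List ℕ := [64, 68, 75, 79, 112, 116, 123, 127]

def R1 : List ℕ := [75, 79, 112, 116]

def G4 : List ℕ := [64, 68, 75, 79, 82, 86, 88, 92, 99, 103, 105, 109, 112, 116, 123, 127]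

def G5 : List ℕ := [0, 4, 11, 15, 18, 22, 24, 28, 35, 39, 41, 45, 48, 52, 59, 63, 64, 68, 75, 79, 82, 86, 88, 92, 99, 103, 105, 109, 112, 116, 123, 127]

def G6 : List ℕ := [0, 1, 4, 5, 10, 11, 14, 15, 17, 18, 21, 22, 24, 27, 28, 31, 32, 35, 36, 39, 41, 42, 45, 46, 48, 49, 52, 53, 58, 59, 62, 63, 64, 65, 68, 69, 74, 75, 78, 79, 81, 82, 85, 86, 88, 91, 92, 95, 96, 99, 100, 103, 105, 106, 109, 110, 112, 113, 116, 117, 122, 123, 126, 127]

def KB : List ℕ := [0, 4, 11, 15, 18, 22, 24, 28, 35, 39, 41, 45, 48, 52, 59, 63, 64, 68, 75, 79, 82, 86, 88, 92, 99, 103, 105, 109, 112, 116, 123, 127]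

def WB : List ℕ := [65, 122]

theorem v1 : ixAllL (fun a => Nat.blt a 128) G1 = true := by decide +kernel

theorem cr0 : ixBit (ixMask Y3) 68 = true := by decide +kernel

theorem cw0 : ixCosetOK mul inv [root] 68 Y3 = true := by decide +kernel

theorem cc0 : ixCosetOK mul inv [root] 68 G1 = true := by decide +kernel

theorem v2 : ixAllL (fun a => Nat.blt a 128) G2 = true := by decide +kernel

theorem cr1 : ixBit (ixMask Y7) 64 = true := by decide +kernel

theorem cw1 : ixCosetOK mul inv G1 64 Y7 = true := by decide +kernel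

theorem cc1 : ixCosetOK mul inv G1 64 G2 = true := by decide +kernel

theorem v3 : ixAllL (fun a => Nat.blt a 128) G3 = true := by decide +kernel

theorem vR1 : ixAllL (fun a => Nat.blt a 128) R1 = true := by decide +kernel

theorem cw2 : ixCosetOK mul inv G2 75 R1 = true := by decide +kernel

theorem cc2 : ixCosetOK mul inv G2 75 G3 = true := by decide +kernel

theorem v4 : ixAllL (fun a => Nat.blt a 128) G4 = true := by decide +kernel

theorem cr3 : ixBit (ixMask Y2) 82 = true := by decide +kernel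

theorem cw3 : ixCosetOK mul inv G3 82 Y2 = true := by decide +kernel

theorem cc3 : ixCosetOK mul inv G3 82 G4 = true := by decide +kernel

theorem v5 : ixAllL (fun a => Nat.blt a 128) G5 = true := by decide +kernel

theorem cr4 : ixBit (ixMask Y9) 0 = true := by decide +kernel

theorem cw4 : ixCosetOK mul inv G4 0 Y9 = true := by decide +kernel

theorem cc4 : ixCosetOK mul inv G4 0 G5 = true := by decide +kernel

theorem v6 : ixAllL (fun a => Nat.blt a 128) G6 = true := by decide +kernel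

theorem rB : ixBit (ixMask Y11) 65 = true := by decide +kernel

theorem hKB : ixAllL (fun c => ixAnd (ixBit (ixMask G5) c)
    (ixBit (ixMask G5) (ixComm mul inv 65 c))) KB = true := by decide +kernel

theorem eqWB : ixFilt (fun u => ixAllL (fun c => Nat.beq (ixComm mul inv u c)
    (ixComm mul inv 65 c)) KB) Y11 = ixMask WB :=
  Nat.eq_of_beq_eq_true (by decide +kernel)

theorem vWB : ixAllL (fun a => Nat.blt a 128) WB = true := by decide +kernel

theorem cw5 : ixCosetOK mul inv G5 65 WB = true := by decide +kernel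

theorem cc5 : ixCosetOK mul inv G5 65 G6 = true := by decide +kernel

theorem cr6 : ixBit (ixMask Y11) 66 = true := by decide +kernel

theorem cw6 : ixCosetOK mul inv G6 66 Y11 = true := by decide +kernel

theorem cc6 : ixCosetOK mul inv G6 66 (List.range 128) = true := by decide +kernel

theorem hrW : ixBit (ixMask Y2) 75 = true := by decide +kernel

theorem hrR : ixBit (ixMask R1) 75 = true := by decide +kernel

theorem hRC : ixAllL (fun w => ixBit (ixMask Y4) (mul w (inv 75))) R1 = true := by decide +kernel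

theorem hCR : ixAllL (fun c => ixAllL (fun w => ixBit (ixMask R1) (mul c w)) R1) Y4 = true := by
  decide +kernel

/-- the invariant lists -/
theorem invs {Ω : Type*} [Group Ω] {P : Subgroup Ω} {e : ℕ → Ω}
    (D : IxModel P 128 e mul inv root) (g : Ω) (hg : ∀ x ∈ P, g * x * g⁻¹ ∈ P) :
    IxInv 128 e g Y3 ∧ IxInv 128 e g Y7 ∧ IxInv 128 e g Y2 ∧ IxInv 128 e g Y9 ∧ IxInv 128 e g Y11 ∧ IxInv 128 e g Y4 := by
  have iX0 := D.inv_range hg
  have iY1 := D.inv_sq iX0 eq_Y1
  have iX1 := D.inv_one g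
  have iY2 := D.inv_sqnin iY1 iX1 eq_Y2
  have iY3 := D.inv_sq iY2 eq_Y3
  have iY4 := D.inv_cen iX0 iY1 eq_Y4
  have iY5 := D.inv_ord2 iX0 eq_Y5
  have iY6 := D.inv_cen iX0 iY5 eq_Y6
  have iY7 := D.inv_dif iY4 iY6 eq_Y7
  have iY8 := D.inv_dif iX0 iY1 eq_Y8
  have iY9 := D.inv_sqin iY8 iY3 eq_Y9
  have iY10 := D.inv_dif iY5 iY1 eq_Y10
  have iY11 := D.inv_cen iY10 iY4 eq_Y11
  exact ⟨iY3, iY7, iY2, iY9, iY11, iY4⟩

/-- an element of odd order normalizing a group with this multiplication table, and mapping the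
element `75` into the coset `R1`, centralizes it -/
theorem odd_centralize {Ω : Type*} [Group Ω] {P : Subgroup Ω} {e : ℕ → Ω}
    (D : IxModel P 128 e mul inv root) (hP : IsPGroup 2 P) (g : Ω)
    (hg : ∀ x ∈ P, g * x * g⁻¹ ∈ P) (m : ℕ) (hm : g ^ m = 1) (hco : Nat.Coprime m 2)
    (hgr : ∃ w ∈ R1, e w = g * e 75 * g⁻¹) : ∀ x ∈ P, g * x * g⁻¹ = x := by
  have h2 := D.two_pow hP
  obtain ⟨iY3, iY7, iY2, iY9, iY11, iY4⟩ := invs D g hg
  have k0 := D.cen_one g
  have k1 := D.cen_step hm hco h2 (fun a ha => by rw [List.mem_singleton.mp ha]; exact D.one_lt) k0 iY3 (ix_valid_of_check v1) cr0 cw0 cc0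
  have k2 := D.cen_step hm hco h2 (ix_valid_of_check v1) k1 iY7 (ix_valid_of_check v2) cr1 cw1 cc1
  have k3 := D.cen_core hm hco h2 (ix_valid_of_check v2) k2 (ix_valid_of_check vR1) (by norm_num : 75 < 128) hgr (ix_valid_of_check v3) cw2 cc2
  have k4 := D.cen_step hm hco h2 (ix_valid_of_check v3) k3 iY2 (ix_valid_of_check v4) cr3 cw3 cc3
  have k5 := D.cen_step hm hco h2 (ix_valid_of_check v4) k4 iY9 (ix_valid_of_check v5) cr4 cw4 cc4
  have hgrB := D.ref_step (fun u => ixAllL (fun c => Nat.beq (ixComm mul inv u c)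
    (ixComm mul inv 65 c)) KB) (D.comm_pred (ix_valid_of_check v5) k5 iY11.1 (by norm_num : 65 < 128) hKB)
    (iY11.conj_mem rB) eqWB
  have k6 := D.cen_core hm hco h2 (ix_valid_of_check v5) k5 (ix_valid_of_check vWB) (by norm_num : 65 < 128) hgrB (ix_valid_of_check v6) cw5 cc5
  have k7 := D.cen_step hm hco h2 (ix_valid_of_check v6) k6 iY11 (fun a ha => List.mem_range.mp ha) cr6 cw6 cc6
  exact D.centralize_of_range k7

end Cfsg.Agent.Lib.Helper89.J2Syl
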