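import Mathlib
import Cfsg.Agent.Lib.Helper89.J2SylCert

set_option autoImplicit false

/-!
# A Sylow `2`-subgroup of `J2` has no proper nontrivial strongly closed subgroup (helper89)
-/

namespace Cfsg.Agent.Lib.Helper89.J2Syl

open Cfsg.Agent.Lib.Helper7.J2P

theorem fw_ok : ixAllN (fun i => wordOK (pc9Mul 315) (pc9Id 315) bc 4 (fw i) (fc i)) 4 = true := by
  decide +kernel

theorem q_ok : ixAllL (fun a => Nat.blt a 128) Qc = true := by decide +kernel

theorem z_ok : ixAllN (fun a => ixOr (ixNot (ixAllL (fun b => Nat.beq (mul a b) (mul b a)) Qc))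
    (ixOr (Nat.beq a root) (Nat.beq a 68))) 128 = true := by decide +kernel

theorem run_ok : ixAllL (fun q => ixBit (ixRun (codeFus (pc9Mul 315) code fc 4 128) mul fsteps
    (ixOne 68)) q) (List.range 128) = true := by decide +kernel

/-- the group has no proper nontrivial subgroup which is strongly closed in it with respect
to the group `P` -/
theorem noStronglyClosed : ∀ T : Subgroup (Equiv.Perm (Fin 315)), T ≤ Syl → T ≠ ⊥ →
    (∀ t ∈ T, ∀ γ ∈ P, γ * t * γ⁻¹ ∈ Syl → γ * t * γ⁻¹ ∈ T) → Syl ≤ T :=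
  model.noStronglyClosed isP P leP (codeFus (pc9Mul 315) code fc 4 128)
    (cert.fus_sound gcode hb fw_ok)
    Qc (ix_valid_of_check q_ok) 68 (by norm_num) z_ok (List.range 128)
    (fun T h => by
      rintro _ ⟨k, hk, rfl⟩
      exact h k (List.mem_range.mpr hk))
    fsteps run_ok

end Cfsg.Agent.Lib.Helper89.J2Syl
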