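import Mathlib
import Cfsg.Agent.Lib.Helper89.J2SylChain
import Cfsg.Agent.Lib.Helper89.J2SylFus

set_option autoImplicit false

/-!
# A Sylow `2`-subgroup of `J2` satisfies the simplicity criterion for the fusion system
(helper89)

In the permutation group `P` of degree `315` (isomorphic to `J2`), the subgroup `Syl` of order
`128` has no proper nontrivial strongly closed subgroup, and its normalizer is generated by
`Syl`, its centralizer and the element `x1 x2` of order `3`, where `x1`, `x2` are `2`-elements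
normalizing the self-centralizing normal subgroup `Qs` of order `32` of `Syl`.
-/

namespace Cfsg.Agent.Lib.Helper89.J2Syl

open Cfsg.Agent.Lib.Helper7.J2P

theorem w1_ok : wordOK (pc9Mul 315) (pc9Id 315) bc 4 w1 c1 = true := by decide +kernel

theorem w2_ok : wordOK (pc9Mul 315) (pc9Id 315) bc 4 w2 c2 = true := by decide +kernel

theorem wh_ok : wordOK (pc9Mul 315) (pc9Id 315) bc 4 (w1 ++ w2) ch = true := by decide +kernel

theorem p1_ok : wordOK (pc9Mul 315) (pc9Id 315) bc 4 (List.replicate 2 w1).flatten (pc9Id 315) = true := by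
  decide +kernel

theorem p2_ok : wordOK (pc9Mul 315) (pc9Id 315) bc 4 (List.replicate 8 w2).flatten (pc9Id 315) = true := by
  decide +kernel

theorem h_ok : ixAllL (fun a => ixAnd (ixBit (ixMask (List.range 128)) (hmap a))
    (Nat.beq (pc9Mul 315 ch (code a)) (pc9Mul 315 (code (hmap a)) ch))) (List.range 128) = true := by
  decide +kernel

theorem x1_ok : ixAllL (fun a => ixAnd (ixBit (ixMask Qc) (x1map a))
    (Nat.beq (pc9Mul 315 c1 (code a)) (pc9Mul 315 (code (x1map a)) c1))) Qc = true := by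
  decide +kernel

theorem x2_ok : ixAllL (fun a => ixAnd (ixBit (ixMask Qc) (x2map a))
    (Nat.beq (pc9Mul 315 c2 (code a)) (pc9Mul 315 (code (x2map a)) c2))) Qc = true := by
  decide +kernel

theorem q_one : ixBit (ixMask Qc) root = true := by decide +kernel

theorem q_mul : ixAllL (fun a => ixAllL (fun b => ixBit (ixMask Qc) (mul a b)) Qc) Qc = true := by
  decide +kernel

theorem q_inv : ixAllL (fun a => ixBit (ixMask Qc) (inv a)) Qc = true := by decide +kernel

theorem q_norm : ixAllN (fun a => ixAllL (fun b => ixBit (ixMask Qc) (mul (mul a b) (inv a))) Qc)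
    128 = true := by decide +kernel

theorem q_cen : ixAllN (fun a => ixOr (ixBit (ixMask Qc) a)
    (ixNot (ixAllL (fun b => Nat.beq (mul a b) (mul b a)) Qc))) 128 = true := by decide +kernel

theorem hcyc : ixAllL (fun w => ixOr (ixBit (ixMask R1) w) (ixOr (ixBit (ixMask R1) (hmap w))
    (ixBit (ixMask R1) (hmap (hmap w))))) Y2 = true := by decide +kernel

/-- an involution of `P` -/
def x1 : Equiv.Perm (Fin 315) := wprod bp w1

/-- an element of order `8` of `P` -/
def x2 : Equiv.Perm (Fin 315) := wprod bp w2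

/-- the normal subgroup of order `32` -/
def Qs : Subgroup (Equiv.Perm (Fin 315)) :=
  model.sub Qc (ix_valid_of_check q_ok) q_one q_mul q_inv

theorem x1_mem : x1 ∈ P := (gcode.word_spec hb w1_ok).1

theorem x2_mem : x2 ∈ P := (gcode.word_spec hb w2_ok).1

theorem x1_pow : x1 ^ 2 ^ 1 = 1 := by
  have h := gcode.word_one hb p1_ok
  rw [wprod_replicate] at h
  rw [pow_one]
  exact h

theorem x2_pow : x2 ^ 2 ^ 3 = 1 := by
  have h := gcode.word_one hb p2_ok
  rw [wprod_replicate] at h
  have h8 : (2 : ℕ) ^ 3 = 8 := by norm_num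
  rw [h8]
  exact h

theorem x1Q : ∀ x ∈ Qs, x1 * x * x1⁻¹ ∈ Qs := by
  intro x hx
  obtain ⟨a, ha, rfl⟩ := (IxModel.mem_sub model).mp hx
  have h := cert.conj_list gcode hb w1_ok Qc Qc (ix_valid_of_check q_ok) (ix_valid_of_check q_ok)
    x1map x1_ok a ha
  exact (IxModel.mem_sub model).mpr ⟨x1map a, h.1, h.2.symm⟩

theorem x2Q : ∀ x ∈ Qs, x2 * x * x2⁻¹ ∈ Qs := by
  intro x hx
  obtain ⟨a, ha, rfl⟩ := (IxModel.mem_sub model).mp hx
  have h := cert.conj_list gcode hb w2_ok Qc Qc (ix_valid_of_check q_ok) (ix_valid_of_check q_ok)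
    x2map x2_ok a ha
  exact (IxModel.mem_sub model).mpr ⟨x2map a, h.1, h.2.symm⟩

theorem hh : ∀ a < 128, hmap a < 128 ∧
    (x1 * x2) * wprod bp (words a) * (x1 * x2)⁻¹ = wprod bp (words (hmap a)) := by
  intro a ha
  have h := cert.conj_list gcode hb wh_ok (List.range 128) (List.range 128)
    (fun _ h => List.mem_range.mp h) (fun _ h => List.mem_range.mp h) hmap h_ok a
    (List.mem_range.mpr ha)
  rw [wprod_append] at h
  exact ⟨List.mem_range.mp h.1, h.2⟩

theorem hhP : ∀ x ∈ Syl, (x1 * x2) * x * (x1 * x2)⁻¹ ∈ Syl := by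
  intro x hx
  obtain ⟨a, ha, rfl⟩ := model.surj x hx
  show (x1 * x2) * wprod bp (words a) * (x1 * x2)⁻¹ ∈ Syl
  rw [(hh a ha).2]
  exact model.mem _ (hh a ha).1

theorem fact2 : (Nat.card P).factorization 2 = 7 := by
  rw [card_P]
  have h : (604800 : ℕ) = 2 ^ 7 * 4725 := by norm_num
  rw [h, Nat.factorization_mul (by norm_num) (by norm_num),
    Nat.Prime.factorization_pow Nat.prime_two]
  simp [Nat.factorization_eq_zero_of_not_dvd (show ¬ 2 ∣ 4725 by norm_num)]

theorem hcard : Nat.card Syl = 2 ^ (Nat.card P).factorization 2 := by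
  rw [fact2]
  exact cardS

theorem finP : Finite P := Nat.finite_of_card_ne_zero (by rw [card_P]; norm_num)

theorem finS : Finite Syl := Nat.finite_of_card_ne_zero (by rw [cardS]; norm_num)

theorem hne : Syl ≠ ⊥ := by
  intro h
  have h1 := cardS
  rw [h, Subgroup.card_bot] at h1
  norm_num at h1

theorem norm_conj {g : Equiv.Perm (Fin 315)}
    (hg : g ∈ Subgroup.normalizer (Syl : Set (Equiv.Perm (Fin 315)))) :
    ∀ x ∈ Syl, g * x * g⁻¹ ∈ Syl :=
  fun x hx => (Subgroup.mem_normalizer_iff.mp hg x).mp hx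

/-- the normalizer of `Syl` in `P` -/
theorem hN : ∀ g ∈ P, g ∈ Subgroup.normalizer (Syl : Set (Equiv.Perm (Fin 315))) →
    ∃ i : ℕ, ∃ t ∈ Syl, ∃ c ∈ P, c ∈ Subgroup.centralizer (Syl : Set (Equiv.Perm (Fin 315))) ∧
      (x1 * x2) ^ i * g = t * c := by
  haveI := finP
  haveI := finS
  exact model.normalizer_decomp P (mem_of_two_pow_of_card P Syl leP hcard) (x1 * x2)
    (P.mul_mem x1_mem x2_mem) hmap hh Y4 Y2 R1 75
    (fun g hg => (invs model g (norm_conj hg)).2.2.2.2.2)
    (fun g hg => (invs model g (norm_conj hg)).2.2.1)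
    hrW hrR (ix_valid_of_check vR1) hcyc hRC hCR
    (fun u hu m hm hco hgr => odd_centralize model isP u (norm_conj hu) m hm hco hgr)

/-- the hypothesis of the simplicity criterion -/
theorem goodSyl : Cfsg.Agent.Lib.Helper91.SimpleGen.GoodSyl 2 (Syl.subgroupOf P) := by
  haveI := finP
  exact goodSyl_of_norm P Syl Qs leP hne noStronglyClosed (IxModel.sub_le model)
    (IxModel.sub_normal model q_norm) (IxModel.sub_selfCen model q_cen) x1 x2 x1_mem x2_mem 1 3
    x1_pow x2_pow x1Q x2Q hhP hN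

end Cfsg.Agent.Lib.Helper89.J2Syl
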