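import Mathlib
import Cfsg.Agent.Lib.Helper89.J3SylData

set_option autoImplicit false

/-!
# A Sylow `2`-subgroup of `3·J3`: the certificate (helper89)
-/

namespace Cfsg.Agent.Lib.Helper89.J3Syl

open Cfsg.Spor Cfsg.Agent.Lib.Helper37.J3 Cfsg.Agent.Lib.Helper89.J3C

theorem base_ok : ixAllN (fun i => wordOK j3Mul j3Id bc0 2 (W1 i) (bc1 i)) 7 = true := by
  decide +kernel

theorem words_ok : ixAllN (fun k => wordOK j3Mul j3Id bc1 7 (words k) (code k)) 128 = true := by
  decide +kernel

theorem sorted_ok : ixAllN (fun k => Nat.blt (j3Key (code k)) (j3Key (code (Nat.succ k))))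
    (Nat.pred 128) = true := by
  decide +kernel

/-- the check of the rows `off ≤ a < off + 16` of the multiplication table -/
def rowsOK (off : ℕ) : Bool :=
  ixAllN (fun a => ixAllN (fun b => ixAnd (Nat.blt (mul (Nat.add off a) b) 128)
    (Nat.beq (j3Mul (code (Nat.add off a)) (code b)) (code (mul (Nat.add off a) b)))) 128) 16

theorem rows0 : rowsOK 0 = true := by decide +kernel
theorem rows1 : rowsOK 16 = true := by decide +kernel
theorem rows2 : rowsOK 32 = true := by decide +kernel
theorem rows3 : rowsOK 48 = true := by decide +kernel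
theorem rows4 : rowsOK 64 = true := by decide +kernel
theorem rows5 : rowsOK 80 = true := by decide +kernel
theorem rows6 : rowsOK 96 = true := by decide +kernel
theorem rows7 : rowsOK 112 = true := by decide +kernel

theorem rows_spec {off : ℕ} (h : rowsOK off = true) {a : ℕ} (h1 : off ≤ a) (h2 : a < off + 16) :
    ixAllN (fun b => ixAnd (Nat.blt (mul a b) 128)
      (Nat.beq (j3Mul (code a) (code b)) (code (mul a b)))) 128 = true := by
  have h3 : ixAllN (fun b => ixAnd (Nat.blt (mul (Nat.add off (a - off)) b) 128)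
      (Nat.beq (j3Mul (code (Nat.add off (a - off))) (code b))
        (code (mul (Nat.add off (a - off)) b)))) 128 = true :=
    (ixAllN_iff _ _).mp h (a - off) (by omega)
  have h4 : Nat.add off (a - off) = a := by
    show off + (a - off) = a
    omega
  rw [h4] at h3
  exact h3

theorem mul_ok : ixAllN (fun a => ixAllN (fun b => ixAnd (Nat.blt (mul a b) 128)
    (Nat.beq (j3Mul (code a) (code b)) (code (mul a b)))) 128) 128 = true := by
  rw [ixAllN_iff]
  intro a ha
  by_cases h0 : a < 16
  · exact rows_spec rows0 (by omega) (by omega)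
  by_cases h1 : a < 32
  · exact rows_spec rows1 (by omega) (by omega)
  by_cases h2 : a < 48
  · exact rows_spec rows2 (by omega) (by omega)
  by_cases h3 : a < 64
  · exact rows_spec rows3 (by omega) (by omega)
  by_cases h4 : a < 80
  · exact rows_spec rows4 (by omega) (by omega)
  by_cases h5 : a < 96
  · exact rows_spec rows5 (by omega) (by omega)
  by_cases h6 : a < 112
  · exact rows_spec rows6 (by omega) (by omega)
  exact rows_spec rows7 (by omega) (by omega)

theorem inv_ok : ixAllN (fun a => ixAnd (Nat.blt (inv a) 128) (Nat.beq (mul a (inv a)) root)) 128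
    = true := by
  decide +kernel

theorem root_ok : ixAnd (Nat.blt root 128) (Nat.beq (code root) j3Id) = true := by
  decide +kernel

/-- the certificate -/
theorem cert : RCert j3Mul j3Id j3Key bc1 7 128 words code mul inv root :=
  ⟨words_ok, sorted_ok, mul_ok, inv_ok, root_ok⟩

section sem

variable {F : Type*} [Field F] {ω : F} (h2 : (2 : F) = 0) (hω : ω * ω = ω + 1)

/-- the base elements -/
def b1 (k : ℕ) : GL F9 F := wprod (b0 h2 hω) (W1 k)

theorem hb1 : ∀ i < 7, b1 h2 hω i ∈ threeJ3 F ω ∧ JRep ω (b1 h2 hω i) (bc1 i) :=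
  (j3_rcode h2 hω).base_lift (hb0 h2 hω) base_ok

/-- the Sylow `2`-subgroup -/
def Syl : Subgroup (GL F9 F) := cert.grp (j3_rcode h2 hω) (hb1 h2 hω)

/-- the index model of the group -/
theorem model : IxModel (Syl h2 hω) 128 (fun k => wprod (b1 h2 hω) (words k)) mul inv root :=
  cert.model (j3_rcode h2 hω) (hb1 h2 hω)

theorem leJ : Syl h2 hω ≤ threeJ3 F ω := cert.grp_le (j3_rcode h2 hω) (hb1 h2 hω)

theorem cardS : Nat.card (Syl h2 hω) = 2 ^ 7 := by
  rw [(model h2 hω).card]; norm_num

theorem isP : IsPGroup 2 (Syl h2 hω) := IsPGroup.of_card (cardS h2 hω)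

end sem

end Cfsg.Agent.Lib.Helper89.J3Syl
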