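import Mathlib
import Cfsg.Agent.Lib.Helper89.J3SylData

set_option autoImplicit false

/-!
# A Sylow `2`-subgroup of `J3`: automorphisms of odd order (helper89)

The statements are for an arbitrary group with an index model having the multiplication table
of the Sylow `2`-subgroup of `J3`: an element of odd order normalizing it, and mapping the
element number `5` into its coset `R1` modulo a characteristic subgroup of order `4`,
centralizes it.
-/

namespace Cfsg.Agent.Lib.Helper89.J3Syl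

/-! ### Conjugation-invariant subsets -/

def Y1 : List ℕ := [2, 5, 12, 15, 19, 22, 43, 57, 60, 63, 77, 95, 100, 106, 123, 126]

def Y2 : List ℕ := [5, 12, 15, 19, 43, 57, 77, 95, 100, 106, 123, 126]

def Y3 : List ℕ := [22]

def Y4 : List ℕ := [2, 22, 60, 63]

def Y5 : List ℕ := [2, 4, 8, 9, 10, 14, 16, 17, 18, 21, 22, 23, 27, 28, 31, 32, 33, 34, 36, 39, 45, 49, 50, 52, 56, 58, 60, 61, 63, 64, 66, 67, 70, 71, 72, 75]

def Y6 : List ℕ := [2, 22]

def Y7 : List ℕ := [60, 63]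

def Y8 : List ℕ := [0, 1, 3, 5, 6, 7, 11, 12, 13, 15, 19, 20, 24, 25, 26, 29, 30, 35, 37, 38, 40, 41, 42, 43, 44, 46, 47, 48, 51, 53, 54, 55, 57, 59, 62, 65, 68, 69, 73, 74, 76, 77, 78, 79, 80, 81, 82, 83, 84, 85, 86, 87, 88, 89, 90, 91, 92, 93, 94, 95, 96, 97, 98, 99, 100, 101, 102, 103, 104, 105, 106, 107, 108, 109, 110, 111, 112, 113, 114, 115, 116, 117, 118, 119, 120, 121, 122, 123, 124, 125, 126, 127]

def Y9 : List ℕ := [0, 1, 3, 5, 6, 7, 11, 12, 13, 15, 16, 19, 20, 23, 24, 25, 26, 27, 28, 29, 30, 31, 33, 35, 37, 38, 40, 41, 42, 43, 44, 46, 47, 48, 51, 53, 54, 55, 57, 59, 62, 64, 65, 67, 68, 69, 73, 74, 76, 77, 78, 79, 80, 81, 82, 83, 84, 85, 86, 87, 88, 89, 90, 91, 92, 93, 94, 95, 96, 97, 98, 99, 100, 101, 102, 103, 104, 105, 106, 107, 108, 109, 110, 111, 112, 113, 114, 115, 116, 117, 118, 119, 120, 121, 122, 123, 124, 125, 126, 127]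

def Y10 : List ℕ := [16, 23, 27, 28, 31, 33, 64, 67]

def Y11 : List ℕ := [4, 8, 9, 10, 14, 16, 17, 18, 21, 23, 27, 28, 31, 32, 33, 34, 36, 39, 45, 49, 50, 52, 56, 58, 61, 64, 66, 67, 70, 71, 72, 75]

def Y12 : List ℕ := [4, 8, 9, 10, 14, 17, 18, 21, 32, 34, 36, 39, 45, 49, 50, 52, 56, 58, 61, 66, 70, 71, 72, 75]

theorem eq_Y1 : ixImg (fun a => mul a a) (List.range 128) = ixMask Y1 :=
  Nat.eq_of_beq_eq_true (by decide +kernel)

theorem eq_Y2 : ixFilt (fun a => ixNot (ixBit (ixMask [root]) (mul a a))) Y1 = ixMask Y2 :=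
  Nat.eq_of_beq_eq_true (by decide +kernel)

theorem eq_Y3 : ixImg (fun a => mul a a) Y2 = ixMask Y3 :=
  Nat.eq_of_beq_eq_true (by decide +kernel)

theorem eq_Y4 : ixFilt (fun a => ixAllL (fun b => Nat.beq (mul a b) (mul b a)) Y1) (List.range 128) = ixMask Y4 :=
  Nat.eq_of_beq_eq_true (by decide +kernel)

theorem eq_Y5 : ixFilt (fun a => Nat.beq (mul a a) root) (List.range 128) = ixMask Y5 :=
  Nat.eq_of_beq_eq_true (by decide +kernel)

theorem eq_Y6 : ixFilt (fun a => ixAllL (fun b => Nat.beq (mul a b) (mul b a)) Y5) (List.range 128) = ixMask Y6 :=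
  Nat.eq_of_beq_eq_true (by decide +kernel)

theorem eq_Y7 : ixFilt (fun a => ixNot (ixBit (ixMask Y6) a)) Y4 = ixMask Y7 :=
  Nat.eq_of_beq_eq_true (by decide +kernel)

theorem eq_Y8 : ixFilt (fun a => ixNot (ixBit (ixMask [root]) (mul a a))) (List.range 128) = ixMask Y8 :=
  Nat.eq_of_beq_eq_true (by decide +kernel)

theorem eq_Y9 : ixImg2 mul Y8 Y4 = ixMask Y9 :=
  Nat.eq_of_beq_eq_true (by decide +kernel)

theorem eq_Y10 : ixFilt (fun a => Nat.beq (mul a a) root) Y9 = ixMask Y10 :=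
  Nat.eq_of_beq_eq_true (by decide +kernel)

theorem eq_Y11 : ixFilt (fun a => ixNot (ixBit (ixMask Y1) a)) Y5 = ixMask Y11 :=
  Nat.eq_of_beq_eq_true (by decide +kernel)

theorem eq_Y12 : ixFilt (fun a => ixAllL (fun b => Nat.beq (mul a b) (mul b a)) Y4) Y11 = ixMask Y12 :=
  Nat.eq_of_beq_eq_true (by decide +kernel)

/-! ### A chain of subgroups, each of index `2` in the next -/

def G1 : List ℕ := [2, 22]

def G2 : List ℕ := [2, 22, 60, 63]

def G3 : List ℕ := [2, 5, 15, 22, 60, 63, 106, 123]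

def R1 : List ℕ := [5, 15, 106, 123]

def G4 : List ℕ := [2, 5, 12, 15, 19, 22, 43, 57, 60, 63, 77, 95, 100, 106, 123, 126]

def G5 : List ℕ := [2, 5, 12, 15, 16, 19, 22, 23, 27, 28, 31, 33, 40, 43, 47, 57, 60, 63, 64, 67, 77, 89, 92, 95, 100, 101, 106, 115, 116, 121, 123, 126]

def G6 : List ℕ := [0, 1, 2, 3, 4, 5, 7, 8, 9, 10, 12, 15, 16, 19, 22, 23, 25, 26, 27, 28, 31, 33, 35, 37, 40, 41, 43, 44, 47, 48, 49, 51, 52, 53, 54, 57, 60, 61, 62, 63, 64, 67, 71, 74, 77, 81, 82, 84, 86, 89, 92, 95, 100, 101, 102, 104, 106, 111, 114, 115, 116, 121, 123, 126]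

def KB : List ℕ := [2, 5, 12, 15, 16, 19, 22, 23, 27, 28, 31, 33, 40, 43, 47, 57, 60, 63, 64, 67, 77, 89, 92, 95, 100, 101, 106, 115, 116, 121, 123, 126]

def WB : List ℕ := [4, 10]

theorem v1 : ixAllL (fun a => Nat.blt a 128) G1 = true := by decide +kernel

theorem cr0 : ixBit (ixMask Y3) 22 = true := by decide +kernel

theorem cw0 : ixCosetOK mul inv [root] 22 Y3 = true := by decide +kernel

theorem cc0 : ixCosetOK mul inv [root] 22 G1 = true := by decide +kernel

theorem v2 : ixAllL (fun a => Nat.blt a 128) G2 = true := by decide +kernel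

theorem cr1 : ixBit (ixMask Y7) 60 = true := by decide +kernel

theorem cw1 : ixCosetOK mul inv G1 60 Y7 = true := by decide +kernel

theorem cc1 : ixCosetOK mul inv G1 60 G2 = true := by decide +kernel

theorem v3 : ixAllL (fun a => Nat.blt a 128) G3 = true := by decide +kernel

theorem vR1 : ixAllL (fun a => Nat.blt a 128) R1 = true := by decide +kernel

theorem cw2 : ixCosetOK mul inv G2 5 R1 = true := by decide +kernel

theorem cc2 : ixCosetOK mul inv G2 5 G3 = true := by decide +kernel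

theorem v4 : ixAllL (fun a => Nat.blt a 128) G4 = true := by decide +kernel

theorem cr3 : ixBit (ixMask Y2) 12 = true := by decide +kernel

theorem cw3 : ixCosetOK mul inv G3 12 Y2 = true := by decide +kernel

theorem cc3 : ixCosetOK mul inv G3 12 G4 = true := by decide +kernel

theorem v5 : ixAllL (fun a => Nat.blt a 128) G5 = true := by decide +kernel

theorem cr4 : ixBit (ixMask Y10) 16 = true := by decide +kernel

theorem cw4 : ixCosetOK mul inv G4 16 Y10 = true := by decide +kernel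

theorem cc4 : ixCosetOK mul inv G4 16 G5 = true := by decide +kernel

theorem v6 : ixAllL (fun a => Nat.blt a 128) G6 = true := by decide +kernel

theorem rB : ixBit (ixMask Y12) 4 = true := by decide +kernel

theorem hKB : ixAllL (fun c => ixAnd (ixBit (ixMask G5) c)
    (ixBit (ixMask G5) (ixComm mul inv 4 c))) KB = true := by decide +kernel

theorem eqWB : ixFilt (fun u => ixAllL (fun c => Nat.beq (ixComm mul inv u c)
    (ixComm mul inv 4 c)) KB) Y12 = ixMask WB :=
  Nat.eq_of_beq_eq_true (by decide +kernel)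

theorem vWB : ixAllL (fun a => Nat.blt a 128) WB = true := by decide +kernel

theorem cw5 : ixCosetOK mul inv G5 4 WB = true := by decide +kernel

theorem cc5 : ixCosetOK mul inv G5 4 G6 = true := by decide +kernel

theorem cr6 : ixBit (ixMask Y12) 14 = true := by decide +kernel

theorem cw6 : ixCosetOK mul inv G6 14 Y12 = true := by decide +kernel

theorem cc6 : ixCosetOK mul inv G6 14 (List.range 128) = true := by decide +kernel

theorem hrW : ixBit (ixMask Y2) 5 = true := by decide +kernel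

theorem hrR : ixBit (ixMask R1) 5 = true := by decide +kernel

theorem hRC : ixAllL (fun w => ixBit (ixMask Y4) (mul w (inv 5))) R1 = true := by decide +kernel

theorem hCR : ixAllL (fun c => ixAllL (fun w => ixBit (ixMask R1) (mul c w)) R1) Y4 = true := by
  decide +kernel

/-- the invariant lists -/
theorem invs {Ω : Type*} [Group Ω] {P : Subgroup Ω} {e : ℕ → Ω}
    (D : IxModel P 128 e mul inv root) (g : Ω) (hg : ∀ x ∈ P, g * x * g⁻¹ ∈ P) :
    IxInv 128 e g Y3 ∧ IxInv 128 e g Y7 ∧ IxInv 128 e g Y2 ∧ IxInv 128 e g Y10 ∧ IxInv 128 e g Y12 ∧ IxInv 128 e g Y4 := by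
  have iX0 := D.inv_range hg
  have iY1 := D.inv_sq iX0 eq_Y1
  have iX1 := D.inv_one g
  have iY2 := D.inv_sqnin iY1 iX1 eq_Y2
  have iY3 := D.inv_sq iY2 eq_Y3
  have iY4 := D.inv_cen iX0 iY1 eq_Y4
  have iY5 := D.inv_ord2 iX0 eq_Y5
  have iY6 := D.inv_cen iX0 iY5 eq_Y6
  have iY7 := D.inv_dif iY4 iY6 eq_Y7
  have iY8 := D.inv_sqnin iX0 iX1 eq_Y8
  have iY9 := D.inv_prd iY8 iY4 eq_Y9
  have iY10 := D.inv_ord2 iY9 eq_Y10
  have iY11 := D.inv_dif iY5 iY1 eq_Y11
  have iY12 := D.inv_cen iY11 iY4 eq_Y12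
  exact ⟨iY3, iY7, iY2, iY10, iY12, iY4⟩

/-- an element of odd order normalizing a group with this multiplication table, and mapping the
element `5` into the coset `R1`, centralizes it -/
theorem odd_centralize {Ω : Type*} [Group Ω] {P : Subgroup Ω} {e : ℕ → Ω}
    (D : IxModel P 128 e mul inv root) (hP : IsPGroup 2 P) (g : Ω)
    (hg : ∀ x ∈ P, g * x * g⁻¹ ∈ P) (m : ℕ) (hm : g ^ m = 1) (hco : Nat.Coprime m 2)
    (hgr : ∃ w ∈ R1, e w = g * e 5 * g⁻¹) : ∀ x ∈ P, g * x * g⁻¹ = x := by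
  have h2 := D.two_pow hP
  obtain ⟨iY3, iY7, iY2, iY10, iY12, iY4⟩ := invs D g hg
  have k0 := D.cen_one g
  have k1 := D.cen_step hm hco h2 (fun a ha => by rw [List.mem_singleton.mp ha]; exact D.one_lt) k0 iY3 (ix_valid_of_check v1) cr0 cw0 cc0
  have k2 := D.cen_step hm hco h2 (ix_valid_of_check v1) k1 iY7 (ix_valid_of_check v2) cr1 cw1 cc1
  have k3 := D.cen_core hm hco h2 (ix_valid_of_check v2) k2 (ix_valid_of_check vR1) (by norm_num : 5 < 128) hgr (ix_valid_of_check v3) cw2 cc2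
  have k4 := D.cen_step hm hco h2 (ix_valid_of_check v3) k3 iY2 (ix_valid_of_check v4) cr3 cw3 cc3
  have k5 := D.cen_step hm hco h2 (ix_valid_of_check v4) k4 iY10 (ix_valid_of_check v5) cr4 cw4 cc4
  have hgrB := D.ref_step (fun u => ixAllL (fun c => Nat.beq (ixComm mul inv u c)
    (ixComm mul inv 4 c)) KB) (D.comm_pred (ix_valid_of_check v5) k5 iY12.1 (by norm_num : 4 < 128) hKB)
    (iY12.conj_mem rB) eqWB
  have k6 := D.cen_core hm hco h2 (ix_valid_of_check v5) k5 (ix_valid_of_check vWB) (by norm_num : 4 < 128) hgrB (ix_valid_of_check v6) cw5 cc5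
  have k7 := D.cen_step hm hco h2 (ix_valid_of_check v6) k6 iY12 (fun a ha => List.mem_range.mp ha) cr6 cw6 cc6
  exact D.centralize_of_range k7

end Cfsg.Agent.Lib.Helper89.J3Syl
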