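import Mathlib
import Cfsg.Agent.Lib.Helper89.J3SylCert

set_option autoImplicit false

/-!
# A Sylow `2`-subgroup of `3·J3` has no proper nontrivial strongly closed subgroup (helper89)
-/

namespace Cfsg.Agent.Lib.Helper89.J3Syl

open Cfsg.Spor Cfsg.Agent.Lib.Helper37.J3 Cfsg.Agent.Lib.Helper89.J3C

theorem fw_ok : ixAllN (fun i => wordOK j3Mul j3Id bc1 7 (fw i) (fc i)) 3 = true := by
  decide +kernel

theorem q_ok : ixAllL (fun a => Nat.blt a 128) Qc = true := by decide +kernel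

theorem z_ok : ixAllN (fun a => ixOr (ixNot (ixAllL (fun b => Nat.beq (mul a b) (mul b a)) Qc))
    (ixOr (Nat.beq a root) (Nat.beq a 22))) 128 = true := by decide +kernel

theorem run_ok : ixAllL (fun q => ixBit (ixRun (codeFus j3Mul code fc 3 128) mul fsteps
    (ixOne 22)) q) (List.range 128) = true := by decide +kernel

/-- the group has no proper nontrivial subgroup which is strongly closed in it with respect
to `3·J3` -/
theorem noStronglyClosed {F : Type*} [Field F] {ω : F} (h2 : (2 : F) = 0)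
    (hω : ω * ω = ω + 1) : ∀ T : Subgroup (GL F9 F), T ≤ Syl h2 hω → T ≠ ⊥ →
    (∀ t ∈ T, ∀ γ ∈ threeJ3 F ω, γ * t * γ⁻¹ ∈ Syl h2 hω → γ * t * γ⁻¹ ∈ T) → Syl h2 hω ≤ T :=
  (model h2 hω).noStronglyClosed (isP h2 hω) (threeJ3 F ω) (leJ h2 hω)
    (codeFus j3Mul code fc 3 128)
    (cert.fus_sound (j3_rcode h2 hω) (hb1 h2 hω) fw_ok)
    Qc (ix_valid_of_check q_ok) 22 (by norm_num) z_ok (List.range 128)
    (fun T h => by
      rintro _ ⟨k, hk, rfl⟩
      exact h k (List.mem_range.mpr hk))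
    fsteps run_ok

end Cfsg.Agent.Lib.Helper89.J3Syl
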