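import Mathlib
import Cfsg.Agent.Lib.Helper89.J3SylChain
import Cfsg.Agent.Lib.Helper89.J3SylFus

set_option autoImplicit false

/-!
# A Sylow `2`-subgroup of `3·J3` satisfies the simplicity criterion for the fusion system
(helper89)

In `3·J3` (helper37's model), the subgroup `Syl` of order `128` has no proper nontrivial
strongly closed subgroup, and its normalizer is generated by `Syl`, its centralizer and the
element `x1 x2` of order `3`, where `x1`, `x2` are `2`-elements normalizing the self-centralizing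
normal subgroup `Qs` of order `32` of `Syl`.
-/

namespace Cfsg.Agent.Lib.Helper89.J3Syl

open Cfsg.Spor Cfsg.Agent.Lib.Helper37.J3 Cfsg.Agent.Lib.Helper89.J3C

theorem w1_ok : wordOK j3Mul j3Id bc1 7 w1 c1 = true := by decide +kernel

theorem w2_ok : wordOK j3Mul j3Id bc1 7 w2 c2 = true := by decide +kernel

theorem wh_ok : wordOK j3Mul j3Id bc1 7 (w1 ++ w2) ch = true := by decide +kernel

theorem p1_ok : wordOK j3Mul j3Id bc1 7 (List.replicate 2 w1).flatten j3Id = true := by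
  decide +kernel

theorem p2_ok : wordOK j3Mul j3Id bc1 7 (List.replicate 8 w2).flatten j3Id = true := by
  decide +kernel

theorem h_ok : ixAllL (fun a => ixAnd (ixBit (ixMask (List.range 128)) (hmap a))
    (Nat.beq (j3Mul ch (code a)) (j3Mul (code (hmap a)) ch))) (List.range 128) = true := by
  decide +kernel

theorem x1_ok : ixAllL (fun a => ixAnd (ixBit (ixMask Qc) (x1map a))
    (Nat.beq (j3Mul c1 (code a)) (j3Mul (code (x1map a)) c1))) Qc = true := by
  decide +kernel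

theorem x2_ok : ixAllL (fun a => ixAnd (ixBit (ixMask Qc) (x2map a))
    (Nat.beq (j3Mul c2 (code a)) (j3Mul (code (x2map a)) c2))) Qc = true := by
  decide +kernel

theorem q_one : ixBit (ixMask Qc) root = true := by decide +kernel

theorem q_mul : ixAllL (fun a => ixAllL (fun b => ixBit (ixMask Qc) (mul a b)) Qc) Qc = true := by
  decide +kernel

theorem q_inv : ixAllL (fun a => ixBit (ixMask Qc) (inv a)) Qc = true := by decide +kernel

theorem q_norm : ixAllN (fun a => ixAllL (fun b => ixBit (ixMask Qc) (mul (mul a b) (inv a))) Qc)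
    128 = true := by decide +kernel

theorem q_cen : ixAllN (fun a => ixOr (ixBit (ixMask Qc) a)
    (ixNot (ixAllL (fun b => Nat.beq (mul a b) (mul b a)) Qc))) 128 = true := by decide +kernel

theorem hcyc : ixAllL (fun w => ixOr (ixBit (ixMask R1) w) (ixOr (ixBit (ixMask R1) (hmap w))
    (ixBit (ixMask R1) (hmap (hmap w))))) Y2 = true := by decide +kernel

section sem

variable {F : Type*} [Field F] {ω : F} (h2 : (2 : F) = 0) (hω : ω * ω = ω + 1)

/-- an involution of `3·J3` -/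
def x1 : GL F9 F := wprod (b1 h2 hω) w1

/-- an element of order `8` of `3·J3` -/
def x2 : GL F9 F := wprod (b1 h2 hω) w2

/-- the normal subgroup of order `32` -/
def Qs : Subgroup (GL F9 F) :=
  (model h2 hω).sub Qc (ix_valid_of_check q_ok) q_one q_mul q_inv

theorem x1_mem : x1 h2 hω ∈ threeJ3 F ω := ((j3_rcode h2 hω).word_spec (hb1 h2 hω) w1_ok).1

theorem x2_mem : x2 h2 hω ∈ threeJ3 F ω := ((j3_rcode h2 hω).word_spec (hb1 h2 hω) w2_ok).1

theorem x1_pow : x1 h2 hω ^ 2 ^ 1 = 1 := by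
  have h := (j3_rcode h2 hω).word_one (hb1 h2 hω) p1_ok
  rw [wprod_replicate] at h
  rw [pow_one]
  exact h

theorem x2_pow : x2 h2 hω ^ 2 ^ 3 = 1 := by
  have h := (j3_rcode h2 hω).word_one (hb1 h2 hω) p2_ok
  rw [wprod_replicate] at h
  have h8 : (2 : ℕ) ^ 3 = 8 := by norm_num
  rw [h8]
  exact h

theorem x1Q : ∀ x ∈ Qs h2 hω, x1 h2 hω * x * (x1 h2 hω)⁻¹ ∈ Qs h2 hω := by
  intro x hx
  obtain ⟨a, ha, rfl⟩ := (IxModel.mem_sub (model h2 hω)).mp hx
  have h := cert.conj_list (j3_rcode h2 hω) (hb1 h2 hω) w1_ok Qc Qc (ix_valid_of_check q_ok)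
    (ix_valid_of_check q_ok) x1map x1_ok a ha
  exact (IxModel.mem_sub (model h2 hω)).mpr ⟨x1map a, h.1, h.2.symm⟩

theorem x2Q : ∀ x ∈ Qs h2 hω, x2 h2 hω * x * (x2 h2 hω)⁻¹ ∈ Qs h2 hω := by
  intro x hx
  obtain ⟨a, ha, rfl⟩ := (IxModel.mem_sub (model h2 hω)).mp hx
  have h := cert.conj_list (j3_rcode h2 hω) (hb1 h2 hω) w2_ok Qc Qc (ix_valid_of_check q_ok)
    (ix_valid_of_check q_ok) x2map x2_ok a ha
  exact (IxModel.mem_sub (model h2 hω)).mpr ⟨x2map a, h.1, h.2.symm⟩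

theorem hh : ∀ a < 128, hmap a < 128 ∧
    (x1 h2 hω * x2 h2 hω) * wprod (b1 h2 hω) (words a) * (x1 h2 hω * x2 h2 hω)⁻¹ =
      wprod (b1 h2 hω) (words (hmap a)) := by
  intro a ha
  have h := cert.conj_list (j3_rcode h2 hω) (hb1 h2 hω) wh_ok (List.range 128) (List.range 128)
    (fun _ h => List.mem_range.mp h) (fun _ h => List.mem_range.mp h) hmap h_ok a
    (List.mem_range.mpr ha)
  rw [wprod_append] at h
  exact ⟨List.mem_range.mp h.1, h.2⟩

theorem hhP : ∀ x ∈ Syl h2 hω,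
    (x1 h2 hω * x2 h2 hω) * x * (x1 h2 hω * x2 h2 hω)⁻¹ ∈ Syl h2 hω := by
  intro x hx
  obtain ⟨a, ha, rfl⟩ := (model h2 hω).surj x hx
  show (x1 h2 hω * x2 h2 hω) * wprod (b1 h2 hω) (words a) * (x1 h2 hω * x2 h2 hω)⁻¹ ∈ Syl h2 hω
  rw [(hh h2 hω a ha).2]
  exact (model h2 hω).mem _ (hh h2 hω a ha).1

include h2 hω in
theorem fact2 : (Nat.card (threeJ3 F ω)).factorization 2 = 7 := by
  rw [card_threeJ3 h2 hω]
  have h : (150698880 : ℕ) = 2 ^ 7 * 1177335 := by norm_num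
  rw [h, Nat.factorization_mul (by norm_num) (by norm_num),
    Nat.Prime.factorization_pow Nat.prime_two]
  simp [Nat.factorization_eq_zero_of_not_dvd (show ¬ 2 ∣ 1177335 by norm_num)]

theorem hcard : Nat.card (Syl h2 hω) = 2 ^ (Nat.card (threeJ3 F ω)).factorization 2 := by
  rw [fact2 h2 hω]
  exact cardS h2 hω

include h2 hω in
theorem finJ : Finite (threeJ3 F ω) :=
  Nat.finite_of_card_ne_zero (by rw [card_threeJ3 h2 hω]; norm_num)

theorem finS : Finite (Syl h2 hω) := Nat.finite_of_card_ne_zero (by rw [cardS h2 hω]; norm_num)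

theorem hne : Syl h2 hω ≠ ⊥ := by
  intro h
  have h1 := cardS h2 hω
  rw [h, Subgroup.card_bot] at h1
  norm_num at h1

theorem norm_conj {g : GL F9 F}
    (hg : g ∈ Subgroup.normalizer (Syl h2 hω : Set (GL F9 F))) :
    ∀ x ∈ Syl h2 hω, g * x * g⁻¹ ∈ Syl h2 hω :=
  fun x hx => (Subgroup.mem_normalizer_iff.mp hg x).mp hx

/-- the normalizer of `Syl` in `3·J3` -/
theorem hN : ∀ g ∈ threeJ3 F ω, g ∈ Subgroup.normalizer (Syl h2 hω : Set (GL F9 F)) →
    ∃ i : ℕ, ∃ t ∈ Syl h2 hω, ∃ c ∈ threeJ3 F ω,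
      c ∈ Subgroup.centralizer (Syl h2 hω : Set (GL F9 F)) ∧
      (x1 h2 hω * x2 h2 hω) ^ i * g = t * c := by
  haveI := finJ h2 hω
  haveI := finS h2 hω
  exact (model h2 hω).normalizer_decomp (threeJ3 F ω)
    (mem_of_two_pow_of_card (threeJ3 F ω) (Syl h2 hω) (leJ h2 hω) (hcard h2 hω))
    (x1 h2 hω * x2 h2 hω)
    ((threeJ3 F ω).mul_mem (x1_mem h2 hω) (x2_mem h2 hω)) hmap (hh h2 hω) Y4 Y2 R1 5
    (fun g hg => (invs (model h2 hω) g (norm_conj h2 hω hg)).2.2.2.2.2)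
    (fun g hg => (invs (model h2 hω) g (norm_conj h2 hω hg)).2.2.1)
    hrW hrR (ix_valid_of_check vR1) hcyc hRC hCR
    (fun u hu m hm hco hgr =>
      odd_centralize (model h2 hω) (isP h2 hω) u (norm_conj h2 hω hu) m hm hco hgr)

/-- the hypothesis of the simplicity criterion -/
theorem goodSyl :
    Cfsg.Agent.Lib.Helper91.SimpleGen.GoodSyl 2 ((Syl h2 hω).subgroupOf (threeJ3 F ω)) := by
  haveI := finJ h2 hω
  exact goodSyl_of_norm (threeJ3 F ω) (Syl h2 hω) (Qs h2 hω) (leJ h2 hω) (hne h2 hω)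
    (noStronglyClosed h2 hω) (IxModel.sub_le (model h2 hω))
    (IxModel.sub_normal (model h2 hω) q_norm) (IxModel.sub_selfCen (model h2 hω) q_cen)
    (x1 h2 hω) (x2 h2 hω) (x1_mem h2 hω) (x2_mem h2 hω) 1 3
    (x1_pow h2 hω) (x2_pow h2 hω) (x1Q h2 hω) (x2Q h2 hω) (hhP h2 hω) (hN h2 hω)

end sem

end Cfsg.Agent.Lib.Helper89.J3Syl
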