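import Mathlib
import Cfsg.Prelude.Def_Sporadic_a
import Cfsg.Agent.S5168
import Cfsg.Agent.Lib.Helper89.M22SylChain

set_option autoImplicit false

/-!
# A Sylow `2`-subgroup of `M22`: no proper nontrivial strongly closed subgroup (helper89)

The group of `M22SylData` (given by a polycyclic generating sequence) is the group of `S5168`.
-/

namespace Cfsg.Agent.Lib.Helper89.M22Syl

open Cfsg Cfsg.Agent.Lib.Helper9 Cfsg.Agent.Lib.Helper95

/-- a table whose code is the code of an element of the model is in the group -/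
theorem tperm_mem_of_code {T : List ℕ} (hT : permOK T = true) {k : ℕ} (hk : k < 128)
    (h : Nat.beq (code k) (pcTab T) = true) : tperm T ∈ tgGrp gens := by
  obtain ⟨h1, h2⟩ := cert.e_spec hk
  have e : regE code k = tperm T :=
    pcOf_injective (by rw [h1, pcOf_tperm hT]; exact Nat.eq_of_beq_eq_true h)
  rw [← e]
  exact h2

theorem g0_mem : tperm [0, 7, 9, 20, 21, 6, 16, 1, 19, 12, 22, 10, 4, 15, 8, 2, 14, 11, 13, 3, 5, 18, 17, 23] ∈ tgGrp gens :=
  tperm_mem_of_code (by decide +kernel) (k := 88) (by norm_num) (by decide +kernel)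

theorem g1_mem : tperm [0, 1, 16, 21, 13, 20, 18, 7, 14, 19, 10, 11, 15, 4, 8, 12, 2, 17, 6, 9, 5, 3, 22, 23] ∈ tgGrp gens :=
  tperm_mem_of_code (by decide +kernel) (k := 98) (by norm_num) (by decide +kernel)

theorem g2_mem : tperm [0, 1, 8, 14, 21, 19, 15, 7, 6, 12, 11, 10, 3, 16, 9, 2, 20, 22, 13, 4, 18, 5, 17, 23] ∈ tgGrp gens :=
  tperm_mem_of_code (by decide +kernel) (k := 70) (by norm_num) (by decide +kernel)

/-- the group of `S5168` is the group of the model -/
theorem grp_eq : tgGrp Cfsg.Agent.S5168.gens = tgGrp gens := by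
  have hle : tgGrp Cfsg.Agent.S5168.gens ≤ tgGrp gens := by
    apply tgGrp_le
    intro g hg
    unfold Cfsg.Agent.S5168.gens at hg
    simp only [List.mem_cons, List.not_mem_nil, or_false] at hg
    rcases hg with rfl | rfl | rfl
    · exact g0_mem
    · exact g1_mem
    · exact g2_mem
  have : Finite (tgGrp gens) := Nat.finite_of_card_ne_zero (by rw [cardP]; norm_num)
  exact Subgroup.eq_of_le_of_card_ge hle (by rw [cardP, Cfsg.Agent.S5168.cardP])

/-- the group has no proper nontrivial subgroup which is strongly closed in it with respect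
to `M22` -/
theorem noStronglyClosed : ∀ T : Subgroup (Equiv.Perm GolayPt), T ≤ tgGrp gens → T ≠ ⊥ →
    (∀ t ∈ T, ∀ g ∈ Spor.M22, g * t * g⁻¹ ∈ tgGrp gens → g * t * g⁻¹ ∈ T) → tgGrp gens ≤ T := by
  rw [← grp_eq]
  exact Cfsg.Agent.S5168.hB

theorem ne_bot : tgGrp gens ≠ ⊥ := by
  intro h
  have h1 := cardP
  rw [h, Subgroup.card_bot] at h1
  norm_num at h1

end Cfsg.Agent.Lib.Helper89.M22Syl
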