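import Mathlib
import Cfsg.Prelude.Def_Sporadic_a
import Cfsg.Agent.Lib.Helper89.TabMathieu
import Cfsg.Agent.Lib.Helper89.M24SylData

set_option autoImplicit false

/-!
# A Sylow `2`-subgroup of `M24`: the certificate (helper89)
-/

namespace Cfsg.Agent.Lib.Helper89.M24Syl

open Cfsg Cfsg.Agent.Lib.Helper9 Cfsg.Agent.Lib.Helper95

theorem gens_ok : gens.all permOK = true := by decide +kernel

theorem root_lt : Nat.blt root 1024 = true := by decide +kernel

theorem code_root : Nat.beq (code root) pcId = true := by decide +kernel

theorem sorted_ok : regSortedOK code 1024 = true := by decide +kernel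

theorem rmb_ok : regRmbOK gens code rmb 1024 = true := by decide +kernel

theorem tree_ok : regTreeOK rmb par pj lvl root 1024 gens.length = true := by decide +kernel

theorem rm_ok : regRmOK rmb rm mi mj 1024 63 gens.length = true := by decide +kernel

theorem dec_ok : regDecOK rm ja jb inv root 1024 63 = true := by decide +kernel

/-- the certificate -/
theorem cert : RegCert gens 1024 code root rmb par pj lvl 63 rm mi mj ja jb inv :=
  ⟨gens_ok, root_lt, code_root, sorted_ok, rmb_ok, tree_ok, rm_ok, dec_ok⟩

/-- the index model of the group -/
theorem model : IxModel (tgGrp gens) 1024 (regE code) mul inv root := cert.model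

theorem cardP : Nat.card (tgGrp gens) = 2 ^ 10 := by
  rw [model.card]; norm_num

theorem isP : IsPGroup 2 (tgGrp gens) := IsPGroup.of_card cardP

theorem gens_in : gens.all inM24 = true := by decide +kernel

theorem leM24 : tgGrp gens ≤ M24 := tgGrp_le_of_check M24 inM24 inM24_sound gens_in

end Cfsg.Agent.Lib.Helper89.M24Syl
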