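import Mathlib
import Cfsg.Prelude.Def_Sporadic_a
import Cfsg.Prelude.Def_Spor_Conway
import Cfsg.Prelude.Def_Spor_Mathieu
import Cfsg.Agent.Lib.Helper10.McLSimple2

set_option autoImplicit false

/-!
# `M22` inside the McLaughlin group, and the order of the McLaughlin group (helper89)

The coordinate permutations of `M22` fix the vectors `(4, 4, 0, …)` and `(-5, -1, …)`, so they
lie in the McLaughlin group `Spor.McL`; the latter is the joint stabiliser of the two minimal
vectors `(4, 4, 0, …)` and `(1, -3, 1, …)`, of order `898128000` (helper10).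
-/

namespace Cfsg.Agent.Lib.Helper89.McLSyl

open Cfsg Cfsg.Agent.Lib.Helper10

/-- coordinate permutations as a homomorphism -/
noncomputable def ppH : ↥M24 →* Equiv.Perm leechLattice where
  toFun σ := permPerm σ.1 σ.2
  map_one' := permPerm_one
  map_mul' σ τ := permPerm_mul σ.1 τ.1 σ.2 τ.2

theorem ppH_injective : Function.Injective ppH := fun σ τ h =>
  Subtype.ext (permPerm_inj (hσ := σ.2) (hτ := τ.2) h)

theorem M22_le_M24 : Spor.M22 ≤ M24 := fun _ h => h.1.1

theorem ppH_mem_McL {σ : ↥M24} (h : σ.1 ∈ Spor.M22) : ppH σ ∈ Spor.McL := by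
  have h1 : σ.1 none = none := h.1.2
  have h2 : σ.1 (some 0) = some 0 := h.2
  have e1 : ∀ i, σ.1.symm i = none ↔ i = none := fun i => by rw [Equiv.symm_apply_eq, h1]
  have e2 : ∀ i, σ.1.symm i = some 0 ↔ i = some 0 := fun i => by rw [Equiv.symm_apply_eq, h2]
  refine ⟨⟨permPerm_mem σ.1 σ.2, ?_⟩, ?_⟩
  · show (ppH σ) Spor.leechV = Spor.leechV
    apply Subtype.ext
    funext i
    show Spor.vecV (σ.1.symm i) = Spor.vecV i
    unfold Spor.vecV
    simp only [e1]
  · show (ppH σ) Spor.leechU = Spor.leechU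
    apply Subtype.ext
    funext i
    show Spor.vecU (σ.1.symm i) = Spor.vecU i
    unfold Spor.vecU
    simp only [e1, e2]

/-- the embedding of `M22` into the McLaughlin group -/
noncomputable def emb : ↥Spor.M22 →* ↥Spor.McL :=
  (ppH.comp (Subgroup.inclusion M22_le_M24)).codRestrict Spor.McL
    (fun σ => ppH_mem_McL (σ := Subgroup.inclusion M22_le_M24 σ) σ.2)

theorem emb_injective : Function.Injective emb := by
  intro σ τ h
  have h1 : ppH (Subgroup.inclusion M22_le_M24 σ) = ppH (Subgroup.inclusion M22_le_M24 τ) :=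
    congrArg Subtype.val h
  exact Subgroup.inclusion_injective M22_le_M24 (ppH_injective h1)

/-! ### The order -/

/-- the vector `(1, -3, 1, …)` -/
def w0 : leechLattice := -(Spor.leechU + Spor.leechV)

theorem normU : sqNorm ((Spor.leechU : leechLattice) : GolayPt → ℤ) = 32 := by
  show sqNorm Spor.vecU = 32
  decide +kernel

theorem normW : sqNorm ((w0 : leechLattice) : GolayPt → ℤ) = 32 := by
  show sqNorm (-(Spor.vecU + Spor.vecV)) = 32
  decide +kernel

theorem dotUW : dotInt ((Spor.leechU : leechLattice) : GolayPt → ℤ)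
    ((w0 : leechLattice) : GolayPt → ℤ) = -8 := by
  show dotInt Spor.vecU (-(Spor.vecU + Spor.vecV)) = -8
  decide +kernel

theorem co0_map_zero {f : Equiv.Perm leechLattice} (hf : f ∈ Co0) : f 0 = 0 := by
  have h := hf.1 0 0
  rw [add_zero] at h
  exact left_eq_add.mp h

theorem co0_map_neg {f : Equiv.Perm leechLattice} (hf : f ∈ Co0) (v : leechLattice) :
    f (-v) = -f v := by
  have h := hf.1 v (-v)
  rw [add_neg_cancel, co0_map_zero hf] at h
  exact eq_neg_of_add_eq_zero_right h.symm

theorem mem_McL_iff (f : Equiv.Perm leechLattice) :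
    f ∈ Spor.McL ↔ f ∈ Co0 ∧ f Spor.leechU = Spor.leechU ∧ f w0 = w0 := by
  constructor
  · rintro ⟨⟨hf, hv⟩, hu⟩
    have hv' : f Spor.leechV = Spor.leechV := hv
    have hu' : f Spor.leechU = Spor.leechU := hu
    refine ⟨hf, hu', ?_⟩
    unfold w0
    rw [co0_map_neg hf, hf.1, hu', hv']
  · rintro ⟨hf, hu, hw⟩
    refine ⟨⟨hf, ?_⟩, hu⟩
    show f Spor.leechV = Spor.leechV
    have e : Spor.leechV = -w0 + -Spor.leechU := by
      unfold w0
      abel
    have h1 : f (-w0 + -Spor.leechU) = -w0 + -Spor.leechU := by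
      rw [hf.1, co0_map_neg hf, co0_map_neg hf, hu, hw]
    rw [e]
    exact h1

theorem map_stab_eq :
    (MulAction.stabilizer ↥Co0 Spor.leechU ⊓ MulAction.stabilizer ↥Co0 w0).map Co0.subtype =
      Spor.McL := by
  ext f
  rw [mem_McL_iff]
  constructor
  · rintro ⟨g, ⟨hg1, hg2⟩, rfl⟩
    exact ⟨g.2, hg1, hg2⟩
  · rintro ⟨hf, hu, hw⟩
    exact ⟨⟨f, hf⟩, ⟨hu, hw⟩, rfl⟩

/-- the order of the McLaughlin group -/
theorem card_McL : Nat.card Spor.McL = 898128000 := by
  have h := (mcl_main Spor.leechU w0 normU normW dotUW).2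
  rw [← map_stab_eq, ← h]
  exact (Nat.card_congr
    (Subgroup.equivMapOfInjective _ Co0.subtype Co0.subtype_injective).toEquiv).symm

theorem finite_McL : Finite Spor.McL :=
  Nat.finite_of_card_ne_zero (by rw [card_McL]; norm_num)

theorem fact_McL : (Nat.card Spor.McL).factorization 2 = 7 := by
  rw [card_McL]
  have e : (898128000 : ℕ) = 2 ^ 7 * 7016625 := by norm_num
  rw [e, Nat.factorization_mul (by norm_num) (by norm_num), Nat.Prime.factorization_pow Nat.prime_two]
  have h2 : (7016625 : ℕ).factorization 2 = 0 :=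
    Nat.factorization_eq_zero_of_not_dvd (by norm_num)
  simp [h2]

end Cfsg.Agent.Lib.Helper89.McLSyl
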