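import Mathlib
import Cfsg.Agent.Lib.Helper89.CodeModel

set_option autoImplicit false

/-!
# Codes of permutations of at most `512` points (helper89)

A permutation of `Fin N` is coded by the number with the `N` digits of `9` bits listing its
values; the product of codes is computable, which yields a `GCode`.
-/

namespace Cfsg.Agent.Lib.Helper89

/-- digit `i` of a code (`9` bits) -/
def pc9Dig (c i : ℕ) : ℕ := Nat.land (Nat.shiftRight c (Nat.mul 9 i)) 511

theorem pc9Dig_eq (c i : ℕ) : pc9Dig c i = c / 512 ^ i % 512 := by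
  show (c >>> (9 * i)) &&& 511 = _
  rw [Nat.shiftRight_eq_div_pow, pow_mul]
  have h : (511 : ℕ) = 2 ^ 9 - 1 := by norm_num
  rw [h, Nat.and_two_pow_sub_one_eq_mod]
  norm_num

/-- the number with the `k` digits `f s, f (s+1), ...` -/
def pc9Enc (f : ℕ → ℕ) (k : ℕ) : ℕ → ℕ :=
  Nat.rec (motive := fun _ => ℕ → ℕ) (fun _ => 0)
    (fun _ ih s => Nat.add (f s) (Nat.mul 512 (ih (Nat.succ s)))) k

theorem pc9Enc_succ (f : ℕ → ℕ) (k s : ℕ) :
    pc9Enc f (k + 1) s = f s + 512 * pc9Enc f k (s + 1) := rfl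

theorem pc9Dig_pc9Enc (f : ℕ → ℕ) : ∀ (k s i : ℕ), i < k → (∀ j < k, f (s + j) < 512) →
    pc9Dig (pc9Enc f k s) i = f (s + i) := by
  intro k
  induction k with
  | zero => intro s i hi; omega
  | succ k ih =>
    intro s i hi hf
    rw [pc9Dig_eq, pc9Enc_succ]
    have h0 : f s < 512 := by simpa using hf 0 (Nat.succ_pos k)
    cases i with
    | zero =>
      rw [pow_zero, Nat.div_one, Nat.add_mul_mod_self_left, Nat.mod_eq_of_lt h0, Nat.add_zero]
    | succ i =>
      have h1 : (f s + 512 * pc9Enc f k (s + 1)) / 512 ^ (i + 1) =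
          pc9Enc f k (s + 1) / 512 ^ i := by
        rw [pow_succ', ← Nat.div_div_eq_div_mul, Nat.add_mul_div_left _ _ (by norm_num : 0 < 512),
          Nat.div_eq_of_lt h0, Nat.zero_add]
      rw [h1]
      have h2 := ih (s + 1) i (by omega) (fun j hj => by
        have := hf (j + 1) (by omega)
        rwa [show s + (j + 1) = s + 1 + j by omega] at this)
      rw [show s + (i + 1) = s + 1 + i by omega, ← h2, pc9Dig_eq]

theorem pc9Enc_congr {f g : ℕ → ℕ} : ∀ (k s : ℕ), (∀ j < k, f (s + j) = g (s + j)) →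
    pc9Enc f k s = pc9Enc g k s := by
  intro k
  induction k with
  | zero => intro s _; rfl
  | succ k ih =>
    intro s h
    rw [pc9Enc_succ, pc9Enc_succ, ih (s + 1) (fun j hj => by
      have := h (j + 1) (by omega)
      rwa [show s + (j + 1) = s + 1 + j by omega] at this)]
    have h0 := h 0 (Nat.succ_pos k)
    rw [Nat.add_zero] at h0
    rw [h0]

/-- the product of codes -/
def pc9Mul (N a b : ℕ) : ℕ := pc9Enc (fun i => pc9Dig a (pc9Dig b i)) N 0

/-- the values of a permutation -/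
def pc9Val {N : ℕ} (σ : Equiv.Perm (Fin N)) (i : ℕ) : ℕ :=
  if h : i < N then ((σ ⟨i, h⟩ : Fin N) : ℕ) else 0

/-- the code of a permutation -/
def pc9Of {N : ℕ} (σ : Equiv.Perm (Fin N)) : ℕ := pc9Enc (pc9Val σ) N 0

/-- the code of the identity -/
def pc9Id (N : ℕ) : ℕ := pc9Enc (fun i => i) N 0

theorem pc9Val_lt {N : ℕ} (σ : Equiv.Perm (Fin N)) {i : ℕ} (hi : i < N) :
    pc9Val σ i = ((σ ⟨i, hi⟩ : Fin N) : ℕ) := by
  unfold pc9Val
  rw [dif_pos hi]

theorem pc9Dig_pc9Of {N : ℕ} (hN : N ≤ 512) (σ : Equiv.Perm (Fin N)) {i : ℕ} (hi : i < N) :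
    pc9Dig (pc9Of σ) i = ((σ ⟨i, hi⟩ : Fin N) : ℕ) := by
  have h := pc9Dig_pc9Enc (pc9Val σ) N 0 i hi (fun j hj => by
    rw [Nat.zero_add, pc9Val_lt σ hj]
    exact lt_of_lt_of_le (Fin.is_lt _) hN)
  rw [Nat.zero_add, pc9Val_lt σ hi] at h
  exact h

/-- the codes of the permutations of `Fin N`, for `N ≤ 512` -/
theorem pc9_gcode {N : ℕ} (hN : N ≤ 512) :
    GCode (pc9Of (N := N)) (pc9Mul N) (pc9Id N) where
  inj := by
    intro σ τ h
    apply Equiv.ext
    intro p
    have h1 := pc9Dig_pc9Of hN σ p.2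
    have h2 := pc9Dig_pc9Of hN τ p.2
    rw [h, h2] at h1
    exact (Fin.ext h1).symm
  mul := by
    intro σ τ
    apply pc9Enc_congr
    intro j hj
    simp only [Nat.zero_add]
    rw [pc9Val_lt _ hj, pc9Dig_pc9Of hN τ hj, pc9Dig_pc9Of hN σ (Fin.is_lt _),
      Equiv.Perm.mul_apply]
  one := by
    apply pc9Enc_congr
    intro j hj
    simp only [Nat.zero_add]
    rw [pc9Val_lt _ hj, Equiv.Perm.one_apply]

/-- the code of a permutation given by a table of digits -/
theorem pc9Of_eq_of_apply {N : ℕ} (σ : Equiv.Perm (Fin N)) (T : ℕ)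
    (h : ∀ i : Fin N, ((σ i : Fin N) : ℕ) = pc9Dig T i) : pc9Of σ = pc9Enc (pc9Dig T) N 0 := by
  apply pc9Enc_congr
  intro j hj
  simp only [Nat.zero_add]
  rw [pc9Val_lt _ hj, h]

end Cfsg.Agent.Lib.Helper89
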