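import Mathlib
import Cfsg.Agent.Lib.Helper89.IdxNorm

set_option autoImplicit false

/-!
# Index models of finite subgroups from relational codes (helper89)

As `CodeModel`, for a coding given by a relation `R g c` ("the number `c` represents the group
element `g`") instead of a function: a code represents at most one element, products of codes
represent products, and the codes of one element have the same key.
-/

namespace Cfsg.Agent.Lib.Helper89

/-- a relational coding of the elements of a group by numbers -/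
structure RCode {Ω : Type*} [Group Ω] (R : Ω → ℕ → Prop) (cmul : ℕ → ℕ → ℕ) (cid : ℕ)
    (key : ℕ → ℕ) : Prop where
  uniq : ∀ g h c, R g c → R h c → g = h
  mul : ∀ g h c d, R g c → R h d → R (g * h) (cmul c d)
  one : R 1 cid
  key_eq : ∀ g c d, R g c → R g d → key c = key d

section

variable {Ω : Type*} [Group Ω] {R : Ω → ℕ → Prop} {cmul : ℕ → ℕ → ℕ} {cid : ℕ} {key : ℕ → ℕ}

theorem RCode.wcode_rep (K : RCode R cmul cid key) {b : ℕ → Ω} {bc : ℕ → ℕ} {r : ℕ}
    (hb : ∀ i < r, R (b i) (bc i)) {w : List ℕ} (hw : ∀ i ∈ w, i < r) :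
    R (wprod b w) (wcode cmul cid bc w) := by
  induction w with
  | nil => exact K.one
  | cons i w ih =>
    have h1 : wprod b (i :: w) = b i * wprod b w := by
      unfold wprod
      rw [List.map_cons, List.prod_cons]
    have h2 : wcode cmul cid bc (i :: w) = cmul (bc i) (wcode cmul cid bc w) := rfl
    rw [h1, h2]
    exact K.mul _ _ _ _ (hb i (hw i List.mem_cons_self))
      (ih (fun j hj => hw j (List.mem_cons_of_mem _ hj)))

/-- a word with a checked code -/
theorem RCode.word_spec (K : RCode R cmul cid key) {H : Subgroup Ω} {b : ℕ → Ω} {bc : ℕ → ℕ}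
    {r : ℕ} (hb : ∀ i < r, b i ∈ H ∧ R (b i) (bc i)) {w : List ℕ} {c : ℕ}
    (h : wordOK cmul cid bc r w c = true) : wprod b w ∈ H ∧ R (wprod b w) c := by
  unfold wordOK at h
  rw [ixAnd_iff, ixAllL_iff] at h
  have hw : ∀ i ∈ w, i < r := fun i hi => Nat.blt_eq.mp (h.1 i hi)
  refine ⟨wprod_mem (fun i hi => (hb i hi).1) hw, ?_⟩
  rw [← Nat.eq_of_beq_eq_true h.2]
  exact K.wcode_rep (fun i hi => (hb i hi).2) hw

/-- elements given by words in base elements are base elements for further words -/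
theorem RCode.base_lift (K : RCode R cmul cid key) {H : Subgroup Ω} {b : ℕ → Ω} {bc : ℕ → ℕ}
    {r : ℕ} (hb : ∀ i < r, b i ∈ H ∧ R (b i) (bc i)) {W : ℕ → List ℕ} {bc1 : ℕ → ℕ} {r1 : ℕ}
    (h : ixAllN (fun i => wordOK cmul cid bc r (W i) (bc1 i)) r1 = true) :
    ∀ i < r1, wprod b (W i) ∈ H ∧ R (wprod b (W i)) (bc1 i) :=
  fun i hi => K.word_spec hb ((ixAllN_iff _ _).mp h i hi)

/-- conjugation read off from codes -/
theorem RCode.conj_eq (K : RCode R cmul cid key) {x a b : Ω} {cx ca cb : ℕ} (hx : R x cx)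
    (ha : R a ca) (hb : R b cb) (h : cmul cx ca = cmul cb cx) : x * a * x⁻¹ = b := by
  rw [mul_inv_eq_iff_eq_mul]
  have h1 := K.mul _ _ _ _ hx ha
  rw [h] at h1
  exact K.uniq _ _ _ h1 (K.mul _ _ _ _ hb hx)

/-- a word with the code of the identity -/
theorem RCode.word_one (K : RCode R cmul cid key) {H : Subgroup Ω} {b : ℕ → Ω} {bc : ℕ → ℕ}
    {r : ℕ} (hb : ∀ i < r, b i ∈ H ∧ R (b i) (bc i)) {w : List ℕ}
    (h : wordOK cmul cid bc r w cid = true) : wprod b w = 1 :=
  K.uniq _ _ _ (K.word_spec hb h).2 K.one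

end

/-- the certificate of a model: words, codes, and tables -/
structure RCert (cmul : ℕ → ℕ → ℕ) (cid : ℕ) (key : ℕ → ℕ) (bc : ℕ → ℕ) (r n : ℕ)
    (words : ℕ → List ℕ) (code : ℕ → ℕ) (mul : ℕ → ℕ → ℕ) (inv : ℕ → ℕ) (root : ℕ) : Prop where
  words_ok : ixAllN (fun k => wordOK cmul cid bc r (words k) (code k)) n = true
  sorted : ixAllN (fun k => Nat.blt (key (code k)) (key (code (Nat.succ k)))) (Nat.pred n) = true
  mul_ok : ixAllN (fun a => ixAllN (fun b => ixAnd (Nat.blt (mul a b) n)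
    (Nat.beq (cmul (code a) (code b)) (code (mul a b)))) n) n = true
  inv_ok : ixAllN (fun a => ixAnd (Nat.blt (inv a) n) (Nat.beq (mul a (inv a)) root)) n = true
  root_ok : ixAnd (Nat.blt root n) (Nat.beq (code root) cid) = true

section

variable {Ω : Type*} [Group Ω] {R : Ω → ℕ → Prop} {cmul : ℕ → ℕ → ℕ} {cid : ℕ} {key : ℕ → ℕ}
  {bc : ℕ → ℕ} {r n : ℕ} {words : ℕ → List ℕ} {code : ℕ → ℕ} {mul : ℕ → ℕ → ℕ} {inv : ℕ → ℕ}
  {root : ℕ}

theorem RCert.key_lt (C : RCert cmul cid key bc r n words code mul inv root) :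
    ∀ b, b < n → ∀ a, a < b → key (code a) < key (code b) := by
  have hs : ∀ k, k < Nat.pred n → key (code k) < key (code (k + 1)) := fun k hk =>
    Nat.blt_eq.mp ((ixAllN_iff _ _).mp C.sorted k hk)
  intro b
  induction b with
  | zero => intro _ a ha; omega
  | succ b ih =>
    intro hb a ha
    have h1 : key (code b) < key (code (b + 1)) := hs b (by
      have : Nat.pred n = n - 1 := rfl
      omega)
    rcases Nat.lt_succ_iff_lt_or_eq.mp ha with h | h
    · exact lt_trans (ih (by omega) a h) h1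
    · rw [h]; exact h1

theorem RCert.key_inj (C : RCert cmul cid key bc r n words code mul inv root)
    {a b : ℕ} (ha : a < n) (hb : b < n) (h : key (code a) = key (code b)) : a = b := by
  rcases Nat.lt_trichotomy a b with h1 | h1 | h1
  · exact absurd h (Nat.ne_of_lt (C.key_lt b hb a h1))
  · exact h1
  · exact absurd h.symm (Nat.ne_of_lt (C.key_lt a ha b h1))

theorem RCert.root_lt (C : RCert cmul cid key bc r n words code mul inv root) : root < n :=
  Nat.blt_eq.mp ((ixAnd_iff _ _).mp C.root_ok).1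

theorem RCert.mul_spec (C : RCert cmul cid key bc r n words code mul inv root) {a b : ℕ}
    (ha : a < n) (hb : b < n) : mul a b < n ∧ cmul (code a) (code b) = code (mul a b) := by
  have h := (ixAllN_iff _ _).mp ((ixAllN_iff _ _).mp C.mul_ok a ha) b hb
  rw [ixAnd_iff] at h
  exact ⟨Nat.blt_eq.mp h.1, Nat.eq_of_beq_eq_true h.2⟩

theorem RCert.inv_spec (C : RCert cmul cid key bc r n words code mul inv root) {a : ℕ}
    (ha : a < n) : inv a < n ∧ mul a (inv a) = root := by
  have h := (ixAllN_iff _ _).mp C.inv_ok a ha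
  rw [ixAnd_iff] at h
  exact ⟨Nat.blt_eq.mp h.1, Nat.eq_of_beq_eq_true h.2⟩

variable (K : RCode R cmul cid key) (C : RCert cmul cid key bc r n words code mul inv root)
  {H : Subgroup Ω} {b : ℕ → Ω} (hb : ∀ i < r, b i ∈ H ∧ R (b i) (bc i))

include K C hb

theorem RCert.e_spec {k : ℕ} (hk : k < n) :
    wprod b (words k) ∈ H ∧ R (wprod b (words k)) (code k) :=
  K.word_spec hb ((ixAllN_iff _ _).mp C.words_ok k hk)

theorem RCert.e_mul {a c : ℕ} (ha : a < n) (hc : c < n) :
    wprod b (words (mul a c)) = wprod b (words a) * wprod b (words c) := by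
  have h1 := K.mul _ _ _ _ (C.e_spec K hb ha).2 (C.e_spec K hb hc).2
  rw [(C.mul_spec ha hc).2] at h1
  exact K.uniq _ _ _ (C.e_spec K hb (C.mul_spec ha hc).1).2 h1

theorem RCert.e_root : wprod b (words root) = 1 := by
  have h1 := (C.e_spec K hb C.root_lt).2
  rw [Nat.eq_of_beq_eq_true ((ixAnd_iff _ _).mp C.root_ok).2] at h1
  exact K.uniq _ _ _ h1 K.one

theorem RCert.e_inv {a : ℕ} (ha : a < n) :
    wprod b (words (inv a)) = (wprod b (words a))⁻¹ := by
  have h1 := C.e_mul K hb ha (C.inv_spec ha).1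
  rw [(C.inv_spec ha).2, C.e_root K hb] at h1
  exact eq_inv_of_mul_eq_one_right h1.symm

/-- the subgroup formed by the elements of the certificate -/
def RCert.grp : Subgroup Ω where
  carrier := {x | ∃ k < n, wprod b (words k) = x}
  mul_mem' := by
    rintro _ _ ⟨a, ha, rfl⟩ ⟨c, hc, rfl⟩
    exact ⟨mul a c, (C.mul_spec ha hc).1, C.e_mul K hb ha hc⟩
  one_mem' := ⟨root, C.root_lt, C.e_root K hb⟩
  inv_mem' := by
    rintro _ ⟨a, ha, rfl⟩
    exact ⟨inv a, (C.inv_spec ha).1, C.e_inv K hb ha⟩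

theorem RCert.grp_le : C.grp K hb ≤ H := by
  rintro _ ⟨k, hk, rfl⟩
  exact (C.e_spec K hb hk).1

/-- the index model of the group of the certificate -/
theorem RCert.model :
    IxModel (C.grp K hb) n (fun k => wprod b (words k)) mul inv root where
  mem a ha := ⟨a, ha, rfl⟩
  surj x hx := hx
  inj a ha c hc h := by
    apply C.key_inj ha hc
    have h1 := (C.e_spec K hb ha).2
    rw [h] at h1
    exact K.key_eq _ _ _ h1 (C.e_spec K hb hc).2
  mul_lt a ha c hc := (C.mul_spec ha hc).1
  e_mul a ha c hc := C.e_mul K hb ha hc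
  inv_lt a ha := (C.inv_spec ha).1
  e_inv a ha := C.e_inv K hb ha
  one_lt := C.root_lt
  e_one := C.e_root K hb

/-- the conjugate of the element `a` by the element with the word `w` is the element `c` -/
theorem RCert.conj_word {a c : ℕ} (ha : a < n) (hc : c < n) {w : List ℕ} {cw : ℕ}
    (hw : wordOK cmul cid bc r w cw = true)
    (h : Nat.beq (cmul cw (code a)) (cmul (code c) cw) = true) :
    wprod b w * wprod b (words a) * (wprod b w)⁻¹ = wprod b (words c) :=
  K.conj_eq (K.word_spec hb hw).2 (C.e_spec K hb ha).2 (C.e_spec K hb hc).2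
    (Nat.eq_of_beq_eq_true h)

/-- conjugation by the element with the word `w` maps the elements of the list `L` into those
of `L'`, as described by the map `f` on indices -/
theorem RCert.conj_list {w : List ℕ} {cw : ℕ} (hw : wordOK cmul cid bc r w cw = true)
    (L L' : List ℕ) (hL : ∀ a ∈ L, a < n) (hL' : ∀ a ∈ L', a < n) (f : ℕ → ℕ)
    (h : ixAllL (fun a => ixAnd (ixBit (ixMask L') (f a))
      (Nat.beq (cmul cw (code a)) (cmul (code (f a)) cw))) L = true) :
    ∀ a ∈ L, f a ∈ L' ∧
      wprod b w * wprod b (words a) * (wprod b w)⁻¹ = wprod b (words (f a)) := by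
  intro a ha
  have h1 := (ixAllL_iff _ _).mp h a ha
  rw [ixAnd_iff, ixBit_mask] at h1
  exact ⟨h1.1, C.conj_word K hb (hL a ha) (hL' _ h1.1) hw h1.2⟩

theorem RCert.fus_sound {fw : ℕ → List ℕ} {fc : ℕ → ℕ} {nf : ℕ}
    (hf : ixAllN (fun i => wordOK cmul cid bc r (fw i) (fc i)) nf = true) :
    ∀ a c gi, a < n → codeFus cmul code fc nf n a c gi = true →
      c < n ∧ ∃ γ ∈ H, γ * wprod b (words a) * γ⁻¹ = wprod b (words c) := by
  intro a c gi ha h
  unfold codeFus at h
  rw [ixAnd_iff, ixAnd_iff] at h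
  obtain ⟨h1, h2, h3⟩ := h
  have hc := Nat.blt_eq.mp h1
  have hgi := Nat.blt_eq.mp h2
  have hw := (ixAllN_iff _ _).mp hf gi hgi
  exact ⟨hc, wprod b (fw gi), (K.word_spec hb hw).1, C.conj_word K hb ha hc hw h3⟩

end

end Cfsg.Agent.Lib.Helper89
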