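import Mathlib
import Cfsg.Agent.Lib.Helper93.Sp4Defs

/-!
# S2293 piece SP4-MATTNS (by helper89): the torus, Weyl group and Steinberg relators hold for the
six matrices of `Sp₄(F)`
-/

set_option autoImplicit false
set_option linter.unusedSimpArgs false

namespace Cfsg.Agent.Lib.Helper93.Sp4

open Polynomial Matrix

section mats

variable {F : Type*} [Field F]

theorem h89_zero2 : (!![0, 0; 0, 0] : Matrix (Fin 2) (Fin 2) F) = 0 := by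
  ext i j
  fin_cases i <;> fin_cases j <;> rfl

theorem h89_vec0 : (![0, 0] : Fin 2 → F) = 0 := by
  ext i
  fin_cases i <;> rfl

theorem h89_of0 : (of ![(0 : Fin 2 → F), 0] : Matrix (Fin 2) (Fin 2) F) = 0 := by
  ext i j
  fin_cases i <;> fin_cases j <;> rfl

theorem h89_inv_val (A : symplecticGroup (Fin 2) F)
    (B : Matrix (Fin 2 ⊕ Fin 2) (Fin 2 ⊕ Fin 2) F) (h : A.1 * B = 1) : (A⁻¹).1 = B := by
  have h1 : (A⁻¹).1 * A.1 = 1 := congrArg Subtype.val (inv_mul_cancel A)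
  calc (A⁻¹).1 = (A⁻¹).1 * (A.1 * B) := by rw [h, mul_one]
    _ = B := by rw [← mul_assoc, h1, one_mul]

theorem h89_sTa_inv : ((sTa F)⁻¹).1 = fromBlocks !![0, -1; 1, 0] 0 0 !![0, -1; 1, 0] := by
  apply h89_inv_val
  rw [sTa_val, Matrix.fromBlocks_multiply]
  simp [Matrix.one_fin_two, ← Matrix.fromBlocks_one, h89_zero2, h89_vec0, h89_of0]

theorem h89_sTb_inv : ((sTb F)⁻¹).1 =
    fromBlocks !![1, 0; 0, 0] !![0, 0; 0, -1] !![0, 0; 0, 1] !![1, 0; 0, 0] := by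
  apply h89_inv_val
  rw [sTb_val, Matrix.fromBlocks_multiply]
  simp [Matrix.one_fin_two, ← Matrix.fromBlocks_one, h89_zero2, h89_vec0, h89_of0]

theorem h89_sX_inv : (sX (1 : F))⁻¹ = sX (-1) := by
  apply inv_eq_of_mul_eq_one_right
  apply Subtype.ext
  show (sX (1 : F)).1 * (sX (-1 : F)).1 = 1
  rw [sX_val, sX_val]
  simp [Matrix.fromBlocks_multiply, h89_zero2, h89_vec0, h89_of0, Matrix.one_fin_two,
    ← Matrix.fromBlocks_one]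

theorem h89_sY_inv : (sY (1 : F))⁻¹ = sY (-1) := by
  apply inv_eq_of_mul_eq_one_right
  apply Subtype.ext
  show (sY (1 : F)).1 * (sY (-1 : F)).1 = 1
  rw [sY_val, sY_val]
  simp [Matrix.fromBlocks_multiply, h89_zero2, h89_vec0, h89_of0, Matrix.one_fin_two,
    ← Matrix.fromBlocks_one]

theorem h89_T1 (ζ : F) (hζ0 : ζ ≠ 0) : sHa ζ hζ0 * sHb ζ hζ0 = sHb ζ hζ0 * sHa ζ hζ0 := by
  apply Subtype.ext
  show (sHa ζ hζ0).1 * (sHb ζ hζ0).1 = (sHb ζ hζ0).1 * (sHa ζ hζ0).1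
  rw [sHa_val, sHb_val]
  simp [Matrix.fromBlocks_multiply, h89_zero2, h89_vec0, h89_of0, mul_comm]

theorem h89_T2 (ζ : F) (hζ0 : ζ ≠ 0) : sTa F * sHb ζ hζ0 = sHa ζ hζ0 * sHb ζ hζ0 * sTa F := by
  apply Subtype.ext
  show (sTa F).1 * (sHb ζ hζ0).1 = (sHa ζ hζ0).1 * (sHb ζ hζ0).1 * (sTa F).1
  rw [sHa_val, sHb_val, sTa_val]
  simp [Matrix.fromBlocks_multiply, h89_zero2, h89_vec0, h89_of0, hζ0]

theorem h89_T3 (ζ : F) (hζ0 : ζ ≠ 0) :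
    sTb F * sHa ζ hζ0 = sHa ζ hζ0 * sHb ζ hζ0 * sHb ζ hζ0 * sTb F := by
  apply Subtype.ext
  show (sTb F).1 * (sHa ζ hζ0).1 = (sHa ζ hζ0).1 * (sHb ζ hζ0).1 * (sHb ζ hζ0).1 * (sTb F).1
  rw [sHa_val, sHb_val, sTb_val]
  simp [Matrix.fromBlocks_multiply, h89_zero2, h89_vec0, h89_of0, hζ0]

theorem h89_T4 (ζ : F) (hζ0 : ζ ≠ 0) :
    sHa ζ hζ0 * sHb ζ hζ0 * sY (1 : F) = sY (1 : F) * (sHa ζ hζ0 * sHb ζ hζ0) := by
  apply Subtype.ext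
  show (sHa ζ hζ0).1 * (sHb ζ hζ0).1 * (sY (1 : F)).1 =
    (sY (1 : F)).1 * ((sHa ζ hζ0).1 * (sHb ζ hζ0).1)
  rw [sHa_val, sHb_val, sY_val]
  simp [Matrix.fromBlocks_multiply, h89_zero2, h89_vec0, h89_of0, hζ0]

theorem h89_N1 : (sTb F)⁻¹ * sTa F * sTb F * sX (1 : F) =
    sX (-1 : F) * ((sTb F)⁻¹ * sTa F * sTb F) := by
  apply Subtype.ext
  show ((sTb F)⁻¹).1 * (sTa F).1 * (sTb F).1 * (sX (1 : F)).1 =
    (sX (-1 : F)).1 * (((sTb F)⁻¹).1 * (sTa F).1 * (sTb F).1)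
  rw [h89_sTb_inv, sTa_val, sTb_val, sX_val, sX_val]
  simp [Matrix.fromBlocks_multiply, h89_zero2, h89_vec0, h89_of0]

theorem h89_N2 : (sTa F)⁻¹ * sTb F * sTa F * sY (1 : F) =
    sY (1 : F) * ((sTa F)⁻¹ * sTb F * sTa F) := by
  apply Subtype.ext
  show ((sTa F)⁻¹).1 * (sTb F).1 * (sTa F).1 * (sY (1 : F)).1 =
    (sY (1 : F)).1 * (((sTa F)⁻¹).1 * (sTb F).1 * (sTa F).1)
  rw [h89_sTa_inv, sTa_val, sTb_val, sY_val]
  simp [Matrix.fromBlocks_multiply, h89_zero2, h89_vec0, h89_of0]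

theorem h89_N3 : sTb F * sTa F * sTb F * sTa F = sTa F * sTb F * sTa F * sTb F := by
  apply Subtype.ext
  show (sTb F).1 * (sTa F).1 * (sTb F).1 * (sTa F).1 =
    (sTa F).1 * (sTb F).1 * (sTa F).1 * (sTb F).1
  rw [sTa_val, sTb_val]
  simp [Matrix.fromBlocks_multiply, h89_zero2, h89_vec0, h89_of0]

theorem h89_S1 : sX (1 : F) * sY (1 : F) =
    sTb F * sX (-1 : F) * (sTb F)⁻¹ * (sTa F * sY (1 : F) * (sTa F)⁻¹) * sY (1 : F) *
      sX (1 : F) := by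
  apply Subtype.ext
  show (sX (1 : F)).1 * (sY (1 : F)).1 =
    (sTb F).1 * (sX (-1 : F)).1 * ((sTb F)⁻¹).1 * ((sTa F).1 * (sY (1 : F)).1 * ((sTa F)⁻¹).1) *
      (sY (1 : F)).1 * (sX (1 : F)).1
  rw [h89_sTa_inv, h89_sTb_inv, sTa_val, sTb_val, sY_val, sX_val, sX_val]
  simp [Matrix.fromBlocks_multiply, h89_zero2, h89_vec0, h89_of0]

theorem h89_S2 : sX (1 : F) * (sTa F * sY (1 : F) * (sTa F)⁻¹) =
    sTa F * sY (1 : F) * (sTa F)⁻¹ * sX (1 : F) := by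
  apply Subtype.ext
  show (sX (1 : F)).1 * ((sTa F).1 * (sY (1 : F)).1 * ((sTa F)⁻¹).1) =
    (sTa F).1 * (sY (1 : F)).1 * ((sTa F)⁻¹).1 * (sX (1 : F)).1
  rw [h89_sTa_inv, sTa_val, sY_val, sX_val]
  simp [Matrix.fromBlocks_multiply, h89_zero2, h89_vec0, h89_of0]

theorem h89_S3 : sY (1 : F) * (sTa F * sY (1 : F) * (sTa F)⁻¹) =
    sTa F * sY (1 : F) * (sTa F)⁻¹ * sY (1 : F) := by
  apply Subtype.ext
  show (sY (1 : F)).1 * ((sTa F).1 * (sY (1 : F)).1 * ((sTa F)⁻¹).1) =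
    (sTa F).1 * (sY (1 : F)).1 * ((sTa F)⁻¹).1 * (sY (1 : F)).1
  rw [h89_sTa_inv, sTa_val, sY_val]
  simp [Matrix.fromBlocks_multiply, h89_zero2, h89_vec0, h89_of0]

theorem h89_mem4 {α : Type*} {r a b c d : α} (h : r ∈ [a, b, c, d]) :
    r = a ∨ r = b ∨ r = c ∨ r = d := by
  simpa using h

theorem h89_mem3 {α : Type*} {r a b c : α} (h : r ∈ [a, b, c]) : r = a ∨ r = b ∨ r = c := by
  simpa using h

/-- MATTNS -/
theorem mat_relsTNS (ζ : F) (hζ0 : ζ ≠ 0) :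
    (∀ r ∈ relsT (sHa ζ hζ0) (sTa F) (sY (1 : F)) (sHb ζ hζ0) (sTb F), r = 1) ∧
    (∀ r ∈ relsN (sX (1 : F)) (sTa F) (sY (1 : F)) (sTb F), r = 1) ∧
    (∀ r ∈ relsS (sX (1 : F)) (sTa F) (sY (1 : F)) (sTb F), r = 1) := by
  refine ⟨?_, ?_, ?_⟩
  · intro r hr
    rcases h89_mem4 hr with rfl | rfl | rfl | rfl
    · rw [mul_inv_eq_one, mul_inv_eq_iff_eq_mul]
      exact h89_T1 ζ hζ0
    · rw [mul_inv_eq_one, mul_inv_eq_iff_eq_mul]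
      exact h89_T2 ζ hζ0
    · rw [mul_inv_eq_one, mul_inv_eq_iff_eq_mul]
      exact h89_T3 ζ hζ0
    · rw [mul_inv_eq_one, mul_inv_eq_iff_eq_mul]
      exact h89_T4 ζ hζ0
  · intro r hr
    rcases h89_mem3 hr with rfl | rfl | rfl
    · rw [mul_eq_one_iff_eq_inv, mul_inv_eq_iff_eq_mul, h89_sX_inv]
      exact h89_N1
    · rw [mul_inv_eq_one, mul_inv_eq_iff_eq_mul]
      exact h89_N2
    · rw [mul_inv_eq_one]
      exact h89_N3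
  · intro r hr
    rcases h89_mem3 hr with rfl | rfl | rfl
    · rw [mul_inv_eq_one, mul_inv_eq_iff_eq_mul, mul_inv_eq_iff_eq_mul, h89_sX_inv]
      exact h89_S1
    · rw [mul_inv_eq_one, mul_inv_eq_iff_eq_mul]
      exact h89_S2
    · rw [mul_inv_eq_one, mul_inv_eq_iff_eq_mul]
      exact h89_S3

end mats

end Cfsg.Agent.Lib.Helper93.Sp4
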