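import Mathlib
import Cfsg.Agent.Lib.Helper89.FusSat

set_option autoImplicit false

/-!
# Resistance of 2-groups of "Suzuki shape"

Let `S` be a finite 2-group in which every element of square one is central, every central
element has square one and every commutator is central.  For a subgroup `P ≤ S` the
automorphisms of `P` that fix every element of square one and move every element by an element
of square one form a normal subgroup of exponent two of `Aut(P)`; it contains `Aut_S(P)`.  So in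
a saturated fusion system over `S`, for fully normalized `P` the Sylow 2-subgroup `Aut_S(P)` of
`Aut_F(P)` is normal.
-/

namespace Cfsg.Agent.Lib.Helper89.SuzRes

open Cfsg Cfsg.FusionSystem Cfsg.Agent.Lib.Helper89

section chain

variable {P : Type*} [Group P]

/-- the automorphisms of `P` fixing every `z` with `z * z = 1` and moving every `x` by such an
element -/
def chainStab (P : Type*) [Group P] (hcomm : ∀ z w : P, z * z = 1 → z * w = w * z) :
    Subgroup (MulAut P) where
  carrier := {α | (∀ z : P, z * z = 1 → α z = z) ∧ ∀ x : P, (α x * x⁻¹) * (α x * x⁻¹) = 1}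
  one_mem' := ⟨fun z _ => rfl, fun x => by simp⟩
  mul_mem' := by
    rintro α β ⟨hα1, hα2⟩ ⟨hβ1, hβ2⟩
    refine ⟨fun z hz => ?_, fun x => ?_⟩
    · rw [MulAut.mul_apply, hβ1 z hz, hα1 z hz]
    · rw [MulAut.mul_apply]
      have ha := hα2 (β x)
      have hb := hβ2 x
      have hc := hcomm _ (β x * x⁻¹) ha
      calc α (β x) * x⁻¹ * (α (β x) * x⁻¹)
          = (α (β x) * (β x)⁻¹) * ((α (β x) * (β x)⁻¹) * (β x * x⁻¹)) * (β x * x⁻¹) := by
            rw [hc]; group
        _ = ((α (β x) * (β x)⁻¹) * (α (β x) * (β x)⁻¹)) * ((β x * x⁻¹) * (β x * x⁻¹)) := by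
            group
        _ = 1 := by rw [ha, hb, one_mul]
  inv_mem' := by
    rintro α ⟨hα1, hα2⟩
    refine ⟨fun z hz => ?_, fun x => ?_⟩
    · calc α⁻¹ z = α⁻¹ (α z) := by rw [hα1 z hz]
        _ = z := by simp
    · have h := hα2 (α⁻¹ x)
      rw [MulAut.apply_inv_self] at h
      have h1 : α⁻¹ x * x⁻¹ = (x * (α⁻¹ x)⁻¹)⁻¹ := by group
      rw [h1, ← mul_inv_rev, h, inv_one]

variable (hcomm : ∀ z w : P, z * z = 1 → z * w = w * z)

theorem chainStab_normal : (chainStab P hcomm).Normal := by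
  constructor
  rintro α ⟨hα1, hα2⟩ γ
  refine ⟨fun z hz => ?_, fun x => ?_⟩
  · have h1 : γ⁻¹ z * γ⁻¹ z = 1 := by rw [← map_mul, hz, map_one]
    show γ (α (γ⁻¹ z)) = z
    rw [hα1 _ h1, MulAut.apply_inv_self]
  · show γ (α (γ⁻¹ x)) * x⁻¹ * (γ (α (γ⁻¹ x)) * x⁻¹) = 1
    have h := hα2 (γ⁻¹ x)
    have h2 : γ (α (γ⁻¹ x)) * x⁻¹ = γ (α (γ⁻¹ x) * (γ⁻¹ x)⁻¹) := by
      rw [map_mul, map_inv, MulAut.apply_inv_self]
    rw [h2, ← map_mul, h, map_one]

theorem chainStab_sq (α : MulAut P) (hα : α ∈ chainStab P hcomm) : α * α = 1 := by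
  obtain ⟨h1, h2⟩ := hα
  ext x
  show α (α x) = x
  have hw := h1 _ (h2 x)
  rw [map_mul, map_inv] at hw
  have h3 := h2 x
  calc α (α x) = (α (α x) * (α x)⁻¹) * α x := by group
    _ = (α x * x⁻¹) * α x := by rw [hw]
    _ = ((α x * x⁻¹) * (α x * x⁻¹)) * x := by group
    _ = x := by rw [h3, one_mul]

theorem chainStab_isPGroup : IsPGroup 2 (chainStab P hcomm) := by
  intro g
  refine ⟨1, Subtype.ext ?_⟩
  have h := chainStab_sq hcomm g.1 g.2
  rw [Subgroup.coe_pow, Subgroup.coe_one, pow_one, pow_two]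
  exact h

end chain

variable {Ω : Type*} [Group Ω] {S : Subgroup Ω}

/-- In a saturated fusion system over a finite 2-group `S` whose elements of square one are
exactly the central ones and whose commutators are central, the automizer of every fully
normalized subgroup has a normal Sylow 2-subgroup. -/
theorem normal_sylow_autGroup [Finite S] (hS : IsPGroup 2 S) (F : FusionSystem S)
    (hF : F.IsSaturated 2)
    (hA : ∀ x : S, x * x = 1 → x ∈ Subgroup.center S)
    (hB : ∀ z ∈ Subgroup.center S, z * z = 1)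
    (hC : ∀ x y : S, x⁻¹ * y⁻¹ * x * y ∈ Subgroup.center S)
    {P : Subgroup Ω} (hP : F.IsFullyNormalized P) :
    ∃ R : Sylow 2 (F.autGroup P), (R : Subgroup (F.autGroup P)).Normal := by
  have : Fact (Nat.Prime 2) := ⟨Nat.prime_two⟩
  have hPS : P ≤ S := hP.1
  obtain ⟨hfa, -⟩ := fullyNormalized_fa_rec hS F hF hP
  obtain ⟨-, R, hR⟩ := hfa
  refine ⟨R, ?_⟩
  have hcen : ∀ z : P, z * z = 1 → (⟨z.1, hPS z.2⟩ : S) ∈ Subgroup.center S := by
    intro z hz
    apply hA
    apply Subtype.ext
    have := congrArg Subtype.val hz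
    simpa using this
  have hcomm : ∀ z w : P, z * z = 1 → z * w = w * z := by
    intro z w hz
    have h2 := Subgroup.mem_center_iff.mp (hcen z hz) ⟨w.1, hPS w.2⟩
    apply Subtype.ext
    have := congrArg Subtype.val h2
    simpa using this.symm
  have hN0n : (chainStab P hcomm).Normal := chainStab_normal hcomm
  have hN0p : IsPGroup 2 (chainStab P hcomm) := chainStab_isPGroup hcomm
  have hle : autInducedBy S P ≤ chainStab P hcomm := by
    intro α hα
    rw [mem_autInducedBy_iff] at hα
    obtain ⟨g, hg, hgα⟩ := hα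
    refine ⟨fun z hz => ?_, fun x => ?_⟩
    · have h2 := Subgroup.mem_center_iff.mp (hcen z hz) ⟨g, hg⟩
      apply Subtype.ext
      rw [hgα z]
      have h3 : g * (z : Ω) = z * g := congrArg Subtype.val h2
      rw [h3]; group
    · have h1 := hC (⟨g, hg⟩ : S)⁻¹ (⟨x.1, hPS x.2⟩ : S)⁻¹
      have h2 := hB _ h1
      have h3 : (g * (x : Ω) * g⁻¹ * (x : Ω)⁻¹) * (g * (x : Ω) * g⁻¹ * (x : Ω)⁻¹) = 1 := by
        have := congrArg Subtype.val h2
        simpa using this
      apply Subtype.ext
      show ((α x : P) : Ω) * (x : Ω)⁻¹ * (((α x : P) : Ω) * (x : Ω)⁻¹) = 1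
      rw [hgα x]
      exact h3
  have hN'n : ((chainStab P hcomm).subgroupOf (F.autGroup P)).Normal := hN0n.subgroupOf _
  have hN'p : IsPGroup 2 ((chainStab P hcomm).subgroupOf (F.autGroup P)) := hN0p.comap_subtype
  have hRN : (R : Subgroup (F.autGroup P)) ≤ (chainStab P hcomm).subgroupOf (F.autGroup P) := by
    rw [hR]
    intro a ha
    exact hle ha
  have hNR : (chainStab P hcomm).subgroupOf (F.autGroup P) ≤ R :=
    hN'p.le_sylow_of_normal R
  have heq : (R : Subgroup (F.autGroup P)) = (chainStab P hcomm).subgroupOf (F.autGroup P) :=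
    le_antisymm hRN hNR
  rw [heq]
  exact hN'n

end Cfsg.Agent.Lib.Helper89.SuzRes
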