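import Mathlib

/-!
Project TG (S2197, helper99), piece TG-SUB128 (helper89).
-/

set_option autoImplicit false

namespace Cfsg.Agent.Lib.Helper99.TG

theorem tg_sub128 {Γ : Type*} [Group Γ] [Finite Γ] (S : Subgroup Γ) (z : Γ)
    (hS : Nat.card S = 2048)
    (h16 : ∀ K : Subgroup Γ, K ≤ S → K.relIndex S = 16 → z ∈ K) :
    ∀ K : Subgroup Γ, K ≤ S → 128 ≤ Nat.card K → z ∈ K := by
  intro K hKS hK
  have hdvd : Nat.card K ∣ 2 ^ 11 := by
    have h := Subgroup.card_dvd_of_le hKS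
    rw [hS] at h
    have h2 : (2 : ℕ) ^ 11 = 2048 := by norm_num
    rw [h2]
    exact h
  obtain ⟨a, ha, hKa⟩ := (Nat.dvd_prime_pow Nat.prime_two).mp hdvd
  have ha7 : 7 ≤ a := by
    by_contra hlt
    have h1 : 2 ^ a ≤ 2 ^ 6 := Nat.pow_le_pow_right (by norm_num) (by omega)
    have h2 : (2 : ℕ) ^ 6 = 64 := by norm_num
    rw [hKa] at hK
    omega
  have hfact : Fact (Nat.Prime 2) := ⟨Nat.prime_two⟩
  have h7 : 2 ^ 7 ∣ Nat.card K := by
    rw [hKa]
    exact pow_dvd_pow 2 ha7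
  obtain ⟨K0, hK0⟩ := Sylow.exists_subgroup_card_pow_prime 2 h7
  have hK0K : K0.map K.subtype ≤ K := by
    rintro _ ⟨x, -, rfl⟩
    exact x.2
  have hK0S : K0.map K.subtype ≤ S := le_trans hK0K hKS
  have hcard : Nat.card (K0.map K.subtype) = 2 ^ 7 := by
    rw [Subgroup.card_subtype, hK0]
  have h := Subgroup.relIndex_mul_relIndex ⊥ (K0.map K.subtype) S bot_le hK0S
  rw [Subgroup.relIndex_bot_left, Subgroup.relIndex_bot_left, hcard, hS] at h
  have hrel : (K0.map K.subtype).relIndex S = 16 := by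
    have h2 : (2 : ℕ) ^ 7 = 128 := by norm_num
    rw [h2] at h
    omega
  exact hK0K (h16 _ hK0S hrel)

end Cfsg.Agent.Lib.Helper99.TG
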